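import Cfsg.Agent.G2M.Def

set_option autoImplicit false

/-! S2338, piece R. -/

namespace Cfsg.Agent.G2M

open Module Finset

variable {F G : Type*} [Field F] [Fintype F] [DecidableEq F] [Group G] {V : Type*} [AddCommGroup V] [Module ℂ V] [FiniteDimensional ℂ V]
  (X : G2G F G) {ψ : AddChar F ℂ} (ρ : Representation ℂ G V)

theorem mem_J_cons {s : ℕ} {c : F} {l : List (ℕ × F)} {v : V} :
    v ∈ J X ψ ρ ((s, c) :: l) ↔ (∀ t, ρ (X.x s t) v = ψ (c * t) • v) ∧ v ∈ J X ψ ρ l := by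
  constructor
  · intro h
    exact ⟨fun t => h (s, c) (List.mem_cons_self ..) t, fun p hp => h p (List.mem_cons_of_mem _ hp)⟩
  · rintro ⟨h1, h2⟩ p hp t
    rcases List.mem_cons.1 hp with rfl | hp
    · exact h1 t
    · exact h2 p hp t

/- R1 -/
theorem dj_split (hψ : ψ ≠ 0) {s : ℕ} (hs : s < 12) (l : List (ℕ × F)) (hst : ∀ t, ∀ v ∈ J X ψ ρ l, ρ (X.x s t) v ∈ J X ψ ρ l) :
    dj X ψ ρ l = ∑ c : F, dj X ψ ρ ((s, c) :: l) := by
  have hprim : ψ.IsPrimitive := AddChar.IsPrimitive.of_ne_one hψ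
  have hq : (Fintype.card F : ℂ) ≠ 0 := by
    exact_mod_cast Fintype.card_ne_zero
  have hx0 : X.x s 0 = 1 := by
    have h := X.add s hs 0 0
    rw [add_zero] at h
    exact (mul_eq_left.1 h.symm)
  -- the projections
  let e : F → V → V := fun c v => (Fintype.card F : ℂ)⁻¹ • ∑ t : F, ψ (-(c * t)) • ρ (X.x s t) v
  have he1 : ∀ c, ∀ v ∈ J X ψ ρ l, e c v ∈ J X ψ ρ ((s, c) :: l) := by
    intro c v hv
    rw [mem_J_cons]
    constructor
    · intro u
      show ρ (X.x s u) ((Fintype.card F : ℂ)⁻¹ • ∑ t : F, ψ (-(c * t)) • ρ (X.x s t) v) =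
        ψ (c * u) • ((Fintype.card F : ℂ)⁻¹ • ∑ t : F, ψ (-(c * t)) • ρ (X.x s t) v)
      rw [map_smul, map_sum, smul_comm (ψ (c * u)), Finset.smul_sum (r := ψ (c * u))]
      congr 1
      refine Fintype.sum_equiv (Equiv.addLeft u) _ _ fun t => ?_
      show ρ (X.x s u) (ψ (-(c * t)) • ρ (X.x s t) v) = ψ (c * u) • ψ (-(c * (u + t))) • ρ (X.x s (u + t)) v
      rw [map_smul, X.add s hs, map_mul ρ, smul_smul, ← AddChar.map_add_eq_mul]
      have : c * u + -(c * (u + t)) = -(c * t) := by ring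
      rw [this]; rfl
    · show (Fintype.card F : ℂ)⁻¹ • ∑ t : F, ψ (-(c * t)) • ρ (X.x s t) v ∈ J X ψ ρ l
      exact Submodule.smul_mem _ _ (Submodule.sum_mem _ fun t _ => Submodule.smul_mem _ _ (hst t v hv))
  have he2 : ∀ c d, ∀ v ∈ J X ψ ρ ((s, d) :: l), e c v = if d = c then v else 0 := by
    intro c d v hv
    have h1 := ((mem_J_cons X ρ).1 hv).1
    show (Fintype.card F : ℂ)⁻¹ • ∑ t : F, ψ (-(c * t)) • ρ (X.x s t) v = _
    have h2 : ∀ t, ψ (-(c * t)) • ρ (X.x s t) v = ψ (t * (d - c)) • v := by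
      intro t
      rw [h1, smul_smul, ← AddChar.map_add_eq_mul]
      congr 2; ring
    rw [Finset.sum_congr rfl fun t _ => h2 t, ← Finset.sum_smul, AddChar.sum_mulShift _ hprim]
    by_cases h : d = c
    · rw [if_pos h, if_pos (sub_eq_zero.2 h), smul_smul, inv_mul_cancel₀ hq, one_smul]
    · rw [if_neg h, if_neg (sub_ne_zero.2 h)]
      simp
  have he3 : ∀ v, ∑ c : F, e c v = v := by
    intro v
    show ∑ c : F, (Fintype.card F : ℂ)⁻¹ • ∑ t : F, ψ (-(c * t)) • ρ (X.x s t) v = v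
    rw [← Finset.smul_sum, Finset.sum_comm]
    have h2 : ∀ t : F, ∑ c : F, ψ (-(c * t)) • ρ (X.x s t) v = (if t = 0 then (Fintype.card F : ℂ) else 0) • ρ (X.x s t) v := by
      intro t
      rw [← Finset.sum_smul]
      congr 1
      have h3 := AddChar.sum_mulShift (-t) hprim
      have h4 : ∀ c : F, ψ (-(c * t)) = ψ (c * -t) := fun c => by congr 1; ring
      rw [Finset.sum_congr rfl fun c _ => h4 c, h3]
      by_cases ht : t = 0
      · rw [if_pos ht, if_pos (by rw [ht, neg_zero])]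
      · rw [if_neg ht, if_neg (neg_ne_zero.2 ht)]; simp
    rw [Finset.sum_congr rfl fun t _ => h2 t, Finset.sum_eq_single (0 : F)]
    · rw [if_pos rfl, hx0, map_one, smul_smul, inv_mul_cancel₀ hq, one_smul]; rfl
    · intro t _ ht
      rw [if_neg ht, zero_smul]
    · intro h; exact absurd (Finset.mem_univ _) h
  -- the linear equivalence
  let Φ : (∀ c : F, J X ψ ρ ((s, c) :: l)) →ₗ[ℂ] J X ψ ρ l :=
    { toFun := fun f => ⟨∑ c, (f c : V), Submodule.sum_mem _ fun c _ => ((mem_J_cons X ρ).1 (f c).2).2⟩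
      map_add' := by
        intro f g
        apply Subtype.ext
        simp [Finset.sum_add_distrib]
      map_smul' := by
        intro a f
        apply Subtype.ext
        simp [Finset.smul_sum] }
  have hΦ : Function.Bijective Φ := by
    constructor
    · intro f g hfg
      have h1 : ∑ c, (f c : V) = ∑ c, (g c : V) := congrArg Subtype.val hfg
      have key : ∀ (f : ∀ c : F, J X ψ ρ ((s, c) :: l)) (c : F), e c (∑ d, (f d : V)) = f c := by
        intro f c
        have h2 : e c (∑ d, (f d : V)) = ∑ d, e c (f d : V) := by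
          show (Fintype.card F : ℂ)⁻¹ • ∑ t : F, ψ (-(c * t)) • ρ (X.x s t) (∑ d, (f d : V)) =
            ∑ d, (Fintype.card F : ℂ)⁻¹ • ∑ t : F, ψ (-(c * t)) • ρ (X.x s t) (f d : V)
          rw [← Finset.smul_sum, Finset.sum_comm]
          congr 1
          refine Finset.sum_congr rfl fun t _ => ?_
          rw [map_sum, Finset.smul_sum]
        rw [h2, Finset.sum_congr rfl fun d _ => he2 c d _ (f d).2, Finset.sum_ite_eq' Finset.univ c]
        simp
      funext c
      apply Subtype.ext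
      rw [← key f c, ← key g c, h1]
    · intro v
      refine ⟨fun c => ⟨e c v, he1 c v v.2⟩, ?_⟩
      apply Subtype.ext
      exact he3 v
  have h := (LinearEquiv.ofBijective Φ hΦ).finrank_eq
  rw [Module.finrank_pi_fintype] at h
  exact h.symm

/- R2 -/
theorem dj_eq_of_map (g : G) {l l' : List (ℕ × F)} (h1 : ∀ v ∈ J X ψ ρ l, ρ g v ∈ J X ψ ρ l') (h2 : ∀ v ∈ J X ψ ρ l', ρ g⁻¹ v ∈ J X ψ ρ l) :
    dj X ψ ρ l = dj X ψ ρ l' := by
  have h3 : ∀ v, ρ g⁻¹ (ρ g v) = v := by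
    intro v
    have : ρ (g⁻¹ * g) v = ρ g⁻¹ (ρ g v) := by rw [map_mul]; rfl
    rw [← this, inv_mul_cancel, map_one]; rfl
  have h4 : ∀ v, ρ g (ρ g⁻¹ v) = v := by
    intro v
    have : ρ (g * g⁻¹) v = ρ g (ρ g⁻¹ v) := by rw [map_mul]; rfl
    rw [← this, mul_inv_cancel, map_one]; rfl
  let Φ : J X ψ ρ l ≃ₗ[ℂ] J X ψ ρ l' :=
    { toFun := fun v => ⟨ρ g v, h1 v v.2⟩
      map_add' := by intro v w; apply Subtype.ext; exact map_add _ _ _
      map_smul' := by intro a v; apply Subtype.ext; exact map_smul _ _ _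
      invFun := fun v => ⟨ρ g⁻¹ v, h2 v v.2⟩
      left_inv := fun v => Subtype.ext (h3 v)
      right_inv := fun v => Subtype.ext (h4 v) }
  exact Φ.finrank_eq

end Cfsg.Agent.G2M
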