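import Cfsg.Agent.G2M.ABase
import Cfsg.Agent.G2M.R

set_option autoImplicit false

/-!
# Representations of the group of type G2: characteristic not 3, part A
-/

namespace Cfsg.Agent.G2M

open Module Finset

variable {F G : Type*} [Field F] [Fintype F] [DecidableEq F] [Group G] {V : Type*} [AddCommGroup V] [Module ℂ V] [FiniteDimensional ℂ V]
  (X : G2G F G) {ψ : AddChar F ℂ} (ρ : Representation ℂ G V)

namespace A99

open ABase

theorem c610' : ∃ e : F, e * e = 1 ∧ ∀ t u : F, (X.x 6 t)⁻¹ * X.x 10 u * X.x 6 t = X.x 10 u * X.x 11 (e * (t * u)) := by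
  first
  | exact ⟨1, by ring, fun t u => by rw [one_mul]; exact X.c610 t u⟩
  | exact ⟨-1, by ring, fun t u => by rw [neg_one_mul]; exact X.c610 t u⟩

theorem c89' (h3 : (3 : F) ≠ 0) : ∃ e : F, e ≠ 0 ∧ ∀ t u : F, (X.x 8 t)⁻¹ * X.x 9 u * X.x 8 t = X.x 9 u * X.x 11 (e * (t * u)) := by
  first
  | exact ⟨3, h3, fun t u => by rw [← mul_assoc]; exact X.c89 t u⟩
  | exact ⟨-3, neg_ne_zero.mpr h3, fun t u => by rw [show -3 * (t * u) = -(3 * t * u) by ring]; exact X.c89 t u⟩

theorem cm {a b : G} (h : a * b = b * a) : a⁻¹ * b * a = b := by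
  rw [mul_assoc, ← h]; group

theorem cm' {a b : G} (h : b * a = a * b) : a⁻¹ * b * a = b := cm h.symm

theorem self_comm {r : ℕ} (hr : r < 12) (t u : F) : (X.x r t)⁻¹ * X.x r u * X.x r t = X.x r u := by
  rw [mul_assoc, ← X.add r hr u t, add_comm, X.add r hr t u]; group

/-- applying an element commuting with the constraint -/
theorem act_comm {g : G} {l : List (ℕ × F)} {v : V} (hv : v ∈ J X ψ ρ l) {p : ℕ × F} (hp : p ∈ l) (u : F)
    (h : g⁻¹ * X.x p.1 u * g = X.x p.1 u) : ρ (g⁻¹ * X.x p.1 u * g) v = ψ (p.2 * u) • v := by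
  rw [h]; exact hv p hp u


/-- `x 8` shifts `9` -/
theorem sh8 (h3 : (3 : F) ≠ 0) {z : F} (hz : z ≠ 0) (c c' : F) (l : List (ℕ × F)) (hl : l = [] ∨ l = [(10, (0 : F))]) :
    dj X ψ ρ ((9, c) :: (11, z) :: l) ≤ dj X ψ ρ ((9, c') :: (11, z) :: l) := by
  obtain ⟨e, he, h89⟩ := c89' X h3
  set t : F := (c' - c) / (e * z) with ht
  have hez : e * z ≠ 0 := mul_ne_zero he hz
  have hte : z * (e * t) = c' - c := by
    rw [ht]; field_simp
  apply dj_le X ρ (X.x 8 t)
  intro v hv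
  apply ABase.mem_map
  intro p hp u
  rcases List.mem_cons.mp hp with rfl | hp
  · change ρ ((X.x 8 t)⁻¹ * X.x 9 u * X.x 8 t) v = ψ (c' * u) • v
    rw [h89, rho_mul, hv (11, z) (by simp), map_smul, hv (9, c) (by simp), smul_smul]
    congr 1
    change ψ (z * (e * (t * u))) * ψ (c * u) = _
    rw [← AddChar.map_add_eq_mul]
    congr 1
    have : z * (e * (t * u)) + c * u = (z * (e * t) + c) * u := by ring
    rw [this, hte]; ring
  rcases List.mem_cons.mp hp with rfl | hp'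
  · exact act_comm X ρ hv (by simp) u (cm (X.comm 8 11 (by decide) t u))
  · rcases hl with rfl | rfl
    · exact absurd hp' List.not_mem_nil
    · rw [List.mem_singleton] at hp'
      subst hp'
      exact act_comm X ρ hv (by simp) u (cm (X.comm 8 10 (by decide) t u))

/-- `x 6` shifts `10` -/
theorem sh6 {z : F} (hz : z ≠ 0) (c c' d : F) :
    dj X ψ ρ [(10, c), (9, d), (11, z)] ≤ dj X ψ ρ [(10, c'), (9, d), (11, z)] := by
  obtain ⟨e, he, h610⟩ := c610' X
  have he0 : e ≠ 0 := fun h => by rw [h, mul_zero] at he; exact zero_ne_one he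
  set t : F := (c' - c) / (e * z) with ht
  have hez : e * z ≠ 0 := mul_ne_zero he0 hz
  have hte : z * (e * t) = c' - c := by
    rw [ht]; field_simp
  apply dj_le X ρ (X.x 6 t)
  intro v hv
  apply ABase.mem_map
  intro p hp u
  rcases List.mem_cons.mp hp with rfl | hp
  · change ρ ((X.x 6 t)⁻¹ * X.x 10 u * X.x 6 t) v = ψ (c' * u) • v
    rw [h610, rho_mul, hv (11, z) (by simp), map_smul, hv (10, c) (by simp), smul_smul]
    congr 1
    change ψ (z * (e * (t * u))) * ψ (c * u) = _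
    rw [← AddChar.map_add_eq_mul]
    congr 1
    have : z * (e * (t * u)) + c * u = (z * (e * t) + c) * u := by ring
    rw [this, hte]; ring
  rcases List.mem_cons.mp hp with rfl | hp
  · exact act_comm X ρ hv (by simp) u (cm (X.comm 6 9 (by decide) t u))
  · rw [List.mem_singleton] at hp
    subst hp
    exact act_comm X ρ hv (by simp) u (cm (X.comm 6 11 (by decide) t u))

/-- `x 10` moves `x 6` -/
theorem c106 : ∃ e : F, e * e = 1 ∧ ∀ t u : F, (X.x 10 t)⁻¹ * X.x 6 u * X.x 10 t = X.x 6 u * X.x 11 (e * (t * u)) := by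
  obtain ⟨e, he, h610⟩ := c610' X
  refine ⟨-e, by rw [neg_mul_neg, he], fun t u => ?_⟩
  have h1 := h610 u t
  have h2 : X.x 10 t * X.x 6 u = X.x 6 u * X.x 10 t * X.x 11 (e * (u * t)) := by
    rw [mul_assoc (X.x 6 u), ← h1]; group
  have h3 : X.x 11 (e * (u * t)) * X.x 11 (-e * (t * u)) = 1 := by
    rw [← X.add 11 (by norm_num), show e * (u * t) + -e * (t * u) = 0 by ring]
    have h := X.add 11 (by norm_num) 0 0
    rw [add_zero] at h
    exact left_eq_mul.mp h
  have h4 : X.x 6 u * X.x 10 t = X.x 10 t * X.x 6 u * X.x 11 (-e * (t * u)) := by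
    rw [h2, mul_assoc, mul_assoc, h3, mul_one]
  rw [mul_assoc, h4]; group

/-- `x 10` shifts `6` -/
theorem sh10 {z : F} (hz : z ≠ 0) (c c' : F) :
    dj X ψ ρ [(6, c), (11, z)] ≤ dj X ψ ρ [(6, c'), (11, z)] := by
  obtain ⟨e, he, h106⟩ := c106 X
  have he0 : e ≠ 0 := fun h => by rw [h, mul_zero] at he; exact zero_ne_one he
  set t : F := (c' - c) / (e * z) with ht
  have hez : e * z ≠ 0 := mul_ne_zero he0 hz
  have hte : z * (e * t) = c' - c := by
    rw [ht]; field_simp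
  apply dj_le X ρ (X.x 10 t)
  intro v hv
  apply ABase.mem_map
  intro p hp u
  rcases List.mem_cons.mp hp with rfl | hp
  · change ρ ((X.x 10 t)⁻¹ * X.x 6 u * X.x 10 t) v = ψ (c' * u) • v
    rw [h106, rho_mul, hv (11, z) (by simp), map_smul, hv (6, c) (by simp), smul_smul]
    congr 1
    change ψ (z * (e * (t * u))) * ψ (c * u) = _
    rw [← AddChar.map_add_eq_mul]
    congr 1
    have : z * (e * (t * u)) + c * u = (z * (e * t) + c) * u := by ring
    rw [this, hte]; ring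
  · rw [List.mem_singleton] at hp
    subst hp
    exact act_comm X ρ hv (by simp) u (cm (X.comm 10 11 (by decide) t u))

/-- stability under a commuting root subgroup -/
theorem stab {s : ℕ} {l : List (ℕ × F)} (h : ∀ p ∈ l, ∀ t u, X.x s t * X.x p.1 u = X.x p.1 u * X.x s t) :
    ∀ t, ∀ v ∈ J X ψ ρ l, ρ (X.x s t) v ∈ J X ψ ρ l := by
  intro t v hv
  apply ABase.mem_map
  intro p hp u
  exact act_comm X ρ hv hp u (cm (h p hp t u))


theorem stab10 (b : F) : ∀ t, ∀ v ∈ J X ψ ρ [(6, b), (11, 0)], ρ (X.x 10 t) v ∈ J X ψ ρ [(6, b), (11, 0)] := by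
  intro t v hv
  obtain ⟨e, -, h106⟩ := c106 X
  apply ABase.mem_map
  intro p hp u
  rcases List.mem_cons.mp hp with rfl | hp
  · change ρ ((X.x 10 t)⁻¹ * X.x 6 u * X.x 10 t) v = ψ (b * u) • v
    rw [h106, rho_mul, hv (11, 0) (by simp), map_smul, hv (6, b) (by simp)]
    change ψ (0 * _) • ψ (b * u) • v = _
    rw [zero_mul, AddChar.map_zero_eq_one, one_smul]
  · rw [List.mem_singleton] at hp
    subst hp
    exact act_comm X ρ hv (by simp) u (cm (X.comm 10 11 (by decide) t u))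

theorem stab6 : ∀ t, ∀ v ∈ J X ψ ρ [(10, 0), (11, 0)], ρ (X.x 6 t) v ∈ J X ψ ρ [(10, 0), (11, 0)] := by
  intro t v hv
  obtain ⟨e, -, h610⟩ := c610' X
  apply ABase.mem_map
  intro p hp u
  rcases List.mem_cons.mp hp with rfl | hp
  · change ρ ((X.x 6 t)⁻¹ * X.x 10 u * X.x 6 t) v = ψ (0 * u) • v
    rw [h610, rho_mul, hv (11, 0) (by simp), map_smul, hv (10, 0) (by simp)]
    change ψ (0 * _) • ψ (0 * u) • v = _
    rw [zero_mul, AddChar.map_zero_eq_one, one_smul]
  · rw [List.mem_singleton] at hp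
    subst hp
    exact act_comm X ρ hv (by simp) u (cm (X.comm 6 11 (by decide) t u))

theorem sum_ne (f : F → ℕ) (c : ℕ) (h : ∀ z, z ≠ 0 → f z = c) :
    ∑ z, f z = f 0 + (Fintype.card F - 1) * c := by
  rw [← Finset.add_sum_erase univ f (mem_univ 0)]
  congr 1
  rw [Finset.sum_congr rfl (fun z hz => h z (Finset.ne_of_mem_erase hz)), Finset.sum_const,
    Finset.card_erase_of_mem (mem_univ _), Finset.card_univ, smul_eq_mul]

theorem sum_ne_ge (f : F → ℕ) (c : ℕ) (h : ∀ z, z ≠ 0 → c ≤ f z) :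
    f 0 + (Fintype.card F - 1) * c ≤ ∑ z, f z := by
  rw [← Finset.add_sum_erase univ f (mem_univ 0)]
  refine Nat.add_le_add_left ?_ _
  have h1 := Finset.sum_le_sum (s := univ.erase (0 : F)) (f := fun _ => c) (g := f)
    (fun z hz => h z (Finset.ne_of_mem_erase hz))
  rw [Finset.sum_const, Finset.card_erase_of_mem (mem_univ _), Finset.card_univ, smul_eq_mul] at h1
  exact h1

theorem sum_const' (f : F → ℕ) (c : ℕ) (h : ∀ z, f z = c) : ∑ z, f z = Fintype.card F * c := by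
  rw [Finset.sum_congr rfl (fun z _ => h z), Finset.sum_const, Finset.card_univ, smul_eq_mul]

/-- the arithmetic of the cubes -/
theorem cubes (h3 : (3 : F) ≠ 0) (hq : 2 < Fintype.card F) (hq4 : Fintype.card F ≠ 4) (f : F → ℕ)
    (hf : ∀ (s : Fˣ) (e : F), f ((s : F) ^ 3 * e) = f e) (hsum : ∑ e, f e = Fintype.card F) : 1 ≤ f 0 := by
  by_contra h0
  have h0' : f 0 = 0 := by omega
  let C : Subgroup Fˣ := (powMonoidHom 3 : Fˣ →* Fˣ).range
  have h1 : ∑ e : Fˣ, f (e : F) = Fintype.card F := by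
    rw [← hsum, ← Finset.add_sum_erase univ f (mem_univ 0), h0', zero_add]
    refine Finset.sum_bij' (fun e _ => (e : F)) (fun x hx => Units.mk0 x (Finset.ne_of_mem_erase hx)) ?_ ?_ ?_ ?_ ?_
    · intro a _; exact Finset.mem_erase.mpr ⟨a.ne_zero, mem_univ _⟩
    · intro a _; exact mem_univ _
    · intro a _; ext; rfl
    · intro a _; rfl
    · intro a _; rfl
  have h2 : Nat.card C ∣ ∑ e : Fˣ, f (e : F) := by
    classical
    have e := (Subgroup.groupEquivQuotientProdSubgroup (s := C))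
    have h3 : ∀ x : Fˣ, ∀ c ∈ C, f ((x * c : Fˣ) : F) = f (x : F) := by
      rintro x _ ⟨s, rfl⟩
      have := hf s (x : F)
      rw [← this]
      congr 1
      change ((x * s ^ 3 : Fˣ) : F) = _
      rw [Units.val_mul, Units.val_pow_eq_pow_val, mul_comm]
    have h4 : ∑ e : Fˣ, f (e : F) = ∑ x : Fˣ ⧸ C, ∑ e ∈ univ.filter (fun e : Fˣ => (e : Fˣ ⧸ C) = x), f (e : F) :=
      (Finset.sum_fiberwise univ (fun e : Fˣ => (e : Fˣ ⧸ C)) (fun e => f (e : F))).symm
    rw [h4]
    apply Finset.dvd_sum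
    intro x _
    obtain ⟨y, rfl⟩ := QuotientGroup.mk_surjective x
    have h5 : ∀ e ∈ univ.filter (fun e : Fˣ => (e : Fˣ ⧸ C) = (y : Fˣ ⧸ C)), f (e : F) = f (y : F) := by
      intro e he
      have h6 : (y : Fˣ ⧸ C) = (e : Fˣ ⧸ C) := (Finset.mem_filter.mp he).2.symm
      rw [QuotientGroup.eq] at h6
      have h7 := h3 y _ h6
      rw [mul_inv_cancel_left] at h7
      exact h7
    rw [Finset.sum_congr rfl h5, Finset.sum_const, smul_eq_mul]
    apply Dvd.dvd.mul_right
    have h8 : (univ.filter (fun e : Fˣ => (e : Fˣ ⧸ C) = (y : Fˣ ⧸ C))).card = Nat.card C := by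
      rw [Nat.card_eq_fintype_card, ← Finset.card_univ]
      symm
      refine Finset.card_bij (fun c _ => y * (c : Fˣ)) ?_ ?_ ?_
      · intro c _
        rw [Finset.mem_filter]
        refine ⟨mem_univ _, ?_⟩
        symm
        rw [QuotientGroup.eq, inv_mul_cancel_left]
        exact c.2
      · intro a _ b _ hab
        exact Subtype.ext (mul_left_cancel hab)
      · intro e he
        have h6 : (y : Fˣ ⧸ C) = (e : Fˣ ⧸ C) := (Finset.mem_filter.mp he).2.symm
        rw [QuotientGroup.eq] at h6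
        exact ⟨⟨_, h6⟩, mem_univ _, by simp⟩
    rw [h8]
  rw [h1] at h2
  have hU : Nat.card Fˣ = Fintype.card F - 1 := by
    rw [Nat.card_eq_fintype_card, Fintype.card_units]
  have h3' : Nat.card C ∣ Fintype.card F - 1 := by
    rw [← hU]; exact Subgroup.card_subgroup_dvd_card C
  have hC1 : Nat.card C = 1 := by
    have h4 : Nat.card C ∣ 1 := by
      have h5 := Nat.dvd_sub h2 h3'
      have h6 : Fintype.card F - (Fintype.card F - 1) = 1 := by omega
      rwa [h6] at h5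
    exact Nat.dvd_one.mp h4
  have hker : Fintype.card F - 1 ≤ 3 := by
    have h4 : ∀ s : Fˣ, s ^ 3 = 1 := by
      intro s
      have h5 : C = ⊥ := Subgroup.card_eq_one.mp hC1
      have h6 : s ^ 3 ∈ C := ⟨s, rfl⟩
      rw [h5] at h6
      exact Subgroup.mem_bot.mp h6
    have h7 := IsCyclic.card_pow_eq_one_le (α := Fˣ) (n := 3) (by norm_num)
    have h8 : (univ.filter (fun a : Fˣ => a ^ 3 = 1)) = univ := Finset.filter_true_of_mem (fun a _ => h4 a)
    rw [h8, Finset.card_univ, Fintype.card_units] at h7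
    exact h7
  have hq3 : Fintype.card F = 3 := by omega
  have h9 : ((Fintype.card F : ℕ) : F) = 0 := Nat.cast_card_eq_zero F
  rw [hq3] at h9
  exact h3 (by exact_mod_cast h9)

end A99


open ABase A99 in
theorem a_main (hψ : ψ ≠ 0) (h3 : (3 : F) ≠ 0) (hq : 2 < Fintype.card F) (hq4 : Fintype.card F ≠ 4) (hf : ∃ t v, ρ (X.x 11 t) v ≠ v) :
    Fintype.card F ^ 3 - 1 ≤ finrank ℂ V ∧ (finrank ℂ V < Fintype.card F ^ 3 + 1 →
      (∀ z, z ≠ 0 → dj X ψ ρ [(11, z)] = Fintype.card F ^ 2) ∧ (∀ z, z ≠ 0 → dj X ψ ρ [(10, 0), (11, z)] = Fintype.card F) ∧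
      (∀ z, z ≠ 0 → ∀ d, dj X ψ ρ [(9, d), (11, z)] = Fintype.card F) ∧
      (∀ b, b ≠ 0 → dj X ψ ρ [(6, b), (10, 0), (11, 0)] = 1)) := by
  obtain ⟨εa, ha1, ha2⟩ := exists_na X
  obtain ⟨εb, hb1, hb2⟩ := exists_nb X
  have hne : ∀ e : F, e * e = 1 → e ≠ 0 := fun e he h => by rw [h, mul_zero] at he; exact zero_ne_one he
  set q := Fintype.card F with hqdef
  have hq0 : 0 < q := by omega
  have hbot : dj X ψ ρ [] = finrank ℂ V := by
    unfold dj
    have : J X ψ ρ [] = ⊤ := by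
      ext v; simp [J]
    rw [this, finrank_top]
  have hdim : finrank ℂ V = ∑ z, dj X ψ ρ [(11, z)] := by
    rw [← hbot]
    exact dj_split X ρ hψ (by norm_num) [] (stab X ρ (fun p hp => absurd hp List.not_mem_nil))
  -- dimensions
  have hm : ∀ z, z ≠ 0 → ∀ d, dj X ψ ρ [(9, d), (11, z)] = q * dj X ψ ρ [(10, 0), (9, d), (11, z)] := by
    intro z hz d
    rw [dj_split X ρ hψ (s := 10) (by norm_num) [(9, d), (11, z)] (stab X ρ (by
      intro p hp t u
      rcases List.mem_cons.mp hp with rfl | hp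
      · exact (X.comm 9 10 (by decide) u t).symm
      · rw [List.mem_singleton] at hp; subst hp
        exact X.comm 10 11 (by decide) t u))]
    exact sum_const' _ _ (fun c => le_antisymm (sh6 X ρ hz c 0 d) (sh6 X ρ hz 0 c d))
  have h9 : ∀ z, z ≠ 0 → ∀ d, dj X ψ ρ [(9, d), (11, z)] = dj X ψ ρ [(9, 0), (11, z)] := by
    intro z hz d
    exact le_antisymm (sh8 X ρ h3 hz d 0 [] (Or.inl rfl)) (sh8 X ρ h3 hz 0 d [] (Or.inl rfl))
  have htor : ∀ z, z ≠ 0 → dj X ψ ρ [(10, 0), (9, 0), (11, z)] = dj X ψ ρ [(10, 0), (9, 0), (11, 1)] := by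
    intro z hz
    have h := dj_tor X ρ (ψ := ψ) (Units.mk0 z hz) (Units.mk0 z hz)⁻¹ (l := [(10, 0), (9, 0), (11, 1)]) (by
      intro p hp; simp at hp; rcases hp with rfl | rfl | rfl <;> norm_num)
    rw [h]
    have h1 : (((Units.mk0 z hz) ^ (ca 11) * (Units.mk0 z hz)⁻¹ ^ (cb 11) : Fˣ) : F) = z := by
      have : ((Units.mk0 z hz) ^ (ca 11) * (Units.mk0 z hz)⁻¹ ^ (cb 11) : Fˣ) = Units.mk0 z hz := by
        change (Units.mk0 z hz) ^ (3 : ℤ) * (Units.mk0 z hz)⁻¹ ^ (2 : ℤ) = _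
        rw [inv_zpow, ← zpow_neg, ← zpow_add]; norm_num
      rw [this]; rfl
    simp only [List.map_cons, List.map_nil, mul_zero, mul_one]
    rw [h1]
  set m0 := dj X ψ ρ [(10, 0), (9, 0), (11, 1)] with hm0
  have h9' : ∀ z, z ≠ 0 → ∀ d, dj X ψ ρ [(9, d), (11, z)] = q * m0 := by
    intro z hz d
    rw [h9 z hz d, hm z hz 0, htor z hz]
  have h11 : ∀ z, z ≠ 0 → dj X ψ ρ [(11, z)] = q * (q * m0) := by
    intro z hz
    rw [dj_split X ρ hψ (s := 9) (by norm_num) [(11, z)] (stab X ρ (by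
      intro p hp t u
      rw [List.mem_singleton] at hp; subst hp
      exact X.comm 9 11 (by decide) t u))]
    exact sum_const' _ _ (fun c => h9' z hz c)
  have h1011 : ∀ z, z ≠ 0 → dj X ψ ρ [(10, 0), (11, z)] = q * m0 := by
    intro z hz
    rw [dj_split X ρ hψ (s := 9) (by norm_num) [(10, 0), (11, z)] (stab X ρ (by
      intro p hp t u
      rcases List.mem_cons.mp hp with rfl | hp
      · exact X.comm 9 10 (by decide) t u
      · rw [List.mem_singleton] at hp; subst hp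
        exact X.comm 9 11 (by decide) t u))]
    apply sum_const'
    intro c
    rw [← htor z hz]
    have e1 : dj X ψ ρ [(9, c), (10, 0), (11, z)] = dj X ψ ρ ((9, c) :: (11, z) :: [(10, 0)]) :=
      dj_perm X ρ (by intro p; simp only [List.mem_cons, List.not_mem_nil, or_false]; tauto)
    have e2 : dj X ψ ρ [(10, 0), (9, 0), (11, z)] = dj X ψ ρ ((9, 0) :: (11, z) :: [(10, 0)]) :=
      dj_perm X ρ (by intro p; simp only [List.mem_cons, List.not_mem_nil, or_false]; tauto)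
    rw [e1, e2]
    exact le_antisymm (sh8 X ρ h3 hz c 0 _ (Or.inr rfl)) (sh8 X ρ h3 hz 0 c _ (Or.inr rfl))
  have hD := sum_ne (fun z : F => dj X ψ ρ [(11, z)]) (q * (q * m0)) h11
  rw [← hdim] at hD
  change finrank ℂ V = dj X ψ ρ [(11, 0)] + (q - 1) * (q * (q * m0)) at hD
  have hm1 : 1 ≤ m0 := by
    by_contra h0
    have h0' : m0 = 0 := by omega
    rw [h0', mul_zero, mul_zero, mul_zero, add_zero] at hD
    have htop : J X ψ ρ [(11, 0)] = ⊤ := Submodule.eq_top_of_finrank_eq hD.symm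
    obtain ⟨t, v, htv⟩ := hf
    apply htv
    have hv : v ∈ J X ψ ρ [(11, 0)] := by rw [htop]; trivial
    have h := hv (11, 0) (by simp) t
    change ρ (X.x 11 t) v = ψ (0 * t) • v at h
    rw [h, zero_mul, AddChar.map_zero_eq_one, one_smul]
  obtain ⟨k, hk⟩ : ∃ k, q = k + 3 := ⟨q - 3, by omega⟩
  by_cases hm2 : 2 ≤ m0
  · have h1 : q ^ 3 + 1 ≤ finrank ℂ V := by
      rw [hD]
      have h2 : (q - 1) * (q * (q * 2)) ≤ (q - 1) * (q * (q * m0)) :=
        Nat.mul_le_mul_left _ (Nat.mul_le_mul_left _ (Nat.mul_le_mul_left _ hm2))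
      have h3 : q ^ 3 + 1 ≤ (q - 1) * (q * (q * 2)) := by
        rw [hk, show k + 3 - 1 = k + 2 by omega,
          show (k + 2) * ((k + 3) * ((k + 3) * 2)) = (k + 3) ^ 3 + 1 + (k ^ 3 + 7 * k ^ 2 + 15 * k + 8) by ring]
        exact Nat.le_add_right _ _
      omega
    exact ⟨by omega, fun h => by omega⟩
  have hm0' : m0 = 1 := by omega
  rw [hm0', mul_one] at h11 h9' h1011 hD
  -- the root 6
  have h6b : ∀ b, b ≠ 0 → dj X ψ ρ [(6, b)] = q * q := by
    intro b hb
    rw [dj_conj X ρ X.na ra εa ha1 ha2 (by intro p hp; simp at hp; subst hp; norm_num)]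
    change dj X ψ ρ [(10, εa 6 * b)] = q * q
    rw [dj_conj X ρ X.nb rb εb hb1 hb2 (by intro p hp; simp at hp; subst hp; norm_num)]
    change dj X ψ ρ [(11, εb 10 * (εa 6 * b))] = q * q
    rw [h11]
    exact mul_ne_zero (hne _ (hb1 10 (by norm_num))) (mul_ne_zero (hne _ (ha1 6 (by norm_num))) hb)
  have h611 : ∀ z, z ≠ 0 → ∀ b, dj X ψ ρ [(6, b), (11, z)] = q := by
    intro z hz b
    have h1 := dj_split X ρ hψ (s := 6) (by norm_num) [(11, z)] (stab X ρ (by
      intro p hp t u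
      rw [List.mem_singleton] at hp; subst hp
      exact X.comm 6 11 (by decide) t u))
    rw [h11 z hz, sum_const' _ _ (fun c => le_antisymm (sh10 X ρ hz c b) (sh10 X ρ hz b c))] at h1
    exact (Nat.eq_of_mul_eq_mul_left hq0 h1).symm
  have h6110 : ∀ b, b ≠ 0 → dj X ψ ρ [(6, b), (11, 0)] = q := by
    intro b hb
    have h1 := dj_split X ρ hψ (s := 11) (by norm_num) [(6, b)] (stab X ρ (by
      intro p hp t u
      rw [List.mem_singleton] at hp; subst hp
      exact (X.comm 6 11 (by decide) u t).symm))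
    rw [h6b b hb, sum_ne _ q (fun z hz => by
      rw [← h611 z hz b]
      exact dj_perm X ρ (by intro p; simp only [List.mem_cons, List.not_mem_nil, or_false]; tauto))] at h1
    have e1 : dj X ψ ρ [(6, b), (11, 0)] = dj X ψ ρ [(11, 0), (6, b)] :=
      dj_perm X ρ (by intro p; simp only [List.mem_cons, List.not_mem_nil, or_false]; tauto)
    rw [e1]
    change q * q = _ + (q - 1) * q at h1
    have h2 : q * q = q + (q - 1) * q := by rw [hk, show k + 3 - 1 = k + 2 by omega]; ring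
    omega
  have h10z : ∀ b, b ≠ 0 → 1 ≤ dj X ψ ρ [(6, b), (10, 0), (11, 0)] := by
    intro b hb
    have h1 := dj_split X ρ hψ (s := 10) (by norm_num) [(6, b), (11, 0)] (stab10 X ρ b)
    rw [h6110 b hb] at h1
    have h2 := cubes h3 hq hq4 (fun e => dj X ψ ρ [(10, e), (6, b), (11, 0)]) (by
      intro s e
      have h := dj_tor X ρ (ψ := ψ) s 1 (l := [(10, e), (6, b), (11, 0)]) (by
        intro p hp; simp at hp; rcases hp with rfl | rfl | rfl <;> norm_num)
      rw [h]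
      have e10 : ((s ^ (ca 10) * (1 : Fˣ) ^ (cb 10) : Fˣ) : F) = (s : F) ^ 3 := by
        rw [one_zpow, mul_one]
        change ((s ^ (3 : ℤ) : Fˣ) : F) = _
        norm_cast
      have e6 : ((s ^ (ca 6) * (1 : Fˣ) ^ (cb 6) : Fˣ) : F) = 1 := by
        rw [one_zpow, mul_one]
        change ((s ^ (0 : ℤ) : Fˣ) : F) = _
        rw [zpow_zero]; rfl
      simp only [List.map_cons, List.map_nil, mul_zero]
      rw [e10, e6, one_mul]) h1.symm
    refine le_trans h2 (le_of_eq ?_)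
    exact dj_perm X ρ (by intro p; simp only [List.mem_cons, List.not_mem_nil, or_false]; tauto)
  have h106 : ∀ c, c ≠ 0 → 1 ≤ dj X ψ ρ [(10, c), (6, 0), (11, 0)] := by
    intro c hc
    rw [dj_conj X ρ X.na ra εa ha1 ha2 (by
      intro p hp; simp at hp; rcases hp with rfl | rfl | rfl <;> norm_num)]
    simp only [List.map_cons, List.map_nil, mul_zero]
    exact h10z _ (mul_ne_zero (hne _ (ha1 10 (by norm_num))) hc)
  have h60 : (q - 1) * 1 ≤ dj X ψ ρ [(6, 0), (11, 0)] := by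
    rw [dj_split X ρ hψ (s := 10) (by norm_num) [(6, 0), (11, 0)] (stab10 X ρ 0)]
    refine le_trans ?_ (sum_ne_ge (fun e : F => dj X ψ ρ [(10, e), (6, 0), (11, 0)]) 1 h106)
    exact Nat.le_add_left _ _
  have h110 : dj X ψ ρ [(11, 0)] = dj X ψ ρ [(6, 0), (11, 0)] + (q - 1) * q := by
    rw [dj_split X ρ hψ (s := 6) (by norm_num) [(11, 0)] (stab X ρ (by
      intro p hp t u
      rw [List.mem_singleton] at hp; subst hp
      exact X.comm 6 11 (by decide) t u))]
    exact sum_ne (fun b : F => dj X ψ ρ [(6, b), (11, 0)]) q h6110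
  have hlow : q ^ 3 - 1 ≤ finrank ℂ V := by
    rw [hD, h110]
    have h2 : q ^ 3 - 1 = (q - 1) * 1 + (q - 1) * q + (q - 1) * (q * q) := by
      rw [hk, show k + 3 - 1 = k + 2 by omega]
      have : (k + 3) ^ 3 = ((k + 2) * 1 + (k + 2) * (k + 3) + (k + 2) * ((k + 3) * (k + 3))) + 1 := by ring
      omega
    omega
  refine ⟨hlow, fun hlt => ?_⟩
  have h11' : dj X ψ ρ [(11, 0)] ≤ q * q := by
    have h2 : q ^ 3 = q * q + (q - 1) * (q * q) := by
      rw [hk, show k + 3 - 1 = k + 2 by omega]; ring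
    omega
  have h100 : ∀ e, e ≠ 0 → dj X ψ ρ [(10, e), (11, 0)] = q := by
    intro e he
    rw [dj_conj X ρ X.nb rb εb hb1 hb2 (by
      intro p hp; simp at hp; rcases hp with rfl | rfl <;> norm_num)]
    simp only [List.map_cons, List.map_nil, mul_zero]
    rw [← h1011 (εb 10 * e) (mul_ne_zero (hne _ (hb1 10 (by norm_num))) he)]
    exact dj_perm X ρ (by
      intro p
      change p ∈ [(11, εb 10 * e), (10, 0)] ↔ _
      simp only [List.mem_cons, List.not_mem_nil, or_false]; tauto)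
  have h110' : dj X ψ ρ [(11, 0)] = dj X ψ ρ [(10, 0), (11, 0)] + (q - 1) * q := by
    rw [dj_split X ρ hψ (s := 10) (by norm_num) [(11, 0)] (stab X ρ (by
      intro p hp t u
      rw [List.mem_singleton] at hp; subst hp
      exact X.comm 10 11 (by decide) t u))]
    exact sum_ne (fun b : F => dj X ψ ρ [(10, b), (11, 0)]) q h100
  have h100le : dj X ψ ρ [(10, 0), (11, 0)] ≤ q := by
    have h2 : q * q = q + (q - 1) * q := by rw [hk, show k + 3 - 1 = k + 2 by omega]; ring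
    omega
  refine ⟨fun z hz => by rw [h11 z hz, pow_two], h1011, h9', fun b hb => ?_⟩
  have hconst : ∀ b', b' ≠ 0 → dj X ψ ρ [(6, b'), (10, 0), (11, 0)] = dj X ψ ρ [(6, b), (10, 0), (11, 0)] := by
    intro b' hb'
    have hr : b' / b ≠ 0 := div_ne_zero hb' hb
    have h := dj_tor X ρ (ψ := ψ) 1 (Units.mk0 (b' / b) hr) (l := [(6, b), (10, 0), (11, 0)]) (by
      intro p hp; simp at hp; rcases hp with rfl | rfl | rfl <;> norm_num)
    rw [h]
    have e6 : (((1 : Fˣ) ^ (ca 6) * (Units.mk0 (b' / b) hr) ^ (cb 6) : Fˣ) : F) = b' / b := by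
      rw [one_zpow, one_mul]
      change (((Units.mk0 (b' / b) hr) ^ (1 : ℤ) : Fˣ) : F) = _
      rw [zpow_one]; rfl
    simp only [List.map_cons, List.map_nil, mul_zero]
    rw [e6, div_mul_cancel₀ b' hb]
  have hsplit := dj_split X ρ hψ (s := 6) (by norm_num) [(10, 0), (11, 0)] (stab6 X ρ)
  rw [sum_ne (fun b' : F => dj X ψ ρ [(6, b'), (10, 0), (11, 0)]) _ hconst] at hsplit
  have hge := h10z b hb
  by_contra hne1
  have h2 : 2 ≤ dj X ψ ρ [(6, b), (10, 0), (11, 0)] := by omega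
  have h4 : (q - 1) * 2 ≤ (q - 1) * dj X ψ ρ [(6, b), (10, 0), (11, 0)] := Nat.mul_le_mul_left _ h2
  rw [← hqdef] at hsplit
  omega

end Cfsg.Agent.G2M
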