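import Cfsg.Agent.G2M.Def

set_option autoImplicit false

/-!
# Representations of the group of type G2: moving joint eigenspaces
-/

namespace Cfsg.Agent.G2M

open Module Finset

namespace ABase

variable {F G : Type*} [Field F] [Group G] {V : Type*} [AddCommGroup V] [Module ℂ V]
  (X : G2G F G) {ψ : AddChar F ℂ} (ρ : Representation ℂ G V)

theorem rho_inv_apply (g : G) (v : V) : ρ g⁻¹ (ρ g v) = v := by
  rw [← Module.End.mul_apply, ← map_mul, inv_mul_cancel, map_one, Module.End.one_apply]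

theorem rho_mul (g h : G) (v : V) : ρ (g * h) v = ρ g (ρ h v) := by
  rw [map_mul, Module.End.mul_apply]

theorem rho_inj (g : G) : Function.Injective (ρ g) := by
  intro a b h
  rw [← rho_inv_apply ρ g a, h, rho_inv_apply]

theorem mem_map (g : G) {l' : List (ℕ × F)} {v : V}
    (H : ∀ p ∈ l', ∀ u : F, ρ (g⁻¹ * X.x p.1 u * g) v = ψ (p.2 * u) • v) : ρ g v ∈ J X ψ ρ l' := by
  intro p hp u
  have h1 : X.x p.1 u * g = g * (g⁻¹ * X.x p.1 u * g) := by group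
  rw [← rho_mul, h1, rho_mul, H p hp u, map_smul]

theorem dj_le [FiniteDimensional ℂ V] (g : G) {l l' : List (ℕ × F)}
    (h : ∀ v ∈ J X ψ ρ l, ρ g v ∈ J X ψ ρ l') : dj X ψ ρ l ≤ dj X ψ ρ l' := by
  unfold dj
  have h1 : (J X ψ ρ l).map (ρ g) ≤ J X ψ ρ l' := by
    rintro _ ⟨v, hv, rfl⟩
    exact h v hv
  have h2 : finrank ℂ ((J X ψ ρ l).map (ρ g)) = finrank ℂ (J X ψ ρ l) :=
    ((Submodule.equivMapOfInjective (ρ g) (rho_inj ρ g) (J X ψ ρ l)).finrank_eq).symm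
  rw [← h2]
  exact Submodule.finrank_mono h1

theorem dj_perm {l l' : List (ℕ × F)} (h : ∀ p, p ∈ l ↔ p ∈ l') : dj X ψ ρ l = dj X ψ ρ l' := by
  have h1 : J X ψ ρ l = J X ψ ρ l' := by
    ext v
    exact ⟨fun hv p hp => hv p ((h p).mpr hp), fun hv p hp => hv p ((h p).mp hp)⟩
  unfold dj; rw [h1]

theorem x_neg {r : ℕ} (hr : r < 12) (t : F) : X.x r (-t) = (X.x r t)⁻¹ := by
  have h0 : X.x r 0 = 1 := by
    have h := X.add r hr 0 0
    rw [add_zero] at h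
    exact left_eq_mul.mp h
  have h1 := X.add r hr (-t) t
  rw [neg_add_cancel, h0] at h1
  exact eq_inv_of_mul_eq_one_left h1.symm

/-- the torus -/
theorem dj_tor [FiniteDimensional ℂ V] (s t : Fˣ) {l : List (ℕ × F)} (hl : ∀ p ∈ l, p.1 < 12) :
    dj X ψ ρ l = dj X ψ ρ (l.map (fun p => (p.1, ((s ^ (ca p.1) * t ^ (cb p.1) : Fˣ) : F) * p.2))) := by
  apply le_antisymm
  · apply dj_le X ρ (X.h s t)⁻¹
    intro v hv
    apply mem_map
    intro p' hp' u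
    obtain ⟨p, hp, rfl⟩ := List.mem_map.mp hp'
    rw [inv_inv]
    change ρ (X.h s t * X.x p.1 u * (X.h s t)⁻¹) v = ψ ((_ * p.2) * u) • v
    rw [X.tor s t p.1 (hl p hp) u, hv p hp]
    congr 2; ring
  · apply dj_le X ρ (X.h s t)
    intro v hv
    apply mem_map
    intro p hp u
    have h1 : (X.h s t)⁻¹ * X.x p.1 u * X.h s t = X.x p.1 (((s ^ (ca p.1) * t ^ (cb p.1) : Fˣ)⁻¹ : Fˣ) * u) := by
      have h2 := X.tor s t p.1 (hl p hp) ((((s ^ (ca p.1) * t ^ (cb p.1) : Fˣ)⁻¹ : Fˣ) : F) * u)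
      rw [← mul_assoc, Units.mul_inv, one_mul] at h2
      rw [← h2]; group
    rw [h1, hv (p.1, ((s ^ (ca p.1) * t ^ (cb p.1) : Fˣ) : F) * p.2) (List.mem_map.mpr ⟨p, hp, rfl⟩)]
    congr 2
    change ((s ^ (ca p.1) * t ^ (cb p.1) : Fˣ) : F) * p.2 * (((s ^ (ca p.1) * t ^ (cb p.1) : Fˣ)⁻¹ : Fˣ) * u) = p.2 * u
    rw [show ((s ^ (ca p.1) * t ^ (cb p.1) : Fˣ) : F) * p.2 * (((s ^ (ca p.1) * t ^ (cb p.1) : Fˣ)⁻¹ : Fˣ) * u) =
      (((s ^ (ca p.1) * t ^ (cb p.1) : Fˣ) : F) * (((s ^ (ca p.1) * t ^ (cb p.1) : Fˣ)⁻¹ : Fˣ) : F)) * (p.2 * u) by ring,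
      Units.mul_inv, one_mul]

/-- conjugation by an element permuting the root subgroups -/
theorem dj_conj [FiniteDimensional ℂ V] (n : G) (r' : ℕ → ℕ) (ε : ℕ → F) (hε : ∀ r, r < 12 → ε r * ε r = 1)
    (hn : ∀ r, r < 12 → ∀ u : F, n * X.x r u * n⁻¹ = X.x (r' r) (ε r * u)) {l : List (ℕ × F)}
    (hl : ∀ p ∈ l, p.1 < 12) :
    dj X ψ ρ l = dj X ψ ρ (l.map (fun p => (r' p.1, ε p.1 * p.2))) := by
  apply le_antisymm
  · apply dj_le X ρ n
    intro v hv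
    apply mem_map
    intro p' hp' u
    obtain ⟨p, hp, rfl⟩ := List.mem_map.mp hp'
    have h1 : n⁻¹ * X.x (r' p.1) u * n = X.x p.1 (ε p.1 * u) := by
      have h2 := hn p.1 (hl p hp) (ε p.1 * u)
      rw [← mul_assoc, hε _ (hl p hp), one_mul] at h2
      rw [← h2]; group
    change ρ (n⁻¹ * X.x (r' p.1) u * n) v = ψ ((ε p.1 * p.2) * u) • v
    rw [h1, hv p hp]
    congr 2; ring
  · apply dj_le X ρ n⁻¹
    intro v hv
    apply mem_map
    intro p hp u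
    rw [inv_inv, hn p.1 (hl p hp), hv (r' p.1, ε p.1 * p.2) (List.mem_map.mpr ⟨p, hp, rfl⟩)]
    congr 2
    change ε p.1 * p.2 * (ε p.1 * u) = p.2 * u
    rw [show ε p.1 * p.2 * (ε p.1 * u) = (ε p.1 * ε p.1) * (p.2 * u) by ring, hε _ (hl p hp), one_mul]

theorem exists_na : ∃ ε : ℕ → F, (∀ r, r < 12 → ε r * ε r = 1) ∧
    ∀ r, r < 12 → ∀ u : F, X.na * X.x r u * X.na⁻¹ = X.x (ra r) (ε r * u) := by
  have h := X.hna
  choose! ε h1 h2 using h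
  refine ⟨ε, fun r hr => ?_, h2⟩
  rcases h1 r hr with h | h <;> rw [h] <;> ring

theorem exists_nb : ∃ ε : ℕ → F, (∀ r, r < 12 → ε r * ε r = 1) ∧
    ∀ r, r < 12 → ∀ u : F, X.nb * X.x r u * X.nb⁻¹ = X.x (rb r) (ε r * u) := by
  have h := X.hnb
  choose! ε h1 h2 using h
  refine ⟨ε, fun r hr => ?_, h2⟩
  rcases h1 r hr with h | h <;> rw [h] <;> ring

end ABase

end Cfsg.Agent.G2M
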