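import Mathlib

set_option autoImplicit false

namespace Cfsg.Agent.G2M

/- Ar -/
theorem ar {q D : ℕ} (hq : IsPrimePow q) (h9 : 9 ≤ q) (h : D ∣ q ^ 6 * (q ^ 2 - 1) * (q ^ 6 - 1)) (h1 : q ^ 4 + q ^ 2 - 2 ≤ D) (h2 : D < q ^ 4 + q ^ 2 + 1) :
    False := by
  have hQ : 81 ≤ q ^ 2 := by nlinarith
  obtain ⟨Q, hQd⟩ : ∃ Q, Q = q ^ 2 := ⟨_, rfl⟩
  have e4 : q ^ 4 = Q ^ 2 := by rw [hQd]; ring
  have e6 : q ^ 6 = Q ^ 3 := by rw [hQd]; ring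
  rw [e4, ← hQd] at h1 h2
  rw [e6, ← hQd] at h
  rw [← hQd] at hQ
  have hz : (D : ℤ) ∣ (Q : ℤ) ^ 3 * ((Q : ℤ) - 1) * ((Q : ℤ) ^ 3 - 1) := by
    have := Int.natCast_dvd_natCast.2 h
    have c1 : ((Q - 1 : ℕ) : ℤ) = (Q : ℤ) - 1 := by
      rw [Nat.cast_sub (by omega)]; simp
    have c2 : ((Q ^ 3 - 1 : ℕ) : ℤ) = (Q : ℤ) ^ 3 - 1 := by
      rw [Nat.cast_sub (Nat.one_le_pow _ _ (by omega))]; simp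
    rw [Nat.cast_mul, Nat.cast_mul, c1, c2] at this
    simpa using this
  have hQz : (81 : ℤ) ≤ Q := by exact_mod_cast hQ
  have hge : 2 ≤ Q ^ 2 + Q := by nlinarith
  have hD : D = Q ^ 2 + Q - 2 ∨ D = Q ^ 2 + Q - 1 ∨ D = Q ^ 2 + Q := by omega
  rcases hD with h' | h' | h'
  · have hDz : (D : ℤ) = ((Q : ℤ) - 1) * ((Q : ℤ) + 2) := by
      rw [h', Nat.cast_sub hge]; push_cast; ring
    have h3 : ((Q : ℤ) - 1) * ((Q : ℤ) + 2) ∣ ((Q : ℤ) - 1) * ((Q : ℤ) ^ 3 * ((Q : ℤ) ^ 3 - 1)) := by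
      rw [← hDz]
      convert hz using 1; ring
    have h4 : ((Q : ℤ) + 2) ∣ (Q : ℤ) ^ 3 * ((Q : ℤ) ^ 3 - 1) :=
      (mul_dvd_mul_iff_left (by omega)).1 h3
    have h5 : ((Q : ℤ) + 2) ∣ 72 := by
      have h6 : ((Q : ℤ) + 2) ∣ (Q : ℤ) ^ 3 * ((Q : ℤ) ^ 3 - 1) - 72 :=
        ⟨(Q : ℤ) ^ 5 - 2 * Q ^ 4 + 4 * Q ^ 3 - 9 * Q ^ 2 + 18 * Q - 36, by ring⟩
      have := dvd_sub h4 h6
      simpa using this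
    have := Int.le_of_dvd (by norm_num) h5
    omega
  · have hDz : (D : ℤ) = (Q : ℤ) ^ 2 + Q - 1 := by
      rw [h', Nat.cast_sub (by omega)]; push_cast; ring
    rw [hDz] at hz
    have h5 : ((Q : ℤ) ^ 2 + Q - 1) ∣ 26 * (Q : ℤ) - 16 := by
      have h6 : ((Q : ℤ) ^ 2 + Q - 1) ∣ (Q : ℤ) ^ 3 * ((Q : ℤ) - 1) * ((Q : ℤ) ^ 3 - 1) - (26 * Q - 16) :=
        ⟨(Q : ℤ) ^ 5 - 2 * Q ^ 4 + 3 * Q ^ 3 - 6 * Q ^ 2 + 10 * Q - 16, by ring⟩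
      have := dvd_sub hz h6
      simpa using this
    have := Int.le_of_dvd (by omega) h5
    nlinarith
  · have hDz : (D : ℤ) = (Q : ℤ) * ((Q : ℤ) + 1) := by
      rw [h']; push_cast; ring
    rw [hDz] at hz
    have hz' : ((Q : ℤ) + 1) ∣ (Q : ℤ) ^ 3 * ((Q : ℤ) - 1) * ((Q : ℤ) ^ 3 - 1) := dvd_trans (Dvd.intro_left _ rfl) hz
    have h5 : ((Q : ℤ) + 1) ∣ -4 := by
      have h6 : ((Q : ℤ) + 1) ∣ (Q : ℤ) ^ 3 * ((Q : ℤ) - 1) * ((Q : ℤ) ^ 3 - 1) - (-4) :=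
        ⟨(Q : ℤ) ^ 6 - 2 * Q ^ 5 + 2 * Q ^ 4 - 3 * Q ^ 3 + 4 * Q ^ 2 - 4 * Q + 4, by ring⟩
      have := dvd_sub hz' h6
      simpa using this
    have := Int.le_of_dvd (by norm_num) ((Int.dvd_neg).1 h5)
    omega

end Cfsg.Agent.G2M
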