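import Cfsg.Agent.G2M.Tr
import Cfsg.Agent.G2M.R

set_option autoImplicit false
set_option linter.unusedSectionVars false

/-!
S2338, B1.
-/

namespace Cfsg.Agent.G2M.B1h27

open Module Finset Cfsg.Agent.G2M Cfsg.Agent.G2M.Tr

section grp
variable {F G : Type*} [Field F] [Group G] (X : G2G F G)

def Cj (g : G) (r r' : ℕ) : Prop := ∃ c : F, c ≠ 0 ∧ ∀ u, X.x r u * g = g * X.x r' (c * u)

theorem sgn_ne {e : F} (he : e = 1 ∨ e = -1) : e ≠ 0 := by rcases he with rfl | rfl <;> simp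

theorem Cj.mul {g g' : G} {r r' r'' : ℕ} (h1 : Cj X g r r') (h2 : Cj X g' r' r'') : Cj X (g * g') r r'' := by
  obtain ⟨c, hc, h⟩ := h1
  obtain ⟨d, hd, k⟩ := h2
  refine ⟨d * c, mul_ne_zero hd hc, fun u => ?_⟩
  rw [← mul_assoc, h, mul_assoc, k, ← mul_assoc, mul_assoc d]

theorem cj_h (s t : Fˣ) {r : ℕ} (hr : r < 12) : Cj X (X.h s t) r r := by
  refine ⟨(((s ^ (ca r) * t ^ (cb r) : Fˣ)⁻¹ : Fˣ) : F), Units.ne_zero _, fun u => ?_⟩
  have h := X.tor s t r hr ((((s ^ (ca r) * t ^ (cb r) : Fˣ)⁻¹ : Fˣ) : F) * u)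
  rw [← mul_assoc, Units.mul_inv, one_mul] at h
  rw [← h]; group

theorem cj_na {r r' : ℕ} (hr : r' < 12) (h : ra r' = r) : Cj X X.na r r' := by
  obtain ⟨a, ha, hA⟩ := X.hna r' hr
  refine ⟨a, sgn_ne ha, fun u => ?_⟩
  rw [← h, eq_conj X ha hA u]; group

theorem cj_nb {r r' : ℕ} (hr : r' < 12) (h : rb r' = r) : Cj X X.nb r r' := by
  obtain ⟨a, ha, hA⟩ := X.hnb r' hr
  refine ⟨a, sgn_ne ha, fun u => ?_⟩
  rw [← h, eq_conj X ha hA u]; group

theorem cj_nai {r r' : ℕ} (hr : r < 12) (h : ra r = r') : Cj X X.na⁻¹ r r' := by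
  obtain ⟨a, ha, hA⟩ := X.hna r hr
  refine ⟨a, sgn_ne ha, fun u => ?_⟩
  rw [← h, ← hA u]; group

theorem comm510 : ∀ t u, X.x 5 t * X.x 10 u = X.x 10 u * X.x 5 t := by
  obtain ⟨a, ha, hA⟩ := X.hnb 6 (by norm_num)
  obtain ⟨b, hb, hB⟩ := X.hnb 11 (by norm_num)
  exact comm_step X ha hb hA hB (X.comm 6 11 (by simp))

theorem z0_comm {w : Fˣ} (hw : (w : F) ^ 3 = 1) {r : ℕ} (hr : r < 12) (h : ca r = 0 ∨ ca r = 3 ∨ ca r = -3) (t : F) :
    X.h w 1 * X.x r t = X.x r t * X.h w 1 := by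
  have hw3 : w ^ 3 = 1 := by ext; push_cast; exact hw
  have h1 := X.tor w 1 r hr t
  have h2 : (w ^ (ca r) * (1 : Fˣ) ^ (cb r) : Fˣ) = 1 := by
    rw [one_zpow, mul_one]
    rcases h with h | h | h
    · rw [h, zpow_zero]
    · rw [h]; exact_mod_cast hw3
    · rw [h, zpow_neg]; rw [show (w ^ (3 : ℤ) : Fˣ) = 1 by exact_mod_cast hw3, inv_one]
  rw [h2, Units.val_one, one_mul] at h1
  calc X.h w 1 * X.x r t = (X.h w 1 * X.x r t * (X.h w 1)⁻¹) * X.h w 1 := by group
    _ = _ := by rw [h1]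

end grp

section rep
variable {F G : Type*} [Field F] [Fintype F] [DecidableEq F] [Group G] {V : Type*} [AddCommGroup V] [Module ℂ V]
  [FiniteDimensional ℂ V] (X : G2G F G) {ψ : AddChar F ℂ} (ρ : Representation ℂ G V)

/-- the final contradiction -/
theorem fin_contra (hψ : ψ ≠ 0) (w : Fˣ) (hw : (w : F) ^ 3 = 1) (hw1 : (w : F) ≠ 1) (c : F) (hc : c ≠ 0)
    (hz : dj X ψ ρ [(9, 1), (11, c)] ≠ 0) (lam : ℂ) (hlam : lam ≠ 0)
    (hU : ∀ v ∈ J X ψ ρ [(10, 0), (11, c)], ρ (X.h w 1) v = lam • v) : False := by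
  -- x9 is trivial on U
  have h9 : ∀ u, ∀ v ∈ J X ψ ρ [(10, 0), (11, c)], ρ (X.x 9 u) v ∈ J X ψ ρ [(10, 0), (11, c)] := by
    intro u v hv
    rw [mem_J_cons, mem_J_cons] at hv ⊢
    obtain ⟨h10, h11, _⟩ := hv
    refine ⟨fun t => ?_, fun t => ?_, fun p hp => by simp at hp⟩
    · rw [← Module.End.mul_apply, ← map_mul, ← X.comm 9 10 (by simp), map_mul, Module.End.mul_apply, h10, map_smul]
    · rw [← Module.End.mul_apply, ← map_mul, ← X.comm 9 11 (by simp), map_mul, Module.End.mul_apply, h11, map_smul]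
  have hk : ∀ u, ∀ v ∈ J X ψ ρ [(10, 0), (11, c)], ρ (X.x 9 ((w : F) ^ 2 * u)) v = ρ (X.x 9 u) v := by
    intro u v hv
    have h1 := X.tor w 1 9 (by norm_num) u
    have h2 : (((w ^ (ca 9) * (1 : Fˣ) ^ (cb 9) : Fˣ)) : F) = (w : F) ^ 2 := by
      have : ca 9 = 2 := rfl
      rw [this, one_zpow, mul_one]
      norm_cast
    rw [h2] at h1
    have h3 : X.x 9 ((w : F) ^ 2 * u) * X.h w 1 = X.h w 1 * X.x 9 u := by rw [← h1]; group
    have h4 : ρ (X.x 9 ((w : F) ^ 2 * u)) (ρ (X.h w 1) v) = ρ (X.h w 1) (ρ (X.x 9 u) v) := by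
      rw [← Module.End.mul_apply, ← map_mul, h3, map_mul, Module.End.mul_apply]
    rw [hU v hv, map_smul, hU _ (h9 u v hv)] at h4
    exact smul_right_injective V hlam h4
  have hw2 : (w : F) ^ 2 - 1 ≠ 0 := by
    intro h
    apply hw1
    have h2 : (w : F) ^ 2 = 1 := sub_eq_zero.mp h
    calc (w : F) = (w : F) ^ 3 := by rw [pow_succ, h2, one_mul]
      _ = 1 := hw
  have htriv : ∀ u, ∀ v ∈ J X ψ ρ [(10, 0), (11, c)], ρ (X.x 9 u) v = v := by
    intro u v hv
    set u' : F := u / ((w : F) ^ 2 - 1) with hu'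
    have h1 : (w : F) ^ 2 * u' = u + u' := by
      rw [hu']; field_simp; ring
    have h2 := hk u' v hv
    rw [h1, add_comm, X.add 9 (by norm_num), map_mul, Module.End.mul_apply] at h2
    have h3 : ρ (X.x 9 u')⁻¹ (ρ (X.x 9 u') (ρ (X.x 9 u) v)) = ρ (X.x 9 u')⁻¹ (ρ (X.x 9 u') v) := by rw [h2]
    have hinv : ∀ y, ρ (X.x 9 u')⁻¹ (ρ (X.x 9 u') y) = y := by
      intro y
      rw [← Module.End.mul_apply, ← map_mul, inv_mul_cancel, map_one, Module.End.one_apply]
    rw [hinv, hinv] at h3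
    exact h3
  -- a vector with x9 nontrivial
  have hs := dj_split X ρ hψ (s := 10) (by norm_num) [(9, 1), (11, c)] (by
    intro t v hv
    rw [mem_J_cons, mem_J_cons] at hv ⊢
    obtain ⟨h10, h11, _⟩ := hv
    refine ⟨fun u => ?_, fun u => ?_, fun p hp => by simp at hp⟩
    · rw [← Module.End.mul_apply, ← map_mul, X.comm 9 10 (by simp), map_mul, Module.End.mul_apply, h10, map_smul]
    · rw [← Module.End.mul_apply, ← map_mul, ← X.comm 10 11 (by simp), map_mul, Module.End.mul_apply, h11, map_smul])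
  rw [hs] at hz
  obtain ⟨e, _, he⟩ := Finset.exists_ne_zero_of_sum_ne_zero hz
  have hne : J X ψ ρ [(10, e), (9, 1), (11, c)] ≠ ⊥ := fun h => he (by unfold dj; rw [h]; exact finrank_bot ℂ V)
  obtain ⟨v, hv, hv0⟩ := Submodule.exists_mem_ne_zero_of_ne_bot hne
  rw [mem_J_cons, mem_J_cons, mem_J_cons] at hv
  obtain ⟨h10, h9', h11, _⟩ := hv
  set r : F := -e / c with hr
  set v' : V := ρ (X.x 6 r) v with hv'
  have hm : v' ∈ J X ψ ρ [(10, 0), (11, c)] := by
    rw [mem_J_cons, mem_J_cons]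
    refine ⟨fun t => ?_, fun t => ?_, fun p hp => by simp at hp⟩
    · have h1 : X.x 10 t * X.x 6 r = X.x 6 r * (X.x 10 t * X.x 11 (r * t)) := by
        rw [← X.c610 r t]; group
      rw [hv', ← Module.End.mul_apply, ← map_mul, h1, map_mul, Module.End.mul_apply, map_mul, Module.End.mul_apply, h11,
        map_smul, h10, smul_smul, ← AddChar.map_add_eq_mul, map_smul]
      congr 2
      rw [hr]; field_simp; ring
    · rw [hv', ← Module.End.mul_apply, ← map_mul, ← X.comm 6 11 (by simp), map_mul, Module.End.mul_apply, h11, map_smul]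
  have hv'0 : v' ≠ 0 := by
    intro h
    apply hv0
    have h3 : ρ (X.x 6 r)⁻¹ (ρ (X.x 6 r) v) = 0 := by rw [← hv', h, map_zero]
    rw [← Module.End.mul_apply, ← map_mul, inv_mul_cancel, map_one, Module.End.one_apply] at h3
    exact h3
  apply hψ
  rw [AddChar.eq_zero_iff]
  intro t
  have h1 : ρ (X.x 9 t) v' = ψ (1 * t) • v' := by
    rw [hv', ← Module.End.mul_apply, ← map_mul, ← X.comm 6 9 (by simp), map_mul, Module.End.mul_apply, h9', map_smul]
  rw [htriv t v' hm, one_mul] at h1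
  have h2 : (ψ t - 1) • v' = 0 := by rw [sub_smul, one_smul, ← h1, sub_self]
  rcases smul_eq_zero.mp h2 with h | h
  · exact sub_eq_zero.mp h
  · exact absurd h hv'0

theorem b_one (hψ : ψ ≠ 0) (w : Fˣ) (hw : (w : F) ^ 3 = 1) (hw1 : (w : F) ≠ 1)
    (hz : ∀ z, z ≠ 0 → ∀ d, dj X ψ ρ [(9, d), (11, z)] = Fintype.card F)
    (hZ : ∀ z, z ≠ 0 → dj X ψ ρ [(10, 0), (11, z)] = Fintype.card F)
    (h1 : ∀ b, b ≠ 0 → dj X ψ ρ [(6, b), (10, 0), (11, 0)] = 1) (h0 : dj X ψ ρ [(6, 0), (10, 0), (11, 0)] = 0) : False := by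
  obtain ⟨⟨v, hv⟩, hv0, hspan⟩ := finrank_eq_one_iff'.mp (h1 1 one_ne_zero)
  have hv0 : v ≠ 0 := fun h => hv0 (Subtype.ext h)
  have hv' := hv
  rw [mem_J_cons, mem_J_cons, mem_J_cons] at hv'
  obtain ⟨h6, h10, h11, _⟩ := hv'
  have hvt : v ∈ J X ψ ρ [(10, 0), (11, 0)] := ((mem_J_cons X ρ).mp hv).2
  -- the eigenvalue
  have hzv : ρ (X.h w 1) v ∈ J X ψ ρ [(6, 1), (10, 0), (11, 0)] := by
    rw [mem_J_cons, mem_J_cons, mem_J_cons]
    refine ⟨fun t => ?_, fun t => ?_, fun t => ?_, fun p hp => by simp at hp⟩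
    · rw [← Module.End.mul_apply, ← map_mul, ← z0_comm X hw (r := 6) (by norm_num) (Or.inl rfl), map_mul,
        Module.End.mul_apply, h6, map_smul]
    · rw [← Module.End.mul_apply, ← map_mul, ← z0_comm X hw (r := 10) (by norm_num) (Or.inr (Or.inl rfl)), map_mul,
        Module.End.mul_apply, h10, map_smul]
    · rw [← Module.End.mul_apply, ← map_mul, ← z0_comm X hw (r := 11) (by norm_num) (Or.inr (Or.inl rfl)), map_mul,
        Module.End.mul_apply, h11, map_smul]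
  obtain ⟨lam, hlam⟩ := hspan ⟨_, hzv⟩
  have hlam : lam • v = ρ (X.h w 1) v := congrArg Subtype.val hlam
  have hlam0 : lam ≠ 0 := by
    rintro rfl
    rw [zero_smul] at hlam
    apply hv0
    have h3 : ρ (X.h w 1)⁻¹ (ρ (X.h w 1) v) = 0 := by rw [← hlam, map_zero]
    rw [← Module.End.mul_apply, ← map_mul, inv_mul_cancel, map_one, Module.End.one_apply] at h3
    exact h3
  -- the eigenspace
  let W : Submodule ℂ V := LinearMap.ker (ρ (X.h w 1) - lam • (1 : Module.End ℂ V))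
  have hW : ∀ y, y ∈ W ↔ ρ (X.h w 1) y = lam • y := by
    intro y
    rw [LinearMap.mem_ker, LinearMap.sub_apply, sub_eq_zero]; rfl
  have hWg : ∀ g : G, X.h w 1 * g = g * X.h w 1 → ∀ y ∈ W, ρ g y ∈ W := by
    intro g hg y hy
    rw [hW] at hy ⊢
    rw [← Module.End.mul_apply, ← map_mul, hg, map_mul, Module.End.mul_apply, hy, map_smul]
  have hvW : v ∈ W := (hW v).mpr hlam.symm
  -- the element n
  obtain ⟨n, hn1, hn⟩ := X.r10 1 one_ne_zero
  have hnc : X.h w 1 * n = n * X.h w 1 := by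
    have h3 : n = (X.x 10 (1 : F)⁻¹)⁻¹ * X.x 1 1 * (X.x 10 (1 : F)⁻¹)⁻¹ := by rw [hn1]; group
    have c10 : Commute (X.h w 1) (X.x 10 (1 : F)⁻¹) := z0_comm X hw (by norm_num) (Or.inr (Or.inl rfl)) _
    have c1 : Commute (X.h w 1) (X.x 1 (1 : F)) := z0_comm X hw (by norm_num) (Or.inr (Or.inr rfl)) _
    rw [h3]
    exact (c10.inv_right.mul_right c1).mul_right c10.inv_right
  obtain ⟨s1, t1, rfl⟩ := hn
  set n : G := X.h s1 t1 * (X.na * X.nb * X.na⁻¹) with hndef
  obtain ⟨c, hc, hc11⟩ : Cj X n 11 6 := (cj_h X s1 t1 (by norm_num)).mul X (((cj_na X (r' := 11) (by norm_num) rfl).mul X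
    (cj_nb X (r' := 10) (by norm_num) rfl)).mul X (cj_nai X (by norm_num) rfl))
  obtain ⟨c5, hc5, hc5'⟩ : Cj X n 5 0 := (cj_h X s1 t1 (by norm_num)).mul X (((cj_na X (r' := 1) (by norm_num) rfl).mul X
    (cj_nb X (r' := 0) (by norm_num) rfl)).mul X (cj_nai X (by norm_num) rfl))
  obtain ⟨c10, hc10, hc10'⟩ : Cj X n 10 1 := (cj_h X s1 t1 (by norm_num)).mul X (((cj_na X (r' := 6) (by norm_num) rfl).mul X
    (cj_nb X (r' := 5) (by norm_num) rfl)).mul X (cj_nai X (by norm_num) rfl))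
  -- the vectors y_s
  let y0 : V := ∑ t : F, ρ (X.x 10 t) (ρ n v)
  let y : F → V := fun s => ρ (X.x 5 s) y0
  have hy0_10 : ∀ u, ρ (X.x 10 u) y0 = y0 := by
    intro u
    simp only [y0, map_sum]
    refine Fintype.sum_equiv (Equiv.addLeft u) _ _ fun t => ?_
    rw [← Module.End.mul_apply, ← map_mul, ← X.add 10 (by norm_num)]
    rfl
  have hy0_11 : ∀ u, ρ (X.x 11 u) y0 = ψ (c * u) • y0 := by
    intro u
    simp only [y0, map_sum, Finset.smul_sum]
    refine Finset.sum_congr rfl fun t _ => ?_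
    rw [← Module.End.mul_apply, ← map_mul, ← X.comm 10 11 (by simp), map_mul, Module.End.mul_apply,
      ← Module.End.mul_apply (ρ (X.x 11 u)), ← map_mul, hc11, map_mul, Module.End.mul_apply, h6, map_smul, map_smul, one_mul]
  have hyJ : ∀ s, y s ∈ J X ψ ρ [(10, 0), (11, c)] := by
    intro s
    rw [mem_J_cons, mem_J_cons]
    refine ⟨fun u => ?_, fun u => ?_, fun p hp => by simp at hp⟩
    · simp only [y]
      rw [← Module.End.mul_apply, ← map_mul, ← comm510 X, map_mul, Module.End.mul_apply, hy0_10, zero_mul,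
        AddChar.map_zero_eq_one, one_smul]
    · simp only [y]
      obtain ⟨e, _, hE⟩ := X.c511 s u
      have h3 : X.x 11 u * X.x 5 s = X.x 5 s * (X.x 11 u * X.x 10 (e * s * u)) := by rw [← hE]; group
      rw [← Module.End.mul_apply, ← map_mul, h3, map_mul, Module.End.mul_apply, map_mul, Module.End.mul_apply, hy0_10,
        hy0_11, map_smul]
  have hyW : ∀ s, y s ∈ W := by
    intro s
    refine hWg _ (z0_comm X hw (by norm_num) (Or.inl rfl) _) _ ?_
    refine Submodule.sum_mem _ fun t _ => ?_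
    exact hWg _ (z0_comm X hw (by norm_num) (Or.inr (Or.inl rfl)) _) _ (hWg n hnc v hvW)
  -- independence
  have hgram : ∀ s' s, ee X ρ (ρ (n⁻¹ * X.x 5 (-s')) (y s)) = if s = s' then Fintype.card (F × F) • v else 0 := by
    intro s' s
    have h3 : ρ (n⁻¹ * X.x 5 (-s')) (y s) = ∑ t : F, ρ (X.x 0 (c5 * (s - s')) * X.x 1 (c10 * t)) v := by
      simp only [y, y0, map_sum]
      refine Finset.sum_congr rfl fun t _ => ?_
      rw [← Module.End.mul_apply, ← map_mul, ← Module.End.mul_apply, ← map_mul, ← Module.End.mul_apply, ← map_mul]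
      congr 2
      have h4 : X.x 5 (-s') * X.x 5 s = X.x 5 (s - s') := by rw [← X.add 5 (by norm_num)]; congr 1; ring
      calc n⁻¹ * X.x 5 (-s') * X.x 5 s * X.x 10 t * n = n⁻¹ * (X.x 5 (-s') * X.x 5 s) * (X.x 10 t * n) := by group
        _ = n⁻¹ * (X.x 5 (s - s') * n) * X.x 1 (c10 * t) := by rw [h4, hc10']; group
        _ = _ := by rw [hc5']; group
    rw [h3, ee_sum]
    by_cases hs : s = s'
    · rw [if_pos hs, Finset.sum_eq_single 0]
      · rw [hs, sub_self, mul_zero, mul_zero, x_zero X (by norm_num), x_zero X (by norm_num), one_mul, map_one,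
          Module.End.one_apply, ee_tau X ρ hvt]
      · intro t _ ht
        exact ee_g X ρ h0 hvt fun h => ht ((mul_eq_zero.mp h.2).resolve_left hc10)
      · intro h; exact absurd (Finset.mem_univ _) h
    · rw [if_neg hs]
      refine Finset.sum_eq_zero fun t _ => ee_g X ρ h0 hvt fun h => hs ?_
      exact sub_eq_zero.mp ((mul_eq_zero.mp h.1).resolve_left hc5)
  have hsm : ∀ (a : ℂ) (x : V), ee X ρ (a • x) = a • ee X ρ x := by
    intro a x
    simp only [ee, map_smul, Finset.smul_sum]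
  let U : Submodule ℂ V := J X ψ ρ [(10, 0), (11, c)]
  let yy : F → ↥(U ⊓ W) := fun s => ⟨y s, hyJ s, hyW s⟩
  have hli : LinearIndependent ℂ yy := by
    rw [Fintype.linearIndependent_iff]
    intro a ha s'
    have h3 : ∑ s, a s • y s = 0 := by
      have := congrArg Subtype.val ha
      simpa [yy] using this
    have h4 : ee X ρ (ρ (n⁻¹ * X.x 5 (-s')) (∑ s, a s • y s)) = 0 := by rw [h3, map_zero, ee_zero]
    rw [map_sum, ee_sum] at h4
    simp only [map_smul, hsm, hgram, smul_ite, smul_zero] at h4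
    rw [Finset.sum_ite_eq' Finset.univ s'] at h4
    rw [if_pos (Finset.mem_univ _), ← Nat.cast_smul_eq_nsmul ℂ, smul_smul, smul_eq_zero] at h4
    rcases h4 with h | h
    · exact (mul_eq_zero.mp h).resolve_right (Nat.cast_ne_zero.mpr Fintype.card_ne_zero)
    · exact absurd h hv0
  have hcard := hli.fintype_card_le_finrank
  have hUW : U ⊓ W = U := by
    apply Submodule.eq_of_le_of_finrank_le inf_le_left
    have h5 : finrank ℂ U = Fintype.card F := hZ c hc
    rw [h5]; exact hcard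
  refine fin_contra X ρ hψ w hw hw1 c hc ?_ lam hlam0 ?_
  · rw [hz c hc]; exact Fintype.card_ne_zero
  · intro x hx
    have : x ∈ U ⊓ W := by rw [hUW]; exact hx
    exact (hW x).mp this.2

end rep

end Cfsg.Agent.G2M.B1h27
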