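import Cfsg.Agent.G2M.B2s3b

/-! # S2338, B2 step 3, part 3 (helper9) -/

set_option autoImplicit false
set_option linter.unusedSectionVars false

namespace Cfsg.Agent.G2M
namespace B2s3
open Module Finset

variable {F G : Type*} [Field F] [Fintype F] [DecidableEq F] [Group G] {V : Type*} [AddCommGroup V] [Module ℂ V]
  (X : G2G F G) {ψ : AddChar F ℂ} (ρ : Representation ℂ G V)

theorem pr_zero (w : V) : pr X ρ ψ 0 w = av X ρ 6 w := by
  rw [pr, av_apply]
  apply Finset.sum_congr rfl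
  intro u _
  rw [zero_mul, neg_zero, AddChar.map_zero_eq_one, one_smul]

theorem inv_ap (n : G) (w : V) : ρ n⁻¹ (ρ n w) = w := by
  rw [← mulap, inv_mul_cancel, map_one]; rfl

theorem inv_ap' (n : G) (w : V) : ρ n (ρ n⁻¹ w) = w := by
  rw [← mulap, mul_inv_cancel, map_one]; rfl

/-- (M5) -/
theorem key5 (hψ : ψ ≠ 0) {v : V} (h6 : ∀ t, ρ (X.x 6 t) v = v)
    (h5 : ∀ t : F, t ≠ 0 → ∑ u : F, ρ (X.x 6 u) (ρ (X.x 5 t) v) = -v) {b : F} (hb : b ≠ 0) :
    av X ρ 6 (ρ X.nb⁻¹ (pr X ρ ψ b (ρ X.nb v))) = ((Fintype.card F : ℂ) + 1) • v := by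
  obtain ⟨e, he, hc⟩ := (cnb X 5 (by norm_num) : Cj X X.nb 5 6)
  have hc' : ∀ u : F, X.nb⁻¹ * (X.x 6 u * X.nb) = X.x 5 (e * u) := by
    intro u
    have := hc (e * u)
    rw [← mul_assoc, sgn_sq he, one_mul] at this
    have this' : X.nb * X.x 5 (e * u) * X.nb⁻¹ = X.x 6 u := this
    rw [← this']; group
  have h1 : ρ X.nb⁻¹ (pr X ρ ψ b (ρ X.nb v)) = ∑ u : F, ψ (-(b * u)) • ρ (X.x 5 (e * u)) v := by
    rw [pr, map_sum]
    apply Finset.sum_congr rfl
    intro u _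
    rw [map_smul, ← mulap, ← mulap, mul_assoc, hc']
  have h2 : ∀ u : F, av X ρ 6 (ψ (-(b * u)) • ρ (X.x 5 (e * u)) v) =
      (if u = 0 then ((Fintype.card F : ℂ) + 1) • v else 0) - ψ (-(b * u)) • v := by
    intro u
    rw [map_smul]
    split_ifs with hu
    · subst hu
      rw [mul_zero, mul_zero, neg_zero, AddChar.map_zero_eq_one, one_smul, one_smul, x_zero X (by norm_num), map_one]
      show av X ρ 6 v = _
      rw [av_fix X ρ v h6, add_smul, one_smul]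
      abel
    · rw [av_apply, h5 _ (mul_ne_zero (sgn_ne he) hu), smul_neg, zero_sub]
  rw [h1, map_sum]
  simp only [h2]
  rw [Finset.sum_sub_distrib, ← Finset.sum_smul]
  have h3 : ∑ u : F, ψ (-(b * u)) = 0 := by
    have h4 : ∀ u : F, ψ (-(b * u)) = ψ ((-b) * u) := fun u => by congr 1; ring
    simp only [h4]
    exact sum_psi hψ (neg_ne_zero.2 hb)
  rw [h3, zero_smul, sub_zero, Finset.sum_ite_eq' Finset.univ (0 : F)]
  simp

section
variable [FiniteDimensional ℂ V]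

theorem b2_step3 (hψ : ψ ≠ 0) {v : V} (hv0 : v ≠ 0) (h6 : ∀ t, ρ (X.x 6 t) v = v)
    (h10 : ∀ t, ρ (X.x 10 t) v = v) (h11 : ∀ t, ρ (X.x 11 t) v = v) (hna : ∃ κ : ℂ, ρ X.na v = κ • v)
    (hline : ∀ w, (∀ t, ρ (X.x 6 t) w = w) → (∀ t, ρ (X.x 10 t) w = w) → (∀ t, ρ (X.x 11 t) w = w) → ∃ c : ℂ, w = c • v)
    (h5 : ∀ t : F, t ≠ 0 → ∑ u : F, ρ (X.x 6 u) (ρ (X.x 5 t) v) = -v)
    (h1 : ∀ b, b ≠ 0 → dj X ψ ρ [(6, b), (10, 0), (11, 0)] = 1) (W : Submodule ℂ V)
    (hW5 : ∀ t, ∀ w ∈ W, ρ (X.x 5 t) w ∈ W) (hW10 : ∀ t, ∀ w ∈ W, ρ (X.x 10 t) w ∈ W)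
    (hWc : ∀ w ∈ W, ρ (X.na * X.nb * X.na⁻¹) w ∈ W) (hτ : J X ψ ρ [(10, 0), (11, 0)] ≤ W) {z : F} (hz : z ≠ 0) :
    Fintype.card F ≤ finrank ℂ ↥(J X ψ ρ [(10, 0), (11, z)] ⊓ W) := by
  have hq : (Fintype.card F : ℂ) ≠ 0 := by exact_mod_cast Fintype.card_ne_zero
  obtain ⟨ε, hε, hc6⟩ := nc_6 X
  set b : F := ε * z with hbdef
  have hb : b ≠ 0 := mul_ne_zero (sgn_ne hε) hz
  -- the vector v_b
  obtain ⟨⟨y0, hy0J⟩, hy00, hy0s⟩ := finrank_eq_one_iff'.1 (h1 b hb)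
  have hy0 : y0 ≠ 0 := fun h => hy00 (Subtype.ext h)
  have k6 : ∀ u, ρ (X.x 6 u) y0 = ψ (b * u) • y0 := fun u => hy0J (6, b) (by simp) u
  have k10 : ∀ u, ρ (X.x 10 u) y0 = y0 := fun u => by
    have := hy0J (10, 0) (by simp) u
    simpa using this
  have k11 : ∀ u, ρ (X.x 11 u) y0 = y0 := fun u => by
    have := hy0J (11, 0) (by simp) u
    simpa using this
  have hspan : ∀ w : V, (∀ u, ρ (X.x 6 u) w = ψ (b * u) • w) → (∀ u, ρ (X.x 10 u) w = w) → (∀ u, ρ (X.x 11 u) w = w) →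
      ∃ c : ℂ, w = c • y0 := by
    intro w a1 a2 a3
    have hw : w ∈ J X ψ ρ [(6, b), (10, 0), (11, 0)] := by
      intro p hp t
      simp only [List.mem_cons, List.not_mem_nil, or_false] at hp
      rcases hp with rfl | rfl | rfl
      · exact a1 t
      · simpa using a2 t
      · simpa using a3 t
    obtain ⟨c, hc⟩ := hy0s ⟨w, hw⟩
    exact ⟨c, (congrArg Subtype.val hc).symm⟩
  -- T
  have fixnb : ∀ w : V, (∀ u, ρ (X.x 10 u) w = w) → (∀ u, ρ (X.x 11 u) w = w) →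
      (∀ u, ρ (X.x 10 u) (ρ X.nb w) = ρ X.nb w) ∧ (∀ u, ρ (X.x 11 u) (ρ X.nb w) = ρ X.nb w) := by
    intro w a1 a2
    obtain ⟨e1, he1, b1⟩ := (cnb X 11 (by norm_num) : Cj X X.nb 11 10)
    obtain ⟨e2, he2, b2⟩ := (cnb X 10 (by norm_num) : Cj X X.nb 10 11)
    constructor
    · intro u
      have h : X.x 10 u * X.nb = X.nb * X.x 11 (e1 * u) := by
        have := b1 (e1 * u)
        rw [← mul_assoc, sgn_sq he1, one_mul] at this
        have this' : X.nb * X.x 11 (e1 * u) * X.nb⁻¹ = X.x 10 u := this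
        rw [← this']; group
      rw [← mulap, h, mulap, a2]
    · intro u
      have h : X.x 11 u * X.nb = X.nb * X.x 10 (e2 * u) := by
        have := b2 (e2 * u)
        rw [← mul_assoc, sgn_sq he2, one_mul] at this
        have this' : X.nb * X.x 10 (e2 * u) * X.nb⁻¹ = X.x 11 u := this
        rw [← this']; group
      rw [← mulap, h, mulap, a1]
  have fixnb' : ∀ w : V, (∀ u, ρ (X.x 10 u) w = w) → (∀ u, ρ (X.x 11 u) w = w) →
      (∀ u, ρ (X.x 10 u) (ρ X.nb⁻¹ w) = ρ X.nb⁻¹ w) ∧ (∀ u, ρ (X.x 11 u) (ρ X.nb⁻¹ w) = ρ X.nb⁻¹ w) := by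
    intro w a1 a2
    obtain ⟨e1, he1, b1⟩ := (cnb X 10 (by norm_num) : Cj X X.nb 10 11)
    obtain ⟨e2, he2, b2⟩ := (cnb X 11 (by norm_num) : Cj X X.nb 11 10)
    constructor
    · intro u
      have h : X.x 10 u * X.nb⁻¹ = X.nb⁻¹ * X.x 11 (e1 * u) := by
        have this' : X.nb * X.x 10 u * X.nb⁻¹ = X.x 11 (e1 * u) := b1 u
        rw [← this']; group
      rw [← mulap, h, mulap, a2]
    · intro u
      have h : X.x 11 u * X.nb⁻¹ = X.nb⁻¹ * X.x 10 (e2 * u) := by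
        have this' : X.nb * X.x 11 u * X.nb⁻¹ = X.x 10 (e2 * u) := b2 u
        rw [← this']; group
      rw [← mulap, h, mulap, a1]
  have T : ∀ t : F, t ≠ 0 → pr X ρ ψ b (ee X ρ (ρ (X.x 0 t) y0)) = -(((Fintype.card F : ℂ) + 1) • y0) := by
    intro t ht
    obtain ⟨e, he, hc⟩ := (cnb X 1 (by norm_num) : Cj X X.nb 1 0)
    have e1 : X.x 0 t = X.nb * (X.x 1 (e * t) * X.nb⁻¹) := by
      have := hc (e * t)
      rw [← mul_assoc, sgn_sq he, one_mul] at this
      have this' : X.nb * X.x 1 (e * t) * X.nb⁻¹ = X.x 0 t := this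
      rw [← this']; group
    obtain ⟨w10, w11⟩ := fixnb' y0 k10 k11
    have e2 : ee X ρ (ρ (X.x 0 t) y0) = -ρ X.nb (pr X ρ ψ 0 (ρ X.nb⁻¹ y0)) := by
      rw [e1, mulap, ee_nb, mulap, ee_tau X ρ hψ hv0 h11 hna hline h5 w10 w11 (mul_ne_zero (sgn_ne he) ht), map_neg]
    obtain ⟨c', hc'⟩ := hline (pr X ρ ψ 0 (ρ X.nb⁻¹ y0)) (fun t => by rw [pr_x6]; simp)
      (pr_fix10 X ρ 0 w10 w11) (pr_fix11 X ρ 0 w11)
    obtain ⟨n10, n11⟩ := fixnb v h10 h11
    obtain ⟨β, hβ⟩ := hspan (pr X ρ ψ b (ρ X.nb v)) (fun u => pr_x6 X ρ b u _) (pr_fix10 X ρ b n10 n11) (pr_fix11 X ρ b n11)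
    have e3 := key5 X ρ hψ h6 h5 hb
    rw [hβ, map_smul, map_smul, ← pr_zero X ρ (ψ := ψ), hc', smul_smul] at e3
    have e4 : β * c' = (Fintype.card F : ℂ) + 1 := smul_left_injective ℂ hv0 e3
    have e5 : -ρ X.nb (c' • v) = (-c') • ρ X.nb v := by rw [map_smul, neg_smul]
    rw [e2, hc', e5, pr_smul, hβ, smul_smul, ← e4, ← neg_smul]
    congr 1
    ring
  -- the vectors
  set y : V := av X ρ 10 (ρ (nc X) y0) with hy
  have ync : ∀ u, ρ (X.x 11 u) (ρ (nc X) y0) = ψ (z * u) • ρ (nc X) y0 := by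
    intro u
    have h : X.x 11 u * nc X = nc X * X.x 6 (ε * u) := by
      have := hc6 (ε * u)
      rw [← mul_assoc, sgn_sq hε, one_mul] at this
      rw [← this]; group
    rw [← mulap, h, mulap, k6, map_smul]
    congr 2
    rw [hbdef]
    calc ε * z * (ε * u) = (ε * ε) * (z * u) := by ring
      _ = z * u := by rw [sgn_sq hε, one_mul]
  have hy10 : ∀ t, ρ (X.x 10 t) y = y := fun t => av_absorb' X ρ (by norm_num) t _
  have hy11 : ∀ t, ρ (X.x 11 t) y = ψ (z * t) • y := by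
    intro t
    rw [hy, ← av_comm_x X ρ (fun a b => c1011 X a b), ync, map_smul]
  let ys : F → V := fun s => ρ (X.x 5 s) y
  have hysJ : ∀ s, ys s ∈ J X ψ ρ [(10, 0), (11, z)] := by
    intro s p hp t
    simp only [List.mem_cons, List.not_mem_nil, or_false] at hp
    rcases hp with rfl | rfl
    · show ρ (X.x 10 t) (ρ (X.x 5 s) y) = ψ (0 * t) • ρ (X.x 5 s) y
      rw [← mulap, ← c510, mulap, hy10]; simp
    · show ρ (X.x 11 t) (ρ (X.x 5 s) y) = ψ (z * t) • ρ (X.x 5 s) y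
      obtain ⟨e, he, h⟩ := X.c511 s t
      have h2 : X.x 11 t * X.x 5 s = X.x 5 s * (X.x 11 t * X.x 10 (e * s * t)) := by rw [← h]; group
      rw [← mulap, h2, mulap, mulap, hy10, hy11, map_smul]
  have hy0W : y0 ∈ W := by
    apply hτ
    intro p hp t
    simp only [List.mem_cons, List.not_mem_nil, or_false] at hp
    rcases hp with rfl | rfl
    · simpa using k10 t
    · simpa using k11 t
  have hysW : ∀ s, ys s ∈ W := by
    intro s
    apply hW5
    rw [hy, av_apply]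
    apply Submodule.sum_mem
    intro u _
    exact hW10 u _ (hWc _ hy0W)
  -- functional
  obtain ⟨e0, he0, hc0⟩ := (nc_0 X).inv
  obtain ⟨e1, he1, hc1⟩ := (nc_1 X).inv
  have hL : ∀ r : F, pr X ρ ψ b (ee X ρ (ρ (nc X)⁻¹ (ρ (X.x 5 r) y))) =
      if r = 0 then ((Fintype.card F : ℂ) ^ 3) • y0 else (-((Fintype.card F : ℂ) * ((Fintype.card F : ℂ) + 1))) • y0 := by
    intro r
    have s1 : ρ (nc X)⁻¹ (ρ (X.x 5 r) y) = ∑ u : F, ρ (X.x 0 (e0 * r)) (ρ (X.x 1 (e1 * u)) y0) := by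
      rw [hy, av_apply, map_sum, map_sum]
      apply Finset.sum_congr rfl
      intro u _
      rw [← mulap, ← mulap, ← mulap, ← mulap]
      congr 2
      rw [← hc0, ← hc1]; group
    have s2 : pr X ρ ψ b (ee X ρ (∑ u : F, ρ (X.x 0 (e0 * r)) (ρ (X.x 1 (e1 * u)) y0))) =
        ∑ u : F, pr X ρ ψ b (ee X ρ (ρ (X.x 0 (e0 * r)) (ρ (X.x 1 (e1 * u)) y0))) := by
      have hl : ∀ w : V, pr X ρ ψ b (ee X ρ w) =
          ((∑ u : F, ψ (-(b * u)) • (ρ (X.x 6 u) : V →ₗ[ℂ] V)) ∘ₗ (av X ρ 11) ∘ₗ (av X ρ 10)) w := by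
        intro w
        rw [LinearMap.comp_apply, LinearMap.sum_apply]
        rfl
      rw [hl, map_sum]
      apply Finset.sum_congr rfl
      intro u _
      rw [← hl]
    rw [s1, s2]
    split_ifs with hr
    · subst hr
      rw [Finset.sum_eq_single (0 : F)]
      · rw [mul_zero, mul_zero, x_zero X (by norm_num), x_zero X (by norm_num), map_one]
        show pr X ρ ψ b (ee X ρ y0) = _
        rw [ee, av_fix X ρ y0 k10, map_smul, av_fix X ρ y0 k11, pr_smul, pr_smul]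
        have s3 : pr X ρ ψ b y0 = (Fintype.card F : ℂ) • y0 := by
          rw [pr]
          have : ∀ u : F, ψ (-(b * u)) • ρ (X.x 6 u) y0 = y0 := by
            intro u
            rw [k6, smul_smul, ← AddChar.map_add_eq_mul, neg_add_cancel, AddChar.map_zero_eq_one, one_smul]
          simp only [this]
          rw [Finset.sum_const, Finset.card_univ, Nat.cast_smul_eq_nsmul]
        rw [s3, smul_smul, smul_smul]
        congr 1
        ring
      · intro u _ hu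
        rw [mul_zero, x_zero X (by norm_num), map_one]
        show pr X ρ ψ b (ee X ρ (ρ (X.x 1 (e1 * u)) y0)) = 0
        rw [ee_kill X ρ hψ hb k6 k10 (mul_ne_zero (sgn_ne he1) hu), pr]
        simp
      · intro h; exact absurd (Finset.mem_univ _) h
    · have ht : e0 * r ≠ 0 := mul_ne_zero (sgn_ne he0) hr
      have s4 : ∀ u : F, pr X ρ ψ b (ee X ρ (ρ (X.x 0 (e0 * r)) (ρ (X.x 1 (e1 * u)) y0))) =
          -(((Fintype.card F : ℂ) + 1) • y0) := by
        intro u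
        set t := e0 * r with htdef
        set s := e1 * u
        have s5 : X.x 0 t * X.x 1 s = X.x 6 (-(s / t)) * (X.x 0 t * X.x 6 (s / t)) := by
          have h := X.c60 (s / t) t
          have h' : s / t * t = s := by field_simp
          rw [h'] at h
          have h'' : (X.x 6 (s / t))⁻¹ = X.x 6 (-(s / t)) := by
            rw [inv_eq_iff_mul_eq_one, ← X.add 6 (by norm_num), add_neg_cancel, x_zero X (by norm_num)]
          rw [← h, h'']; group
        rw [← mulap, s5, mulap, mulap, ee_x6, pr_x6', k6, map_smul]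
        have s6 : ee X ρ (ψ (b * (s / t)) • ρ (X.x 0 t) y0) = ψ (b * (s / t)) • ee X ρ (ρ (X.x 0 t) y0) := by
          rw [ee, map_smul, map_smul]; rfl
        rw [s6, pr_smul, smul_smul, ← AddChar.map_add_eq_mul]
        have s7 : b * -(s / t) + b * (s / t) = 0 := by ring
        rw [s7, AddChar.map_zero_eq_one, one_smul, T t ht]
      simp only [s4]
      rw [Finset.sum_const, Finset.card_univ, ← Nat.cast_smul_eq_nsmul ℂ, smul_neg, smul_smul, neg_smul]
  -- independence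
  have hind : LinearIndependent ℂ ys := by
    rw [Fintype.linearIndependent_iff]
    intro g hg
    have hlin : ∀ r : F, ∑ s : F, g s * (if s - r = 0 then ((Fintype.card F : ℂ) ^ 3)
        else (-((Fintype.card F : ℂ) * ((Fintype.card F : ℂ) + 1)))) = 0 := by
      intro r
      have hl : ∀ w : V, pr X ρ ψ b (ee X ρ (ρ (nc X)⁻¹ (ρ (X.x 5 (-r)) w))) =
          ((∑ u : F, ψ (-(b * u)) • (ρ (X.x 6 u) : V →ₗ[ℂ] V)) ∘ₗ (av X ρ 11) ∘ₗ (av X ρ 10) ∘ₗ (ρ (nc X)⁻¹ : V →ₗ[ℂ] V) ∘ₗ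
            (ρ (X.x 5 (-r)) : V →ₗ[ℂ] V)) w := by
        intro w
        rw [LinearMap.comp_apply, LinearMap.sum_apply]
        rfl
      have h2 := congrArg ((∑ u : F, ψ (-(b * u)) • (ρ (X.x 6 u) : V →ₗ[ℂ] V)) ∘ₗ (av X ρ 11) ∘ₗ (av X ρ 10) ∘ₗ (ρ (nc X)⁻¹ : V →ₗ[ℂ] V) ∘ₗ
            (ρ (X.x 5 (-r)) : V →ₗ[ℂ] V)) hg
      rw [map_sum, map_zero] at h2
      have h3 : ∀ s : F, ((∑ u : F, ψ (-(b * u)) • (ρ (X.x 6 u) : V →ₗ[ℂ] V)) ∘ₗ (av X ρ 11) ∘ₗ (av X ρ 10) ∘ₗ (ρ (nc X)⁻¹ : V →ₗ[ℂ] V) ∘ₗ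
            (ρ (X.x 5 (-r)) : V →ₗ[ℂ] V)) (g s • ys s) = (g s * (if s - r = 0 then ((Fintype.card F : ℂ) ^ 3)
        else (-((Fintype.card F : ℂ) * ((Fintype.card F : ℂ) + 1))))) • y0 := by
        intro s
        rw [map_smul, ← hl]
        have h4 : ρ (X.x 5 (-r)) (ys s) = ρ (X.x 5 (s - r)) y := by
          show ρ (X.x 5 (-r)) (ρ (X.x 5 s) y) = _
          rw [← mulap, ← X.add 5 (by norm_num)]
          congr 3
          ring
        rw [h4, hL]
        split_ifs <;> rw [smul_smul]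
      simp only [h3] at h2
      rw [← Finset.sum_smul] at h2
      exact (smul_eq_zero.1 h2).resolve_right hy0
    -- solve the system
    set q : ℂ := (Fintype.card F : ℂ) with hqd
    have h7 : ∀ r : F, (q ^ 3 + q * (q + 1)) * g r = (q * (q + 1)) * ∑ s : F, g s := by
      intro r
      have h8 := hlin r
      have h9 : ∀ s : F, g s * (if s - r = 0 then q ^ 3 else (-(q * (q + 1)))) =
          (if s = r then (q ^ 3 + q * (q + 1)) * g s else 0) - (q * (q + 1)) * g s := by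
        intro s
        by_cases hs : s = r
        · subst hs; simp; ring
        · rw [if_neg (sub_ne_zero.2 hs), if_neg hs]; ring
      simp only [h9] at h8
      rw [Finset.sum_sub_distrib, Finset.sum_ite_eq' Finset.univ r, ← Finset.mul_sum] at h8
      simp only [Finset.mem_univ, if_true] at h8
      linear_combination h8
    have hqpos : (0 : ℝ) < (Fintype.card F : ℝ) := by exact_mod_cast Fintype.card_pos
    have hsum : ∑ s : F, g s = 0 := by
      have h10 : ∑ r : F, (q ^ 3 + q * (q + 1)) * g r = ∑ r : F, (q * (q + 1)) * ∑ s : F, g s :=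
        Finset.sum_congr rfl (fun r _ => h7 r)
      rw [← Finset.mul_sum, Finset.sum_const, Finset.card_univ, ← Nat.cast_smul_eq_nsmul ℂ, smul_eq_mul, ← hqd] at h10
      have h11' : q * ∑ s : F, g s = 0 := by linear_combination h10
      exact (mul_eq_zero.1 h11').resolve_left hq
    intro r
    have h12 := h7 r
    rw [hsum, mul_zero] at h12
    have h13 : q ^ 3 + q * (q + 1) ≠ 0 := by
      have : q ^ 3 + q * (q + 1) = (((Fintype.card F) ^ 3 + (Fintype.card F) * (Fintype.card F + 1) : ℕ) : ℂ) := by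
        rw [hqd]; push_cast; ring
      rw [this]
      have hp : 0 < (Fintype.card F) ^ 3 + (Fintype.card F) * (Fintype.card F + 1) := by
        have := Fintype.card_pos (α := F)
        positivity
      exact_mod_cast hp.ne'
    exact (mul_eq_zero.1 h12).resolve_left h13
  have hind' : LinearIndependent ℂ (fun s : F => (⟨ys s, hysJ s, hysW s⟩ : ↥(J X ψ ρ [(10, 0), (11, z)] ⊓ W))) := by
    apply LinearIndependent.of_comp (J X ψ ρ [(10, 0), (11, z)] ⊓ W).subtype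
    exact hind
  exact hind'.fintype_card_le_finrank

end

end B2s3
end Cfsg.Agent.G2M
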