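import Cfsg.Agent.G2M.Def

set_option autoImplicit false

/-!
# S2338, case B2, step 2: the coefficient `-1/q` (helper24)
-/

namespace Cfsg.Agent.G2M

open Module Finset

namespace B2b

section grp
variable {F G : Type*} [Field F] [Group G] (X : G2G F G)

theorem h_conj_na (s t : Fˣ) : X.na⁻¹ * X.h s t * X.na = X.h s⁻¹ (s ^ 3 * t) := by
  have h := X.na_h s⁻¹ (s ^ 3 * t)
  have e : (s⁻¹ : Fˣ) ^ 3 * (s ^ 3 * t) = t := by
    rw [← mul_assoc, inv_pow, inv_mul_cancel, one_mul]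
  rw [inv_inv, e] at h
  rw [← h]; group

theorem h_conj_nb (s t : Fˣ) : X.nb⁻¹ * X.h s t * X.nb = X.h (s * t) t⁻¹ := by
  have h := X.nb_h (s * t) t⁻¹
  have e : s * t * t⁻¹ = s := by rw [mul_assoc, mul_inv_cancel, mul_one]
  rw [inv_inv, e] at h
  rw [← h]; group

theorem x5rel : ∃ κ : F, (κ = 1 ∨ κ = -1) ∧ ∀ t : F, t ≠ 0 → ∃ s' t' : Fˣ,
    X.x 5 t = X.x 6 (κ * t⁻¹) * (X.h s' t' * X.nb) * X.x 6 (κ * t⁻¹) := by
  obtain ⟨e5, he5, H5⟩ := X.hna 5 (by norm_num)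
  obtain ⟨e6, he6, H6⟩ := X.hna 6 (by norm_num)
  have r5 : ra 5 = 1 := rfl
  have r6 : ra 6 = 10 := rfl
  rw [r5] at H5
  rw [r6] at H6
  have q5 : e5 * e5 = 1 := by rcases he5 with h | h <;> rw [h] <;> norm_num
  have q6 : e6 * e6 = 1 := by rcases he6 with h | h <;> rw [h] <;> norm_num
  have i5 : e5⁻¹ = e5 := inv_eq_of_mul_eq_one_left q5
  have n5 : e5 ≠ 0 := by rintro rfl; simp at q5
  refine ⟨e6 * e5, ?_, ?_⟩
  · rcases he5 with h | h <;> rcases he6 with h' | h' <;> rw [h, h'] <;> norm_num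
  · intro t ht
    obtain ⟨n, hn, s1, t1, hn'⟩ := X.r10 (e5 * t) (mul_ne_zero n5 ht)
    refine ⟨s1⁻¹, s1 ^ 3 * t1, ?_⟩
    have h10 : X.x 10 (e5 * t)⁻¹ = X.na * X.x 6 (e6 * e5 * t⁻¹) * X.na⁻¹ := by
      rw [H6]
      congr 1
      rw [mul_inv, i5, ← mul_assoc, ← mul_assoc, q6, one_mul]
    rw [hn', h10, ← H5 t] at hn
    rw [← h_conj_na]
    have : X.x 5 t = X.na⁻¹ * (X.na * X.x 5 t * X.na⁻¹) * X.na := by group
    rw [this, hn]
    group

/-- roots 5 and 10 commute -/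
theorem comm_5_10 (t u : F) : X.x 5 t * X.x 10 u = X.x 10 u * X.x 5 t := by
  obtain ⟨e6, he6, H6⟩ := X.hnb 6 (by norm_num)
  obtain ⟨e11, he11, H11⟩ := X.hnb 11 (by norm_num)
  have r6 : rb 6 = 5 := rfl
  have r11 : rb 11 = 10 := rfl
  rw [r6] at H6
  rw [r11] at H11
  have q6 : e6 * e6 = 1 := by rcases he6 with h | h <;> rw [h] <;> norm_num
  have q11 : e11 * e11 = 1 := by rcases he11 with h | h <;> rw [h] <;> norm_num
  have h1 : X.x 5 t = X.nb * X.x 6 (e6 * t) * X.nb⁻¹ := by rw [H6, ← mul_assoc, q6, one_mul]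
  have h2 : X.x 10 u = X.nb * X.x 11 (e11 * u) * X.nb⁻¹ := by rw [H11, ← mul_assoc, q11, one_mul]
  have h3 := X.comm 6 11 (by simp) (e6 * t) (e11 * u)
  rw [h1, h2]
  calc X.nb * X.x 6 (e6 * t) * X.nb⁻¹ * (X.nb * X.x 11 (e11 * u) * X.nb⁻¹)
      = X.nb * (X.x 6 (e6 * t) * X.x 11 (e11 * u)) * X.nb⁻¹ := by group
    _ = X.nb * (X.x 11 (e11 * u) * X.x 6 (e6 * t)) * X.nb⁻¹ := by rw [h3]
    _ = _ := by group

end grp

variable {F G : Type*} [Field F] [Group G] {V : Type*} [AddCommGroup V] [Module ℂ V] (X : G2G F G) (ρ : Representation ℂ G V)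

theorem mul_app (g h : G) (v : V) : ρ (g * h) v = ρ g (ρ h v) := by
  rw [map_mul]; rfl

theorem x_zero {r : ℕ} (hr : r < 12) : X.x r 0 = 1 := by
  have h := X.add r hr 0 0
  rw [add_zero] at h
  exact (mul_eq_left (a := X.x r 0)).1 h.symm

/-- `τ` -/
def Tau (v : V) : Prop := (∀ t, ρ (X.x 10 t) v = v) ∧ ∀ t, ρ (X.x 11 t) v = v

theorem tau6 {v : V} (h : Tau X ρ v) (a : F) : Tau X ρ (ρ (X.x 6 a) v) := by
  constructor
  · intro t
    have e := X.c610 a t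
    have e' : X.x 10 t * X.x 6 a = X.x 6 a * (X.x 10 t * X.x 11 (a * t)) := by rw [← e]; group
    rw [← mul_app, e', mul_app, mul_app, h.2, h.1]
  · intro t
    have e := X.comm 6 11 (by simp) a t
    rw [← mul_app, ← e, mul_app, h.2]

theorem tau5 {v : V} (h : Tau X ρ v) (a : F) : Tau X ρ (ρ (X.x 5 a) v) := by
  constructor
  · intro t
    rw [← mul_app, ← comm_5_10, mul_app, h.1]
  · intro t
    obtain ⟨e, _, he⟩ := X.c511 a t
    have e' : X.x 11 t * X.x 5 a = X.x 5 a * (X.x 11 t * X.x 10 (e * a * t)) := by rw [← he]; group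
    rw [← mul_app, e', mul_app, mul_app, h.1, h.2]

theorem taunb {v : V} (h : Tau X ρ v) : Tau X ρ (ρ X.nb v) := by
  constructor
  · intro t
    obtain ⟨e, he, H⟩ := X.hnb 11 (by norm_num)
    have r : rb 11 = 10 := rfl
    rw [r] at H
    have q : e * e = 1 := by rcases he with h | h <;> rw [h] <;> norm_num
    have h1 : X.x 10 t * X.nb = X.nb * X.x 11 (e * t) := by
      have := H (e * t)
      rw [← mul_assoc e, q, one_mul] at this
      rw [← this]; group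
    rw [← mul_app, h1, mul_app, h.2]
  · intro t
    obtain ⟨e, he, H⟩ := X.hnb 10 (by norm_num)
    have r : rb 10 = 11 := rfl
    rw [r] at H
    have q : e * e = 1 := by rcases he with h | h <;> rw [h] <;> norm_num
    have h1 : X.x 11 t * X.nb = X.nb * X.x 10 (e * t) := by
      have := H (e * t)
      rw [← mul_assoc e, q, one_mul] at this
      rw [← this]; group
    rw [← mul_app, h1, mul_app, h.1]

theorem taunb' {v : V} (h : Tau X ρ v) : Tau X ρ (ρ X.nb⁻¹ v) := by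
  constructor
  · intro t
    obtain ⟨e, he, H⟩ := X.hnb 10 (by norm_num)
    have r : rb 10 = 11 := rfl
    rw [r] at H
    have h1 : X.x 10 t * X.nb⁻¹ = X.nb⁻¹ * X.x 11 (e * t) := by
      rw [← H t]; group
    rw [← mul_app, h1, mul_app, h.2]
  · intro t
    obtain ⟨e, he, H⟩ := X.hnb 11 (by norm_num)
    have r : rb 11 = 10 := rfl
    rw [r] at H
    have h1 : X.x 11 t * X.nb⁻¹ = X.nb⁻¹ * X.x 10 (e * t) := by
      rw [← H t]; group
    rw [← mul_app, h1, mul_app, h.1]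

end B2b

open B2b in
theorem b2_alpha {F G : Type*} [Field F] [Fintype F] [Group G] {V : Type*} [AddCommGroup V] [Module ℂ V]
    (X : G2G F G) (ρ : Representation ℂ G V) {v : V} (hv0 : v ≠ 0)
    (h6 : ∀ t, ρ (X.x 6 t) v = v) (h10 : ∀ t, ρ (X.x 10 t) v = v) (h11 : ∀ t, ρ (X.x 11 t) v = v)
    (hline : ∀ w, (∀ t, ρ (X.x 6 t) w = w) → (∀ t, ρ (X.x 10 t) w = w) → (∀ t, ρ (X.x 11 t) w = w) → ∃ c : ℂ, w = c • v)
    (hh : ∀ s t, ∃ c : ℂ, ρ (X.h s t) v = c • v) (hnb : ∀ c : ℂ, ρ X.nb v ≠ c • v) :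
    ∀ t : F, t ≠ 0 → ∑ u : F, ρ (X.x 6 u) (ρ (X.x 5 t) v) = - v := by
  classical
  obtain ⟨κ, hκ, hrel⟩ := x5rel X
  have κκ : κ * κ = 1 := by rcases hκ with h | h <;> rw [h] <;> norm_num
  have κ0 : κ ≠ 0 := by rintro rfl; simp at κκ
  have hτ : Tau X ρ v := ⟨h10, h11⟩
  have hτn := taunb X ρ hτ
  -- the averaging operator
  let A : V → V := fun w => ∑ u : F, ρ (X.x 6 u) w
  have A6 : ∀ a w, A (ρ (X.x 6 a) w) = A w := by
    intro a w
    show ∑ u : F, ρ (X.x 6 u) (ρ (X.x 6 a) w) = ∑ u : F, ρ (X.x 6 u) w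
    rw [← Equiv.sum_comp (Equiv.addRight a) (fun u => ρ (X.x 6 u) w)]
    refine Finset.sum_congr rfl fun u _ => ?_
    rw [← mul_app, ← X.add 6 (by norm_num)]
    rfl
  have A6' : ∀ a w, ρ (X.x 6 a) (A w) = A w := by
    intro a w
    show ρ (X.x 6 a) (∑ u : F, ρ (X.x 6 u) w) = ∑ u : F, ρ (X.x 6 u) w
    rw [map_sum, ← Equiv.sum_comp (Equiv.addLeft a) (fun u => ρ (X.x 6 u) w)]
    refine Finset.sum_congr rfl fun u _ => ?_
    rw [← mul_app, ← X.add 6 (by norm_num)]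
    rfl
  have Aτ : ∀ w, Tau X ρ w → Tau X ρ (A w) := by
    intro w hw
    constructor
    · intro t
      show ρ (X.x 10 t) (∑ u : F, ρ (X.x 6 u) w) = ∑ u : F, ρ (X.x 6 u) w
      rw [map_sum]
      exact Finset.sum_congr rfl fun u _ => (tau6 X ρ hw u).1 t
    · intro t
      show ρ (X.x 11 t) (∑ u : F, ρ (X.x 6 u) w) = ∑ u : F, ρ (X.x 6 u) w
      rw [map_sum]
      exact Finset.sum_congr rfl fun u _ => (tau6 X ρ hw u).2 t
  have Aline : ∀ w, Tau X ρ w → ∃ c : ℂ, A w = c • v := by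
    intro w hw
    exact hline _ (fun t => A6' t w) (Aτ w hw).1 (Aτ w hw).2
  have Asm : ∀ (c : ℂ) w, A (c • w) = c • A w := by
    intro c w
    show ∑ u : F, ρ (X.x 6 u) (c • w) = c • ∑ u : F, ρ (X.x 6 u) w
    rw [Finset.smul_sum]
    exact Finset.sum_congr rfl fun u _ => map_smul _ _ _
  have Av : A v = (Fintype.card F : ℂ) • v := by
    show ∑ u : F, ρ (X.x 6 u) v = (Fintype.card F : ℂ) • v
    rw [Finset.sum_congr rfl fun u _ => h6 u, Finset.sum_const, Finset.card_univ, Nat.cast_smul_eq_nsmul]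
  -- x 5 t v
  have hc : ∀ t : F, t ≠ 0 → ∃ c : ℂ, ρ (X.x 5 t) v = c • ρ (X.x 6 (κ * t⁻¹)) (ρ X.nb v) := by
    intro t ht
    obtain ⟨s', t', hx⟩ := hrel t ht
    obtain ⟨c, hc⟩ := hh (s' * t') t'⁻¹
    refine ⟨c, ?_⟩
    rw [← h_conj_nb] at hc
    have e : X.x 5 t = X.x 6 (κ * t⁻¹) * (X.nb * (X.nb⁻¹ * X.h s' t' * X.nb)) * X.x 6 (κ * t⁻¹) := by
      rw [hx]; group
    rw [e, mul_app, mul_app, mul_app, h6, hc, map_smul, map_smul]
  choose! c hc using hc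
  obtain ⟨g, hg⟩ := Aline _ hτn
  have hA5 : ∀ t : F, t ≠ 0 → A (ρ (X.x 5 t) v) = (c t * g) • v := by
    intro t ht
    rw [hc t ht, Asm, A6, hg, smul_smul]
  -- torus
  have hconst : ∀ t : F, t ≠ 0 → c t * g = c 1 * g := by
    intro t ht
    let τ : Fˣ := (Units.mk0 t ht)⁻¹
    obtain ⟨l, hl⟩ := hh 1 τ
    have hl0 : l ≠ 0 := by
      rintro rfl
      rw [zero_smul] at hl
      apply hv0
      have : ρ (X.h 1 τ)⁻¹ (ρ (X.h 1 τ) v) = v := by
        rw [← mul_app, inv_mul_cancel, map_one]; rfl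
      rw [← this, hl, map_zero]
    have t5 := X.tor 1 τ 5 (by norm_num) 1
    have t6 := fun u => X.tor 1 τ 6 (by norm_num) u
    have k5 : ((((1 : Fˣ) ^ (ca 5) * τ ^ (cb 5) : Fˣ) : F) * 1) = t := by
      have : cb 5 = -1 := rfl
      rw [this, one_zpow, one_mul, zpow_neg_one, inv_inv, mul_one]
      rfl
    have k6 : ∀ u : F, ((((1 : Fˣ) ^ (ca 6) * τ ^ (cb 6) : Fˣ) : F) * u) = t⁻¹ * u := by
      intro u
      have : cb 6 = 1 := rfl
      rw [this, one_zpow, one_mul, zpow_one]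
      rfl
    rw [k5] at t5
    have e1 : ∀ u : F, X.x 6 u * X.h 1 τ = X.h 1 τ * X.x 6 (t * u) := by
      intro u
      have := t6 (t * u)
      rw [k6, ← mul_assoc, inv_mul_cancel₀ ht, one_mul] at this
      rw [← this]; group
    have e2 : l • ρ (X.x 5 t) v = ρ (X.h 1 τ) (ρ (X.x 5 1) v) := by
      rw [← map_smul, ← hl, ← mul_app, ← mul_app, ← t5]
      congr 2
      group
    have e3 : A (ρ (X.h 1 τ) (ρ (X.x 5 1) v)) = ρ (X.h 1 τ) (A (ρ (X.x 5 1) v)) := by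
      show ∑ u : F, ρ (X.x 6 u) (ρ (X.h 1 τ) (ρ (X.x 5 1) v)) = ρ (X.h 1 τ) (∑ u : F, ρ (X.x 6 u) (ρ (X.x 5 1) v))
      rw [map_sum, ← Equiv.sum_comp (Equiv.mulLeft₀ t ht) (fun u => ρ (X.h 1 τ) (ρ (X.x 6 u) (ρ (X.x 5 1) v)))]
      refine Finset.sum_congr rfl fun u _ => ?_
      rw [← mul_app, e1, mul_app]
      rfl
    have e4 : (l * (c t * g)) • v = (l * (c 1 * g)) • v := by
      rw [← smul_smul, ← hA5 t ht, ← Asm, e2, e3, hA5 1 one_ne_zero, map_smul, hl, smul_smul, mul_comm]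
    have e5 := smul_left_injective ℂ hv0 e4
    exact mul_left_cancel₀ hl0 e5
  -- sum over X_5
  let B : V := ∑ t : F, ρ (X.x 5 t) v
  have hB5 : ∀ a, ρ (X.x 5 a) B = B := by
    intro a
    show ρ (X.x 5 a) (∑ t : F, ρ (X.x 5 t) v) = ∑ t : F, ρ (X.x 5 t) v
    rw [map_sum, ← Equiv.sum_comp (Equiv.addLeft a) (fun u => ρ (X.x 5 u) v)]
    refine Finset.sum_congr rfl fun u _ => ?_
    rw [← mul_app, ← X.add 5 (by norm_num)]
    rfl
  have hBτ : Tau X ρ B := by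
    constructor
    · intro t
      show ρ (X.x 10 t) (∑ u : F, ρ (X.x 5 u) v) = ∑ u : F, ρ (X.x 5 u) v
      rw [map_sum]
      exact Finset.sum_congr rfl fun u _ => (tau5 X ρ hτ u).1 t
    · intro t
      show ρ (X.x 11 t) (∑ u : F, ρ (X.x 5 u) v) = ∑ u : F, ρ (X.x 5 u) v
      rw [map_sum]
      exact Finset.sum_congr rfl fun u _ => (tau5 X ρ hτ u).2 t
  obtain ⟨k, hk⟩ : ∃ k : ℂ, B = k • ρ X.nb v := by
    obtain ⟨k, hk⟩ := hline (ρ X.nb⁻¹ B) (by
      intro t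
      obtain ⟨e, he, H⟩ := X.hnb 6 (by norm_num)
      have r : rb 6 = 5 := rfl
      rw [r] at H
      have h1 : X.x 6 t * X.nb⁻¹ = X.nb⁻¹ * X.x 5 (e * t) := by
        rw [← H t]; group
      rw [← mul_app, h1, mul_app, hB5]) (taunb' X ρ hBτ).1 (taunb' X ρ hBτ).2
    refine ⟨k, ?_⟩
    rw [← map_smul, ← hk, ← mul_app, mul_inv_cancel, map_one]
    rfl
  have hBe : B = v + ∑ t ∈ Finset.univ.erase (0 : F), ρ (X.x 5 t) v := by
    show ∑ t : F, ρ (X.x 5 t) v = _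
    rw [← Finset.add_sum_erase _ _ (Finset.mem_univ (0 : F)), x_zero X (by norm_num), map_one]
    rfl
  have Aadd : ∀ w w', A (w + w') = A w + A w' := by
    intro w w'
    show ∑ u : F, ρ (X.x 6 u) (w + w') = ∑ u : F, ρ (X.x 6 u) w + ∑ u : F, ρ (X.x 6 u) w'
    rw [← Finset.sum_add_distrib]
    exact Finset.sum_congr rfl fun u _ => map_add _ _ _
  have Asum : ∀ (s : Finset F) (f : F → V), A (∑ t ∈ s, f t) = ∑ t ∈ s, A (f t) := by
    intro s f
    show ∑ u : F, ρ (X.x 6 u) (∑ t ∈ s, f t) = ∑ t ∈ s, ∑ u : F, ρ (X.x 6 u) (f t)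
    rw [Finset.sum_comm]
    exact Finset.sum_congr rfl fun u _ => map_sum _ _ _
  have hcard : ((Finset.univ.erase (0 : F)).card : ℂ) = (Fintype.card F : ℂ) - 1 := by
    rw [Finset.card_erase_of_mem (Finset.mem_univ _), Finset.card_univ, Nat.cast_sub Fintype.card_pos]
    simp
  have key : k * g = (Fintype.card F : ℂ) + ((Fintype.card F : ℂ) - 1) * (c 1 * g) := by
    have h1 : A B = (k * g) • v := by rw [hk, Asm, hg, smul_smul]
    have h2 : A B = ((Fintype.card F : ℂ) + ((Fintype.card F : ℂ) - 1) * (c 1 * g)) • v := by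
      rw [hBe, Aadd, Av, Asum]
      rw [Finset.sum_congr rfl (g := fun _ => (c 1 * g) • v)
        (fun t ht => by rw [hA5 t (Finset.ne_of_mem_erase ht), hconst t (Finset.ne_of_mem_erase ht)])]
      rw [Finset.sum_const, ← Nat.cast_smul_eq_nsmul ℂ, hcard, smul_smul, ← add_smul]
    exact smul_left_injective ℂ hv0 (h1.symm.trans h2)
  have hq0 : (Fintype.card F : ℂ) ≠ 0 := by exact_mod_cast Fintype.card_ne_zero
  have hg0 : g ≠ 0 := by
    rintro rfl
    rw [mul_zero, mul_zero, mul_zero, add_zero] at key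
    exact hq0 key.symm
  have hct : ∀ t : F, t ≠ 0 → c t = c 1 := fun t ht => mul_right_cancel₀ hg0 (hconst t ht)
  -- second evaluation
  have hB2 : B = v + c 1 • (A (ρ X.nb v) - ρ X.nb v) := by
    rw [hBe]
    congr 1
    rw [Finset.sum_congr rfl (g := fun t => c 1 • ρ (X.x 6 (κ * t⁻¹)) (ρ X.nb v))
      (fun t ht => by rw [hc t (Finset.ne_of_mem_erase ht), hct t (Finset.ne_of_mem_erase ht)])]
    rw [← Finset.smul_sum]
    congr 1
    have e : A (ρ X.nb v) = ρ X.nb v + ∑ u ∈ Finset.univ.erase (0 : F), ρ (X.x 6 u) (ρ X.nb v) := by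
      show ∑ t : F, ρ (X.x 6 t) (ρ X.nb v) = _
      rw [← Finset.add_sum_erase _ _ (Finset.mem_univ (0 : F)), x_zero X (by norm_num), map_one]
      rfl
    rw [e, add_sub_cancel_left]
    refine Finset.sum_bij (fun t _ => κ * t⁻¹) ?_ ?_ ?_ ?_
    · intro t ht
      exact Finset.mem_erase.2 ⟨mul_ne_zero κ0 (inv_ne_zero (Finset.ne_of_mem_erase ht)), Finset.mem_univ _⟩
    · intro t _ t' _ h
      exact inv_injective (mul_left_cancel₀ κ0 h)
    · intro u hu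
      refine ⟨κ * u⁻¹, Finset.mem_erase.2 ⟨mul_ne_zero κ0 (inv_ne_zero (Finset.ne_of_mem_erase hu)), Finset.mem_univ _⟩, ?_⟩
      have i : κ⁻¹ = κ := inv_eq_of_mul_eq_one_left κκ
      rw [mul_inv, inv_inv, i, ← mul_assoc, κκ, one_mul]
    · intro t _; rfl
  have h3 : (k + c 1) • ρ X.nb v = (1 + c 1 * g) • v := by
    have e := hk.symm.trans hB2
    rw [hg, smul_sub, smul_smul] at e
    rw [add_smul, e, add_smul, one_smul]
    abel
  have h4 : k + c 1 = 0 := by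
    by_contra hne
    apply hnb ((k + c 1)⁻¹ * (1 + c 1 * g))
    rw [← smul_smul, ← h3, smul_smul, inv_mul_cancel₀ hne, one_smul]
  rw [h4, zero_smul] at h3
  have h5 : 1 + c 1 * g = 0 := by
    rcases smul_eq_zero.1 h3.symm with h | h
    · exact h
    · exact absurd h hv0
  intro t ht
  show A (ρ (X.x 5 t) v) = - v
  rw [hA5 t ht, hconst t ht, eq_neg_of_add_eq_zero_right h5, neg_smul, one_smul]

end Cfsg.Agent.G2M
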