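import Cfsg.Agent.G2M.Def

set_option autoImplicit false
set_option linter.unusedSectionVars false

/-! S2338, piece B2: the end. -/

namespace Cfsg.Agent.G2M

open Module Finset

variable {F G : Type*} [Field F] [Fintype F] [DecidableEq F] [Group G] {V : Type*} [AddCommGroup V] [Module ℂ V]
  (X : G2G F G) {ψ : AddChar F ℂ} (ρ : Representation ℂ G V)

theorem e_cons {s : ℕ} {c : F} {l : List (ℕ × F)} {v : V} :
    v ∈ J X ψ ρ ((s, c) :: l) ↔ (∀ t, ρ (X.x s t) v = ψ (c * t) • v) ∧ v ∈ J X ψ ρ l := by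
  constructor
  · intro h
    exact ⟨fun t => h (s, c) (List.mem_cons_self ..) t, fun p hp => h p (List.mem_cons_of_mem _ hp)⟩
  · rintro ⟨h1, h2⟩ p hp t
    rcases List.mem_cons.1 hp with rfl | hp
    · exact h1 t
    · exact h2 p hp t

theorem e_nil {v : V} : v ∈ J X ψ ρ ([] : List (ℕ × F)) := by
  intro p hp
  exact absurd hp (List.not_mem_nil)

theorem J_le_of (hψ : ψ ≠ 0) {s : ℕ} (hs : s < 12) (l : List (ℕ × F)) (hst : ∀ t, ∀ v ∈ J X ψ ρ l, ρ (X.x s t) v ∈ J X ψ ρ l)
    (W : Submodule ℂ V) (h : ∀ c, J X ψ ρ ((s, c) :: l) ≤ W) : J X ψ ρ l ≤ W := by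
  have hprim : ψ.IsPrimitive := AddChar.IsPrimitive.of_ne_one hψ
  have hq : (Fintype.card F : ℂ) ≠ 0 := by
    exact_mod_cast Fintype.card_ne_zero
  have hx0 : X.x s 0 = 1 := by
    have h := X.add s hs 0 0
    rw [add_zero] at h
    exact (mul_eq_left.1 h.symm)
  -- the projections
  let e : F → V → V := fun c v => (Fintype.card F : ℂ)⁻¹ • ∑ t : F, ψ (-(c * t)) • ρ (X.x s t) v
  have he1 : ∀ c, ∀ v ∈ J X ψ ρ l, e c v ∈ J X ψ ρ ((s, c) :: l) := by
    intro c v hv
    rw [e_cons]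
    constructor
    · intro u
      show ρ (X.x s u) ((Fintype.card F : ℂ)⁻¹ • ∑ t : F, ψ (-(c * t)) • ρ (X.x s t) v) =
        ψ (c * u) • ((Fintype.card F : ℂ)⁻¹ • ∑ t : F, ψ (-(c * t)) • ρ (X.x s t) v)
      rw [map_smul, map_sum, smul_comm (ψ (c * u)), Finset.smul_sum (r := ψ (c * u))]
      congr 1
      refine Fintype.sum_equiv (Equiv.addLeft u) _ _ fun t => ?_
      show ρ (X.x s u) (ψ (-(c * t)) • ρ (X.x s t) v) = ψ (c * u) • ψ (-(c * (u + t))) • ρ (X.x s (u + t)) v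
      rw [map_smul, X.add s hs, map_mul ρ, smul_smul, ← AddChar.map_add_eq_mul]
      have : c * u + -(c * (u + t)) = -(c * t) := by ring
      rw [this]; rfl
    · show (Fintype.card F : ℂ)⁻¹ • ∑ t : F, ψ (-(c * t)) • ρ (X.x s t) v ∈ J X ψ ρ l
      exact Submodule.smul_mem _ _ (Submodule.sum_mem _ fun t _ => Submodule.smul_mem _ _ (hst t v hv))
  have he3 : ∀ v, ∑ c : F, e c v = v := by
    intro v
    show ∑ c : F, (Fintype.card F : ℂ)⁻¹ • ∑ t : F, ψ (-(c * t)) • ρ (X.x s t) v = v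
    rw [← Finset.smul_sum, Finset.sum_comm]
    have h2 : ∀ t : F, ∑ c : F, ψ (-(c * t)) • ρ (X.x s t) v = (if t = 0 then (Fintype.card F : ℂ) else 0) • ρ (X.x s t) v := by
      intro t
      rw [← Finset.sum_smul]
      congr 1
      have h3 := AddChar.sum_mulShift (-t) hprim
      have h4 : ∀ c : F, ψ (-(c * t)) = ψ (c * -t) := fun c => by congr 1; ring
      rw [Finset.sum_congr rfl fun c _ => h4 c, h3]
      by_cases ht : t = 0
      · rw [if_pos ht, if_pos (by rw [ht, neg_zero])]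
      · rw [if_neg ht, if_neg (neg_ne_zero.2 ht)]; simp
    rw [Finset.sum_congr rfl fun t _ => h2 t, Finset.sum_eq_single (0 : F)]
    · rw [if_pos rfl, hx0, map_one, smul_smul, inv_mul_cancel₀ hq, one_smul]; rfl
    · intro t _ ht
      rw [if_neg ht, zero_smul]
    · intro h; exact absurd (Finset.mem_univ _) h
  intro v hv
  rw [← he3 v]
  exact Submodule.sum_mem _ fun c _ => h c (he1 c v hv)

/-- `g` conjugates `a` to `b`: `ρ g (ρ a v) = ρ b (ρ g v)` -/
theorem conj_act {g a b : G} (h : g * a * g⁻¹ = b) (v : V) : ρ g (ρ a v) = ρ b (ρ g v) := by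
  have h1 : g * a = b * g := by rw [← h]; group
  have h2 := congrArg (fun y => ρ y v) h1
  simpa only [map_mul, Module.End.mul_apply] using h2

theorem comm_act {a b : G} (h : a * b = b * a) (v : V) : ρ a (ρ b v) = ρ b (ρ a v) := by
  have h2 := congrArg (fun y => ρ y v) h
  simpa only [map_mul, Module.End.mul_apply] using h2

/-- torus element `h w 1` commutes with the elements of the roots 6, 10, 11, ... -/
theorem z0_comm (w : Fˣ) (hw : (w : F) ^ 3 = 1) {r : ℕ} (hr : r ∈ [0, 1, 5, 6, 10, 11]) (u : F) (v : V) :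
    ρ (X.h w 1) (ρ (X.x r u) v) = ρ (X.x r u) (ρ (X.h w 1) v) := by
  have hw' : w ^ 3 = 1 := by
    apply Units.ext; simpa using hw
  have hr12 : r < 12 := by
    simp only [List.mem_cons, List.not_mem_nil, or_false] at hr
    omega
  have h1 := X.tor w 1 r hr12 u
  have h2 : w ^ (ca r) = 1 := by
    simp only [List.mem_cons, List.not_mem_nil, or_false] at hr
    have h3 : w ^ (3 : ℤ) = 1 := by exact_mod_cast hw'
    have h4 : w ^ (-3 : ℤ) = 1 := by rw [zpow_neg, h3, inv_one]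
    rcases hr with rfl | rfl | rfl | rfl | rfl | rfl
    · exact h4
    · exact h4
    · exact zpow_zero w
    · exact zpow_zero w
    · exact h3
    · exact h3
  rw [h2, one_zpow, one_mul, Units.val_one, one_mul] at h1
  exact conj_act ρ h1 v

theorem end0 [FiniteDimensional ℂ V] (hψ : ψ ≠ 0) (w : Fˣ) (hw : (w : F) ^ 3 = 1) (hw1 : (w : F) ≠ 1) {z : F} (hz0 : z ≠ 0)
    (hz : ∀ d, dj X ψ ρ [(9, d), (11, z)] = Fintype.card F)
    (hJ : ∀ v ∈ J X ψ ρ [(10, 0), (11, z)], ρ (X.h w 1) v = v) : False := by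
  have hprim : ψ.IsPrimitive := AddChar.IsPrimitive.of_ne_one hψ
  -- the fixed space of z0
  let W : Submodule ℂ V := LinearMap.ker (ρ (X.h w 1) - 1)
  have hW : ∀ v, v ∈ W ↔ ρ (X.h w 1) v = v := by
    intro v
    show (ρ (X.h w 1) - 1) v = 0 ↔ _
    rw [LinearMap.sub_apply, sub_eq_zero]; rfl
  -- all of J [(11, z)] is in W
  have h1 : J X ψ ρ [(11, z)] ≤ W := by
    refine J_le_of X ρ hψ (s := 10) (by norm_num) _ ?_ W ?_
    · intro t v hv
      rw [e_cons] at hv ⊢
      refine ⟨fun u => ?_, e_nil X ρ⟩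
      rw [← comm_act ρ (X.comm 10 11 (by simp) t u) v, hv.1 u, map_smul]
    · intro e v hv
      rw [e_cons, e_cons] at hv
      obtain ⟨h10, h11, -⟩ := hv
      rw [hW]
      have h2 : ρ (X.x 6 (-e / z)) v ∈ J X ψ ρ [(10, 0), (11, z)] := by
        rw [e_cons, e_cons]
        refine ⟨fun u => ?_, fun u => ?_, e_nil X ρ⟩
        · have h3 := X.c610 (-e / z) u
          have h4 : X.x 10 u * X.x 6 (-e / z) = X.x 6 (-e / z) * (X.x 10 u * X.x 11 (-e / z * u)) := by
            rw [← h3]; group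
          have h5 := congrArg (fun y => ρ y v) h4
          simp only [map_mul] at h5
          have h6 : ρ (X.x 10 u) (ρ (X.x 6 (-e / z)) v) = ρ (X.x 6 (-e / z)) (ρ (X.x 10 u) (ρ (X.x 11 (-e / z * u)) v)) := h5
          rw [h6, h11, map_smul, h10, map_smul, map_smul, smul_smul, ← AddChar.map_add_eq_mul]
          have h7 : z * (-e / z * u) + e * u = 0 * u := by field_simp; ring
          rw [h7]
        · rw [← comm_act ρ (X.comm 6 11 (by simp) _ u) v, h11, map_smul]
      have h3 := hJ _ h2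
      rw [z0_comm X ρ w hw (by simp)] at h3
      have h4 : ∀ x y : V, ρ (X.x 6 (-e / z)) x = ρ (X.x 6 (-e / z)) y → x = y := by
        intro x y hxy
        have h5 := congrArg (ρ (X.x 6 (-e / z))⁻¹) hxy
        have h6 : ∀ x : V, ρ (X.x 6 (-e / z))⁻¹ (ρ (X.x 6 (-e / z)) x) = x := by
          intro x
          have : (ρ ((X.x 6 (-e / z))⁻¹ * (X.x 6 (-e / z)))) x = x := by
            rw [inv_mul_cancel, map_one]; rfl
          rwa [map_mul] at this
        rwa [h6, h6] at h5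
      exact h4 _ _ h3
  -- a vector with a nontrivial X_9 character
  have h2 : 0 < finrank ℂ (J X ψ ρ [(9, 1), (11, z)]) := by
    have := hz 1
    unfold dj at this
    rw [this]
    exact Fintype.card_pos
  obtain ⟨v, hv⟩ := Module.finrank_pos_iff_exists_ne_zero.1 h2
  obtain ⟨v, hvJ⟩ := v
  have hv0 : v ≠ 0 := fun h => hv (Subtype.ext h)
  rw [e_cons] at hvJ
  have hvW := (hW v).1 (h1 hvJ.2)
  have h3 : ∀ u, ψ (1 * u) = ψ (1 * (((w ^ (ca 9) * 1 ^ (cb 9) : Fˣ) : F) * u)) := by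
    intro u
    have h4 := conj_act ρ (X.tor w 1 9 (by norm_num) u) v
    rw [hvJ.1, map_smul, hvW, hvJ.1] at h4
    exact smul_left_injective ℂ hv0 h4
  have hca : ca 9 = 2 := rfl
  rw [hca, one_zpow, mul_one] at h3
  have h5 : ∀ u : F, ψ ((1 - (w : F) ^ 2) * u) = 1 := by
    intro u
    have h6 := h3 u
    have h7 : (1 - (w : F) ^ 2) * u = 1 * u - 1 * (((w ^ (2 : ℤ) : Fˣ) : F) * u) := by
      push_cast
      have : (w : F) ^ (2 : ℤ) = (w : F) ^ 2 := by norm_cast
      rw [this]; ring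
    rw [h7, AddChar.map_sub_eq_div, ← h6]
    exact div_self (AddChar.val_isUnit ψ _).ne_zero
  have h6 : (1 - (w : F) ^ 2) = 0 := by
    by_contra hne
    have h7 := hprim hne
    apply h7
    ext u
    rw [AddChar.mulShift_apply, h5 u]; rfl
  apply hw1
  have h7 : (w : F) ^ 2 = 1 := (sub_eq_zero.1 h6).symm
  calc (w : F) = (w : F) * (w : F) ^ 2 := by rw [h7, mul_one]
    _ = (w : F) ^ 3 := by ring
    _ = 1 := hw

end Cfsg.Agent.G2M
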