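import Cfsg.Agent.G2M.B2a
import Cfsg.Agent.G2M.B2b
import Cfsg.Agent.G2M.B2e

set_option autoImplicit false
set_option linter.unusedSectionVars false

/-! S2338, piece B2: tau is contained in the fixed space. -/

namespace Cfsg.Agent.G2M

open Module Finset Cfsg.Agent.G2M.B2b

variable {F G : Type*} [Field F] [Fintype F] [DecidableEq F] [Group G] {V : Type*} [AddCommGroup V] [Module ℂ V] [FiniteDimensional ℂ V]
  (X : G2G F G) {ψ : AddChar F ℂ} (ρ : Representation ℂ G V)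

theorem tau_le (hψ : ψ ≠ 0) {v : V} (h10 : ∀ t, ρ (X.x 10 t) v = v) (h11 : ∀ t, ρ (X.x 11 t) v = v)
    (hline' : ∀ y, (∀ t, ρ (X.x 6 t) y = y) → (∀ t, ρ (X.x 10 t) y = y) → (∀ t, ρ (X.x 11 t) y = y) → ∃ c : ℂ, y = c • v)
    (hh : ∀ s t, ∃ c : ℂ, c ≠ 0 ∧ ρ (X.h s t) v = c • v) (hnb : ∀ c : ℂ, ρ X.nb v ≠ c • v)
    (h1 : ∀ b, b ≠ 0 → dj X ψ ρ [(6, b), (10, 0), (11, 0)] = 1)
    (W : Submodule ℂ V) (hv : v ∈ W) (hW6 : ∀ t, ∀ y ∈ W, ρ (X.x 6 t) y ∈ W) (hWnb : ∀ y ∈ W, ρ X.nb y ∈ W) :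
    J X ψ ρ [(10, 0), (11, 0)] ≤ W := by
  have hprim : ψ.IsPrimitive := AddChar.IsPrimitive.of_ne_one hψ
  have hq : (Fintype.card F : ℂ) ≠ 0 := by
    exact_mod_cast Fintype.card_ne_zero
  have hx0 : X.x 6 0 = 1 := by
    have h := X.add 6 (by norm_num) 0 0
    rw [add_zero] at h
    exact (mul_eq_left.1 h.symm)
  have hτ : Tau X ρ (ρ X.nb v) := taunb X ρ ⟨h10, h11⟩
  let P : F → V → V := fun b y => ∑ t : F, ψ (-(b * t)) • ρ (X.x 6 t) y
  have hPJ : ∀ b y, Tau X ρ y → P b y ∈ J X ψ ρ [(6, b), (10, 0), (11, 0)] := by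
    intro b y hy
    rw [e_cons, e_cons, e_cons]
    refine ⟨fun u => ?_, fun u => ?_, fun u => ?_, e_nil X ρ⟩
    · show ρ (X.x 6 u) (∑ t : F, ψ (-(b * t)) • ρ (X.x 6 t) y) = ψ (b * u) • (∑ t : F, ψ (-(b * t)) • ρ (X.x 6 t) y)
      rw [map_sum, Finset.smul_sum (r := ψ (b * u))]
      refine Fintype.sum_equiv (Equiv.addLeft u) _ _ fun t => ?_
      show ρ (X.x 6 u) (ψ (-(b * t)) • ρ (X.x 6 t) y) = ψ (b * u) • ψ (-(b * (u + t))) • ρ (X.x 6 (u + t)) y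
      rw [map_smul, X.add 6 (by norm_num), map_mul ρ, smul_smul, ← AddChar.map_add_eq_mul]
      have : b * u + -(b * (u + t)) = -(b * t) := by ring
      rw [this]; rfl
    · show ρ (X.x 10 u) (∑ t : F, ψ (-(b * t)) • ρ (X.x 6 t) y) = ψ (0 * u) • (∑ t : F, ψ (-(b * t)) • ρ (X.x 6 t) y)
      rw [zero_mul, AddChar.map_zero_eq_one, one_smul, map_sum]
      refine Finset.sum_congr rfl fun t _ => ?_
      rw [map_smul, (tau6 X ρ hy t).1 u]
    · show ρ (X.x 11 u) (∑ t : F, ψ (-(b * t)) • ρ (X.x 6 t) y) = ψ (0 * u) • (∑ t : F, ψ (-(b * t)) • ρ (X.x 6 t) y)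
      rw [zero_mul, AddChar.map_zero_eq_one, one_smul, map_sum]
      refine Finset.sum_congr rfl fun t _ => ?_
      rw [map_smul, (tau6 X ρ hy t).2 u]
  have hPsum : ∀ y, ∑ b : F, P b y = (Fintype.card F : ℂ) • y := by
    intro y
    show ∑ b : F, ∑ t : F, ψ (-(b * t)) • ρ (X.x 6 t) y = _
    rw [Finset.sum_comm]
    have h2 : ∀ t : F, ∑ c : F, ψ (-(c * t)) • ρ (X.x 6 t) y = (if t = 0 then (Fintype.card F : ℂ) else 0) • ρ (X.x 6 t) y := by
      intro t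
      rw [← Finset.sum_smul]
      congr 1
      have h3 := AddChar.sum_mulShift (-t) hprim
      have h4 : ∀ c : F, ψ (-(c * t)) = ψ (c * -t) := fun c => by congr 1; ring
      rw [Finset.sum_congr rfl fun c _ => h4 c, h3]
      by_cases ht : t = 0
      · rw [if_pos ht, if_pos (by rw [ht, neg_zero])]
      · rw [if_neg ht, if_neg (neg_ne_zero.2 ht)]; simp
    rw [Finset.sum_congr rfl fun t _ => h2 t, Finset.sum_eq_single (0 : F)]
    · rw [if_pos rfl, hx0, map_one]; rfl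
    · intro t _ ht
      rw [if_neg ht, zero_smul]
    · intro h; exact absurd (Finset.mem_univ _) h
  have hPW : ∀ b, P b (ρ X.nb v) ∈ W := by
    intro b
    exact Submodule.sum_mem _ fun t _ => Submodule.smul_mem _ _ (hW6 t _ (hWnb v hv))
  -- torus: vanishing of one is vanishing of all
  have htor : ∀ (s : Fˣ) b, P b (ρ X.nb v) = 0 → P (b * (s : F)) (ρ X.nb v) = 0 := by
    intro s b hb
    have e1 : ∀ u : F, ρ (X.h 1 s⁻¹) (ρ (X.x 6 u) (ρ X.nb v)) = ρ (X.x 6 ((s : F)⁻¹ * u)) (ρ (X.h 1 s⁻¹) (ρ X.nb v)) := by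
      intro u
      have h2 := conj_act ρ (X.tor 1 s⁻¹ 6 (by norm_num) u) (ρ X.nb v)
      have h3 : (((1 : Fˣ) ^ (ca 6) * (s⁻¹) ^ (cb 6) : Fˣ) : F) = (s : F)⁻¹ := by
        have h4 : ca 6 = 0 := rfl
        have h5 : cb 6 = 1 := rfl
        rw [h4, h5, zpow_zero, zpow_one, one_mul, Units.val_inv_eq_inv_val]
      rw [h3] at h2
      exact h2
    have e2 : ∃ c : ℂ, c ≠ 0 ∧ ρ (X.h 1 s⁻¹) (ρ X.nb v) = c • ρ X.nb v := by
      obtain ⟨c, hc0, hc⟩ := hh (1 * s⁻¹) (s⁻¹)⁻¹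
      refine ⟨c, hc0, ?_⟩
      have h2 := h_conj_nb X 1 s⁻¹
      have h3 : X.nb * X.h (1 * s⁻¹) (s⁻¹)⁻¹ * X.nb⁻¹ = X.h 1 s⁻¹ := by rw [← h2]; group
      have h4 := conj_act ρ h3 v
      rw [← h4, hc, map_smul]
    obtain ⟨c, hc0, hc⟩ := e2
    have h2 := congrArg (ρ (X.h 1 s⁻¹)) hb
    rw [map_zero] at h2
    have h3 : ρ (X.h 1 s⁻¹) (P b (ρ X.nb v)) = c • P (b * (s : F)) (ρ X.nb v) := by
      show ρ (X.h 1 s⁻¹) (∑ t : F, ψ (-(b * t)) • ρ (X.x 6 t) (ρ X.nb v)) =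
        c • ∑ t : F, ψ (-(b * (s : F) * t)) • ρ (X.x 6 t) (ρ X.nb v)
      rw [map_sum, Finset.smul_sum (r := c)]
      refine Fintype.sum_equiv (Equiv.mulLeft₀ ((s : F)⁻¹) (inv_ne_zero s.ne_zero)) _ _ fun t => ?_
      show ρ (X.h 1 s⁻¹) (ψ (-(b * t)) • ρ (X.x 6 t) (ρ X.nb v)) =
        c • ψ (-(b * (s : F) * ((s : F)⁻¹ * t))) • ρ (X.x 6 ((s : F)⁻¹ * t)) (ρ X.nb v)
      rw [map_smul, e1, hc, map_smul, smul_comm c]
      congr 2
      have := s.ne_zero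
      field_simp
    rw [h3] at h2
    exact (smul_eq_zero.1 h2).resolve_left hc0
  have hne : ∀ b, b ≠ 0 → P b (ρ X.nb v) ≠ 0 := by
    intro b hb h0
    have h2 : ∀ b', b' ≠ 0 → P b' (ρ X.nb v) = 0 := by
      intro b' hb'
      have h3 := htor (Units.mk0 (b' / b) (div_ne_zero hb' hb)) b h0
      have h4 : b * ((Units.mk0 (b' / b) (div_ne_zero hb' hb) : Fˣ) : F) = b' := by
        rw [Units.val_mk0]; field_simp
      rwa [h4] at h3
    have h3 := hPsum (ρ X.nb v)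
    rw [Finset.sum_eq_single (0 : F) (fun b' _ hb' => h2 b' hb') (fun h => absurd (Finset.mem_univ _) h)] at h3
    have h4 := hPJ 0 _ hτ
    rw [e_cons, e_cons, e_cons] at h4
    obtain ⟨c, hc⟩ := hline' (P 0 (ρ X.nb v)) (fun t => by rw [h4.1 t, zero_mul, AddChar.map_zero_eq_one, one_smul])
      (fun t => by rw [h4.2.1 t, zero_mul, AddChar.map_zero_eq_one, one_smul])
      (fun t => by rw [h4.2.2.1 t, zero_mul, AddChar.map_zero_eq_one, one_smul])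
    apply hnb ((Fintype.card F : ℂ)⁻¹ * c)
    rw [← smul_smul, ← hc, h3, smul_smul, inv_mul_cancel₀ hq, one_smul]
  refine J_le_of X ρ hψ (s := 6) (by norm_num) _ ?_ W ?_
  · intro t y hy
    rw [e_cons, e_cons] at hy ⊢
    have hyτ : Tau X ρ y := ⟨fun u => by rw [hy.1 u, zero_mul, AddChar.map_zero_eq_one, one_smul],
      fun u => by rw [hy.2.1 u, zero_mul, AddChar.map_zero_eq_one, one_smul]⟩
    have h2 := tau6 X ρ hyτ t
    exact ⟨fun u => by rw [h2.1 u, zero_mul, AddChar.map_zero_eq_one, one_smul],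
      fun u => by rw [h2.2 u, zero_mul, AddChar.map_zero_eq_one, one_smul], e_nil X ρ⟩
  · intro b y hy
    by_cases hb : b = 0
    · subst hb
      rw [e_cons, e_cons, e_cons] at hy
      obtain ⟨c, hc⟩ := hline' y (fun t => by rw [hy.1 t, zero_mul, AddChar.map_zero_eq_one, one_smul])
        (fun t => by rw [hy.2.1 t, zero_mul, AddChar.map_zero_eq_one, one_smul])
        (fun t => by rw [hy.2.2.1 t, zero_mul, AddChar.map_zero_eq_one, one_smul])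
      rw [hc]
      exact W.smul_mem _ hv
    · have h2 : (⟨P b (ρ X.nb v), hPJ b _ hτ⟩ : J X ψ ρ [(6, b), (10, 0), (11, 0)]) ≠ 0 := by
        intro h
        exact hne b hb (congrArg Subtype.val h)
      obtain ⟨c, hc⟩ := exists_smul_eq_of_finrank_eq_one (h1 b hb) h2 ⟨y, hy⟩
      have h3 : c • P b (ρ X.nb v) = y := congrArg Subtype.val hc
      rw [← h3]
      exact W.smul_mem _ (hPW b)

end Cfsg.Agent.G2M
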