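import Cfsg.Agent.G2M.B2f
import Cfsg.Agent.G2M.B2t
import Cfsg.Agent.G2M.B2s3c

set_option autoImplicit false
set_option linter.unusedSectionVars false

/-! S2338, piece B2. -/

namespace Cfsg.Agent.G2M

open Module Finset

variable {F G : Type*} [Field F] [Fintype F] [DecidableEq F] [Group G] {V : Type*} [AddCommGroup V] [Module ℂ V] [FiniteDimensional ℂ V]
  (X : G2G F G) {ψ : AddChar F ℂ} (ρ : Representation ℂ G V)

theorem b_two (hψ : ψ ≠ 0) (w : Fˣ) (hw : (w : F) ^ 3 = 1) (hw1 : (w : F) ≠ 1) (hq : 4 < Fintype.card F) (hirr : ρ.IsIrreducible)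
    (_hV : finrank ℂ V < Fintype.card F ^ 3 + 1)
    (hz : ∀ z, z ≠ 0 → ∀ d, dj X ψ ρ [(9, d), (11, z)] = Fintype.card F) (hZ : ∀ z, z ≠ 0 → dj X ψ ρ [(10, 0), (11, z)] = Fintype.card F)
    (h1 : ∀ b, b ≠ 0 → dj X ψ ρ [(6, b), (10, 0), (11, 0)] = 1) (h0 : dj X ψ ρ [(6, 0), (10, 0), (11, 0)] = 1) : False := by
  refine b_two_of X ρ hψ w hw hw1 hq hirr hz hZ h0 ?_
  intro v hv0 h6 h10 h11 hline hh hna hnb hal W hvW hWx hWna hWnb hWna' hWnb'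
  have hτ := tau_le X ρ hψ h10 h11 hline hh hnb h1 W hvW (hWx 6 (by simp)) hWnb
  refine B2s3.b2_step3 X ρ hψ hv0 h6 h10 h11 ?_ hline hal h1 W (hWx 5 (by simp)) (hWx 10 (by simp)) ?_ hτ one_ne_zero
  · obtain ⟨c, -, hc⟩ := hna
    exact ⟨c, hc⟩
  · intro y hy
    have h2 : ρ (X.na * X.nb * X.na⁻¹) y = ρ X.na (ρ X.nb (ρ X.na⁻¹ y)) := by
      rw [map_mul, map_mul]; rfl
    rw [h2]
    exact hWna _ (hWnb _ (hWna' _ hy))

end Cfsg.Agent.G2M
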