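import Cfsg.Agent.G2M.Def

set_option autoImplicit false

/-! S2338, piece B2, step 1: the line `J[(6,0),(10,0),(11,0)]`. -/

namespace Cfsg.Agent.G2M.B2a
open Module Cfsg.Agent.G2M

variable {F G : Type*} [Field F] [Group G] {V : Type*} [AddCommGroup V] [Module ℂ V]
  (X : G2G F G) {ψ : AddChar F ℂ} (ρ : Representation ℂ G V)

theorem inv_app (g : G) (v : V) : ρ g⁻¹ (ρ g v) = v := by
  rw [← Module.End.mul_apply, ← map_mul, inv_mul_cancel, map_one, Module.End.one_apply]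

/-- the stabiliser of a vector -/
def Sv (v : V) : Subgroup G where
  carrier := {g | ρ g v = v}
  mul_mem' := by intro a b ha hb; simp only [Set.mem_ofPred_eq] at *; rw [map_mul, Module.End.mul_apply, hb, ha]
  one_mem' := by simp
  inv_mem' := by
    intro a ha
    simp only [Set.mem_ofPred_eq] at *
    have := inv_app ρ a v
    rwa [ha] at this

/-- the stabiliser of a line -/
def Lv (v : V) : Subgroup G where
  carrier := {g | ∃ c : ℂ, c ≠ 0 ∧ ρ g v = c • v}
  mul_mem' := by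
    rintro a b ⟨c, hc, ha⟩ ⟨d, hd, hb⟩
    exact ⟨d * c, mul_ne_zero hd hc, by rw [map_mul, Module.End.mul_apply, hb, map_smul, ha, smul_smul]⟩
  one_mem' := ⟨1, one_ne_zero, by simp⟩
  inv_mem' := by
    rintro a ⟨c, hc, ha⟩
    refine ⟨c⁻¹, inv_ne_zero hc, ?_⟩
    have h := inv_app ρ a v
    rw [ha, map_smul] at h
    calc ρ a⁻¹ v = c⁻¹ • (c • ρ a⁻¹ v) := by rw [smul_smul, inv_mul_cancel₀ hc, one_smul]
      _ = c⁻¹ • v := by rw [h]

theorem mem_Sv {v : V} {g : G} : g ∈ Sv ρ v ↔ ρ g v = v := Iff.rfl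
theorem mem_Lv {v : V} {g : G} : g ∈ Lv ρ v ↔ ∃ c : ℂ, c ≠ 0 ∧ ρ g v = c • v := Iff.rfl
theorem Sv_le_Lv {v : V} : Sv ρ v ≤ Lv ρ v := fun g hg => ⟨1, one_ne_zero, by rw [one_smul]; exact hg⟩

theorem conj_Sv {v : V} {g : G} (hg : g ∈ Lv ρ v) {x : G} (hx : x ∈ Sv ρ v) : g * x * g⁻¹ ∈ Sv ρ v := by
  obtain ⟨c, hc, h⟩ := (Lv ρ v).inv_mem hg
  rw [mem_Sv] at *
  rw [map_mul, Module.End.mul_apply, h, map_smul, map_mul, Module.End.mul_apply, hx, ← map_smul, ← h]
  have := inv_app ρ g⁻¹ v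
  rwa [inv_inv] at this

/-- a multiplicative function on the additive group of `F` that is invariant under nonzero multiples is trivial -/
theorem triv [Fintype F] (hq : 2 < Fintype.card F) (c : F → ℂ) (h0 : ∀ t, c t ≠ 0) (hadd : ∀ s t, c (s + t) = c s * c t)
    (hs : ∀ (s : Fˣ) (t : F), c (s * t) = c t) (t : F) : c t = 1 := by
  have hc0 : c 0 = 1 := by
    have := hadd 0 0
    rw [add_zero] at this
    exact (mul_left_cancel₀ (h0 0) (by rw [mul_one]; exact this)).symm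
  have hc1 : ∀ s : F, s ≠ 0 → c s = c 1 := fun s hs' => by
    have := hs (Units.mk0 s hs') 1
    simpa using this
  classical
  obtain ⟨b, hb⟩ : ∃ b : F, b ∉ ({0, -1} : Finset F) := by
    by_contra hcon
    push Not at hcon
    have h1 : (Finset.univ : Finset F) ⊆ {0, -1} := fun x _ => hcon x
    have h2 := Finset.card_le_card h1
    have h3 := Finset.card_le_two (a := (0 : F)) (b := -1)
    rw [Finset.card_univ] at h2
    omega
  simp only [Finset.mem_insert, Finset.mem_singleton, not_or] at hb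
  have hb1 : (1 : F) + b ≠ 0 := fun h => hb.2 (by rw [eq_neg_iff_add_eq_zero, add_comm]; exact h)
  have h1 := hadd 1 b
  rw [hc1 _ hb1, hc1 b hb.1] at h1
  have h2 : c 1 = 1 := (mul_left_cancel₀ (h0 1) (by rw [mul_one]; exact h1)).symm
  by_cases ht : t = 0
  · rw [ht, hc0]
  · rw [hc1 t ht, h2]

theorem mem_J0 {v : V} {l : List ℕ} : v ∈ J X ψ ρ (l.map fun r => (r, (0 : F))) ↔ ∀ r ∈ l, ∀ t, X.x r t ∈ Sv ρ v := by
  constructor
  · intro h r hr t
    have := h (r, 0) (List.mem_map.2 ⟨r, hr, rfl⟩) t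
    rw [mem_Sv]
    simpa using this
  · intro h p hp t
    obtain ⟨r, hr, rfl⟩ := List.mem_map.1 hp
    have := h r hr t
    rw [mem_Sv] at this
    simpa using this

/-- torus weights for `r = 7, 8, 9` -/
theorem wt (z : Fˣ) {r : ℕ} (hr : r = 7 ∨ r = 8 ∨ r = 9) : ∃ s t : Fˣ, s ^ (ca r) * t ^ (cb r) = z := by
  rcases hr with rfl | rfl | rfl
  · exact ⟨z, 1, by simp [ca, cb]⟩
  · exact ⟨1, z, by simp [ca, cb]⟩
  · exact ⟨1, z, by simp [ca, cb]⟩

variable {X ρ}

/-- if a root group (7, 8 or 9) and the torus stabilise the line of `v`, the root group fixes `v` -/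
theorem fix_of_line [Fintype F] (hq : 2 < Fintype.card F) {v : V} (hv : v ≠ 0) (hh : ∀ s t, X.h s t ∈ Lv ρ v) {r : ℕ}
    (hr : r = 7 ∨ r = 8 ∨ r = 9) (hl : ∀ t, X.x r t ∈ Lv ρ v) (t : F) : X.x r t ∈ Sv ρ v := by
  have hr12 : r < 12 := by omega
  choose c hc0 hc using hl
  have hinj : ∀ a b : ℂ, a • v = b • v → a = b := fun a b h => smul_left_injective ℂ hv h
  have := triv hq c hc0 (fun s t => hinj _ _ (by
    rw [← hc, X.add r hr12, map_mul, Module.End.mul_apply, hc t, map_smul, hc s, smul_smul, mul_comm])) (fun z t => by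
    obtain ⟨s1, t1, hst⟩ := wt z hr
    apply hinj
    have h1 := X.tor s1 t1 r hr12 t
    rw [hst] at h1
    rw [← hc, ← h1]
    obtain ⟨d, hd, h2⟩ := (Lv ρ v).inv_mem (hh s1 t1)
    rw [map_mul, Module.End.mul_apply, h2, map_smul, map_mul, Module.End.mul_apply, hc t, map_smul, smul_comm, ← map_smul, ← h2]
    have := inv_app ρ (X.h s1 t1)⁻¹ v
    rw [inv_inv] at this
    rw [this]) t
  rw [mem_Sv, hc t, this, one_smul]

theorem na_inv (X : G2G F G) {r : ℕ} (hr : r < 12) : ∃ e : F, ∀ u : F, X.na⁻¹ * X.x (ra r) u * X.na = X.x r (e * u) := by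
  obtain ⟨e, he, h⟩ := X.hna r hr
  refine ⟨e, fun u => ?_⟩
  have h1 := h (e * u)
  have h2 : e * (e * u) = u := by rcases he with rfl | rfl <;> ring
  rw [h2] at h1
  rw [← h1]
  group

/-- B2, step 1 -/
theorem b2_line [Fintype F] (hq : 2 < Fintype.card F) (h1 : ∀ w ∈ J X ψ ρ [(6, 0), (10, 0), (11, 0)], ∀ v ∈ J X ψ ρ [(6, 0), (10, 0), (11, 0)],
    v ≠ 0 → ∃ c : ℂ, w = c • v) {v : V} (hv : v ∈ J X ψ ρ [(6, 0), (10, 0), (11, 0)]) (hv0 : v ≠ 0) :
    (∀ r, r = 4 ∨ 6 ≤ r → r < 12 → ∀ t, ρ (X.x r t) v = v) ∧ (∀ s t, ∃ c : ℂ, c ≠ 0 ∧ ρ (X.h s t) v = c • v) ∧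
      (∃ c : ℂ, c ≠ 0 ∧ ρ X.na v = c • v) := by
  have hJ : ∀ w : V, w ∈ J X ψ ρ [(6, 0), (10, 0), (11, 0)] ↔ ∀ r ∈ [6, 10, 11], ∀ t, X.x r t ∈ Sv ρ w := fun w =>
    mem_J0 X ρ (l := [6, 10, 11])
  -- an element g normalising the fixed conditions stabilises the line
  have key : ∀ g : G, (∀ r ∈ [6, 10, 11], ∀ t, g⁻¹ * X.x r t * g ∈ Sv ρ v) → g ∈ Lv ρ v := by
    intro g hg
    have hw : ρ g v ∈ J X ψ ρ [(6, 0), (10, 0), (11, 0)] := by
      rw [hJ]
      intro r hr t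
      have h2 := hg r hr t
      rw [mem_Sv] at h2 ⊢
      have h3 : X.x r t * g = g * (g⁻¹ * X.x r t * g) := by group
      rw [← Module.End.mul_apply, ← map_mul, h3, map_mul, Module.End.mul_apply, h2]
    obtain ⟨c, hc⟩ := h1 _ hw v hv hv0
    refine ⟨c, ?_, hc⟩
    rintro rfl
    rw [zero_smul] at hc
    apply hv0
    have := inv_app ρ g v
    rw [hc, map_zero] at this
    exact this.symm
  have hS := (hJ v).1 hv
  have h6 : ∀ t, X.x 6 t ∈ Sv ρ v := hS 6 (by simp)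
  have h10 : ∀ t, X.x 10 t ∈ Sv ρ v := hS 10 (by simp)
  have h11 : ∀ t, X.x 11 t ∈ Sv ρ v := hS 11 (by simp)
  have hh : ∀ s t, X.h s t ∈ Lv ρ v := by
    intro s t
    apply key
    intro r hr u
    have hr12 : r < 12 := by
      simp only [List.mem_cons, List.not_mem_nil, or_false] at hr
      omega
    have h2 := X.tor s t r hr12 ((((s ^ (ca r) * t ^ (cb r) : Fˣ) : F))⁻¹ * u)
    rw [mul_inv_cancel_left₀ (Units.ne_zero _)] at h2
    have h3 : (X.h s t)⁻¹ * X.x r u * X.h s t = X.x r ((((s ^ (ca r) * t ^ (cb r) : Fˣ) : F))⁻¹ * u) := by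
      rw [← h2]; group
    rw [h3]
    exact hS r hr _
  have hcomm : ∀ g : G, (∀ r ∈ [6, 10, 11], ∀ t, X.x r t * g = g * X.x r t) → g ∈ Lv ρ v := by
    intro g hg
    apply key
    intro r hr t
    have : g⁻¹ * X.x r t * g = X.x r t := by rw [mul_assoc, hg r hr t]; group
    rw [this]
    exact hS r hr t
  have h8 : ∀ t, X.x 8 t ∈ Sv ρ v := fix_of_line hq hv0 hh (by simp) fun t => hcomm _ fun r hr u => by
    simp only [List.mem_cons, List.not_mem_nil, or_false] at hr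
    rcases hr with rfl | rfl | rfl
    · exact X.comm 6 8 (by simp) u t
    · exact (X.comm 8 10 (by simp) t u).symm
    · exact (X.comm 8 11 (by simp) t u).symm
  have h9 : ∀ t, X.x 9 t ∈ Sv ρ v := fix_of_line hq hv0 hh (by simp) fun t => hcomm _ fun r hr u => by
    simp only [List.mem_cons, List.not_mem_nil, or_false] at hr
    rcases hr with rfl | rfl | rfl
    · exact X.comm 6 9 (by simp) u t
    · exact (X.comm 9 10 (by simp) t u).symm
    · exact (X.comm 9 11 (by simp) t u).symm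
  have h7 : ∀ t, X.x 7 t ∈ Sv ρ v := fix_of_line hq hv0 hh (by simp) fun t => key _ fun r hr u => by
    simp only [List.mem_cons, List.not_mem_nil, or_false] at hr
    rcases hr with rfl | rfl | rfl
    · rw [X.c76]
      exact mul_mem (mul_mem (mul_mem (mul_mem (h6 _) (h8 _)) (h9 _)) (h10 _)) (h11 _)
    · have : (X.x 7 t)⁻¹ * X.x 10 u * X.x 7 t = X.x 10 u := by
        rw [mul_assoc, ← X.comm 7 10 (by simp) t u]; group
      rw [this]; exact h10 u
    · have : (X.x 7 t)⁻¹ * X.x 11 u * X.x 7 t = X.x 11 u := by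
        rw [mul_assoc, ← X.comm 7 11 (by simp) t u]; group
      rw [this]; exact h11 u
  have hna : X.na ∈ Lv ρ v := by
    apply key
    intro r hr u
    simp only [List.mem_cons, List.not_mem_nil, or_false] at hr
    rcases hr with rfl | rfl | rfl
    · obtain ⟨e, he⟩ := na_inv X (r := 10) (by norm_num)
      have := he u
      rw [show ra 10 = 6 from rfl] at this
      rw [this]; exact h10 _
    · obtain ⟨e, he⟩ := na_inv X (r := 6) (by norm_num)
      have := he u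
      rw [show ra 6 = 10 from rfl] at this
      rw [this]; exact h6 _
    · obtain ⟨e, he⟩ := na_inv X (r := 11) (by norm_num)
      have := he u
      rw [show ra 11 = 11 from rfl] at this
      rw [this]; exact h11 _
  have h4 : ∀ t, X.x 4 t ∈ Sv ρ v := by
    intro t
    obtain ⟨e, he, h⟩ := X.hna 7 (by norm_num)
    have h1 := h (e * t)
    have h2 : e * (e * t) = t := by rcases he with rfl | rfl <;> ring
    rw [h2, show ra 7 = 4 from rfl] at h1
    rw [← h1]
    exact conj_Sv ρ hna (h7 _)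
  refine ⟨?_, hh, hna⟩
  intro r hr hr12 t
  have : r = 4 ∨ r = 6 ∨ r = 7 ∨ r = 8 ∨ r = 9 ∨ r = 10 ∨ r = 11 := by omega
  rcases this with rfl | rfl | rfl | rfl | rfl | rfl | rfl
  · exact h4 t
  · exact h6 t
  · exact h7 t
  · exact h8 t
  · exact h9 t
  · exact h10 t
  · exact h11 t

/-- `nb` does not stabilise the line -/
theorem nb_not (hirr : ρ.IsIrreducible) (hV : 1 < finrank ℂ V) {v : V} (hv0 : v ≠ 0) (h6 : ∀ t, ρ (X.x 6 t) v = v)
    (h7 : ∀ t, ρ (X.x 7 t) v = v) (hna : ∃ c : ℂ, c ≠ 0 ∧ ρ X.na v = c • v) : ¬ ∃ c : ℂ, ρ X.nb v = c • v := by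
  rintro ⟨c, hc⟩
  have hc0 : c ≠ 0 := by
    rintro rfl
    rw [zero_smul] at hc
    have := inv_app ρ X.nb v
    rw [hc, map_zero] at this
    exact hv0 this.symm
  have htop : Lv ρ v = ⊤ := X.gen _ (fun t => Sv_le_Lv ρ (h6 t)) (fun t => Sv_le_Lv ρ (h7 t)) hna ⟨c, hc0, hc⟩
  let U : Subrepresentation ρ := ⟨Submodule.span ℂ {v}, fun g w hw => by
    obtain ⟨a, rfl⟩ := Submodule.mem_span_singleton.1 hw
    obtain ⟨d, -, hd⟩ := (htop ▸ Subgroup.mem_top g : g ∈ Lv ρ v)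
    rw [map_smul, hd]
    exact Submodule.smul_mem _ _ (Submodule.smul_mem _ _ (Submodule.mem_span_singleton_self v))⟩
  rcases hirr.eq_bot_or_eq_top U with h | h
  · have h2 : (Submodule.span ℂ {v}) = (⊥ : Submodule ℂ V) := congrArg Subrepresentation.toSubmodule h
    exact hv0 (Submodule.span_singleton_eq_bot.1 h2)
  · have h2 : (Submodule.span ℂ {v}) = (⊤ : Submodule ℂ V) := congrArg Subrepresentation.toSubmodule h
    have h3 := finrank_span_singleton (K := ℂ) hv0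
    rw [h2, finrank_top] at h3
    omega

end Cfsg.Agent.G2M.B2a
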