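import Cfsg.Agent.G2M.B2a
import Cfsg.Agent.G2M.B2b
import Cfsg.Agent.G2M.B2e

set_option autoImplicit false
set_option linter.unusedSectionVars false

/-! S2338, piece B2: assembly. -/

namespace Cfsg.Agent.G2M

open Module Finset

variable {F G : Type*} [Field F] [Fintype F] [DecidableEq F] [Group G] {V : Type*} [AddCommGroup V] [Module ℂ V] [FiniteDimensional ℂ V]
  (X : G2G F G) {ψ : AddChar F ℂ} (ρ : Representation ℂ G V)

theorem b_two_of (hψ : ψ ≠ 0) (w : Fˣ) (hw : (w : F) ^ 3 = 1) (hw1 : (w : F) ≠ 1) (hq : 4 < Fintype.card F) (hirr : ρ.IsIrreducible)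
    (hz : ∀ z, z ≠ 0 → ∀ d, dj X ψ ρ [(9, d), (11, z)] = Fintype.card F) (hZ : ∀ z, z ≠ 0 → dj X ψ ρ [(10, 0), (11, z)] = Fintype.card F)
    (h0 : dj X ψ ρ [(6, 0), (10, 0), (11, 0)] = 1)
    (S3 : ∀ v : V, v ≠ 0 → (∀ t, ρ (X.x 6 t) v = v) → (∀ t, ρ (X.x 10 t) v = v) → (∀ t, ρ (X.x 11 t) v = v) →
      (∀ y, (∀ t, ρ (X.x 6 t) y = y) → (∀ t, ρ (X.x 10 t) y = y) → (∀ t, ρ (X.x 11 t) y = y) → ∃ c : ℂ, y = c • v) →
      (∀ s t, ∃ c : ℂ, c ≠ 0 ∧ ρ (X.h s t) v = c • v) → (∃ c : ℂ, c ≠ 0 ∧ ρ X.na v = c • v) →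
      (∀ c : ℂ, ρ X.nb v ≠ c • v) →
      (∀ t, t ≠ 0 → ∑ u : F, ρ (X.x 6 u) (ρ (X.x 5 t) v) = - v) →
      ∀ W : Submodule ℂ V, v ∈ W → (∀ r ∈ [0, 1, 5, 6, 10, 11], ∀ t, ∀ y ∈ W, ρ (X.x r t) y ∈ W) →
      (∀ y ∈ W, ρ X.na y ∈ W) → (∀ y ∈ W, ρ X.nb y ∈ W) → (∀ y ∈ W, ρ X.na⁻¹ y ∈ W) → (∀ y ∈ W, ρ X.nb⁻¹ y ∈ W) →
      Fintype.card F ≤ finrank ℂ ↥(J X ψ ρ [(10, 0), (11, 1)] ⊓ W)) : False := by
  -- the line
  obtain ⟨v0, hv00, hv0l⟩ := finrank_eq_one_iff'.1 h0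
  obtain ⟨v, hvJ⟩ := v0
  have hv0 : v ≠ 0 := fun h => hv00 (Subtype.ext h)
  have hline : ∀ y ∈ J X ψ ρ [(6, 0), (10, 0), (11, 0)], ∃ c : ℂ, y = c • v := by
    intro y hy
    obtain ⟨c, hc⟩ := hv0l ⟨y, hy⟩
    exact ⟨c, (congrArg Subtype.val hc).symm⟩
  obtain ⟨hfix, hh, hna⟩ := B2a.b2_line (X := X) (ρ := ρ) (ψ := ψ) (by omega) (fun y hy u hu hu0 => by
    obtain ⟨c, rfl⟩ := hline y hy
    obtain ⟨d, rfl⟩ := hline u hu
    have hd : d ≠ 0 := by rintro rfl; exact hu0 (zero_smul _ _)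
    exact ⟨c / d, by rw [smul_smul, div_mul_cancel₀ _ hd]⟩) hvJ hv0
  have h6 := hfix 6 (Or.inr le_rfl) (by norm_num)
  have h10 := hfix 10 (Or.inr (by norm_num)) (by norm_num)
  have h11 := hfix 11 (Or.inr (by norm_num)) (by norm_num)
  have hline' : ∀ y, (∀ t, ρ (X.x 6 t) y = y) → (∀ t, ρ (X.x 10 t) y = y) → (∀ t, ρ (X.x 11 t) y = y) → ∃ c : ℂ, y = c • v := by
    intro y y6 y10 y11
    apply hline
    rw [e_cons, e_cons, e_cons]
    refine ⟨fun t => ?_, fun t => ?_, fun t => ?_, e_nil X ρ⟩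
    · rw [zero_mul, AddChar.map_zero_eq_one, one_smul, y6]
    · rw [zero_mul, AddChar.map_zero_eq_one, one_smul, y10]
    · rw [zero_mul, AddChar.map_zero_eq_one, one_smul, y11]
  have hV1 : 1 < finrank ℂ V := by
    have h := hZ 1 one_ne_zero
    unfold dj at h
    have h2 := Submodule.finrank_le (J X ψ ρ [(10, 0), (11, 1)])
    omega
  have hnb : ∀ c : ℂ, ρ X.nb v ≠ c • v := by
    intro c hc
    exact B2a.nb_not (X := X) (ρ := ρ) hirr hV1 hv0 h6 (hfix 7 (Or.inr (by norm_num)) (by norm_num)) hna ⟨c, hc⟩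
  have hal := b2_alpha X ρ hv0 h6 h10 h11 hline' (fun s t => by
    obtain ⟨c, -, hc⟩ := hh s t
    exact ⟨c, hc⟩) hnb
  -- z0
  have hw' : w ^ 3 = 1 := by
    apply Units.ext; simpa using hw
  have hh1 : X.h 1 1 = 1 := by
    have h := X.h_mul 1 1 1 1
    rw [mul_one] at h
    exact (mul_eq_left.1 h.symm)
  have hz3 : X.h w 1 * X.h w 1 * X.h w 1 = 1 := by
    have hw3 : w * w * w = 1 := by rw [← hw', pow_succ, pow_two]
    rw [← X.h_mul, ← X.h_mul, hw3, mul_one, mul_one, hh1]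
  have hzna : X.na * X.h w 1 * X.na⁻¹ = (X.h w 1)⁻¹ := by
    rw [X.na_h, hw', one_mul, eq_inv_iff_mul_eq_one, ← X.h_mul, inv_mul_cancel, mul_one, hh1]
  have hznb : X.nb * X.h w 1 * X.nb⁻¹ = X.h w 1 := by
    rw [X.nb_h, mul_one, inv_one]
  have hzinv : ∀ y, ρ (X.h w 1) y = y → ρ (X.h w 1)⁻¹ y = y := by
    intro y hy
    have h := B2a.inv_app ρ (X.h w 1) y
    rwa [hy] at h
  -- z0 v = v
  have hzv : ρ (X.h w 1) v = v := by
    obtain ⟨c, hc0, hc⟩ := hh w 1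
    obtain ⟨d, hd0, hd⟩ := hna
    have hc3 : c * c * c = 1 := by
      have h := congrArg (fun g => ρ g v) hz3
      simp only [map_mul, map_one, Module.End.mul_apply, Module.End.one_apply] at h
      rw [hc, map_smul, hc, map_smul, map_smul, hc, smul_smul, smul_smul] at h
      have h2 : (c * c * c) • v = (1 : ℂ) • v := by rw [one_smul]; exact h
      exact smul_left_injective ℂ hv0 h2
    have hc2 : c * c = 1 := by
      have h := conj_act ρ hzna v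
      rw [hc, map_smul, hd, map_smul] at h
      have hi : ρ (X.h w 1)⁻¹ v = c⁻¹ • v := by
        have h3 := B2a.inv_app ρ (X.h w 1) v
        rw [hc, map_smul] at h3
        rw [← h3, smul_smul, inv_mul_cancel₀ hc0, one_smul]
        exact h3.symm ▸ rfl
      rw [hi, smul_smul, smul_smul] at h
      have h2 := smul_left_injective ℂ hv0 h
      have h4 : c * d = d * c⁻¹ := h2
      have h5 : c = c⁻¹ := by
        have h6 : d * c = d * c⁻¹ := by rw [← h4, mul_comm]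
        exact mul_left_cancel₀ hd0 h6
      nth_rewrite 2 [h5]
      exact mul_inv_cancel₀ hc0
    have hc1 : c = 1 := by rw [hc2, one_mul] at hc3; exact hc3
    rw [hc, hc1, one_smul]
  -- W0
  let W : Submodule ℂ V := LinearMap.ker (ρ (X.h w 1) - 1)
  have hW : ∀ v, v ∈ W ↔ ρ (X.h w 1) v = v := by
    intro v
    show (ρ (X.h w 1) - 1) v = 0 ↔ _
    rw [LinearMap.sub_apply, sub_eq_zero]; rfl
  have hWna : ∀ y ∈ W, ρ X.na y ∈ W := by
    intro y hy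
    rw [hW] at hy ⊢
    have h := conj_act ρ hzna y
    rw [hy] at h
    -- h : ρ na y = ρ z⁻¹ (ρ na y)
    have h2 := congrArg (ρ (X.h w 1)) h
    rw [h2]
    have h3 : (ρ (X.h w 1 * (X.h w 1)⁻¹)) (ρ X.na y) = ρ X.na y := by
      rw [mul_inv_cancel, map_one]; rfl
    rw [map_mul] at h3
    exact h3
  have hWnb : ∀ y ∈ W, ρ X.nb y ∈ W := by
    intro y hy
    rw [hW] at hy ⊢
    have h := conj_act ρ hznb y
    rw [hy] at h
    exact h.symm
  have hinv : ∀ n : G, (∀ y ∈ W, ρ n y ∈ W) → ∀ y ∈ W, ρ n⁻¹ y ∈ W := by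
    intro n hn y hy
    have hinj : Function.Injective (ρ n) := by
      intro a b hab
      have h := congrArg (ρ n⁻¹) hab
      rwa [B2a.inv_app, B2a.inv_app] at h
    let f : W →ₗ[ℂ] W := (ρ n).restrict hn
    have hf : Function.Injective f := by
      intro a b hab
      apply Subtype.ext
      exact hinj (congrArg Subtype.val hab)
    obtain ⟨u, hu⟩ := (LinearMap.injective_iff_surjective.1 hf) ⟨y, hy⟩
    have hu' : ρ n (u : V) = y := congrArg Subtype.val hu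
    rw [← hu', B2a.inv_app]
    exact u.2
  have hS := S3 v hv0 h6 h10 h11 hline' hh hna hnb hal W ((hW v).2 hzv) (fun r hr t y hy => by
    rw [hW] at hy ⊢
    rw [z0_comm X ρ w hw hr, hy]) hWna hWnb (hinv _ hWna) (hinv _ hWnb)
  have hle : J X ψ ρ [(10, 0), (11, 1)] ≤ W := by
    have h := hZ 1 one_ne_zero
    unfold dj at h
    have h2 : J X ψ ρ [(10, 0), (11, 1)] ⊓ W = J X ψ ρ [(10, 0), (11, 1)] := by
      apply Submodule.eq_of_le_of_finrank_le inf_le_left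
      rw [h]; exact hS
    rw [← h2]; exact inf_le_right
  exact end0 X ρ hψ w hw hw1 (z := 1) one_ne_zero (hz 1 one_ne_zero) (fun y hy => (hW y).1 (hle hy))

end Cfsg.Agent.G2M
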