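import Cfsg.Agent.G2M.Def

/-! # S2338, B2 step 3 (helper9) -/

set_option autoImplicit false

namespace Cfsg.Agent.G2M
namespace B2s3
open Module Finset

variable {F G : Type*} [Field F] [Fintype F] [DecidableEq F] [Group G] {V : Type*} [AddCommGroup V] [Module ℂ V]
  (X : G2G F G) {ψ : AddChar F ℂ} (ρ : Representation ℂ G V)

theorem x_zero {r : ℕ} (hr : r < 12) : X.x r 0 = 1 := by
  have h := X.add r hr 0 0
  rw [add_zero] at h
  exact (left_eq_mul.1 h)

/-- sum over a root subgroup -/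
noncomputable def av (r : ℕ) : V →ₗ[ℂ] V := ∑ u : F, (ρ (X.x r u) : V →ₗ[ℂ] V)

theorem av_apply (r : ℕ) (w : V) : av X ρ r w = ∑ u : F, ρ (X.x r u) w := by
  rw [av, LinearMap.sum_apply]

theorem mulap (g h : G) (w : V) : ρ (g * h) w = ρ g (ρ h w) := by
  rw [map_mul]; rfl

theorem av_absorb {r : ℕ} (hr : r < 12) (t : F) (w : V) : av X ρ r (ρ (X.x r t) w) = av X ρ r w := by
  rw [av_apply, av_apply]
  rw [← Equiv.sum_comp (Equiv.addRight t) (fun u => ρ (X.x r u) w)]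
  apply Finset.sum_congr rfl
  intro u _
  show _ = ρ (X.x r (u + t)) w
  rw [X.add r hr, mulap]

theorem av_absorb' {r : ℕ} (hr : r < 12) (t : F) (w : V) : ρ (X.x r t) (av X ρ r w) = av X ρ r w := by
  rw [av_apply, map_sum]
  rw [← Equiv.sum_comp (Equiv.addLeft t) (fun u => ρ (X.x r u) w)]
  apply Finset.sum_congr rfl
  intro u _
  show _ = ρ (X.x r (t + u)) w
  rw [X.add r hr, mulap]

theorem sum_psi (hψ : ψ ≠ 0) {b : F} (hb : b ≠ 0) : ∑ u : F, ψ (b * u) = 0 := by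
  have h1 : ∑ u : F, ψ (b * u) = ∑ u : F, ψ u :=
    Equiv.sum_comp (Equiv.mulLeft₀ b hb) (fun u => ψ u)
  rw [h1]
  exact AddChar.sum_eq_zero_iff_ne_zero.2 hψ

theorem av_char (hψ : ψ ≠ 0) {r : ℕ} {c : F} (hc : c ≠ 0) (w : V) (h : ∀ u, ρ (X.x r u) w = ψ (c * u) • w) :
    av X ρ r w = 0 := by
  rw [av_apply]
  simp only [h]
  rw [← Finset.sum_smul, sum_psi hψ hc, zero_smul]

theorem av_fix {r : ℕ} (w : V) (h : ∀ u, ρ (X.x r u) w = w) : av X ρ r w = (Fintype.card F : ℂ) • w := by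
  rw [av_apply]
  simp only [h]
  rw [Finset.sum_const, Finset.card_univ, Nat.cast_smul_eq_nsmul]

theorem sgn_ne {e : F} (h : e = 1 ∨ e = -1) : e ≠ 0 := by
  rcases h with rfl | rfl
  · exact one_ne_zero
  · exact neg_ne_zero.2 one_ne_zero

theorem sgn_sq {e : F} (h : e = 1 ∨ e = -1) : e * e = 1 := by
  rcases h with rfl | rfl <;> ring

/-- averaging over a conjugated root subgroup -/
theorem av_conj {r r' : ℕ} (n : G) (h : ∃ e : F, (e = 1 ∨ e = -1) ∧ ∀ u : F, n * X.x r u * n⁻¹ = X.x r' (e * u)) (w : V) :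
    av X ρ r' (ρ n w) = ρ n (av X ρ r w) := by
  obtain ⟨e, he, h⟩ := h
  rw [av_apply, av_apply, map_sum]
  rw [← Equiv.sum_comp (Equiv.mulLeft₀ e (sgn_ne he)) (fun u => ρ (X.x r' u) (ρ n w))]
  apply Finset.sum_congr rfl
  intro u _
  show ρ (X.x r' (e * u)) (ρ n w) = ρ n (ρ (X.x r u) w)
  rw [← h u, ← mulap, ← mulap]
  congr 2
  group

theorem av_comm {r s : ℕ} (h : ∀ t u : F, X.x r t * X.x s u = X.x s u * X.x r t) (w : V) :
    av X ρ r (av X ρ s w) = av X ρ s (av X ρ r w) := by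
  rw [av_apply, av_apply X ρ s (av X ρ r w)]
  simp only [av_apply, map_sum]
  rw [Finset.sum_comm]
  apply Finset.sum_congr rfl
  intro u _
  apply Finset.sum_congr rfl
  intro t _
  rw [← mulap, ← mulap, h]

theorem av_comm_x {r s : ℕ} (h : ∀ t u : F, X.x r t * X.x s u = X.x s u * X.x r t) (u : F) (w : V) :
    av X ρ r (ρ (X.x s u) w) = ρ (X.x s u) (av X ρ r w) := by
  rw [av_apply, av_apply, map_sum]
  apply Finset.sum_congr rfl
  intro t _
  rw [← mulap, ← mulap, h]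

/-- the sum over `X_10 X_11` -/
noncomputable def ee (w : V) : V := av X ρ 11 (av X ρ 10 w)

theorem c1011 (t u : F) : X.x 10 t * X.x 11 u = X.x 11 u * X.x 10 t := X.comm 10 11 (by decide) t u
theorem c611 (t u : F) : X.x 6 t * X.x 11 u = X.x 11 u * X.x 6 t := X.comm 6 11 (by decide) t u

theorem ee_eq (w : V) : ee X ρ w = av X ρ 10 (av X ρ 11 w) :=
  (av_comm X ρ (fun t u => c1011 X t u) w).symm

theorem ee_x6 (t : F) (w : V) : ee X ρ (ρ (X.x 6 t) w) = ρ (X.x 6 t) (ee X ρ w) := by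
  have h1 : av X ρ 10 (ρ (X.x 6 t) w) = ∑ u : F, ρ (X.x 6 t) (ρ (X.x 10 u) (ρ (X.x 11 (t * u)) w)) := by
    rw [av_apply]
    apply Finset.sum_congr rfl
    intro u _
    rw [← mulap, ← mulap, ← mulap]
    congr 2
    have := X.c610 t u
    calc X.x 10 u * X.x 6 t = X.x 6 t * ((X.x 6 t)⁻¹ * X.x 10 u * X.x 6 t) := by group
      _ = X.x 6 t * (X.x 10 u * X.x 11 (t * u)) := by rw [this]
      _ = _ := by group
  rw [ee, h1, map_sum, ee_eq, av_apply X ρ 10, map_sum]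
  apply Finset.sum_congr rfl
  intro u _
  rw [av_comm_x X ρ (fun a b => (c611 X b a).symm), av_comm_x X ρ (fun a b => (c1011 X b a).symm),
    av_absorb X ρ (by norm_num)]

theorem ee_nb (w : V) : ee X ρ (ρ X.nb w) = ρ X.nb (ee X ρ w) := by
  have h10 := X.hnb 10 (by norm_num)
  have h11 := X.hnb 11 (by norm_num)
  rw [ee, av_conj X ρ (r := 11) (r' := 10) X.nb h11, av_conj X ρ (r := 10) (r' := 11) X.nb h10, ee_eq]

/-- projection (times `q`) on the `X_6`-character `b` -/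
noncomputable def pr (ψ : AddChar F ℂ) (b : F) (w : V) : V := ∑ u : F, ψ (-(b * u)) • ρ (X.x 6 u) w

theorem pr_smul (b : F) (c : ℂ) (w : V) : pr X ρ ψ b (c • w) = c • pr X ρ ψ b w := by
  rw [pr, pr, Finset.smul_sum]
  apply Finset.sum_congr rfl
  intro u _
  rw [map_smul, smul_comm]

theorem sum_pr (hψ : ψ ≠ 0) (w : V) : ∑ b : F, pr X ρ ψ b w = (Fintype.card F : ℂ) • w := by
  simp only [pr]
  rw [Finset.sum_comm]
  have h1 : ∀ u : F, ∑ b : F, ψ (-(b * u)) • ρ (X.x 6 u) w = if u = 0 then (Fintype.card F : ℂ) • w else 0 := by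
    intro u
    rw [← Finset.sum_smul]
    split_ifs with hu
    · subst hu
      simp only [mul_zero, neg_zero, AddChar.map_zero_eq_one]
      rw [x_zero X (by norm_num), map_one]
      simp
    · have : ∑ b : F, ψ (-(b * u)) = 0 := by
        have h2 : ∀ b : F, ψ (-(b * u)) = ψ ((-u) * b) := fun b => by congr 1; ring
        simp only [h2]
        exact sum_psi hψ (neg_ne_zero.2 hu)
      rw [this, zero_smul]
  simp only [h1]
  rw [Finset.sum_ite_eq' Finset.univ (0 : F)]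
  simp

theorem pr_x6 (b t : F) (w : V) : ρ (X.x 6 t) (pr X ρ ψ b w) = ψ (b * t) • pr X ρ ψ b w := by
  rw [pr, map_sum, Finset.smul_sum]
  rw [← Equiv.sum_comp (Equiv.addLeft t) (fun u => ψ (b * t) • ψ (-(b * u)) • ρ (X.x 6 u) w)]
  apply Finset.sum_congr rfl
  intro u _
  show _ = ψ (b * t) • ψ (-(b * (t + u))) • ρ (X.x 6 (t + u)) w
  rw [map_smul, X.add 6 (by norm_num), mulap, smul_smul, ← AddChar.map_add_eq_mul]
  congr 2
  ring

theorem pr_x6' (b t : F) (w : V) : pr X ρ ψ b (ρ (X.x 6 t) w) = ψ (b * t) • pr X ρ ψ b w := by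
  rw [pr, pr, Finset.smul_sum]
  rw [← Equiv.sum_comp (Equiv.addRight t) (fun u => ψ (b * t) • ψ (-(b * u)) • ρ (X.x 6 u) w)]
  apply Finset.sum_congr rfl
  intro u _
  show _ = ψ (b * t) • ψ (-(b * (u + t))) • ρ (X.x 6 (u + t)) w
  rw [X.add 6 (by norm_num), mulap, smul_smul, ← AddChar.map_add_eq_mul]
  congr 2
  ring

end B2s3
end Cfsg.Agent.G2M
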