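import Cfsg.Agent.G2M.B2s3

/-! # S2338, B2 step 3, part 2 (helper9) -/

set_option autoImplicit false
set_option linter.unusedSectionVars false

namespace Cfsg.Agent.G2M
namespace B2s3
open Module Finset

variable {F G : Type*} [Field F] [Fintype F] [DecidableEq F] [Group G] {V : Type*} [AddCommGroup V] [Module ℂ V]
  (X : G2G F G) {ψ : AddChar F ℂ} (ρ : Representation ℂ G V)

/-- `n` conjugates `X_r` to `X_r'` -/
def Cj (n : G) (r r' : ℕ) : Prop := ∃ e : F, (e = 1 ∨ e = -1) ∧ ∀ u : F, n * X.x r u * n⁻¹ = X.x r' (e * u)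

theorem Cj.inv {X : G2G F G} {n : G} {r r' : ℕ} (h : Cj X n r r') : Cj X n⁻¹ r' r := by
  obtain ⟨e, he, h⟩ := h
  refine ⟨e, he, fun u => ?_⟩
  have h1 := h (e * u)
  rw [← mul_assoc, sgn_sq he, one_mul] at h1
  rw [← h1]; group

theorem Cj.comp {X : G2G F G} {n m : G} {r r' r'' : ℕ} (h : Cj X n r r') (k : Cj X m r' r'') : Cj X (m * n) r r'' := by
  obtain ⟨e, he, h⟩ := h
  obtain ⟨f, hf, k⟩ := k
  refine ⟨f * e, ?_, fun u => ?_⟩
  · rcases he with rfl | rfl <;> rcases hf with rfl | rfl <;> simp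
  · have h1 : m * n * X.x r u * (m * n)⁻¹ = m * (n * X.x r u * n⁻¹) * m⁻¹ := by group
    rw [h1, h, k, mul_assoc]

theorem cna (r : ℕ) (hr : r < 12) : Cj X X.na r (ra r) := X.hna r hr
theorem cnb (r : ℕ) (hr : r < 12) : Cj X X.nb r (rb r) := X.hnb r hr

/-- the third reflection -/
def nc : G := X.na * X.nb * X.na⁻¹

theorem nc_6 : Cj X (nc X) 6 11 :=
  ((cna X 10 (by norm_num) : Cj X X.na 10 6).inv.comp (cnb X 10 (by norm_num) : Cj X X.nb 10 11)).comp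
    (cna X 11 (by norm_num) : Cj X X.na 11 11) |> fun h => by
      have e : nc X = X.na * (X.nb * X.na⁻¹) := by rw [nc, mul_assoc]
      rw [e]; exact h
theorem nc_0 : Cj X (nc X) 0 5 :=
  ((cna X 0 (by norm_num) : Cj X X.na 0 0).inv.comp (cnb X 0 (by norm_num) : Cj X X.nb 0 1)).comp
    (cna X 1 (by norm_num) : Cj X X.na 1 5) |> fun h => by
      have e : nc X = X.na * (X.nb * X.na⁻¹) := by rw [nc, mul_assoc]
      rw [e]; exact h
theorem nc_1 : Cj X (nc X) 1 10 :=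
  ((cna X 5 (by norm_num) : Cj X X.na 5 1).inv.comp (cnb X 5 (by norm_num) : Cj X X.nb 5 6)).comp
    (cna X 6 (by norm_num) : Cj X X.na 6 10) |> fun h => by
      have e : nc X = X.na * (X.nb * X.na⁻¹) := by rw [nc, mul_assoc]
      rw [e]; exact h

theorem c510 (t u : F) : X.x 5 t * X.x 10 u = X.x 10 u * X.x 5 t := by
  obtain ⟨e, he, h5⟩ := (cnb X 6 (by norm_num) : Cj X X.nb 6 5)
  obtain ⟨f, hf, h10⟩ := (cnb X 11 (by norm_num) : Cj X X.nb 11 10)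
  have a1 : X.x 5 t = X.nb * X.x 6 (e * t) * X.nb⁻¹ := by rw [h5, ← mul_assoc, sgn_sq he, one_mul]; rfl
  have a2 : X.x 10 u = X.nb * X.x 11 (f * u) * X.nb⁻¹ := by rw [h10, ← mul_assoc, sgn_sq hf, one_mul]; rfl
  rw [a1, a2]
  have := c611 X (e * t) (f * u)
  calc X.nb * X.x 6 (e * t) * X.nb⁻¹ * (X.nb * X.x 11 (f * u) * X.nb⁻¹)
      = X.nb * (X.x 6 (e * t) * X.x 11 (f * u)) * X.nb⁻¹ := by group
    _ = X.nb * (X.x 11 (f * u) * X.x 6 (e * t)) * X.nb⁻¹ := by rw [this]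
    _ = _ := by group

/-- (M2) -/
theorem ee_kill (hψ : ψ ≠ 0) {b : F} (hb : b ≠ 0) {w : V} (h6 : ∀ u, ρ (X.x 6 u) w = ψ (b * u) • w)
    (h10 : ∀ u, ρ (X.x 10 u) w = w) {t : F} (ht : t ≠ 0) : ee X ρ (ρ (X.x 1 t) w) = 0 := by
  obtain ⟨n, hn, s1, t1, hn2⟩ := X.r10 t ht
  rw [hn, mulap, mulap, h10]
  have h1 : ee X ρ (ρ (X.x 10 t⁻¹) (ρ n w)) = ee X ρ (ρ n w) := by
    rw [ee, av_absorb X ρ (by norm_num)]; rfl
  rw [h1, ee_eq]
  obtain ⟨e, he, hc⟩ := nc_6 X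
  set κ : Fˣ := s1 ^ (ca 11) * t1 ^ (cb 11) with hκ
  have h2 : av X ρ 11 (ρ n w) = 0 := by
    apply av_char X ρ hψ (c := b * (e * (κ⁻¹ : Fˣ)))
    · exact mul_ne_zero hb (mul_ne_zero (sgn_ne he) (Units.ne_zero _))
    · intro u
      have h3 : X.x 11 u * n = n * X.x 6 (e * (((κ⁻¹ : Fˣ) : F) * u)) := by
        have h4 := X.tor s1 t1 11 (by norm_num) (((κ⁻¹ : Fˣ) : F) * u)
        have h5 : ((s1 ^ (ca 11) * t1 ^ (cb 11) : Fˣ) : F) * (((κ⁻¹ : Fˣ) : F) * u) = u := by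
          rw [← hκ, ← mul_assoc, Units.mul_inv, one_mul]
        rw [h5] at h4
        have h6' := hc (e * (((κ⁻¹ : Fˣ) : F) * u))
        rw [← mul_assoc e e, sgn_sq he, one_mul] at h6'
        rw [← h4, ← h6', hn2]
        show X.h s1 t1 * (nc X * X.x 6 _ * (nc X)⁻¹) * (X.h s1 t1)⁻¹ * (X.h s1 t1 * nc X) = X.h s1 t1 * nc X * X.x 6 _
        group
      rw [← mulap, h3, mulap, h6, map_smul]
      congr 2
      ring
  rw [h2, map_zero]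

/-- (M3) -/
theorem ee_v {v : V} (hv0 : v ≠ 0) (h11 : ∀ t, ρ (X.x 11 t) v = v) (hna : ∃ κ : ℂ, ρ X.na v = κ • v)
    (h5 : ∀ t : F, t ≠ 0 → ∑ u : F, ρ (X.x 6 u) (ρ (X.x 5 t) v) = -v) {t : F} (ht : t ≠ 0) :
    ee X ρ (ρ (X.x 1 t) v) = -((Fintype.card F : ℂ) • v) := by
  obtain ⟨κ, hκ⟩ := hna
  have hκ0 : κ ≠ 0 := by
    rintro rfl
    rw [zero_smul] at hκ
    apply hv0
    have : ρ X.na⁻¹ (ρ X.na v) = v := by rw [← mulap, inv_mul_cancel, map_one]; rfl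
    rw [hκ, map_zero] at this
    exact this.symm
  obtain ⟨e, he, h51⟩ := (cna X 5 (by norm_num) : Cj X X.na 5 1)
  have h1 : X.x 1 t * X.na = X.na * X.x 5 (e * t) := by
    have := h51 (e * t)
    rw [← mul_assoc, sgn_sq he, one_mul] at this
    have this' : X.na * X.x 5 (e * t) * X.na⁻¹ = X.x 1 t := this
    rw [← this']; group
  have h2 : av X ρ 10 (ρ (X.x 1 t) (ρ X.na v)) = -(κ • v) := by
    rw [← mulap, h1, mulap, av_conj X ρ (r := 6) (r' := 10) X.na (X.hna 6 (by norm_num)), av_apply,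
      h5 _ (mul_ne_zero (sgn_ne he) ht), map_neg, hκ]
  rw [hκ, map_smul, map_smul] at h2
  have h3 : av X ρ 10 (ρ (X.x 1 t) v) = -v := by
    have h4 : κ • av X ρ 10 (ρ (X.x 1 t) v) = κ • (-v) := by rw [h2, smul_neg]
    exact smul_right_injective V hκ0 h4
  rw [ee, h3, map_neg, av_fix X ρ v h11]

theorem pr_fix10 (b : F) {w : V} (h10 : ∀ u, ρ (X.x 10 u) w = w) (h11 : ∀ u, ρ (X.x 11 u) w = w) (t : F) :
    ρ (X.x 10 t) (pr X ρ ψ b w) = pr X ρ ψ b w := by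
  rw [pr, map_sum]
  apply Finset.sum_congr rfl
  intro u _
  rw [map_smul, ← mulap]
  congr 1
  have h1 : X.x 10 t * X.x 6 u = X.x 6 u * (X.x 10 t * X.x 11 (u * t)) := by
    rw [← X.c610 u t]; group
  rw [h1, mulap, mulap, h11, h10]

theorem pr_fix11 (b : F) {w : V} (h11 : ∀ u, ρ (X.x 11 u) w = w) (t : F) :
    ρ (X.x 11 t) (pr X ρ ψ b w) = pr X ρ ψ b w := by
  rw [pr, map_sum]
  apply Finset.sum_congr rfl
  intro u _
  rw [map_smul, ← mulap, ← c611, mulap, h11]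

/-- (M4) -/
theorem ee_tau (hψ : ψ ≠ 0) {v : V} (hv0 : v ≠ 0) (hv11 : ∀ t, ρ (X.x 11 t) v = v) (hna : ∃ κ : ℂ, ρ X.na v = κ • v)
    (hline : ∀ w, (∀ t, ρ (X.x 6 t) w = w) → (∀ t, ρ (X.x 10 t) w = w) → (∀ t, ρ (X.x 11 t) w = w) → ∃ c : ℂ, w = c • v)
    (h5 : ∀ t : F, t ≠ 0 → ∑ u : F, ρ (X.x 6 u) (ρ (X.x 5 t) v) = -v) {w : V}
    (h10 : ∀ u, ρ (X.x 10 u) w = w) (h11 : ∀ u, ρ (X.x 11 u) w = w) {t : F} (ht : t ≠ 0) :
    ee X ρ (ρ (X.x 1 t) w) = -pr X ρ ψ 0 w := by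
  have hq : (Fintype.card F : ℂ) ≠ 0 := by
    exact_mod_cast Fintype.card_ne_zero
  have hl : ∀ z : V, ee X ρ (ρ (X.x 1 t) z) = ((av X ρ 11) ∘ₗ (av X ρ 10) ∘ₗ (ρ (X.x 1 t) : V →ₗ[ℂ] V)) z := fun z => rfl
  have h1 : (Fintype.card F : ℂ) • ee X ρ (ρ (X.x 1 t) w) = (Fintype.card F : ℂ) • (-pr X ρ ψ 0 w) := by
    rw [hl, ← map_smul, ← sum_pr X ρ hψ w, map_sum, Finset.sum_eq_single (0 : F)]
    · rw [← hl]
      obtain ⟨c, hc⟩ := hline (pr X ρ ψ 0 w) (fun t => by rw [pr_x6]; simp)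
        (pr_fix10 X ρ 0 h10 h11) (pr_fix11 X ρ 0 h11)
      rw [hc, map_smul]
      have h2 : ee X ρ (c • ρ (X.x 1 t) v) = c • ee X ρ (ρ (X.x 1 t) v) := by
        rw [ee, map_smul, map_smul]; rfl
      rw [h2, ee_v X ρ hv0 hv11 hna h5 ht, smul_neg, smul_neg, smul_comm]
    · intro b _ hb
      rw [← hl]
      exact ee_kill X ρ hψ hb (pr_x6 X ρ b · w) (pr_fix10 X ρ b h10 h11) ht
    · intro h; exact absurd (Finset.mem_univ _) h
  exact smul_right_injective V hq h1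

end B2s3
end Cfsg.Agent.G2M
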