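import Cfsg.Agent.G2M.R

set_option autoImplicit false

/-!
# Characteristic three: a lower bound (helper17)
-/

namespace Cfsg.Agent.G2M
open Module Finset

variable {F G : Type*} [Field F] [Group G] {V : Type*} [AddCommGroup V] [Module ℂ V]
  (X : G2G F G) {ψ : AddChar F ℂ} (ρ : Representation ℂ G V)

namespace CHr

/-- `x r` acts by the character with parameter `c` on `v` -/
def Ev (X : G2G F G) (ψ : AddChar F ℂ) (ρ : Representation ℂ G V) (r : ℕ) (c : F) (v : V) : Prop :=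
  ∀ t, ρ (X.x r t) v = ψ (c * t) • v

theorem jcons {r : ℕ} {c : F} {l : List (ℕ × F)} {v : V} :
    v ∈ J X ψ ρ ((r, c) :: l) ↔ Ev X ψ ρ r c v ∧ v ∈ J X ψ ρ l :=
  ⟨fun h => ⟨h (r, c) (List.mem_cons_self), fun p hp => h p (List.mem_cons_of_mem _ hp)⟩,
    fun h p hp => by
      rcases List.mem_cons.1 hp with rfl | hp
      · exact h.1
      · exact h.2 p hp⟩

theorem mem_nil {v : V} : v ∈ J X ψ ρ [] := by
  intro p hp; simp at hp

variable {X} {ρ}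

theorem rmul (a b : G) (v : V) : ρ (a * b) v = ρ a (ρ b v) := by rw [map_mul]; rfl

/-- eigenvalues move under conjugation -/
theorem Ev.move {g : G} {r r' : ℕ} {e c : F} (hg : ∀ u, g * X.x r u * g⁻¹ = X.x r' (e * u)) (he : e ≠ 0) {v : V}
    (hv : Ev X ψ ρ r c v) : Ev X ψ ρ r' (c * e⁻¹) (ρ g v) := by
  intro t
  have h1 : X.x r' t * g = g * X.x r (e⁻¹ * t) := by
    have h2 := hg (e⁻¹ * t)
    rw [mul_inv_cancel_left₀ he] at h2
    rw [← h2]; group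
  rw [← rmul, h1, rmul, hv, map_smul, mul_assoc]

/-- the same for the inverse element -/
theorem Ev.move' {g : G} {r r' : ℕ} {e c : F} (hg : ∀ u, g * X.x r u * g⁻¹ = X.x r' (e * u)) {v : V}
    (hv : Ev X ψ ρ r' c v) : Ev X ψ ρ r (c * e) (ρ g⁻¹ v) := by
  intro t
  have h1 : X.x r t * g⁻¹ = g⁻¹ * X.x r' (e * t) := by
    rw [← hg t]; group
  rw [← rmul, h1, rmul, hv, map_smul, mul_assoc]

theorem pm_ne {e : F} (he : e = 1 ∨ e = -1) : e ≠ 0 := by
  rcases he with rfl | rfl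
  · exact one_ne_zero
  · exact neg_ne_zero.2 one_ne_zero

/-- commuting root elements preserve the eigenvalue -/
theorem Ev.keep {g : G} {r : ℕ} {c : F} (hg : ∀ u, g * X.x r u = X.x r u * g) {v : V}
    (hv : Ev X ψ ρ r c v) : Ev X ψ ρ r c (ρ g v) := by
  intro t
  rw [← rmul, ← hg, rmul, hv, map_smul]

theorem Ev.zero {r : ℕ} {v : V} (hv : Ev X ψ ρ r 0 v) (t : F) : ρ (X.x r t) v = v := by
  rw [hv t, zero_mul, AddChar.map_zero_eq_one, one_smul]

theorem conjv {g : G} {a b : G} (h : g⁻¹ * a * g = b) (v : V) : ρ a (ρ g v) = ρ g (ρ b v) := by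
  rw [← rmul, ← rmul, ← h]
  congr 2
  group

/-- `x 6` on `10` -/
theorem k610 {v : V} (h10 : Ev X ψ ρ 10 0 v) (h11 : Ev X ψ ρ 11 0 v) (t : F) : Ev X ψ ρ 10 0 (ρ (X.x 6 t) v) := by
  intro u
  rw [conjv (X.c610 t u), rmul, h11.zero, h10.zero, zero_mul, AddChar.map_zero_eq_one, one_smul]

/-- the set `8, 9, 10, 11` under `x 6` -/
theorem k6 {v : V} {c : F} (h8 : Ev X ψ ρ 8 c v) (h9 : Ev X ψ ρ 9 0 v) (h10 : Ev X ψ ρ 10 0 v) (h11 : Ev X ψ ρ 11 0 v) (t : F) :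
    Ev X ψ ρ 8 c (ρ (X.x 6 t) v) ∧ Ev X ψ ρ 9 0 (ρ (X.x 6 t) v) ∧ Ev X ψ ρ 10 0 (ρ (X.x 6 t) v) ∧ Ev X ψ ρ 11 0 (ρ (X.x 6 t) v) :=
  ⟨h8.keep fun u => X.comm 6 8 (by simp) t u, h9.keep fun u => X.comm 6 9 (by simp) t u, k610 h10 h11 t,
    h11.keep fun u => X.comm 6 11 (by simp) t u⟩

theorem k7 {v : V} {c : F} (h8 : Ev X ψ ρ 8 c v) (h9 : Ev X ψ ρ 9 0 v) (h10 : Ev X ψ ρ 10 0 v) (h11 : Ev X ψ ρ 11 0 v) (t : F) :
    Ev X ψ ρ 8 c (ρ (X.x 7 t) v) ∧ Ev X ψ ρ 9 0 (ρ (X.x 7 t) v) ∧ Ev X ψ ρ 10 0 (ρ (X.x 7 t) v) ∧ Ev X ψ ρ 11 0 (ρ (X.x 7 t) v) := by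
  refine ⟨fun u => ?_, fun u => ?_, h10.keep fun u => X.comm 7 10 (by simp) t u, h11.keep fun u => X.comm 7 11 (by simp) t u⟩
  · rw [conjv (X.c78 t u), rmul, rmul, rmul, h11.zero, h10.zero, h9.zero, h8, map_smul]
  · rw [conjv (X.c79 t u), rmul, h10.zero, h9.zero, zero_mul, AddChar.map_zero_eq_one, one_smul]

/-- `x 7` fixes the `6`-trivial space -/
theorem k76 {v : V} (h6 : Ev X ψ ρ 6 0 v) (h8 : Ev X ψ ρ 8 0 v) (h9 : Ev X ψ ρ 9 0 v) (h10 : Ev X ψ ρ 10 0 v) (h11 : Ev X ψ ρ 11 0 v) (t : F) :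
    Ev X ψ ρ 6 0 (ρ (X.x 7 t) v) := by
  intro u
  rw [conjv (X.c76 t u), rmul, rmul, rmul, rmul, h11.zero, h10.zero, h9.zero, h8.zero, h6.zero, zero_mul, AddChar.map_zero_eq_one, one_smul]

theorem x_zero {r : ℕ} (hr : r < 12) : X.x r 0 = 1 := by
  have h := X.add r hr 0 0
  rw [add_zero] at h
  exact (mul_eq_left.1 h.symm)

theorem x_neg {r : ℕ} (hr : r < 12) (t : F) : (X.x r t)⁻¹ = X.x r (-t) := by
  rw [inv_eq_iff_mul_eq_one, ← X.add r hr, add_neg_cancel, x_zero hr]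

/-- `x 6` shifts `7` -/
theorem k67 {v : V} {a c : F} (h7 : Ev X ψ ρ 7 a v) (h8 : Ev X ψ ρ 8 c v) (h9 : Ev X ψ ρ 9 0 v) (h10 : Ev X ψ ρ 10 0 v) (h11 : Ev X ψ ρ 11 0 v) (s : F) :
    Ev X ψ ρ 7 (a - c * s) (ρ (X.x 6 s) v) := by
  intro t
  obtain ⟨y, h⟩ : ∃ y : F, (X.x 7 t)⁻¹ * X.x 6 s * X.x 7 t =
      X.x 6 s * X.x 8 (t * s) * X.x 9 (t ^ 2 * s) * X.x 10 (-(t ^ 3 * s)) * X.x 11 y := ⟨_, X.c76 t s⟩
  set Z := X.x 8 (t * s) * X.x 9 (t ^ 2 * s) * X.x 10 (-(t ^ 3 * s)) * X.x 11 y with hZ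
  have h2 : X.x 6 s * X.x 7 t = X.x 7 t * X.x 6 s * Z := by
    have : X.x 7 t * ((X.x 7 t)⁻¹ * X.x 6 s * X.x 7 t) = X.x 7 t * (X.x 6 s * Z) := by
      rw [h, hZ]; group
    calc X.x 6 s * X.x 7 t = X.x 7 t * ((X.x 7 t)⁻¹ * X.x 6 s * X.x 7 t) := by group
      _ = _ := by rw [this]; group
  have h3 : ρ Z v = ψ (c * (t * s)) • v := by
    rw [hZ, rmul, rmul, rmul, h11.zero, h10.zero, h9.zero, h8]
  have h4 : ρ (X.x 6 s) (ρ (X.x 7 t) v) = ψ (c * (t * s)) • ρ (X.x 7 t) (ρ (X.x 6 s) v) := by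
    rw [← rmul, h2, rmul, h3, map_smul, rmul]
  rw [h7, map_smul] at h4
  have h5 : ψ (c * (t * s)) * ψ ((a - c * s) * t) = ψ (a * t) := by
    rw [← AddChar.map_add_eq_mul]; congr 1; ring
  have h6 : ψ (c * (t * s)) ≠ 0 := by
    intro h0
    have h7 : ψ (c * (t * s)) * ψ (-(c * (t * s))) = 1 := by rw [← AddChar.map_add_eq_mul, add_neg_cancel, AddChar.map_zero_eq_one]
    rw [h0, zero_mul] at h7
    exact zero_ne_one h7
  rw [← h5, mul_smul] at h4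
  exact ((smul_right_inj h6).1 h4).symm

end CHr

variable [Fintype F] [DecidableEq F] [FiniteDimensional ℂ V]

open CHr

theorem c_hr [CharP F 3] (hψ : ψ ≠ 0) (hq : 3 < Fintype.card F)
    (h1 : ∀ b c : F, c ≠ 0 → dj X ψ ρ [(6, b), (8, c), (9, 0), (10, 0), (11, 0)] = 1) :
    Fintype.card F - 1 ≤ dj X ψ ρ [(6, 0), (8, 0), (9, 0), (10, 0), (11, 0)] := by
  -- step 1
  have s1 : ∀ c : F, c ≠ 0 → dj X ψ ρ [(8, c), (9, 0), (10, 0), (11, 0)] = Fintype.card F := by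
    intro c hc
    rw [dj_split X ρ hψ (s := 6) (by norm_num)]
    · rw [Finset.sum_congr rfl (fun b _ => h1 b c hc)]; simp
    · intro t v hv
      simp only [jcons] at hv ⊢
      obtain ⟨h8, h9, h10, h11, -⟩ := hv
      obtain ⟨a1, a2, a3, a4⟩ := k6 h8 h9 h10 h11 t
      exact ⟨a1, a2, a3, a4, mem_nil X ρ⟩
  -- shift
  have s2 : ∀ a c : F, c ≠ 0 → dj X ψ ρ [(7, a), (8, c), (9, 0), (10, 0), (11, 0)] = dj X ψ ρ [(7, 0), (8, c), (9, 0), (10, 0), (11, 0)] := by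
    intro a c hc
    apply dj_eq_of_map X ρ (X.x 6 (a * c⁻¹))
    · intro v hv
      simp only [jcons] at hv ⊢
      obtain ⟨h7, h8, h9, h10, h11, -⟩ := hv
      obtain ⟨a1, a2, a3, a4⟩ := k6 h8 h9 h10 h11 (a * c⁻¹)
      have a0 := k67 h7 h8 h9 h10 h11 (a * c⁻¹)
      have : a - c * (a * c⁻¹) = 0 := by field_simp; ring
      rw [this] at a0
      exact ⟨a0, a1, a2, a3, a4, mem_nil X ρ⟩
    · intro v hv
      rw [x_neg (by norm_num)]
      simp only [jcons] at hv ⊢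
      obtain ⟨h7, h8, h9, h10, h11, -⟩ := hv
      obtain ⟨a1, a2, a3, a4⟩ := k6 h8 h9 h10 h11 (-(a * c⁻¹))
      have a0 := k67 h7 h8 h9 h10 h11 (-(a * c⁻¹))
      have : 0 - c * (-(a * c⁻¹)) = a := by field_simp; ring
      rw [this] at a0
      exact ⟨a0, a1, a2, a3, a4, mem_nil X ρ⟩
  have s3 : ∀ c : F, c ≠ 0 → dj X ψ ρ [(7, 0), (8, c), (9, 0), (10, 0), (11, 0)] = 1 := by
    intro c hc
    have e1 := s1 c hc
    rw [dj_split X ρ hψ (s := 7) (by norm_num)] at e1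
    · rw [Finset.sum_congr rfl (fun a _ => s2 a c hc)] at e1
      simp only [Finset.sum_const, Finset.card_univ, smul_eq_mul] at e1
      have : 0 < Fintype.card F := by omega
      exact Nat.eq_of_mul_eq_mul_left this (by rw [e1, mul_one])
    · intro t v hv
      simp only [jcons] at hv ⊢
      obtain ⟨h8, h9, h10, h11, -⟩ := hv
      obtain ⟨a1, a2, a3, a4⟩ := k7 h8 h9 h10 h11 t
      exact ⟨a1, a2, a3, a4, mem_nil X ρ⟩
  -- conjugate by nb
  have s4 : ∀ a : F, a ≠ 0 → dj X ψ ρ [(7, a), (8, 0), (9, 0), (10, 0), (11, 0)] = 1 := by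
    intro a ha
    obtain ⟨e7, he7, h7⟩ := X.hnb 7 (by norm_num)
    obtain ⟨e8, he8, h8⟩ := X.hnb 8 (by norm_num)
    obtain ⟨e9, he9, h9⟩ := X.hnb 9 (by norm_num)
    obtain ⟨e10, he10, h10⟩ := X.hnb 10 (by norm_num)
    obtain ⟨e11, he11, h11⟩ := X.hnb 11 (by norm_num)
    have r7 : rb 7 = 8 := rfl
    have r8 : rb 8 = 7 := rfl
    have r9 : rb 9 = 9 := rfl
    have r10 : rb 10 = 11 := rfl
    have r11 : rb 11 = 10 := rfl
    rw [r7] at h7
    rw [r8] at h8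
    rw [r9] at h9
    rw [r10] at h10
    rw [r11] at h11
    rw [← s3 (a * e8) (mul_ne_zero ha (pm_ne he8))]
    symm
    apply dj_eq_of_map X ρ X.nb
    · intro v hv
      simp only [jcons] at hv ⊢
      obtain ⟨g7, g8, g9, g10, g11, -⟩ := hv
      have k7' := g7.move h7 (pm_ne he7)
      have k8' := g8.move h8 (pm_ne he8)
      have k9' := g9.move h9 (pm_ne he9)
      have k10' := g10.move h10 (pm_ne he10)
      have k11' := g11.move h11 (pm_ne he11)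
      rw [zero_mul] at k7' k9' k10' k11'
      rw [mul_assoc, mul_inv_cancel₀ (pm_ne he8), mul_one] at k8'
      exact ⟨k8', k7', k9', k11', k10', mem_nil X ρ⟩
    · intro v hv
      simp only [jcons] at hv ⊢
      obtain ⟨g7, g8, g9, g10, g11, -⟩ := hv
      have k7' := g8.move' h7
      have k8' := g7.move' h8
      have k9' := g9.move' h9
      have k10' := g11.move' h10
      have k11' := g10.move' h11
      rw [zero_mul] at k7' k9' k10' k11'
      exact ⟨k7', k8', k9', k10', k11', mem_nil X ρ⟩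
  -- split by 6
  have s5 : ∀ a b : F, a ≠ 0 → b ≠ 0 → dj X ψ ρ [(6, b), (7, a), (8, 0), (9, 0), (10, 0), (11, 0)] =
      dj X ψ ρ [(6, 1), (7, a), (8, 0), (9, 0), (10, 0), (11, 0)] := by
    intro a b _ hb
    have hT := fun r hr u => X.tor 1 (Units.mk0 b hb) r hr u
    have t6 : ∀ u, X.h 1 (Units.mk0 b hb) * X.x 6 u * (X.h 1 (Units.mk0 b hb))⁻¹ = X.x 6 (b * u) := by
      intro u; rw [hT 6 (by norm_num) u]; congr 1; simp [ca, cb]
    have t7 : ∀ u, X.h 1 (Units.mk0 b hb) * X.x 7 u * (X.h 1 (Units.mk0 b hb))⁻¹ = X.x 7 (1 * u) := by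
      intro u; rw [hT 7 (by norm_num) u]; congr 1; simp [ca, cb]
    have t8 : ∀ u, X.h 1 (Units.mk0 b hb) * X.x 8 u * (X.h 1 (Units.mk0 b hb))⁻¹ = X.x 8 (b * u) := by
      intro u; rw [hT 8 (by norm_num) u]; congr 1; simp [ca, cb]
    have t9 : ∀ u, X.h 1 (Units.mk0 b hb) * X.x 9 u * (X.h 1 (Units.mk0 b hb))⁻¹ = X.x 9 (b * u) := by
      intro u; rw [hT 9 (by norm_num) u]; congr 1; simp [ca, cb]
    have t10 : ∀ u, X.h 1 (Units.mk0 b hb) * X.x 10 u * (X.h 1 (Units.mk0 b hb))⁻¹ = X.x 10 (b * u) := by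
      intro u; rw [hT 10 (by norm_num) u]; congr 1; simp [ca, cb]
    have t11 : ∀ u, X.h 1 (Units.mk0 b hb) * X.x 11 u * (X.h 1 (Units.mk0 b hb))⁻¹ = X.x 11 (b ^ 2 * u) := by
      intro u; rw [hT 11 (by norm_num) u]; congr 1; simp [ca, cb]
    apply dj_eq_of_map X ρ (X.h 1 (Units.mk0 b hb))
    · intro v hv
      simp only [jcons] at hv ⊢
      obtain ⟨g6, g7, g8, g9, g10, g11, -⟩ := hv
      have k6' := g6.move t6 hb
      have k7' := g7.move t7 one_ne_zero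
      have k8' := g8.move t8 hb
      have k9' := g9.move t9 hb
      have k10' := g10.move t10 hb
      have k11' := g11.move t11 (pow_ne_zero 2 hb)
      rw [zero_mul] at k8' k9' k10' k11'
      rw [mul_inv_cancel₀ hb] at k6'
      rw [inv_one, mul_one] at k7'
      exact ⟨k6', k7', k8', k9', k10', k11', mem_nil X ρ⟩
    · intro v hv
      simp only [jcons] at hv ⊢
      obtain ⟨g6, g7, g8, g9, g10, g11, -⟩ := hv
      have k6' := g6.move' t6
      have k7' := g7.move' t7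
      have k8' := g8.move' t8
      have k9' := g9.move' t9
      have k10' := g10.move' t10
      have k11' := g11.move' t11
      rw [zero_mul] at k8' k9' k10' k11'
      rw [one_mul] at k6'
      rw [mul_one] at k7'
      exact ⟨k6', k7', k8', k9', k10', k11', mem_nil X ρ⟩
  have s6 : ∀ a : F, a ≠ 0 → dj X ψ ρ [(6, 0), (7, a), (8, 0), (9, 0), (10, 0), (11, 0)] = 1 := by
    intro a ha
    have e1 := s4 a ha
    rw [dj_split X ρ hψ (s := 6) (by norm_num)] at e1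
    · rw [← Finset.add_sum_erase _ _ (Finset.mem_univ (0 : F)),
        Finset.sum_congr rfl (fun b hb => s5 a b ha (Finset.ne_of_mem_erase hb))] at e1
      simp only [Finset.sum_const, Finset.card_erase_of_mem (Finset.mem_univ (0 : F)), Finset.card_univ, smul_eq_mul] at e1
      rcases Nat.eq_zero_or_pos (dj X ψ ρ [(6, 1), (7, a), (8, 0), (9, 0), (10, 0), (11, 0)]) with h0 | h0
      · rw [h0, mul_zero, add_zero] at e1; exact e1
      · have h2 : 3 * 1 ≤ (Fintype.card F - 1) * dj X ψ ρ [(6, 1), (7, a), (8, 0), (9, 0), (10, 0), (11, 0)] :=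
          Nat.mul_le_mul (by omega) h0
        omega
    · intro t v hv
      simp only [jcons] at hv ⊢
      obtain ⟨h7, h8, h9, h10, h11, -⟩ := hv
      obtain ⟨a1, a2, a3, a4⟩ := k6 h8 h9 h10 h11 t
      have a0 := k67 h7 h8 h9 h10 h11 t
      rw [zero_mul, sub_zero] at a0
      exact ⟨a0, a1, a2, a3, a4, mem_nil X ρ⟩
  have s7 : ∀ a : F, dj X ψ ρ [(7, a), (6, 0), (8, 0), (9, 0), (10, 0), (11, 0)] = dj X ψ ρ [(6, 0), (7, a), (8, 0), (9, 0), (10, 0), (11, 0)] := by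
    intro a
    unfold dj
    have : J X ψ ρ [(7, a), (6, 0), (8, 0), (9, 0), (10, 0), (11, 0)] = J X ψ ρ [(6, 0), (7, a), (8, 0), (9, 0), (10, 0), (11, 0)] := by
      ext v
      simp only [jcons]
      tauto
    rw [this]
  rw [dj_split X ρ hψ (s := 7) (by norm_num)]
  · rw [← Finset.add_sum_erase _ _ (Finset.mem_univ (0 : F)),
      Finset.sum_congr rfl (fun a ha => (s7 a).trans (s6 a (Finset.ne_of_mem_erase ha)))]
    simp only [Finset.sum_const, Finset.card_erase_of_mem (Finset.mem_univ (0 : F)), Finset.card_univ, smul_eq_mul, mul_one]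
    omega
  · intro t v hv
    simp only [jcons] at hv ⊢
    obtain ⟨h6, h8, h9, h10, h11, -⟩ := hv
    obtain ⟨a1, a2, a3, a4⟩ := k7 h8 h9 h10 h11 t
    exact ⟨k76 h6 h8 h9 h10 h11 t, a1, a2, a3, a4, mem_nil X ρ⟩

end Cfsg.Agent.G2M
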