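import Cfsg.Agent.G2M.R

set_option autoImplicit false

/-! S2338: `c_le`. -/

namespace Cfsg.Agent.G2M

open Module Finset

variable {F G : Type*} [Field F] [Fintype F] [DecidableEq F] [Group G] {V : Type*} [AddCommGroup V] [Module ℂ V] [FiniteDimensional ℂ V]
  (X : G2G F G) {ψ : AddChar F ℂ} (ρ : Representation ℂ G V)

namespace CLe

theorem mul_app (g h : G) (v : V) : ρ (g * h) v = ρ g (ρ h v) := by rw [map_mul]; rfl

theorem inv_app (g : G) (v : V) : ρ g (ρ g⁻¹ v) = v := by rw [← mul_app, mul_inv_cancel, map_one]; rfl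

theorem stab_comm {s : ℕ} {l : List (ℕ × F)}
    (h : ∀ p ∈ l, ∀ t u, X.x s t * X.x p.1 u = X.x p.1 u * X.x s t) :
    ∀ t, ∀ v ∈ J X ψ ρ l, ρ (X.x s t) v ∈ J X ψ ρ l := by
  intro t v hv p hp u
  rw [← mul_app, ← h p hp t u, mul_app, hv p hp u, map_smul]

theorem sum_const_off (f : F → ℕ) (c : ℕ) (h : ∀ z, z ≠ 0 → f z = c) :
    ∑ z, f z = f 0 + (Fintype.card F - 1) * c := by
  rw [← Finset.add_sum_erase univ f (mem_univ 0)]
  congr 1
  rw [Finset.sum_congr rfl (fun z hz => h z (Finset.ne_of_mem_erase hz)), Finset.sum_const,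
    Finset.card_erase_of_mem (mem_univ 0), Finset.card_univ, smul_eq_mul]

theorem dj_nb (e : F) : ∃ ε : F, (ε = 1 ∨ ε = -1) ∧
    dj X ψ ρ [(10, e), (11, 0)] = dj X ψ ρ [(10, 0), (11, ε * e)] := by
  obtain ⟨ε, hε, h10⟩ := X.hnb 10 (by norm_num)
  obtain ⟨δ, hδ, h11⟩ := X.hnb 11 (by norm_num)
  have hrb10 : rb 10 = 11 := rfl
  have hrb11 : rb 11 = 10 := rfl
  rw [hrb10] at h10
  rw [hrb11] at h11
  have hε2 : ε * ε = 1 := by rcases hε with h | h <;> rw [h] <;> ring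
  have hδ2 : δ * δ = 1 := by rcases hδ with h | h <;> rw [h] <;> ring
  have a11 : ∀ u, X.x 11 u * X.nb = X.nb * X.x 10 (ε * u) := by
    intro u
    have := h10 (ε * u)
    rw [← mul_assoc ε ε u, hε2, one_mul] at this
    rw [← this]; group
  have a10 : ∀ u, X.x 10 u * X.nb = X.nb * X.x 11 (δ * u) := by
    intro u
    have := h11 (δ * u)
    rw [← mul_assoc δ δ u, hδ2, one_mul] at this
    rw [← this]; group
  have b10 : ∀ u, X.x 10 u * X.nb⁻¹ = X.nb⁻¹ * X.x 11 (ε * u) := by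
    intro u
    rw [← h10 u]; group
  have b11 : ∀ u, X.x 11 u * X.nb⁻¹ = X.nb⁻¹ * X.x 10 (δ * u) := by
    intro u
    rw [← h11 u]; group
  refine ⟨ε, hε, dj_eq_of_map X ρ X.nb ?_ ?_⟩
  · intro v hv p hp u
    have hv10 := hv (10, e) (by simp)
    have hv11 := hv (11, 0) (by simp)
    rcases List.mem_cons.1 hp with rfl | hp
    · change ρ (X.x 10 u) (ρ X.nb v) = ψ (0 * u) • ρ X.nb v
      rw [← mul_app, a10, mul_app]
      have := hv11 (δ * u)
      change ρ (X.x 11 (δ * u)) v = ψ (0 * (δ * u)) • v at this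
      rw [this, map_smul, zero_mul, zero_mul]
    · rw [List.mem_singleton] at hp
      subst hp
      change ρ (X.x 11 u) (ρ X.nb v) = ψ (ε * e * u) • ρ X.nb v
      rw [← mul_app, a11, mul_app]
      have := hv10 (ε * u)
      change ρ (X.x 10 (ε * u)) v = ψ (e * (ε * u)) • v at this
      rw [this, map_smul]
      congr 2
      ring
  · intro v hv p hp u
    have hv10 := hv (10, 0) (by simp)
    have hv11 := hv (11, ε * e) (by simp)
    rcases List.mem_cons.1 hp with rfl | hp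
    · change ρ (X.x 10 u) (ρ X.nb⁻¹ v) = ψ (e * u) • ρ X.nb⁻¹ v
      rw [← mul_app, b10, mul_app]
      have := hv11 (ε * u)
      change ρ (X.x 11 (ε * u)) v = ψ (ε * e * (ε * u)) • v at this
      rw [this, map_smul]
      congr 2
      linear_combination (e * u) * hε2
    · rw [List.mem_singleton] at hp
      subst hp
      change ρ (X.x 11 u) (ρ X.nb⁻¹ v) = ψ (0 * u) • ρ X.nb⁻¹ v
      rw [← mul_app, b11, mul_app]
      have := hv10 (δ * u)
      change ρ (X.x 10 (δ * u)) v = ψ (0 * (δ * u)) • v at this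
      rw [this, map_smul, zero_mul, zero_mul]

theorem stab6 : ∀ t, ∀ v ∈ J X ψ ρ [(10, 0), (11, 0)], ρ (X.x 6 t) v ∈ J X ψ ρ [(10, 0), (11, 0)] := by
  intro t v hv p hp u
  have hv10 : ∀ u, ρ (X.x 10 u) v = v := by
    intro u
    have := hv (10, 0) (by simp) u
    rwa [zero_mul, AddChar.map_zero_eq_one, one_smul] at this
  have hv11 : ∀ u, ρ (X.x 11 u) v = v := by
    intro u
    have := hv (11, 0) (by simp) u
    rwa [zero_mul, AddChar.map_zero_eq_one, one_smul] at this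
  rcases List.mem_cons.1 hp with rfl | hp
  · change ρ (X.x 10 u) (ρ (X.x 6 t) v) = ψ (0 * u) • ρ (X.x 6 t) v
    have h1 : X.x 10 u * X.x 6 t = X.x 6 t * (X.x 10 u * X.x 11 (t * u)) := by
      rw [← X.c610]; group
    rw [← mul_app, h1, mul_app, mul_app, hv11, hv10, zero_mul, AddChar.map_zero_eq_one, one_smul]
  · rw [List.mem_singleton] at hp
    subst hp
    change ρ (X.x 11 u) (ρ (X.x 6 t) v) = ψ (0 * u) • ρ (X.x 6 t) v
    have h1 : X.x 11 u * X.x 6 t = X.x 6 t * X.x 11 u := (X.comm 6 11 (by simp) t u).symm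
    rw [← mul_app, h1, mul_app, hv11, zero_mul, AddChar.map_zero_eq_one, one_smul]

end CLe

theorem c_le (hψ : ψ ≠ 0) (hV : finrank ℂ V < Fintype.card F ^ 3 + 1)
    (hz1 : ∀ z, z ≠ 0 → dj X ψ ρ [(11, z)] = Fintype.card F ^ 2)
    (hZ : ∀ z, z ≠ 0 → dj X ψ ρ [(10, 0), (11, z)] = Fintype.card F)
    (hz : ∀ z, z ≠ 0 → ∀ d, dj X ψ ρ [(9, d), (11, z)] = Fintype.card F)
    (h1 : ∀ b, b ≠ 0 → dj X ψ ρ [(6, b), (10, 0), (11, 0)] = 1) :
    dj X ψ ρ [(6, 0), (10, 0), (11, 0)] ≤ 1 := by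
  have hV0 : finrank ℂ V = dj X ψ ρ [] := by
    have h2 : J X ψ ρ ([] : List (ℕ × F)) = ⊤ := by
      rw [eq_top_iff]
      intro v _ p hp
      exact absurd hp (List.not_mem_nil)
    rw [dj, h2, finrank_top]
  have e1 := dj_split X ρ hψ (s := 11) (by norm_num) [] (CLe.stab_comm X ρ (by
    intro p hp; exact absurd hp (List.not_mem_nil)))
  have e2 := dj_split X ρ hψ (s := 10) (by norm_num) [((11 : ℕ), (0 : F))] (CLe.stab_comm X ρ (by
    intro p hp t u
    rw [List.mem_singleton] at hp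
    subst hp
    exact X.comm 10 11 (by simp) t u))
  have e3 := dj_split X ρ hψ (s := 6) (by norm_num) [((10 : ℕ), (0 : F)), (11, 0)] (CLe.stab6 X ρ)
  rw [CLe.sum_const_off _ _ hz1] at e1
  rw [CLe.sum_const_off _ (Fintype.card F) (fun e he => by
    obtain ⟨ε, hε, h⟩ := CLe.dj_nb X (ψ := ψ) ρ e
    rw [h]
    apply hZ
    rcases hε with h | h
    · rw [h, one_mul]; exact he
    · rw [h, neg_one_mul]; exact neg_ne_zero.2 he)] at e2
  rw [CLe.sum_const_off _ _ h1] at e3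
  have hq : 1 ≤ Fintype.card F := Fintype.card_pos
  obtain ⟨k, hk⟩ : ∃ k, Fintype.card F = k + 1 := ⟨Fintype.card F - 1, by omega⟩
  rw [hV0, e1, e2, e3] at hV
  rw [hk] at hV
  simp only [Nat.add_sub_cancel] at hV
  have e4 : (k + 1) ^ 3 = (k + 1) + k * (k + 1) + k * (k + 1) ^ 2 := by ring
  rw [e4] at hV
  omega

end Cfsg.Agent.G2M
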