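import Cfsg.Agent.G2M.CM46a
import Cfsg.Agent.G2M.R

set_option autoImplicit false
set_option maxHeartbeats 1000000

namespace Cfsg.Agent.G2M.CM46
open Module Finset

variable {F G : Type*} [Field F] [Fintype F] [DecidableEq F] [Group G] {V : Type*} [AddCommGroup V] [Module ℂ V] [FiniteDimensional ℂ V]
  (X : G2G F G) {ψ : AddChar F ℂ} (ρ : Representation ℂ G V)

theorem c_hA [CharP F 3] (t b c d e : F) :
    dj X ψ ρ [(6, b), (8, c), (9, d), (10, e), (11, 0)] =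
      dj X ψ ρ [(6, b + t * c + t ^ 2 * d - t ^ 3 * e), (8, c + 2 * t * d), (9, d), (10, e), (11, 0)] := by
  have key : ∀ (t b c d e : F) (v : V), v ∈ J X ψ ρ [(6, b), (8, c), (9, d), (10, e), (11, 0)] →
      ρ (X.x 7 t) v ∈ J X ψ ρ [(6, b + t * c + t ^ 2 * d - t ^ 3 * e), (8, c + 2 * t * d), (9, d), (10, e), (11, 0)] := by
    intro t b c d e v
    simp only [mem_cons, mem_nil, and_true]
    rintro ⟨h6, h8, h9, h10, h11⟩
    exact ⟨s76 h6 h8 h9 h10 h11 t, s78 h8 h9 t, L1 C79 h9 t, L1 C710 h10 t, L1 C711 h11 t⟩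
  refine dj_eq_of_map X ρ (X.x 7 t) (key t b c d e) ?_
  intro v hv
  have h := key (-t) _ _ _ _ v hv
  rw [x_neg (by norm_num)] at h
  have e1 : b + t * c + t ^ 2 * d - t ^ 3 * e + -t * (c + 2 * t * d) + (-t) ^ 2 * d - (-t) ^ 3 * e = b := by ring
  have e2 : c + 2 * t * d + 2 * -t * d = c := by ring
  rw [e1, e2] at h
  exact h

theorem c_hAn [CharP F 3] (t z c d : F) :
    dj X ψ ρ [(8, c), (9, d), (10, 0), (11, z)] = dj X ψ ρ [(8, c + 2 * t * d), (9, d), (10, 0), (11, z)] := by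
  have key : ∀ (t z c d : F) (v : V), v ∈ J X ψ ρ [(8, c), (9, d), (10, 0), (11, z)] →
      ρ (X.x 7 t) v ∈ J X ψ ρ [(8, c + 2 * t * d), (9, d), (10, 0), (11, z)] := by
    intro t z c d v
    simp only [mem_cons, mem_nil, and_true]
    rintro ⟨h8, h9, h10, h11⟩
    exact ⟨s78 h8 h9 t, L1 C79 h9 t, L1 C710 h10 t, L1 C711 h11 t⟩
  refine dj_eq_of_map X ρ (X.x 7 t) (key t z c d) ?_
  intro v hv
  have h := key (-t) _ _ _ v hv
  rw [x_neg (by norm_num)] at h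
  have e2 : c + 2 * t * d + 2 * -t * d = c := by ring
  rw [e2] at h
  exact h

variable {ρ}

/-- Heisenberg, splitting by `10` -/
theorem H1 (hψ : ψ ≠ 0) {l : List (ℕ × F)} (h6 : ∀ t, ∀ v ∈ J X ψ ρ l, ρ (X.x 6 t) v ∈ J X ψ ρ l)
    (h10 : ∀ t, ∀ v ∈ J X ψ ρ l, ρ (X.x 10 t) v ∈ J X ψ ρ l) {z : F} (hz : z ≠ 0) (e0 : F) :
    dj X ψ ρ ((11, z) :: l) = Fintype.card F * dj X ψ ρ ((10, e0) :: (11, z) :: l) := by
  rw [dj_split X ρ hψ (s := 10) (by norm_num) ((11, z) :: l) (by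
    intro t v
    simp only [mem_cons]
    rintro ⟨h1, h2⟩
    exact ⟨L1 C1011 h1 t, h10 t v h2⟩)]
  have hall : ∀ e, dj X ψ ρ ((10, e) :: (11, z) :: l) = dj X ψ ρ ((10, e0) :: (11, z) :: l) := by
    intro e
    have key : ∀ (t e : F) (v : V), v ∈ J X ψ ρ ((10, e) :: (11, z) :: l) →
        ρ (X.x 6 t) v ∈ J X ψ ρ ((10, e + z * t) :: (11, z) :: l) := by
      intro t e v
      simp only [mem_cons]
      rintro ⟨h1, h2, h3⟩
      exact ⟨s610 h1 h2 t, L1 C611 h2 t, h6 t v h3⟩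
    refine dj_eq_of_map X ρ (X.x 6 ((e0 - e) / z)) ?_ ?_
    · intro v hv
      have h := key ((e0 - e) / z) e v hv
      have e1 : e + z * ((e0 - e) / z) = e0 := by field_simp; ring
      rwa [e1] at h
    · intro v hv
      have h := key (-((e0 - e) / z)) e0 v hv
      rw [x_neg (by norm_num)] at h
      have e1 : e0 + z * -((e0 - e) / z) = e := by field_simp; ring
      rwa [e1] at h
  rw [Finset.sum_congr rfl fun e _ => hall e, Finset.sum_const, card_univ, smul_eq_mul]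

/-- Heisenberg, splitting by `6` -/
theorem H2 (hψ : ψ ≠ 0) {l : List (ℕ × F)} (h6 : ∀ t, ∀ v ∈ J X ψ ρ l, ρ (X.x 6 t) v ∈ J X ψ ρ l)
    (h10 : ∀ t, ∀ v ∈ J X ψ ρ l, ρ (X.x 10 t) v ∈ J X ψ ρ l) {z : F} (hz : z ≠ 0) (b0 : F) :
    dj X ψ ρ ((11, z) :: l) = Fintype.card F * dj X ψ ρ ((6, b0) :: (11, z) :: l) := by
  rw [dj_split X ρ hψ (s := 6) (by norm_num) ((11, z) :: l) (by
    intro t v
    simp only [mem_cons]
    rintro ⟨h1, h2⟩
    exact ⟨L1 C611 h1 t, h6 t v h2⟩)]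
  have hall : ∀ e, dj X ψ ρ ((6, e) :: (11, z) :: l) = dj X ψ ρ ((6, b0) :: (11, z) :: l) := by
    intro e
    have key : ∀ (t e : F) (v : V), v ∈ J X ψ ρ ((6, e) :: (11, z) :: l) →
        ρ (X.x 10 t) v ∈ J X ψ ρ ((6, e - z * t) :: (11, z) :: l) := by
      intro t e v
      simp only [mem_cons]
      rintro ⟨h1, h2, h3⟩
      exact ⟨s106 h1 h2 t, L1 C1011 h2 t, h10 t v h3⟩
    refine dj_eq_of_map X ρ (X.x 10 ((e - b0) / z)) ?_ ?_
    · intro v hv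
      have h := key ((e - b0) / z) e v hv
      have e1 : e - z * ((e - b0) / z) = b0 := by field_simp; ring
      rwa [e1] at h
    · intro v hv
      have h := key (-((e - b0) / z)) b0 v hv
      rw [x_neg (by norm_num)] at h
      have e1 : b0 - z * -((e - b0) / z) = e := by field_simp; ring
      rwa [e1] at h
  rw [Finset.sum_congr rfl fun e _ => hall e, Finset.sum_const, card_univ, smul_eq_mul]

theorem H12 (hψ : ψ ≠ 0) {l : List (ℕ × F)} (h6 : ∀ t, ∀ v ∈ J X ψ ρ l, ρ (X.x 6 t) v ∈ J X ψ ρ l)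
    (h10 : ∀ t, ∀ v ∈ J X ψ ρ l, ρ (X.x 10 t) v ∈ J X ψ ρ l) {z : F} (hz : z ≠ 0) (b0 e0 : F) :
    dj X ψ ρ ((6, b0) :: (11, z) :: l) = dj X ψ ρ ((10, e0) :: (11, z) :: l) :=
  Nat.eq_of_mul_eq_mul_left Fintype.card_pos ((H2 X hψ h6 h10 hz b0).symm.trans (H1 X hψ h6 h10 hz e0))

theorem N1 [CharP F 3] (hψ : ψ ≠ 0) (z d : F) :
    dj X ψ ρ [(9, d), (10, 0), (11, z)] = ∑ c, dj X ψ ρ [(8, c), (9, d), (10, 0), (11, z)] := by
  refine dj_split X ρ hψ (s := 8) (by norm_num) _ ?_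
  intro t v
  simp only [mem_cons, mem_nil, and_true]
  rintro ⟨h9, h10, h11⟩
  exact ⟨L1 C89 h9 t, L1 C810 h10 t, L1 C811 h11 t⟩

theorem N0 [CharP F 3] (hψ : ψ ≠ 0) (z : F) :
    dj X ψ ρ [(10, 0), (11, z)] = ∑ c, ∑ d, dj X ψ ρ [(8, c), (9, d), (10, 0), (11, z)] := by
  rw [Finset.sum_comm, Finset.sum_congr rfl fun d _ => (N1 X hψ z d).symm]
  refine dj_split X ρ hψ (s := 9) (by norm_num) _ ?_
  intro t v
  simp only [mem_cons, mem_nil, and_true]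
  rintro ⟨h10, h11⟩
  exact ⟨L1 C910 h10 t, L1 C911 h11 t⟩

theorem N00 [CharP F 3] (hψ : ψ ≠ 0) {z : F} (hz : z ≠ 0) :
    dj X ψ ρ [(11, z)] = Fintype.card F * ∑ c, ∑ d, dj X ψ ρ [(8, c), (9, d), (10, 0), (11, z)] := by
  rw [← N0 X hψ z]
  exact H1 X hψ (l := []) (fun t v _ => (mem_nil X ψ ρ _).2 trivial) (fun t v _ => (mem_nil X ψ ρ _).2 trivial) hz 0

theorem M3 (hψ : ψ ≠ 0) (c d e : F) :
    dj X ψ ρ [(8, c), (9, d), (10, e), (11, 0)] = ∑ b, dj X ψ ρ [(6, b), (8, c), (9, d), (10, e), (11, 0)] := by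
  refine dj_split X ρ hψ (s := 6) (by norm_num) _ ?_
  intro t v
  simp only [mem_cons, mem_nil, and_true]
  rintro ⟨h8, h9, h10, h11⟩
  have h := s610 h10 h11 t
  rw [zero_mul, add_zero] at h
  exact ⟨L1 C68 h8 t, L1 C69 h9 t, h, L1 C611 h11 t⟩

theorem M2 [CharP F 3] (hψ : ψ ≠ 0) (d e : F) :
    dj X ψ ρ [(9, d), (10, e), (11, 0)] = ∑ c, ∑ b, dj X ψ ρ [(6, b), (8, c), (9, d), (10, e), (11, 0)] := by
  rw [Finset.sum_congr rfl fun c _ => (M3 X hψ c d e).symm]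
  refine dj_split X ρ hψ (s := 8) (by norm_num) _ ?_
  intro t v
  simp only [mem_cons, mem_nil, and_true]
  rintro ⟨h9, h10, h11⟩
  exact ⟨L1 C89 h9 t, L1 C810 h10 t, L1 C811 h11 t⟩

theorem M1 [CharP F 3] (hψ : ψ ≠ 0) :
    dj X ψ ρ [(11, 0)] = ∑ e, ∑ d, ∑ c, ∑ b, dj X ψ ρ [(6, b), (8, c), (9, d), (10, e), (11, 0)] := by
  rw [dj_split X ρ hψ (s := 10) (by norm_num) [(11, 0)] (by
    intro t v
    simp only [mem_cons, mem_nil, and_true]
    intro h11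
    exact L1 C1011 h11 t)]
  refine Finset.sum_congr rfl fun e _ => ?_
  rw [Finset.sum_congr rfl fun d _ => (M2 X hψ d e).symm]
  refine dj_split X ρ hψ (s := 9) (by norm_num) _ ?_
  intro t v
  simp only [mem_cons, mem_nil, and_true]
  rintro ⟨h10, h11⟩
  exact ⟨L1 C910 h10 t, L1 C911 h11 t⟩

theorem sumperm (f : F → F → F → F → ℕ) :
    ∑ e, ∑ d, ∑ c, ∑ b, f b c d e = ∑ b, ∑ c, ∑ d, ∑ e, f b c d e := by
  have h1 : ∑ e, ∑ d, ∑ c, ∑ b, f b c d e = ∑ p : F × F × F × F, f p.2.2.2 p.2.2.1 p.2.1 p.1 := by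
    rw [Fintype.sum_prod_type]
    refine Finset.sum_congr rfl fun e _ => ?_
    rw [Fintype.sum_prod_type]
    refine Finset.sum_congr rfl fun d _ => ?_
    rw [Fintype.sum_prod_type]
  have h2 : ∑ b, ∑ c, ∑ d, ∑ e, f b c d e = ∑ p : F × F × F × F, f p.1 p.2.1 p.2.2.1 p.2.2.2 := by
    rw [Fintype.sum_prod_type]
    refine Finset.sum_congr rfl fun e _ => ?_
    rw [Fintype.sum_prod_type]
    refine Finset.sum_congr rfl fun d _ => ?_
    rw [Fintype.sum_prod_type]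
  rw [h1, h2]
  refine Fintype.sum_equiv ⟨fun p => (p.2.2.2, p.2.2.1, p.2.1, p.1), fun p => (p.2.2.2, p.2.2.1, p.2.1, p.1),
    fun p => rfl, fun p => rfl⟩ _ _ ?_
  intro p
  rfl

theorem c_hD [CharP F 3] (hψ : ψ ≠ 0) :
    finrank ℂ V = ∑ z ∈ univ.erase (0 : F), Fintype.card F * ∑ c, ∑ d, dj X ψ ρ [(8, c), (9, d), (10, 0), (11, z)] +
      ∑ b, ∑ c, ∑ d, ∑ e, dj X ψ ρ [(6, b), (8, c), (9, d), (10, e), (11, 0)] := by
  rw [← sumperm (fun b c d e => dj X ψ ρ [(6, b), (8, c), (9, d), (10, e), (11, 0)]), ← M1 X hψ,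
    ← dj_nil X ψ ρ, dj_split X ρ hψ (s := 11) (by norm_num) [] (fun t v _ => (mem_nil X ψ ρ _).2 trivial),
    ← Finset.sum_erase_add _ _ (mem_univ (0 : F))]
  congr 1
  refine Finset.sum_congr rfl fun z hz => ?_
  exact N00 X hψ (Finset.ne_of_mem_erase hz)

theorem c_hf [CharP F 3] (hψ : ψ ≠ 0) (hf : ∃ t v, ρ (X.x 9 t) v ≠ v) :
    ∃ d, d ≠ 0 ∧ ((∃ b c e, dj X ψ ρ [(6, b), (8, c), (9, d), (10, e), (11, 0)] ≠ 0) ∨
      ∃ z c, z ≠ 0 ∧ dj X ψ ρ [(8, c), (9, d), (10, 0), (11, z)] ≠ 0) := by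
  have h1 : ∃ d, d ≠ 0 ∧ dj X ψ ρ [(9, d)] ≠ 0 := by
    by_contra hno
    push Not at hno
    have h2 := dj_split X ρ hψ (s := 9) (by norm_num) [] (fun t v _ => (mem_nil X ψ ρ _).2 trivial)
    rw [dj_nil X ψ ρ, ← Finset.sum_erase_add _ _ (mem_univ (0 : F)),
      Finset.sum_eq_zero (fun d hd => hno d (Finset.ne_of_mem_erase hd)), zero_add] at h2
    have h3 : J X ψ ρ [(9, 0)] = ⊤ := Submodule.eq_top_of_finrank_eq h2.symm
    obtain ⟨t, v, hv⟩ := hf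
    apply hv
    have h4 : v ∈ J X ψ ρ [(9, 0)] := by rw [h3]; trivial
    have h5 := ((mem_cons X ψ ρ _ _ _ _).1 h4).1 t
    rw [zero_mul, AddChar.map_zero_eq_one, one_smul] at h5
    exact h5
  obtain ⟨d, hd, h2⟩ := h1
  refine ⟨d, hd, ?_⟩
  rw [dj_split X ρ hψ (s := 11) (by norm_num) [(9, d)] (by
    intro t v
    simp only [mem_cons, mem_nil, and_true]
    intro h9
    exact L1 C119 h9 t)] at h2
  obtain ⟨z, -, hz⟩ := Finset.exists_ne_zero_of_sum_ne_zero h2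
  by_cases hz0 : z = 0
  · left
    subst hz0
    rw [dj_split X ρ hψ (s := 10) (by norm_num) [(11, 0), (9, d)] (by
      intro t v
      simp only [mem_cons, mem_nil, and_true]
      rintro ⟨h11, h9⟩
      exact ⟨L1 C1011 h11 t, L1 C109 h9 t⟩)] at hz
    obtain ⟨e, -, he⟩ := Finset.exists_ne_zero_of_sum_ne_zero hz
    rw [dj_congr X ψ ρ (l' := [(9, d), (10, e), (11, 0)]) (by
      intro v; simp only [mem_cons, mem_nil, and_true]; tauto), M2 X hψ d e] at he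
    obtain ⟨c, -, hc⟩ := Finset.exists_ne_zero_of_sum_ne_zero he
    obtain ⟨b, -, hb⟩ := Finset.exists_ne_zero_of_sum_ne_zero hc
    exact ⟨b, c, e, hb⟩
  · right
    rw [H1 X hψ (l := [(9, d)]) (by
        intro t v
        simp only [mem_cons, mem_nil, and_true]
        exact fun h => L1 C69 h t) (by
        intro t v
        simp only [mem_cons, mem_nil, and_true]
        exact fun h => L1 C109 h t) hz0 0] at hz
    have h3 := right_ne_zero_of_mul hz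
    rw [dj_congr X ψ ρ (l' := [(9, d), (10, 0), (11, z)]) (by
      intro v; simp only [mem_cons, mem_nil, and_true]; tauto), N1 X hψ z d] at h3
    obtain ⟨c, -, hc⟩ := Finset.exists_ne_zero_of_sum_ne_zero h3
    exact ⟨z, c, hz0, hc⟩

end Cfsg.Agent.G2M.CM46
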