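import Cfsg.Agent.G2M.Def

set_option autoImplicit false
set_option maxHeartbeats 1000000

namespace Cfsg.Agent.G2M.CM46
open Module Finset

variable {F G : Type*} [Field F] [Group G] {V : Type*} [AddCommGroup V] [Module ℂ V]
  (X : G2G F G) (ψ : AddChar F ℂ) (ρ : Representation ℂ G V)

/-- `v` is an eigenvector of the root group `r` with character `c`. -/
def A (r : ℕ) (c : F) (v : V) : Prop := ∀ t : F, ρ (X.x r t) v = ψ (c * t) • v

theorem mem_nil (v : V) : v ∈ J X ψ ρ [] ↔ True := by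
  simp only [iff_true]
  intro p hp
  exact absurd hp (by simp)

theorem mem_cons (r : ℕ) (c : F) (l : List (ℕ × F)) (v : V) :
    v ∈ J X ψ ρ ((r, c) :: l) ↔ A X ψ ρ r c v ∧ v ∈ J X ψ ρ l := by
  constructor
  · intro h
    exact ⟨fun t => h (r, c) (by simp) t, fun p hp t => h p (List.mem_cons_of_mem _ hp) t⟩
  · rintro ⟨h1, h2⟩ p hp t
    rcases List.mem_cons.1 hp with rfl | hp
    · exact h1 t
    · exact h2 p hp t

theorem dj_congr {l l' : List (ℕ × F)} (h : ∀ v, v ∈ J X ψ ρ l ↔ v ∈ J X ψ ρ l') :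
    dj X ψ ρ l = dj X ψ ρ l' := by
  unfold dj
  have : J X ψ ρ l = J X ψ ρ l' := Submodule.ext h
  rw [this]

theorem dj_nil : dj X ψ ρ [] = finrank ℂ V := by
  unfold dj
  have : J X ψ ρ [] = ⊤ := by
    ext v; simp [mem_nil]
  rw [this, finrank_top]

variable {X ψ ρ}

theorem x_zero {r : ℕ} (hr : r < 12) : X.x r 0 = 1 := by
  have h := X.add r hr 0 0
  rw [add_zero] at h
  simpa using h

theorem x_neg {r : ℕ} (hr : r < 12) (t : F) : X.x r (-t) = (X.x r t)⁻¹ := by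
  have h := X.add r hr t (-t)
  rw [add_neg_cancel, x_zero hr] at h
  exact (inv_eq_of_mul_eq_one_right h.symm).symm

theorem L1 {r s : ℕ} (h : ∀ t u, X.x r t * X.x s u = X.x s u * X.x r t) {c : F} {v : V}
    (hv : A X ψ ρ s c v) (t : F) : A X ψ ρ s c (ρ (X.x r t) v) := by
  intro u
  rw [← Module.End.mul_apply, ← map_mul, ← h t u, map_mul, Module.End.mul_apply, hv u, map_smul]

theorem C68 : ∀ t u, X.x 6 t * X.x 8 u = X.x 8 u * X.x 6 t := X.comm 6 8 (by simp)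
theorem C86 : ∀ t u, X.x 8 t * X.x 6 u = X.x 6 u * X.x 8 t := fun t u => (C68 u t).symm
theorem C69 : ∀ t u, X.x 6 t * X.x 9 u = X.x 9 u * X.x 6 t := X.comm 6 9 (by simp)
theorem C96 : ∀ t u, X.x 9 t * X.x 6 u = X.x 6 u * X.x 9 t := fun t u => (C69 u t).symm
theorem C611 : ∀ t u, X.x 6 t * X.x 11 u = X.x 11 u * X.x 6 t := X.comm 6 11 (by simp)
theorem C116 : ∀ t u, X.x 11 t * X.x 6 u = X.x 6 u * X.x 11 t := fun t u => (C611 u t).symm
theorem C710 : ∀ t u, X.x 7 t * X.x 10 u = X.x 10 u * X.x 7 t := X.comm 7 10 (by simp)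
theorem C107 : ∀ t u, X.x 10 t * X.x 7 u = X.x 7 u * X.x 10 t := fun t u => (C710 u t).symm
theorem C711 : ∀ t u, X.x 7 t * X.x 11 u = X.x 11 u * X.x 7 t := X.comm 7 11 (by simp)
theorem C117 : ∀ t u, X.x 11 t * X.x 7 u = X.x 7 u * X.x 11 t := fun t u => (C711 u t).symm
theorem C810 : ∀ t u, X.x 8 t * X.x 10 u = X.x 10 u * X.x 8 t := X.comm 8 10 (by simp)
theorem C108 : ∀ t u, X.x 10 t * X.x 8 u = X.x 8 u * X.x 10 t := fun t u => (C810 u t).symm
theorem C811 : ∀ t u, X.x 8 t * X.x 11 u = X.x 11 u * X.x 8 t := X.comm 8 11 (by simp)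
theorem C118 : ∀ t u, X.x 11 t * X.x 8 u = X.x 8 u * X.x 11 t := fun t u => (C811 u t).symm
theorem C910 : ∀ t u, X.x 9 t * X.x 10 u = X.x 10 u * X.x 9 t := X.comm 9 10 (by simp)
theorem C109 : ∀ t u, X.x 10 t * X.x 9 u = X.x 9 u * X.x 10 t := fun t u => (C910 u t).symm
theorem C911 : ∀ t u, X.x 9 t * X.x 11 u = X.x 11 u * X.x 9 t := X.comm 9 11 (by simp)
theorem C119 : ∀ t u, X.x 11 t * X.x 9 u = X.x 9 u * X.x 11 t := fun t u => (C911 u t).symm
theorem C1011 : ∀ t u, X.x 10 t * X.x 11 u = X.x 11 u * X.x 10 t := X.comm 10 11 (by simp)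
theorem C1110 : ∀ t u, X.x 11 t * X.x 10 u = X.x 10 u * X.x 11 t := fun t u => (C1011 u t).symm

section char3
variable [CharP F 3]

theorem three : (3 : F) = 0 := by
  have := CharP.cast_eq_zero F 3
  exact_mod_cast this

theorem C79 : ∀ t u, X.x 7 t * X.x 9 u = X.x 9 u * X.x 7 t := by
  intro t u
  have h := X.c79 t u
  rw [three, zero_mul, zero_mul, neg_zero, x_zero (by norm_num), mul_one, mul_assoc, inv_mul_eq_iff_eq_mul] at h
  exact h.symm

theorem C97 : ∀ t u, X.x 9 t * X.x 7 u = X.x 7 u * X.x 9 t := fun t u => (C79 u t).symm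

theorem C89 : ∀ t u, X.x 8 t * X.x 9 u = X.x 9 u * X.x 8 t := by
  intro t u
  have h := X.c89 t u
  rw [three, zero_mul, zero_mul, x_zero (by norm_num), mul_one, mul_assoc, inv_mul_eq_iff_eq_mul] at h
  exact h.symm

theorem C98 : ∀ t u, X.x 9 t * X.x 8 u = X.x 8 u * X.x 9 t := fun t u => (C89 u t).symm

end char3

/-- general conjugation -/
theorem conjA {r : ℕ} {g : G} {t : F} {y : G} (h : g⁻¹ * X.x r t * g = y) {v : V} {c : ℂ} (hy : ρ y v = c • v) :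
    ρ (X.x r t) (ρ g v) = c • ρ g v := by
  have h1 : X.x r t * g = g * y := by rw [← h]; group
  rw [← Module.End.mul_apply, ← map_mul, h1, map_mul, Module.End.mul_apply, hy, map_smul]

/-- `x 10` shifts `6` -/
theorem s106 {b z : F} {v : V} (h6 : A X ψ ρ 6 b v) (h11 : A X ψ ρ 11 z v) (u : F) :
    A X ψ ρ 6 (b - z * u) (ρ (X.x 10 u) v) := by
  intro t
  have h0 : X.x 6 t * X.x 10 u = X.x 10 u * (X.x 6 t * X.x 11 (-(t * u))) := by
    have h := X.c610 t u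
    have h2 : X.x 10 u * X.x 6 t = X.x 6 t * X.x 10 u * X.x 11 (t * u) := by
      rw [mul_assoc (X.x 6 t), ← h]; group
    rw [x_neg (by norm_num), ← mul_assoc, h2, mul_assoc, mul_inv_cancel, mul_one]
  rw [← Module.End.mul_apply, ← map_mul, h0, map_mul, Module.End.mul_apply, map_mul, Module.End.mul_apply,
    h11, map_smul, h6, smul_smul, map_smul, ← AddChar.map_add_eq_mul]
  congr 2
  ring

/-- `x 6` shifts `10` -/
theorem s610 {e z : F} {v : V} (h10 : A X ψ ρ 10 e v) (h11 : A X ψ ρ 11 z v) (t : F) :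
    A X ψ ρ 10 (e + z * t) (ρ (X.x 6 t) v) := by
  intro u
  refine (conjA (X.c610 t u) (c := ψ ((e + z * t) * u)) ?_)
  rw [map_mul, Module.End.mul_apply, h11, map_smul, h10, smul_smul, ← AddChar.map_add_eq_mul]
  congr 2
  ring

/-- `x 7` on `6` -/
theorem s76 {b c d e : F} {v : V} (h6 : A X ψ ρ 6 b v) (h8 : A X ψ ρ 8 c v) (h9 : A X ψ ρ 9 d v)
    (h10 : A X ψ ρ 10 e v) (h11 : A X ψ ρ 11 0 v) (t : F) :
    A X ψ ρ 6 (b + t * c + t ^ 2 * d - t ^ 3 * e) (ρ (X.x 7 t) v) := by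
  intro u
  refine (conjA (X.c76 t u) (c := ψ ((b + t * c + t ^ 2 * d - t ^ 3 * e) * u)) ?_)
  have e8 := h8 (t * u)
  have e9 := h9 (t ^ 2 * u)
  have e10 := h10 (-(t ^ 3 * u))
  have e6 := h6 u
  have e11 : ρ (X.x 11 (t ^ 3 * u ^ 2)) v = v := by rw [h11, zero_mul, AddChar.map_zero_eq_one, one_smul]
  have e : ρ (X.x 6 u * X.x 8 (t * u) * X.x 9 (t ^ 2 * u) * X.x 10 (-(t ^ 3 * u)) * X.x 11 (t ^ 3 * u ^ 2)) v =
      ρ (X.x 6 u) (ρ (X.x 8 (t * u)) (ρ (X.x 9 (t ^ 2 * u)) (ρ (X.x 10 (-(t ^ 3 * u))) (ρ (X.x 11 (t ^ 3 * u ^ 2)) v)))) := by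
    simp only [map_mul, Module.End.mul_apply]
  rw [e, e11, e10]
  simp only [map_smul, e9, e8, e6, smul_smul, ← AddChar.map_add_eq_mul]
  congr 2
  ring

/-- `x 7` on `8` -/
theorem s78 [CharP F 3] {c d : F} {v : V} (h8 : A X ψ ρ 8 c v) (h9 : A X ψ ρ 9 d v) (t : F) :
    A X ψ ρ 8 (c + 2 * t * d) (ρ (X.x 7 t) v) := by
  intro u
  have h := X.c78 t u
  rw [three] at h
  simp only [zero_mul, neg_zero] at h
  rw [x_zero (by norm_num), x_zero (by norm_num), mul_one, mul_one] at h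
  refine (conjA h (c := ψ ((c + 2 * t * d) * u)) ?_)
  rw [map_mul, Module.End.mul_apply, h9, map_smul, h8, smul_smul, ← AddChar.map_add_eq_mul]
  congr 2
  ring

/-- `x 6` on `7` -/
theorem s67 {a c : F} {v : V} (h7 : A X ψ ρ 7 a v) (h8 : A X ψ ρ 8 c v) (h9 : A X ψ ρ 9 0 v)
    (h10 : A X ψ ρ 10 0 v) (h11 : A X ψ ρ 11 0 v) (u : F) :
    A X ψ ρ 7 (a - c * u) (ρ (X.x 6 u) v) := by
  intro t
  have e8 : ρ (X.x 8 (t * u)) v = ψ (c * (t * u)) • v := h8 _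
  have e9 : ρ (X.x 9 (t ^ 2 * u)) v = v := by rw [h9, zero_mul, AddChar.map_zero_eq_one, one_smul]
  have e10 : ρ (X.x 10 (-(t ^ 3 * u))) v = v := by rw [h10, zero_mul, AddChar.map_zero_eq_one, one_smul]
  have e11 : ρ (X.x 11 (t ^ 3 * u ^ 2)) v = v := by rw [h11, zero_mul, AddChar.map_zero_eq_one, one_smul]
  -- x6 u x7 t = x7 t x6 u x8 .. acting on v
  have h := X.c76 t u
  have h1 : X.x 6 u * X.x 7 t = X.x 7 t * (X.x 6 u * X.x 8 (t * u) * X.x 9 (t ^ 2 * u) * X.x 10 (-(t ^ 3 * u)) *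
      X.x 11 (t ^ 3 * u ^ 2)) := by rw [← h]; group
  have h2 : ρ (X.x 6 u) (ρ (X.x 7 t) v) = ψ (c * (t * u)) • ρ (X.x 7 t) (ρ (X.x 6 u) v) := by
    rw [← Module.End.mul_apply, ← map_mul, h1, map_mul, Module.End.mul_apply, map_mul, Module.End.mul_apply, e11,
      map_mul, Module.End.mul_apply, e10, map_mul, Module.End.mul_apply, e9, map_mul, Module.End.mul_apply, e8,
      map_smul, map_smul]
  rw [h7, map_smul] at h2
  have h3 : ψ (-(c * (t * u))) * ψ (c * (t * u)) = 1 := by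
    rw [← AddChar.map_add_eq_mul, neg_add_cancel, AddChar.map_zero_eq_one]
  calc ρ (X.x 7 t) (ρ (X.x 6 u) v) = (ψ (-(c * (t * u))) * ψ (c * (t * u))) • ρ (X.x 7 t) (ρ (X.x 6 u) v) := by
        rw [h3, one_smul]
    _ = ψ (-(c * (t * u))) • (ψ (a * t) • ρ (X.x 6 u) v) := by rw [mul_smul, ← h2]
    _ = ψ ((a - c * u) * t) • ρ (X.x 6 u) v := by
        rw [smul_smul, ← AddChar.map_add_eq_mul]
        congr 2
        ring

/-- torus -/
theorem torA {s t : Fˣ} {r : ℕ} (hr : r < 12) {c : F} {v : V} (hv : A X ψ ρ r c v) :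
    A X ψ ρ r (c * ((s ^ (ca r) * t ^ (cb r) : Fˣ) : F)) (ρ (X.h s t)⁻¹ v) := by
  intro u
  have h := X.tor s t r hr u
  refine conjA (g := (X.h s t)⁻¹) (y := X.x r (((s ^ (ca r) * t ^ (cb r) : Fˣ) : F) * u)) (by rw [← h]; group) ?_
  rw [hv]
  congr 2
  ring

theorem torB {s t : Fˣ} {r : ℕ} (hr : r < 12) {c : F} {v : V}
    (hv : A X ψ ρ r (c * ((s ^ (ca r) * t ^ (cb r) : Fˣ) : F)) v) :
    A X ψ ρ r c (ρ (X.h s t) v) := by
  intro u
  set k : Fˣ := s ^ (ca r) * t ^ (cb r) with hk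
  have h := X.tor s t r hr (((k⁻¹ : Fˣ) : F) * u)
  rw [← hk, ← mul_assoc, ← Units.val_mul, mul_inv_cancel, Units.val_one, one_mul] at h
  refine conjA (g := X.h s t) (y := X.x r (((k⁻¹ : Fˣ) : F) * u)) (by rw [← h]; group) ?_
  rw [hv, mul_assoc, ← mul_assoc (k : F), ← Units.val_mul, mul_inv_cancel, Units.val_one, one_mul]

/-- na, nb -/
theorem wA {r r' : ℕ} {n : G} {e : F} (he : e = 1 ∨ e = -1) (h : ∀ u : F, n * X.x r u * n⁻¹ = X.x r' (e * u))
    {c : F} {v : V} (hv : A X ψ ρ r c v) : A X ψ ρ r' (e * c) (ρ n v) := by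
  intro u
  have hee : e * e = 1 := by rcases he with rfl | rfl <;> simp
  have h1 := h (e * u)
  rw [← mul_assoc e, hee, one_mul] at h1
  refine conjA (g := n) (y := X.x r (e * u)) (by rw [← h1]; group) ?_
  rw [hv]
  congr 2
  ring

theorem wB {r r' : ℕ} {n : G} {e : F} (he : e = 1 ∨ e = -1) (h : ∀ u : F, n * X.x r u * n⁻¹ = X.x r' (e * u))
    {c : F} {v : V} (hv : A X ψ ρ r' (e * c) v) : A X ψ ρ r c (ρ n⁻¹ v) := by
  intro u
  have hee : e * e = 1 := by rcases he with rfl | rfl <;> simp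
  have h1 := h u
  refine conjA (g := n⁻¹) (y := X.x r' (e * u)) (by rw [← h1]; group) ?_
  rw [hv]
  congr 2
  calc e * c * (e * u) = (e * e) * (c * u) := by ring
    _ = c * u := by rw [hee, one_mul]

end Cfsg.Agent.G2M.CM46
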