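import Cfsg.Agent.G2M.CM46

set_option autoImplicit false
set_option maxHeartbeats 1000000

namespace Cfsg.Agent.G2M.CM46
open Module Finset

variable {F G : Type*} [Field F] [Fintype F] [DecidableEq F] [Group G] {V : Type*} [AddCommGroup V] [Module ℂ V] [FiniteDimensional ℂ V]
  (X : G2G F G) {ψ : AddChar F ℂ} {ρ : Representation ℂ G V}

theorem c_hna : ∃ e1 e2 e3 e4 : F, (e1 = 1 ∨ e1 = -1) ∧ (e2 = 1 ∨ e2 = -1) ∧ (e3 = 1 ∨ e3 = -1) ∧ (e4 = 1 ∨ e4 = -1) ∧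
      ∀ b c d e, dj X ψ ρ [(6, b), (8, c), (9, d), (10, e), (11, 0)] =
        dj X ψ ρ [(6, e1 * e), (8, e2 * d), (9, e3 * c), (10, e4 * b), (11, 0)] := by
  obtain ⟨e6, he6, h6⟩ := X.hna 6 (by norm_num)
  obtain ⟨e8, he8, h8⟩ := X.hna 8 (by norm_num)
  obtain ⟨e9, he9, h9⟩ := X.hna 9 (by norm_num)
  obtain ⟨e10, he10, h10⟩ := X.hna 10 (by norm_num)
  obtain ⟨e11, he11, h11⟩ := X.hna 11 (by norm_num)
  refine ⟨e10, e9, e8, e6, he10, he9, he8, he6, fun b c d e => ?_⟩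
  refine dj_eq_of_map X ρ X.na ?_ ?_
  · intro v
    simp only [mem_cons, mem_nil, and_true]
    rintro ⟨k6, k8, k9, k10, k11⟩
    refine ⟨wA he10 h10 k10, wA he9 h9 k9, wA he8 h8 k8, wA he6 h6 k6, ?_⟩
    have := wA he11 h11 k11
    rwa [mul_zero] at this
  · intro v
    simp only [mem_cons, mem_nil, and_true]
    rintro ⟨k6, k8, k9, k10, k11⟩
    refine ⟨wB he6 h6 k10, wB he8 h8 k9, wB he9 h9 k8, wB he10 h10 k6, wB he11 h11 (by rw [mul_zero]; exact k11)⟩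

theorem sgn_ne {e : F} (he : e = 1 ∨ e = -1) : e ≠ 0 := by
  rcases he with rfl | rfl
  · exact one_ne_zero
  · exact neg_ne_zero.2 one_ne_zero

theorem c_hnan (hψ : ψ ≠ 0) : ∃ e1 e2 e3 : F, (e1 = 1 ∨ e1 = -1) ∧ (e2 = 1 ∨ e2 = -1) ∧ (e3 = 1 ∨ e3 = -1) ∧
      ∀ z c d, z ≠ 0 → dj X ψ ρ [(8, c), (9, d), (10, 0), (11, z)] =
        dj X ψ ρ [(8, e2 * d), (9, e3 * c), (10, 0), (11, e1 * z)] := by
  obtain ⟨e6, he6, h6⟩ := X.hna 6 (by norm_num)
  obtain ⟨e8, he8, h8⟩ := X.hna 8 (by norm_num)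
  obtain ⟨e9, he9, h9⟩ := X.hna 9 (by norm_num)
  obtain ⟨e10, he10, h10⟩ := X.hna 10 (by norm_num)
  obtain ⟨e11, he11, h11⟩ := X.hna 11 (by norm_num)
  refine ⟨e11, e9, e8, he11, he9, he8, fun z c d hz => ?_⟩
  have s1 : dj X ψ ρ [(8, c), (9, d), (10, 0), (11, z)] = dj X ψ ρ [(6, 0), (11, e11 * z), (8, e9 * d), (9, e8 * c)] := by
    refine dj_eq_of_map X ρ X.na ?_ ?_
    · intro v
      simp only [mem_cons, mem_nil, and_true]
      rintro ⟨k8, k9, k10, k11⟩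
      refine ⟨?_, wA he11 h11 k11, wA he9 h9 k9, wA he8 h8 k8⟩
      have := wA he10 h10 k10
      rwa [mul_zero] at this
    · intro v
      simp only [mem_cons, mem_nil, and_true]
      rintro ⟨k6, k11, k8, k9⟩
      exact ⟨wB he8 h8 k9, wB he9 h9 k8, wB he10 h10 (by rw [mul_zero]; exact k6), wB he11 h11 k11⟩
  rw [s1, H12 X hψ (l := [(8, e9 * d), (9, e8 * c)]) (by
    intro t v
    simp only [mem_cons, mem_nil, and_true]
    exact fun ⟨a, b⟩ => ⟨L1 C68 a t, L1 C69 b t⟩) (by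
    intro t v
    simp only [mem_cons, mem_nil, and_true]
    exact fun ⟨a, b⟩ => ⟨L1 C108 a t, L1 C109 b t⟩) (mul_ne_zero (sgn_ne he11) hz) 0 0]
  refine dj_congr X ψ ρ fun v => ?_
  simp only [mem_cons, mem_nil, and_true]; tauto

theorem c_hnb [CharP F 3] (hψ : ψ ≠ 0) : ∃ e1 e2 : F, (e1 = 1 ∨ e1 = -1) ∧ (e2 = 1 ∨ e2 = -1) ∧
    ∀ z d, z ≠ 0 → ∑ c, dj X ψ ρ [(8, c), (9, d), (10, 0), (11, z)] =
      ∑ b, ∑ c, dj X ψ ρ [(6, b), (8, c), (9, e1 * d), (10, e2 * z), (11, 0)] := by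
  obtain ⟨e9, he9, h9⟩ := X.hnb 9 (by norm_num)
  obtain ⟨e10, he10, h10⟩ := X.hnb 10 (by norm_num)
  obtain ⟨e11, he11, h11⟩ := X.hnb 11 (by norm_num)
  refine ⟨e9, e11, he9, he11, fun z d hz => ?_⟩
  rw [← N1 X hψ z d, Finset.sum_comm, ← M2 X hψ (e9 * d) (e11 * z)]
  refine dj_eq_of_map X ρ X.nb ?_ ?_
  · intro v
    simp only [mem_cons, mem_nil, and_true]
    rintro ⟨k9, k10, k11⟩
    refine ⟨wA he9 h9 k9, wA he11 h11 k11, ?_⟩
    have := wA he10 h10 k10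
    rwa [mul_zero] at this
  · intro v
    simp only [mem_cons, mem_nil, and_true]
    rintro ⟨k9, k10, k11⟩
    exact ⟨wB he9 h9 k9, wB he10 h10 (by rw [mul_zero]; exact k11), wB he11 h11 k10⟩

theorem sumperm3 (f : F → F → F → ℕ) : ∑ e, ∑ d, ∑ c, f c d e = ∑ c, ∑ d, ∑ e, f c d e := by
  rw [Finset.sum_comm]
  rw [Finset.sum_congr rfl fun d _ => Finset.sum_comm]
  rw [Finset.sum_comm]

theorem c_hB [CharP F 3] (hψ : ψ ≠ 0) : ∃ e1 : F, (e1 = 1 ∨ e1 = -1) ∧ ∀ b, b ≠ 0 →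
    Fintype.card F * ∑ c, ∑ d, dj X ψ ρ [(8, c), (9, d), (10, 0), (11, e1 * b)] =
      ∑ z ∈ univ.erase (0 : F), ∑ c, ∑ d, dj X ψ ρ [(8, c), (9, d), (10, 0), (11, z)] +
        ∑ c, ∑ d, ∑ e, dj X ψ ρ [(6, b), (8, c), (9, d), (10, e), (11, 0)] := by
  obtain ⟨e6, he6, h6⟩ := X.hna 6 (by norm_num)
  obtain ⟨e10, he10, h10⟩ := X.hnb 10 (by norm_num)
  have he : e10 * e6 = 1 ∨ e10 * e6 = -1 := by
    rcases he6 with rfl | rfl <;> rcases he10 with rfl | rfl <;> simp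
  refine ⟨e10 * e6, he, fun b hb => ?_⟩
  have hconj : ∀ u : F, (X.nb * X.na) * X.x 6 u * (X.nb * X.na)⁻¹ = X.x 11 (e10 * e6 * u) := by
    intro u
    have h1 : X.na * X.x 6 u * X.na⁻¹ = X.x 10 (e6 * u) := h6 u
    have h2 : X.nb * X.x 10 (e6 * u) * X.nb⁻¹ = X.x 11 (e10 * (e6 * u)) := h10 _
    calc (X.nb * X.na) * X.x 6 u * (X.nb * X.na)⁻¹ = X.nb * (X.na * X.x 6 u * X.na⁻¹) * X.nb⁻¹ := by group
      _ = X.x 11 (e10 * e6 * u) := by rw [h1, h2, mul_assoc]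
  rw [← N00 X hψ (mul_ne_zero (sgn_ne he) hb)]
  have s1 : dj X ψ ρ [(11, e10 * e6 * b)] = dj X ψ ρ [(6, b)] := by
    symm
    refine dj_eq_of_map X ρ (X.nb * X.na) ?_ ?_
    · intro v
      simp only [mem_cons, mem_nil, and_true]
      exact fun k => wA he hconj k
    · intro v
      simp only [mem_cons, mem_nil, and_true]
      exact fun k => wB he hconj k
  rw [s1, dj_split X ρ hψ (s := 11) (by norm_num) [(6, b)] (by
    intro t v
    simp only [mem_cons, mem_nil, and_true]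
    exact fun k => L1 C116 k t), ← Finset.sum_erase_add _ _ (mem_univ (0 : F))]
  congr 1
  · refine Finset.sum_congr rfl fun z hz => ?_
    have hz0 : z ≠ 0 := Finset.ne_of_mem_erase hz
    rw [← N0 X hψ z, ← H12 X hψ (l := []) (fun t v _ => (mem_nil X ψ ρ _).2 trivial)
      (fun t v _ => (mem_nil X ψ ρ _).2 trivial) hz0 b 0]
    refine dj_congr X ψ ρ fun v => ?_
    simp only [mem_cons, mem_nil, and_true]; tauto
  · rw [dj_split X ρ hψ (s := 10) (by norm_num) [(11, 0), (6, b)] (by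
      intro t v
      simp only [mem_cons, mem_nil, and_true]
      rintro ⟨k11, k6⟩
      refine ⟨L1 C1011 k11 t, ?_⟩
      have := s106 k6 k11 t
      rwa [zero_mul, sub_zero] at this),
      ← sumperm3 (fun c d e => dj X ψ ρ [(6, b), (8, c), (9, d), (10, e), (11, 0)])]
    refine Finset.sum_congr rfl fun e _ => ?_
    rw [dj_split X ρ hψ (s := 9) (by norm_num) [(10, e), (11, 0), (6, b)] (by
      intro t v
      simp only [mem_cons, mem_nil, and_true]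
      rintro ⟨k10, k11, k6⟩
      exact ⟨L1 C910 k10 t, L1 C911 k11 t, L1 C96 k6 t⟩)]
    refine Finset.sum_congr rfl fun d _ => ?_
    rw [dj_split X ρ hψ (s := 8) (by norm_num) [(9, d), (10, e), (11, 0), (6, b)] (by
      intro t v
      simp only [mem_cons, mem_nil, and_true]
      rintro ⟨k9, k10, k11, k6⟩
      exact ⟨L1 C89 k9 t, L1 C810 k10 t, L1 C811 k11 t, L1 C86 k6 t⟩)]
    refine Finset.sum_congr rfl fun c _ => ?_
    refine dj_congr X ψ ρ fun v => ?_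
    simp only [mem_cons, mem_nil, and_true]; tauto

section torus
variable (s t : Fˣ)

omit [Fintype F] [DecidableEq F] in
theorem w6 : (((s ^ (ca 6) * t ^ (cb 6) : Fˣ)) : F) = t := by
  show (((s ^ (0:ℤ) * t ^ (1:ℤ) : Fˣ)) : F) = t
  simp
omit [Fintype F] [DecidableEq F] in
theorem w8 : (((s ^ (ca 8) * t ^ (cb 8) : Fˣ)) : F) = s * t := by
  show (((s ^ (1:ℤ) * t ^ (1:ℤ) : Fˣ)) : F) = s * t
  simp
omit [Fintype F] [DecidableEq F] in
theorem w9 : (((s ^ (ca 9) * t ^ (cb 9) : Fˣ)) : F) = s ^ 2 * t := by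
  show (((s ^ ((2:ℕ):ℤ) * t ^ (1:ℤ) : Fˣ)) : F) = s ^ 2 * t
  rw [zpow_natCast, zpow_one, Units.val_mul, Units.val_pow_eq_pow_val]
omit [Fintype F] [DecidableEq F] in
theorem w10 : (((s ^ (ca 10) * t ^ (cb 10) : Fˣ)) : F) = s ^ 3 * t := by
  show (((s ^ ((3:ℕ):ℤ) * t ^ (1:ℤ) : Fˣ)) : F) = s ^ 3 * t
  rw [zpow_natCast, zpow_one, Units.val_mul, Units.val_pow_eq_pow_val]
omit [Fintype F] [DecidableEq F] in
theorem w11 : (((s ^ (ca 11) * t ^ (cb 11) : Fˣ)) : F) = s ^ 3 * t ^ 2 := by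
  show (((s ^ ((3:ℕ):ℤ) * t ^ ((2:ℕ):ℤ) : Fˣ)) : F) = s ^ 3 * t ^ 2
  rw [zpow_natCast, zpow_natCast, Units.val_mul, Units.val_pow_eq_pow_val, Units.val_pow_eq_pow_val]

end torus

theorem c_hT (s t b c d e : F) (hs : s ≠ 0) (ht : t ≠ 0) :
    dj X ψ ρ [(6, b), (8, c), (9, d), (10, e), (11, 0)] =
      dj X ψ ρ [(6, t * b), (8, s * t * c), (9, s ^ 2 * t * d), (10, s ^ 3 * t * e), (11, 0)] := by
  have u6 := w6 (Units.mk0 s hs) (Units.mk0 t ht)
  have u8 := w8 (Units.mk0 s hs) (Units.mk0 t ht)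
  have u9 := w9 (Units.mk0 s hs) (Units.mk0 t ht)
  have u10 := w10 (Units.mk0 s hs) (Units.mk0 t ht)
  simp only [Units.val_mk0] at u6 u8 u9 u10
  refine dj_eq_of_map X ρ (X.h (Units.mk0 s hs) (Units.mk0 t ht))⁻¹ ?_ ?_
  · intro v
    simp only [mem_cons, mem_nil, and_true]
    rintro ⟨k6, k8, k9, k10, k11⟩
    have l6 := torA (s := Units.mk0 s hs) (t := Units.mk0 t ht) (by norm_num) k6
    have l8 := torA (s := Units.mk0 s hs) (t := Units.mk0 t ht) (by norm_num) k8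
    have l9 := torA (s := Units.mk0 s hs) (t := Units.mk0 t ht) (by norm_num) k9
    have l10 := torA (s := Units.mk0 s hs) (t := Units.mk0 t ht) (by norm_num) k10
    have l11 := torA (s := Units.mk0 s hs) (t := Units.mk0 t ht) (by norm_num) k11
    rw [u6, mul_comm] at l6
    rw [u8, mul_comm] at l8
    rw [u9, mul_comm] at l9
    rw [u10, mul_comm] at l10
    rw [zero_mul] at l11
    exact ⟨l6, l8, l9, l10, l11⟩
  · intro v
    simp only [mem_cons, mem_nil, and_true, inv_inv]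
    rintro ⟨k6, k8, k9, k10, k11⟩
    refine ⟨torB (by norm_num) ?_, torB (by norm_num) ?_, torB (by norm_num) ?_, torB (by norm_num) ?_, torB (by norm_num) ?_⟩
    · rw [u6, mul_comm]; exact k6
    · rw [u8, mul_comm]; exact k8
    · rw [u9, mul_comm]; exact k9
    · rw [u10, mul_comm]; exact k10
    · rw [zero_mul]; exact k11

theorem c_hTn (s t z c d : F) (hs : s ≠ 0) (ht : t ≠ 0) :
    dj X ψ ρ [(8, c), (9, d), (10, 0), (11, z)] =
      dj X ψ ρ [(8, s * t * c), (9, s ^ 2 * t * d), (10, 0), (11, s ^ 3 * t ^ 2 * z)] := by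
  have u8 := w8 (Units.mk0 s hs) (Units.mk0 t ht)
  have u9 := w9 (Units.mk0 s hs) (Units.mk0 t ht)
  have u11 := w11 (Units.mk0 s hs) (Units.mk0 t ht)
  simp only [Units.val_mk0] at u8 u9 u11
  refine dj_eq_of_map X ρ (X.h (Units.mk0 s hs) (Units.mk0 t ht))⁻¹ ?_ ?_
  · intro v
    simp only [mem_cons, mem_nil, and_true]
    rintro ⟨k8, k9, k10, k11⟩
    have l8 := torA (s := Units.mk0 s hs) (t := Units.mk0 t ht) (by norm_num) k8
    have l9 := torA (s := Units.mk0 s hs) (t := Units.mk0 t ht) (by norm_num) k9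
    have l10 := torA (s := Units.mk0 s hs) (t := Units.mk0 t ht) (by norm_num) k10
    have l11 := torA (s := Units.mk0 s hs) (t := Units.mk0 t ht) (by norm_num) k11
    rw [u8, mul_comm] at l8
    rw [u9, mul_comm] at l9
    rw [zero_mul] at l10
    rw [u11, mul_comm] at l11
    exact ⟨l8, l9, l10, l11⟩
  · intro v
    simp only [mem_cons, mem_nil, and_true, inv_inv]
    rintro ⟨k8, k9, k10, k11⟩
    refine ⟨torB (by norm_num) ?_, torB (by norm_num) ?_, torB (by norm_num) ?_, torB (by norm_num) ?_⟩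
    · rw [u8, mul_comm]; exact k8
    · rw [u9, mul_comm]; exact k9
    · rw [zero_mul]; exact k10
    · rw [u11, mul_comm]; exact k11

end Cfsg.Agent.G2M.CM46
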