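import Mathlib

set_option autoImplicit false

/-!
# Step (1) of the counting lemma for the minimal degree of the group of type G2 in characteristic 3 (helper95)
-/

namespace Cfsg.Agent.G2M
open Finset

namespace CNumE

variable {F : Type*} [Field F] [Fintype F] [DecidableEq F]

omit [Field F] in
theorem sum_comp_le (φ : F → F) (g : F → ℕ) (k : ℕ) (h : ∀ y, (univ.filter (fun t => φ t = y)).card ≤ k) :
    ∑ t, g (φ t) ≤ k * ∑ y, g y := by
  classical
  have h1 : ∑ t, g (φ t) = ∑ y, ∑ t ∈ univ.filter (fun t => φ t = y), g (φ t) :=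
    (Finset.sum_fiberwise univ φ (fun t => g (φ t))).symm
  rw [h1, Finset.mul_sum]
  refine Finset.sum_le_sum fun y _ => ?_
  have h2 : ∑ t ∈ univ.filter (fun t => φ t = y), g (φ t) = (univ.filter (fun t => φ t = y)).card * g y := by
    rw [Finset.sum_congr rfl (g := fun _ => g y) (fun t ht => by rw [(Finset.mem_filter.1 ht).2]), Finset.sum_const, smul_eq_mul]
  rw [h2]
  exact Nat.mul_le_mul_right _ (h y)

open Polynomial in
theorem fib3 (e : F) (he : e ≠ 0) (a y : F) : (univ.filter (fun t : F => a + t - t ^ 3 * e = y)).card ≤ 3 := by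
  classical
  let P : F[X] := C e * X ^ 3 - X + C (y - a)
  have hc : P.coeff 3 = e := by
    simp only [P, coeff_add, coeff_sub, coeff_C_mul, coeff_X_pow, coeff_C, coeff_X]
    norm_num
  have hP : P ≠ 0 := fun h => he (by rw [← hc, h, coeff_zero])
  have hd : P.natDegree ≤ 3 := by
    simp only [P]
    compute_degree
  have hsub : univ.filter (fun t : F => a + t - t ^ 3 * e = y) ⊆ P.roots.toFinset := by
    intro t ht
    rw [Multiset.mem_toFinset, mem_roots hP, IsRoot.def]
    have h1 := (Finset.mem_filter.1 ht).2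
    simp only [P, eval_add, eval_sub, eval_mul, eval_C, eval_pow, eval_X]
    linear_combination -h1
  calc (univ.filter (fun t : F => a + t - t ^ 3 * e = y)).card ≤ P.roots.toFinset.card := Finset.card_le_card hsub
    _ ≤ Multiset.card P.roots := Multiset.toFinset_card_le _
    _ ≤ P.natDegree := P.card_roots'
    _ ≤ 3 := hd

open Polynomial in
theorem fib2 (e : F) (he : e ≠ 0) (y : F) : (univ.filter (fun s : F => s ^ 2 * e = y)).card ≤ 2 := by
  classical
  let P : F[X] := C e * X ^ 2 - C y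
  have hc : P.coeff 2 = e := by
    simp only [P, coeff_sub, coeff_C_mul, coeff_X_pow, coeff_C]
    norm_num
  have hP : P ≠ 0 := fun h => he (by rw [← hc, h, coeff_zero])
  have hd : P.natDegree ≤ 2 := by
    simp only [P]
    compute_degree
  have hsub : univ.filter (fun s : F => s ^ 2 * e = y) ⊆ P.roots.toFinset := by
    intro t ht
    rw [Multiset.mem_toFinset, mem_roots hP, IsRoot.def]
    have h1 := (Finset.mem_filter.1 ht).2
    simp only [P, eval_sub, eval_mul, eval_C, eval_pow, eval_X]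
    linear_combination h1
  calc (univ.filter (fun s : F => s ^ 2 * e = y)).card ≤ P.roots.toFinset.card := Finset.card_le_card hsub
    _ ≤ Multiset.card P.roots := Multiset.toFinset_card_le _
    _ ≤ P.natDegree := P.card_roots'
    _ ≤ 2 := hd

end CNumE

open CNumE

theorem c_num_E {F : Type*} [Field F] [Fintype F] [DecidableEq F] [CharP F 3] (hq : 3 < Fintype.card F)
    (m : F → F → F → F → ℕ) (n : F → F → F → ℕ)
    (hA : ∀ t b c d e, m b c d e = m (b + t * c + t ^ 2 * d - t ^ 3 * e) (c + 2 * t * d) d e)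
    (hT : ∀ s t b c d e, s ≠ 0 → t ≠ 0 → m b c d e = m (t * b) (s * t * c) (s ^ 2 * t * d) (s ^ 3 * t * e))
    (hna : ∃ e1 e2 e3 e4 : F, (e1 = 1 ∨ e1 = -1) ∧ (e2 = 1 ∨ e2 = -1) ∧ (e3 = 1 ∨ e3 = -1) ∧ (e4 = 1 ∨ e4 = -1) ∧
      ∀ b c d e, m b c d e = m (e1 * e) (e2 * d) (e3 * c) (e4 * b))
    (hnb : ∃ e1 e2 : F, (e1 = 1 ∨ e1 = -1) ∧ (e2 = 1 ∨ e2 = -1) ∧ ∀ z d, z ≠ 0 → ∑ c, n z c d = ∑ b, ∑ c, m b c (e1 * d) (e2 * z))
    (j : ℕ) (hj : 1 ≤ j) (hn : ∀ z c d, z ≠ 0 → (c ≠ 0 ∨ d ≠ 0) → n z c d = j) :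
    ∃ E : ℕ, (∀ c d, (c ≠ 0 ∨ d ≠ 0) → ∑ b, ∑ e, m b c d e = E) ∧
      ((E = Fintype.card F ∧ ∀ b c e, c ≠ 0 → m b c 0 e = if e = 0 then 1 else 0) ∨ 4 * Fintype.card F ≤ 3 * E) := by
  classical
  have hsq : ∀ x : F, (x = 1 ∨ x = -1) → x ≠ 0 := by
    rintro x (rfl | rfl)
    · exact one_ne_zero
    · exact neg_ne_zero.2 one_ne_zero
  have h2 : (2 : F) ≠ 0 := by
    intro h
    have h3 : ((3 : ℕ) : F) = 0 := CharP.cast_eq_zero F 3
    have h4 : (1 : F) = 0 := by
      push_cast at h3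
      linear_combination h3 - h
    exact one_ne_zero h4
  -- the sums
  set S : F → F → ℕ := fun c d => ∑ b, ∑ e, m b c d e with hS
  have hSA : ∀ t c d, S c d = S (c + 2 * t * d) d := by
    intro t c d
    simp only [hS]
    rw [Finset.sum_comm, Finset.sum_comm (f := fun b e => m b (c + 2 * t * d) d e)]
    refine Finset.sum_congr rfl fun e _ => ?_
    refine Fintype.sum_equiv (Equiv.addRight (t * c + t ^ 2 * d - t ^ 3 * e)) _ _ fun b => ?_
    rw [hA t b c d e]
    congr 1
    simp only [Equiv.coe_addRight]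
    ring
  have hST : ∀ s t c d, s ≠ 0 → t ≠ 0 → S c d = S (s * t * c) (s ^ 2 * t * d) := by
    intro s t c d hs ht
    simp only [hS]
    refine Fintype.sum_equiv (Equiv.mulLeft₀ t ht) _ _ fun b => ?_
    refine Fintype.sum_equiv (Equiv.mulLeft₀ (s ^ 3 * t) (mul_ne_zero (pow_ne_zero 3 hs) ht)) _ _ fun e => ?_
    exact hT s t b c d e hs ht
  obtain ⟨e1, e2, e3, e4, he1, he2, he3, he4, hna⟩ := hna
  have hSn : ∀ c d, S c d = S (e2 * d) (e3 * c) := by
    intro c d
    simp only [hS]
    rw [Finset.sum_comm (f := fun b e => m b (e2 * d) (e3 * c) e)]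
    refine Fintype.sum_equiv (Equiv.mulLeft₀ e4 (hsq _ he4)) _ _ fun b => ?_
    refine Fintype.sum_equiv (Equiv.mulLeft₀ e1 (hsq _ he1)) _ _ fun e => ?_
    exact hna b c d e
  have hS0 : ∀ d, d ≠ 0 → S 0 d = S 0 1 := by
    intro d hd
    rw [hST 1 d⁻¹ 0 d one_ne_zero (inv_ne_zero hd), mul_zero, one_pow, one_mul, inv_mul_cancel₀ hd]
  have hSE : ∀ c d, (c ≠ 0 ∨ d ≠ 0) → S c d = S 0 1 := by
    intro c d hcd
    by_cases hd : d = 0
    · subst hd
      have hc : c ≠ 0 := by simpa using hcd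
      rw [hSn, mul_zero]
      exact hS0 _ (mul_ne_zero (hsq _ he3) hc)
    · rw [hSA (-c * (2 * d)⁻¹) c d]
      have h5 : c + 2 * (-c * (2 * d)⁻¹) * d = 0 := by
        field_simp
        ring
      rw [h5]
      exact hS0 d hd
  refine ⟨S 0 1, hSE, ?_⟩
  -- positivity
  have hpos : 1 ≤ S 0 1 := by
    obtain ⟨f1, f2, hf1, hf2, hnb⟩ := hnb
    have h6 := hnb 1 1 one_ne_zero
    have h7 : ∑ c, n 1 c 1 = Fintype.card F * j := by
      rw [Finset.sum_congr rfl (g := fun _ => j) (fun c _ => hn 1 c 1 one_ne_zero (Or.inr one_ne_zero)), Finset.sum_const, smul_eq_mul,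
        Finset.card_univ]
    have h8 : 0 < ∑ b, ∑ c, m b c (f1 * 1) (f2 * 1) := by
      rw [← h6, h7]
      exact Nat.mul_pos Fintype.card_pos hj
    rw [Nat.one_le_iff_ne_zero]
    intro h0
    apply h8.ne'
    refine Finset.sum_eq_zero fun b _ => Finset.sum_eq_zero fun c _ => ?_
    have h9 : S c (f1 * 1) = 0 := by rw [hSE c _ (Or.inr (mul_ne_zero (hsq _ hf1) one_ne_zero)), h0]
    have h10 := Finset.sum_eq_zero_iff.1 h9 b (Finset.mem_univ b)
    exact Finset.sum_eq_zero_iff.1 h10 _ (Finset.mem_univ _)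
  -- e = 0
  have hw : ∀ b c, c ≠ 0 → m b c 0 0 = m 0 1 0 0 := by
    intro b c hc
    rw [hA (-b * c⁻¹) b c 0 0]
    have h11 : b + -b * c⁻¹ * c + (-b * c⁻¹) ^ 2 * 0 - (-b * c⁻¹) ^ 3 * 0 = 0 := by
      field_simp
      ring
    rw [h11, mul_zero, add_zero, hT c⁻¹ 1 0 c 0 0 (inv_ne_zero hc) one_ne_zero]
    simp [inv_mul_cancel₀ hc]
  have hTT : ∀ s b c e, s ≠ 0 → m b c 0 e = m (s⁻¹ * b) c 0 (s ^ 2 * e) := by
    intro s b c e hs
    rw [hT s s⁻¹ b c 0 e hs (inv_ne_zero hs), mul_inv_cancel₀ hs, one_mul, mul_zero]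
    congr 1
    field_simp
  have hsplit : ∀ c, c ≠ 0 → S 0 1 = Fintype.card F * m 0 1 0 0 + ∑ e, (if e = 0 then 0 else ∑ b, m b c 0 e) := by
    intro c hc
    rw [← hSE c 0 (Or.inl hc)]
    simp only [hS]
    rw [Finset.sum_comm]
    have h12 : ∀ e : F, ∑ b, m b c 0 e = (if e = 0 then Fintype.card F * m 0 1 0 0 else 0) + (if e = 0 then 0 else ∑ b, m b c 0 e) := by
      intro e
      by_cases he : e = 0
      · subst he
        rw [if_pos rfl, if_pos rfl, add_zero, Finset.sum_congr rfl (g := fun _ => m 0 1 0 0) (fun b _ => hw b c hc), Finset.sum_const,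
          smul_eq_mul, Finset.card_univ]
      · rw [if_neg he, if_neg he, zero_add]
    rw [Finset.sum_congr rfl (fun e _ => h12 e), Finset.sum_add_distrib, Finset.sum_ite_eq' univ (0 : F)]
    simp
  by_cases hz : ∀ c, c ≠ 0 → ∀ b e, e ≠ 0 → m b c 0 e = 0
  · have h13 : S 0 1 = Fintype.card F * m 0 1 0 0 := by
      rw [hsplit 1 one_ne_zero]
      rw [Finset.sum_eq_zero, add_zero]
      intro e _
      split_ifs with he
      · rfl
      · exact Finset.sum_eq_zero fun b _ => hz 1 one_ne_zero b e he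
    rcases Nat.lt_or_ge (m 0 1 0 0) 2 with h14 | h14
    · have h15 : m 0 1 0 0 = 1 := by
        rcases Nat.eq_zero_or_pos (m 0 1 0 0) with h | h
        · rw [h13, h] at hpos
          simp at hpos
        · omega
      left
      refine ⟨by rw [h13, h15, mul_one], fun b c e hc => ?_⟩
      split_ifs with he
      · subst he
        rw [hw b c hc, h15]
      · exact hz c hc b e he
    · right
      rw [h13]
      nlinarith
  · right
    push Not at hz
    obtain ⟨c, hc, b, e, he, hm⟩ := hz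
    set T : F → ℕ := fun e => ∑ b, m b c 0 e with hTd
    have h16 : Fintype.card F ≤ 3 * T e := by
      have h17 := sum_comp_le (fun t : F => b + t - t ^ 3 * (e * c⁻¹ ^ 3)) (fun b' => m b' c 0 e) 3
        (fib3 _ (mul_ne_zero he (pow_ne_zero 3 (inv_ne_zero hc))) b)
      have h18 : ∀ t : F, m (b + t - t ^ 3 * (e * c⁻¹ ^ 3)) c 0 e = m b c 0 e := by
        intro t
        rw [hA (t * c⁻¹) b c 0 e]
        congr 1
        · field_simp
          ring
        · ring
      simp only [h18] at h17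
      rw [Finset.sum_const, smul_eq_mul, Finset.card_univ] at h17
      exact le_trans (Nat.le_mul_of_pos_right _ (Nat.pos_of_ne_zero hm)) h17
    have h19 : (Fintype.card F - 1) * T e ≤ 2 * ∑ e', (if e' = 0 then 0 else T e') := by
      have h20 := sum_comp_le (fun s : F => s ^ 2 * e) (fun e' => if e' = 0 then 0 else T e') 2 (fib2 e he)
      have h21 : ∀ s : F, (if s ^ 2 * e = 0 then 0 else T (s ^ 2 * e)) = if s = 0 then 0 else T e := by
        intro s
        by_cases hs : s = 0
        · subst hs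
          simp
        · rw [if_neg (mul_ne_zero (pow_ne_zero 2 hs) he), if_neg hs]
          symm
          simp only [hTd]
          refine Fintype.sum_equiv (Equiv.mulLeft₀ s⁻¹ (inv_ne_zero hs)) _ _ fun b' => ?_
          exact hTT s b' c e hs
      simp only [h21] at h20
      have h22 : ∑ s : F, (if s = 0 then 0 else T e) = (Fintype.card F - 1) * T e := by
        rw [Finset.sum_ite, Finset.sum_const_zero, zero_add, Finset.sum_const, smul_eq_mul]
        congr 1
        rw [Finset.filter_ne' univ (0 : F), Finset.card_erase_of_mem (Finset.mem_univ _), Finset.card_univ]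
      rw [h22] at h20
      exact h20
    have h23 : ∑ e', (if e' = 0 then 0 else T e') ≤ S 0 1 := by
      rw [hsplit c hc]
      exact Nat.le_add_left _ _
    -- q ≥ 9
    have h9 : 9 ≤ Fintype.card F := by
      obtain ⟨k, hp, hk⟩ := FiniteField.card F 3
      have hk2 : 2 ≤ (k : ℕ) := by
        by_contra hlt
        have h1 : (k : ℕ) = 1 := by have := k.pos; omega
        rw [h1, pow_one] at hk
        omega
      rw [hk]
      calc 9 = 3 ^ 2 := by norm_num
        _ ≤ 3 ^ (k : ℕ) := Nat.pow_le_pow_right (by norm_num) hk2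
    have h24 : 8 * T e ≤ (Fintype.card F - 1) * T e := Nat.mul_le_mul_right _ (by omega)
    omega

end Cfsg.Agent.G2M
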