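import Mathlib

set_option autoImplicit false
set_option linter.unusedVariables false

/-!
Piece CNum, step (0), of S2338.
-/

namespace Cfsg.Agent.G2M

open Finset

theorem c_num_J {F : Type*} [Field F] [Fintype F] [DecidableEq F] [CharP F 3] (hq : 3 < Fintype.card F)
    (m : F → F → F → F → ℕ) (n : F → F → F → ℕ)
    (hA : ∀ t b c d e, m b c d e = m (b + t * c + t ^ 2 * d - t ^ 3 * e) (c + 2 * t * d) d e)
    (hAn : ∀ t z c d, z ≠ 0 → n z c d = n z (c + 2 * t * d) d)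
    (hT : ∀ s t b c d e, s ≠ 0 → t ≠ 0 → m b c d e = m (t * b) (s * t * c) (s ^ 2 * t * d) (s ^ 3 * t * e))
    (hTn : ∀ s t z c d, s ≠ 0 → t ≠ 0 → z ≠ 0 → n z c d = n (s ^ 3 * t ^ 2 * z) (s * t * c) (s ^ 2 * t * d))
    (hna : ∃ e1 e2 e3 e4 : F, (e1 = 1 ∨ e1 = -1) ∧ (e2 = 1 ∨ e2 = -1) ∧ (e3 = 1 ∨ e3 = -1) ∧ (e4 = 1 ∨ e4 = -1) ∧
      ∀ b c d e, m b c d e = m (e1 * e) (e2 * d) (e3 * c) (e4 * b))
    (hnan : ∃ e1 e2 e3 : F, (e1 = 1 ∨ e1 = -1) ∧ (e2 = 1 ∨ e2 = -1) ∧ (e3 = 1 ∨ e3 = -1) ∧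
      ∀ z c d, z ≠ 0 → n z c d = n (e1 * z) (e2 * d) (e3 * c))
    (hnb : ∃ e1 e2 : F, (e1 = 1 ∨ e1 = -1) ∧ (e2 = 1 ∨ e2 = -1) ∧ ∀ z d, z ≠ 0 →
      ∑ c, n z c d = ∑ b, ∑ c, m b c (e1 * d) (e2 * z))
    (hf : ∃ d, d ≠ 0 ∧ ((∃ b c e, m b c d e ≠ 0) ∨ ∃ z c, z ≠ 0 ∧ n z c d ≠ 0)) :
    ∃ j j0 : ℕ, 1 ≤ j ∧ (∀ z, z ≠ 0 → n z 0 0 = j0) ∧ (∀ z c d, z ≠ 0 → (c ≠ 0 ∨ d ≠ 0) → n z c d = j) := by
  have h3 : (3 : F) = 0 := by exact_mod_cast CharP.cast_eq_zero F 3
  have h2 : (2 : F) ≠ 0 := by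
    intro h
    have : (1 : F) = 0 := by linear_combination h3 - h
    exact one_ne_zero this
  have hsg : ∀ e x : F, (e = 1 ∨ e = -1) → x ≠ 0 → e * x ≠ 0 := by
    rintro e x (rfl | rfl) hx
    · simpa using hx
    · simpa using hx
  -- the case `d ≠ 0`
  have hd : ∀ z c d, z ≠ 0 → d ≠ 0 → n z c d = n 1 0 1 := by
    intro z c d hz hd
    have e1 : n z c d = n z 0 d := by
      rw [hAn (-c / (2 * d)) z c d hz]
      congr 1
      field_simp
      ring
    rw [e1]
    -- transport to `(1, 0, 1)`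
    have hβ : d⁻¹ ≠ 0 := inv_ne_zero hd
    have hα : z⁻¹ ≠ 0 := inv_ne_zero hz
    have hs : (d⁻¹) ^ 2 / z⁻¹ ≠ 0 := div_ne_zero (pow_ne_zero 2 hβ) hα
    have ht : d⁻¹ / ((d⁻¹) ^ 2 / z⁻¹) ^ 2 ≠ 0 := div_ne_zero hβ (pow_ne_zero 2 hs)
    rw [hTn _ _ z 0 d hs ht hz]
    congr 1
    · field_simp
    · ring
    · field_simp
  have hall : ∀ z c d, z ≠ 0 → (c ≠ 0 ∨ d ≠ 0) → n z c d = n 1 0 1 := by
    intro z c d hz hcd
    by_cases h : d = 0
    · subst h
      have hc : c ≠ 0 := by simpa using hcd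
      obtain ⟨e1, e2, e3, h1, -, h3', hn⟩ := hnan
      rw [hn z c 0 hz]
      exact hd _ _ _ (hsg e1 z h1 hz) (hsg e3 c h3' hc)
    · exact hd z c d hz h
  have hzero : ∀ z, z ≠ 0 → n z 0 0 = n 1 0 0 := by
    intro z hz
    rw [hTn z⁻¹ z z 0 0 (inv_ne_zero hz) hz hz]
    congr 1
    · field_simp
    · ring
    · ring
  refine ⟨n 1 0 1, n 1 0 0, ?_, hzero, hall⟩
  by_contra hj
  have hj0 : n 1 0 1 = 0 := by omega
  rw [hj0] at hall
  -- (1)
  have m1 : ∀ b c d e, d ≠ 0 → e ≠ 0 → m b c d e = 0 := by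
    intro b c d e hd' he
    obtain ⟨f1, f2, g1, g2, hn⟩ := hnb
    have f1f : f1 * (f1 * d) = d := by rcases g1 with rfl | rfl <;> ring
    have f2f : f2 * (f2 * e) = e := by rcases g2 with rfl | rfl <;> ring
    have h1 := hn (f2 * e) (f1 * d) (hsg f2 e g2 he)
    rw [f1f, f2f] at h1
    have h2' : ∑ c, n (f2 * e) c (f1 * d) = 0 := by
      apply Finset.sum_eq_zero
      intro c' _
      exact hall _ _ _ (hsg f2 e g2 he) (Or.inr (hsg f1 d g1 hd'))
    rw [h2'] at h1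
    have h3' := (Finset.sum_eq_zero_iff.1 h1.symm) b (Finset.mem_univ b)
    exact (Finset.sum_eq_zero_iff.1 h3') c (Finset.mem_univ c)
  -- (2)
  have m2 : ∀ b c d e, b ≠ 0 → c ≠ 0 → m b c d e = 0 := by
    intro b c d e hb hc
    obtain ⟨e1, e2, e3, e4, -, -, h3', h4', hm⟩ := hna
    rw [hm]
    exact m1 _ _ _ _ (hsg e3 c h3' hc) (hsg e4 b h4' hb)
  -- (3)
  have m3 : ∀ b c d e, d ≠ 0 → m b c d e = 0 := by
    intro b c d e hd'
    by_cases he : e = 0
    · subst he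
      obtain ⟨t, ht⟩ : ∃ t : F, (b + t * c + t ^ 2 * d) * (c + 2 * t * d) ≠ 0 := by
        let P : Polynomial F := (Polynomial.C b + Polynomial.C c * Polynomial.X + Polynomial.C d * Polynomial.X ^ 2) *
          (Polynomial.C c + Polynomial.C (2 * d) * Polynomial.X)
        have hdeg1 : (Polynomial.C b + Polynomial.C c * Polynomial.X + Polynomial.C d * Polynomial.X ^ 2 : Polynomial F).natDegree = 2 := by
          have : (Polynomial.C b + Polynomial.C c * Polynomial.X + Polynomial.C d * Polynomial.X ^ 2 : Polynomial F) =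
              Polynomial.C d * Polynomial.X ^ 2 + Polynomial.C c * Polynomial.X + Polynomial.C b := by ring
          rw [this]
          exact Polynomial.natDegree_quadratic hd'
        have hdeg2 : (Polynomial.C c + Polynomial.C (2 * d) * Polynomial.X : Polynomial F).natDegree = 1 := by
          rw [add_comm]
          exact Polynomial.natDegree_linear (mul_ne_zero h2 hd')
        have hne1 : (Polynomial.C b + Polynomial.C c * Polynomial.X + Polynomial.C d * Polynomial.X ^ 2 : Polynomial F) ≠ 0 := by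
          intro h
          rw [h, Polynomial.natDegree_zero] at hdeg1
          exact absurd hdeg1 (by norm_num)
        have hne2 : (Polynomial.C c + Polynomial.C (2 * d) * Polynomial.X : Polynomial F) ≠ 0 := by
          intro h
          rw [h, Polynomial.natDegree_zero] at hdeg2
          exact absurd hdeg2 (by norm_num)
        have hP : P ≠ 0 := mul_ne_zero hne1 hne2
        have hPd : P.natDegree = 3 := by
          rw [Polynomial.natDegree_mul hne1 hne2, hdeg1, hdeg2]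
        obtain ⟨t, ht⟩ : ∃ t, P.eval t ≠ 0 := by
          by_contra hno
          push Not at hno
          apply hP
          apply Polynomial.eq_zero_of_natDegree_lt_card_of_eval_eq_zero' P Finset.univ (fun i _ => hno i)
          rw [hPd, Finset.card_univ]
          exact hq
        refine ⟨t, ?_⟩
        intro h
        apply ht
        simp only [P, Polynomial.eval_mul, Polynomial.eval_add, Polynomial.eval_C, Polynomial.eval_X, Polynomial.eval_pow]
        rw [← h]; ring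
      have h1 := left_ne_zero_of_mul ht
      have h2' := right_ne_zero_of_mul ht
      rw [hA t b c d 0]
      have : b + t * c + t ^ 2 * d - t ^ 3 * 0 = b + t * c + t ^ 2 * d := by ring
      rw [this]
      exact m2 _ _ _ _ h1 h2'
    · exact m1 b c d e hd' he
  obtain ⟨d, hd', h | h⟩ := hf
  · obtain ⟨b, c, e, h⟩ := h
    exact h (m3 b c d e hd')
  · obtain ⟨z, c, hz, h⟩ := h
    exact h (hall z c d hz (Or.inr hd'))

end Cfsg.Agent.G2M
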