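import Cfsg.Agent.G2M.CNumF
import Cfsg.Agent.G2M.CNumE
import Cfsg.Agent.G2M.CNumJ

set_option autoImplicit false

namespace Cfsg.Agent.G2M
open Finset

theorem c_num {F : Type*} [Field F] [Fintype F] [DecidableEq F] [CharP F 3] (hq : 3 < Fintype.card F) (m : F → F → F → F → ℕ) (n : F → F → F → ℕ) (D : ℕ)
    (hD : D = ∑ z ∈ univ.erase (0 : F), Fintype.card F * ∑ c, ∑ d, n z c d + ∑ b, ∑ c, ∑ d, ∑ e, m b c d e)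
    (hA : ∀ t b c d e, m b c d e = m (b + t * c + t ^ 2 * d - t ^ 3 * e) (c + 2 * t * d) d e)
    (hAn : ∀ t z c d, z ≠ 0 → n z c d = n z (c + 2 * t * d) d)
    (hT : ∀ s t b c d e, s ≠ 0 → t ≠ 0 → m b c d e = m (t * b) (s * t * c) (s ^ 2 * t * d) (s ^ 3 * t * e))
    (hTn : ∀ s t z c d, s ≠ 0 → t ≠ 0 → z ≠ 0 → n z c d = n (s ^ 3 * t ^ 2 * z) (s * t * c) (s ^ 2 * t * d))
    (hna : ∃ e1 e2 e3 e4 : F, (e1 = 1 ∨ e1 = -1) ∧ (e2 = 1 ∨ e2 = -1) ∧ (e3 = 1 ∨ e3 = -1) ∧ (e4 = 1 ∨ e4 = -1) ∧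
      ∀ b c d e, m b c d e = m (e1 * e) (e2 * d) (e3 * c) (e4 * b))
    (hnan : ∃ e1 e2 e3 : F, (e1 = 1 ∨ e1 = -1) ∧ (e2 = 1 ∨ e2 = -1) ∧ (e3 = 1 ∨ e3 = -1) ∧
      ∀ z c d, z ≠ 0 → n z c d = n (e1 * z) (e2 * d) (e3 * c))
    (hnb : ∃ e1 e2 : F, (e1 = 1 ∨ e1 = -1) ∧ (e2 = 1 ∨ e2 = -1) ∧ ∀ z d, z ≠ 0 → ∑ c, n z c d = ∑ b, ∑ c, m b c (e1 * d) (e2 * z))
    (hB : ∃ e1 : F, (e1 = 1 ∨ e1 = -1) ∧ ∀ b, b ≠ 0 → Fintype.card F * ∑ c, ∑ d, n (e1 * b) c d =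
      ∑ z ∈ univ.erase (0 : F), ∑ c, ∑ d, n z c d + ∑ c, ∑ d, ∑ e, m b c d e)
    (hf : ∃ d, d ≠ 0 ∧ ((∃ b c e, m b c d e ≠ 0) ∨ ∃ z c, z ≠ 0 ∧ n z c d ≠ 0))
    (hr : (∀ b c, c ≠ 0 → m b c 0 0 = 1) → Fintype.card F - 1 ≤ m 0 0 0 0) :
    Fintype.card F ^ 4 + Fintype.card F ^ 2 - 2 ≤ D := by
  obtain ⟨j, j0, hj, hn0, hn⟩ := c_num_J hq m n hA hAn hT hTn hna hnan hnb hf
  obtain ⟨E, hE, hw⟩ := c_num_E hq m n hA hT hna hnb j hj hn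
  refine c_num_fin hq m n D hD hA hT hna hB hr j j0 E hj hn0 hn hE ?_
  rcases hw with ⟨h1, h2⟩ | h1
  · refine Or.inl ⟨h1, fun b c hc => ?_⟩
    rw [h2 b c 0 hc, if_pos rfl]
  · exact Or.inr h1

end Cfsg.Agent.G2M
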