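import Cfsg.Agent.G2M.CM46b
import Cfsg.Agent.G2M.CHr
import Cfsg.Agent.G2M.CNum

set_option autoImplicit false
set_option maxHeartbeats 1000000

namespace Cfsg.Agent.G2M
open Module Finset

variable {F G : Type*} [Field F] [Fintype F] [DecidableEq F] [Group G] {V : Type*} [AddCommGroup V] [Module ℂ V] [FiniteDimensional ℂ V]
  (X : G2G F G) {ψ : AddChar F ℂ} (ρ : Representation ℂ G V)

/- C-main (uses c_num, R1, R2) -/
theorem c_main [CharP F 3] (hψ : ψ ≠ 0) (hq : 3 < Fintype.card F) (hf : ∃ t v, ρ (X.x 9 t) v ≠ v) :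
    Fintype.card F ^ 4 + Fintype.card F ^ 2 - 2 ≤ finrank ℂ V := by
  refine c_num hq (fun b c d e => dj X ψ ρ [(6, b), (8, c), (9, d), (10, e), (11, 0)])
    (fun z c d => dj X ψ ρ [(8, c), (9, d), (10, 0), (11, z)]) (finrank ℂ V) ?_ ?_ ?_ ?_ ?_ ?_ ?_ ?_ ?_ ?_ ?_
  · exact CM46.c_hD X hψ
  · exact fun t b c d e => CM46.c_hA X ρ t b c d e
  · exact fun t z c d _ => CM46.c_hAn X ρ t z c d
  · exact fun s t b c d e hs ht => CM46.c_hT X s t b c d e hs ht
  · exact fun s t z c d hs ht _ => CM46.c_hTn X s t z c d hs ht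
  · exact CM46.c_hna X
  · exact CM46.c_hnan X hψ
  · exact CM46.c_hnb X hψ
  · exact CM46.c_hB X hψ
  · exact CM46.c_hf X hψ hf
  · exact c_hr X ρ hψ hq

end Cfsg.Agent.G2M
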