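import Mathlib

set_option autoImplicit false
set_option linter.unusedVariables false
set_option linter.style.haveILetI false

/-! # S2338, counting part, final inequality (helper2) -/

namespace Cfsg.Agent.G2M

open Finset

variable {F : Type*} [Field F] [Fintype F] [DecidableEq F]

theorem sum_two_split (f : F → F → ℕ) :
    ∑ c, ∑ d, f c d = f 0 0 + ∑ p ∈ (univ : Finset (F × F)).erase (0, 0), f p.1 p.2 := by
  rw [← Finset.sum_product', univ_product_univ, ← Finset.add_sum_erase univ _ (mem_univ ((0 : F), (0 : F)))]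

theorem card_erase2 : ((univ : Finset (F × F)).erase (0, 0)).card = Fintype.card F ^ 2 - 1 := by
  rw [Finset.card_erase_of_mem (mem_univ _), Finset.card_univ, Fintype.card_prod, pow_two]

theorem ne_of_mem2 {p : F × F} (hp : p ∈ (univ : Finset (F × F)).erase (0, 0)) : p.1 ≠ 0 ∨ p.2 ≠ 0 := by
  by_contra h
  push Not at h
  exact (Finset.mem_erase.mp hp).1 (Prod.ext h.1 h.2)

theorem ar_fin (q h j0 m0 : ℕ) (hq9 : 9 ≤ q)
    (hB1 : q * (j0 + (q ^ 2 - 1) * 1) = (q - 1) * (j0 + (q ^ 2 - 1) * 1) + (q * (q - 1) + q * h))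
    (hm : q - 1 ≤ m0) :
    q ^ 4 + q ^ 2 - 2 ≤ (q - 1) * (q * (j0 + (q ^ 2 - 1) * 1)) +
      ((q ^ 2 - 1) * q + (q ^ 2 - 1) * h + m0) := by
  obtain ⟨Q, rfl⟩ : ∃ Q, q = Q + 9 := ⟨q - 9, by omega⟩
  have hq1 : Q + 9 - 1 = Q + 8 := by omega
  have hq2 : (Q + 9) ^ 2 - 1 = Q ^ 2 + 18 * Q + 80 := by
    have : (Q + 9) ^ 2 = Q ^ 2 + 18 * Q + 80 + 1 := by ring
    omega
  rw [hq1, hq2] at hB1
  rw [hq1] at hm
  rw [hq1, hq2]
  have hB2 : j0 + (Q ^ 2 + 18 * Q + 80) = (Q + 9) * (Q + 8) + (Q + 9) * h := by linarith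
  have hB3 : j0 + (Q + 8) = (Q + 9) * h := by
    have : (Q + 9) * (Q + 8) = Q ^ 2 + 17 * Q + 72 := by ring
    rw [this] at hB2
    linarith
  have hh0 : 1 ≤ h := by
    by_contra h0
    have : h = 0 := by omega
    rw [this] at hB3
    omega
  obtain ⟨h', rfl⟩ : ∃ h', h = h' + 1 := ⟨h - 1, by omega⟩
  have hj0 : j0 = (Q + 9) * h' + 1 := by linarith
  subst hj0
  apply Nat.sub_le_of_le_add
  rcases Nat.eq_zero_or_pos h' with rfl | h0
  · nlinarith
  · have e1 : (Q + 8) * ((Q + 9) * ((Q + 9) * 1 + 1 + (Q ^ 2 + 18 * Q + 80) * 1)) ≤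
        (Q + 8) * ((Q + 9) * ((Q + 9) * h' + 1 + (Q ^ 2 + 18 * Q + 80) * 1)) := by gcongr; exact h0
    have e2 : (Q ^ 2 + 18 * Q + 80) * 2 ≤ (Q ^ 2 + 18 * Q + 80) * (h' + 1) := by gcongr; omega
    nlinarith [e1, e2, Nat.zero_le (Q ^ 4), Nat.zero_le (Q ^ 3), Nat.zero_le (Q ^ 2), Nat.zero_le Q]

theorem ar_two (q h j0 j E m0 : ℕ) (hq9 : 9 ≤ q) (hj : 2 ≤ j) :
    q ^ 4 + q ^ 2 - 2 ≤ (q - 1) * (q * (j0 + (q ^ 2 - 1) * j)) +
      ((q ^ 2 - 1) * E + (q ^ 2 - 1) * h + m0) := by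
  obtain ⟨Q, rfl⟩ : ∃ Q, q = Q + 9 := ⟨q - 9, by omega⟩
  have hq1 : Q + 9 - 1 = Q + 8 := by omega
  have hq2 : (Q + 9) ^ 2 - 1 = Q ^ 2 + 18 * Q + 80 := by
    have : (Q + 9) ^ 2 = Q ^ 2 + 18 * Q + 80 + 1 := by ring
    omega
  rw [hq1, hq2]
  have h1 : (Q + 8) * ((Q + 9) * (0 + (Q ^ 2 + 18 * Q + 80) * 2)) ≤
      (Q + 8) * ((Q + 9) * (j0 + (Q ^ 2 + 18 * Q + 80) * j)) := by gcongr; omega
  have h3 : (Q + 9) ^ 4 + (Q + 9) ^ 2 ≤ (Q + 8) * ((Q + 9) * (0 + (Q ^ 2 + 18 * Q + 80) * 2)) := by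
    nlinarith [Nat.zero_le (Q ^ 4), Nat.zero_le (Q ^ 3), Nat.zero_le (Q ^ 2), Nat.zero_le Q]
  omega

theorem ar_E (q h j0 E m0 : ℕ) (hq9 : 9 ≤ q) (hw : 4 * q ≤ 3 * E) :
    q ^ 4 + q ^ 2 - 2 ≤ (q - 1) * (q * (j0 + (q ^ 2 - 1) * 1)) +
      ((q ^ 2 - 1) * E + (q ^ 2 - 1) * h + m0) := by
  obtain ⟨Q, rfl⟩ : ∃ Q, q = Q + 9 := ⟨q - 9, by omega⟩
  have hq1 : Q + 9 - 1 = Q + 8 := by omega
  have hq2 : (Q + 9) ^ 2 - 1 = Q ^ 2 + 18 * Q + 80 := by
    have : (Q + 9) ^ 2 = Q ^ 2 + 18 * Q + 80 + 1 := by ring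
    omega
  rw [hq1, hq2]
  have h1 : (Q + 8) * ((Q + 9) * (0 + (Q ^ 2 + 18 * Q + 80) * 1)) ≤
      (Q + 8) * ((Q + 9) * (j0 + (Q ^ 2 + 18 * Q + 80) * 1)) := by gcongr; omega
  have h4 : (Q ^ 2 + 18 * Q + 80) * (4 * (Q + 9)) ≤ (Q ^ 2 + 18 * Q + 80) * (3 * E) := by gcongr
  have h3 : (Q + 9) ^ 4 + (Q + 9) ^ 2 ≤ (Q + 8) * ((Q + 9) * (0 + (Q ^ 2 + 18 * Q + 80) * 1)) +
      (Q ^ 2 + 18 * Q + 80) * E := by
    nlinarith [Nat.zero_le (Q ^ 4), Nat.zero_le (Q ^ 3), Nat.zero_le (Q ^ 2), Nat.zero_le Q]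
  omega

theorem c_num_fin [CharP F 3] (hq : 3 < Fintype.card F) (m : F → F → F → F → ℕ) (n : F → F → F → ℕ) (D : ℕ)
    (hD : D = ∑ z ∈ univ.erase (0 : F), Fintype.card F * ∑ c, ∑ d, n z c d + ∑ b, ∑ c, ∑ d, ∑ e, m b c d e)
    (hA : ∀ t b c d e, m b c d e = m (b + t * c + t ^ 2 * d - t ^ 3 * e) (c + 2 * t * d) d e)
    (hT : ∀ s t b c d e, s ≠ 0 → t ≠ 0 → m b c d e = m (t * b) (s * t * c) (s ^ 2 * t * d) (s ^ 3 * t * e))
    (hna : ∃ e1 e2 e3 e4 : F, (e1 = 1 ∨ e1 = -1) ∧ (e2 = 1 ∨ e2 = -1) ∧ (e3 = 1 ∨ e3 = -1) ∧ (e4 = 1 ∨ e4 = -1) ∧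
      ∀ b c d e, m b c d e = m (e1 * e) (e2 * d) (e3 * c) (e4 * b))
    (hB : ∃ e1 : F, (e1 = 1 ∨ e1 = -1) ∧ ∀ b, b ≠ 0 → Fintype.card F * ∑ c, ∑ d, n (e1 * b) c d =
      ∑ z ∈ univ.erase (0 : F), ∑ c, ∑ d, n z c d + ∑ c, ∑ d, ∑ e, m b c d e)
    (hr : (∀ b c, c ≠ 0 → m b c 0 0 = 1) → Fintype.card F - 1 ≤ m 0 0 0 0)
    (j j0 E : ℕ) (hj : 1 ≤ j) (hn0 : ∀ z, z ≠ 0 → n z 0 0 = j0)
    (hn : ∀ z c d, z ≠ 0 → (c ≠ 0 ∨ d ≠ 0) → n z c d = j)
    (hE : ∀ c d, (c ≠ 0 ∨ d ≠ 0) → ∑ b, ∑ e, m b c d e = E)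
    (hw : (E = Fintype.card F ∧ ∀ b c, c ≠ 0 → m b c 0 0 = 1) ∨ 4 * Fintype.card F ≤ 3 * E) :
    Fintype.card F ^ 4 + Fintype.card F ^ 2 - 2 ≤ D := by
  set q := Fintype.card F with hqd
  -- q ≥ 9
  have hq9 : 9 ≤ q := by
    obtain ⟨k, hp, hk⟩ := FiniteField.card F 3
    rw [hqd, hk] at hq ⊢
    have hk2 : 2 ≤ (k : ℕ) := by
      by_contra hlt
      have h1 : (k : ℕ) = 1 := le_antisymm (Nat.lt_succ_iff.mp (Nat.lt_of_not_le hlt)) k.pos
      rw [h1] at hq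
      exact absurd hq (by norm_num)
    calc 9 = 3 ^ 2 := by norm_num
      _ ≤ 3 ^ (k : ℕ) := Nat.pow_le_pow_right (by norm_num) hk2
  -- N
  have hN : ∀ z, z ≠ 0 → ∑ c, ∑ d, n z c d = j0 + (q ^ 2 - 1) * j := by
    intro z hz
    rw [sum_two_split, hn0 z hz, Finset.sum_congr rfl (fun p hp => hn z p.1 p.2 hz (ne_of_mem2 hp)),
      Finset.sum_const, card_erase2, smul_eq_mul]
  have hcz : (univ.erase (0 : F)).card = q - 1 := by
    rw [Finset.card_erase_of_mem (mem_univ _), Finset.card_univ]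
  -- h
  set h := m 0 0 0 1 with hh
  have hh1 : ∀ b e, e ≠ 0 → m b 0 0 e = h := by
    intro b e he
    -- first kill b
    have hbij : ∃ t : F, t ^ 3 = b / e := by
      haveI : Fact (Nat.Prime 3) := ⟨Nat.prime_three⟩
      have hs : Function.Surjective (frobenius F 3) :=
        Finite.surjective_of_injective (frobenius_inj F 3)
      obtain ⟨t, ht⟩ := hs (b / e)
      exact ⟨t, by rw [← ht, frobenius_def]⟩
    obtain ⟨t, ht⟩ := hbij
    have h1 := hA t b 0 0 e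
    have h2 : b + t * 0 + t ^ 2 * 0 - t ^ 3 * e = 0 := by
      rw [ht]; field_simp; ring
    have h3 : (0 : F) + 2 * t * 0 = 0 := by ring
    rw [h2, h3] at h1
    rw [h1, hh]
    have h4 := hT 1 e⁻¹ 0 0 0 e one_ne_zero (inv_ne_zero he)
    rw [h4]
    congr 1 <;> simp [he]
  have hh2 : ∀ b e, (b ≠ 0 ∨ e ≠ 0) → m b 0 0 e = h := by
    intro b e hbe
    by_cases he : e = 0
    · subst he
      have hb : b ≠ 0 := by tauto
      obtain ⟨e1, e2, e3, e4, h1, h2, h3, h4, h5⟩ := hna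
      rw [h5 b 0 0 0]
      have h40 : e4 * b ≠ 0 := by
        rcases h4 with rfl | rfl
        · simpa using hb
        · simpa using hb
      have := hh1 (e1 * 0) (e4 * b) h40
      simpa using this
    · exact hh1 b e he
  -- total sum of m
  have htot : ∑ b, ∑ c, ∑ d, ∑ e, m b c d e = (q ^ 2 - 1) * E + (q ^ 2 - 1) * h + m 0 0 0 0 := by
    have h1 : ∑ b, ∑ c, ∑ d, ∑ e, m b c d e = ∑ c, ∑ d, ∑ b, ∑ e, m b c d e := by
      rw [Finset.sum_comm]
      refine Finset.sum_congr rfl fun c _ => ?_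
      rw [Finset.sum_comm]
    rw [h1, sum_two_split, Finset.sum_congr rfl (fun p hp => hE p.1 p.2 (ne_of_mem2 hp)),
      Finset.sum_const, card_erase2, smul_eq_mul, sum_two_split,
      Finset.sum_congr rfl (fun p hp => hh2 p.1 p.2 (ne_of_mem2 hp)),
      Finset.sum_const, card_erase2, smul_eq_mul]
    ring
  have hDv : D = (q - 1) * (q * (j0 + (q ^ 2 - 1) * j)) + ((q ^ 2 - 1) * E + (q ^ 2 - 1) * h + m 0 0 0 0) := by
    rw [hD, htot, Finset.sum_congr rfl (fun z hz => by rw [hN z (Finset.ne_of_mem_erase hz)]),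
      Finset.sum_const, hcz, smul_eq_mul]
  by_cases hj2 : 2 ≤ j
  · rw [hDv]
    exact ar_two q h j0 j E _ hq9 hj2
  · have hj1 : j = 1 := by omega
    subst hj1
    rcases hw with ⟨hEq, hw⟩ | hw
    swap
    · rw [hDv]
      exact ar_E q h j0 E _ hq9 hw
    · -- m b c 0 e = 0 for c ≠ 0, e ≠ 0
      have hme : ∀ b c e, c ≠ 0 → e ≠ 0 → m b c 0 e = 0 := by
        intro b c e hc he
        have h1 := hE c 0 (Or.inl hc)
        have h2 : ∑ b, ∑ e, m b c 0 e = ∑ b, (m b c 0 0 + ∑ e ∈ univ.erase (0 : F), m b c 0 e) := by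
          refine Finset.sum_congr rfl fun b _ => ?_
          rw [Finset.add_sum_erase univ _ (mem_univ (0 : F))]
        rw [h2, Finset.sum_add_distrib, Finset.sum_congr rfl (fun b _ => hw b c hc), Finset.sum_const,
          Finset.card_univ, smul_eq_mul, mul_one, ← hqd, hEq] at h1
        have h3 : ∑ b, ∑ e ∈ univ.erase (0 : F), m b c 0 e = 0 := by omega
        have h4 := (Finset.sum_eq_zero_iff.mp h3) b (mem_univ b)
        exact (Finset.sum_eq_zero_iff.mp h4) e (Finset.mem_erase.mpr ⟨he, mem_univ e⟩)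
      obtain ⟨e1, e2, e3, e4, s1, s2, s3, s4, hnae⟩ := hna
      have ne1 : e1 ≠ 0 := by rcases s1 with rfl | rfl <;> simp
      have ne2 : e2 ≠ 0 := by rcases s2 with rfl | rfl <;> simp
      have ne4 : e4 ≠ 0 := by rcases s4 with rfl | rfl <;> simp
      -- m b 0 d e for d ≠ 0
      have hm0 : ∀ b d e, d ≠ 0 → m b 0 d e = if b = 0 then 1 else 0 := by
        intro b d e hd
        rw [hnae b 0 d e, mul_zero]
        by_cases hb : b = 0
        · rw [hb, mul_zero, if_pos rfl]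
          exact hw _ _ (mul_ne_zero ne2 hd)
        · rw [if_neg hb]
          exact hme _ _ _ (mul_ne_zero ne2 hd) (mul_ne_zero ne4 hb)
      have h3F : (3 : F) = 0 := by
        have := CharP.cast_eq_zero F 3
        exact_mod_cast this
      have hmd : ∀ b c d e, d ≠ 0 → m b c d e = if b - c ^ 2 / d - (c / d) ^ 3 * e = 0 then 1 else 0 := by
        intro b c d e hd
        have h1 := hA (c / d) b c d e
        have h2 : c + 2 * (c / d) * d = 0 := by
          have : c + 2 * (c / d) * d = 3 * c := by field_simp; ring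
          rw [this, h3F, zero_mul]
        have h4 : b + c / d * c + (c / d) ^ 2 * d - (c / d) ^ 3 * e = b - c ^ 2 / d - (c / d) ^ 3 * e := by
          have : b + c / d * c + (c / d) ^ 2 * d - (c / d) ^ 3 * e = b - c ^ 2 / d - (c / d) ^ 3 * e + 3 * (c ^ 2 / d) := by
            field_simp; ring
          rw [this, h3F, zero_mul, add_zero]
        rw [h1, h2, h4]
        exact hm0 _ d e hd
      -- S for b = 1
      have hS : ∑ c, ∑ d, ∑ e, m 1 c d e = q * (q - 1) + q * h := by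
        have g1 : ∀ c d, c ≠ 0 → ∑ e, m 1 c d e = 1 := by
          intro c d hc
          by_cases hd : d = 0
          · subst hd
            rw [← Finset.add_sum_erase univ _ (mem_univ (0 : F)), hw 1 c hc,
              Finset.sum_eq_zero (fun e he => hme 1 c e hc (Finset.ne_of_mem_erase he)), add_zero]
          · have hcd : (c / d) ^ 3 ≠ 0 := pow_ne_zero 3 (div_ne_zero hc hd)
            rw [Finset.sum_congr rfl (fun e _ => hmd 1 c d e hd)]
            rw [Finset.sum_eq_single ((1 - c ^ 2 / d) / (c / d) ^ 3)]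
            · rw [if_pos]
              field_simp
              ring
            · intro e _ he
              rw [if_neg]
              intro h0
              apply he
              rw [eq_div_iff hcd]
              linear_combination (-1 : F) * h0
            · intro h0; exact absurd (mem_univ _) h0
        have g2 : ∀ d, d ≠ 0 → ∑ e, m 1 0 d e = 0 := by
          intro d hd
          refine Finset.sum_eq_zero fun e _ => ?_
          rw [hm0 1 d e hd, if_neg one_ne_zero]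
        have g3 : ∑ e, m 1 0 0 e = q * h := by
          rw [Finset.sum_congr rfl (fun e _ => hh2 1 e (Or.inl one_ne_zero)), Finset.sum_const,
            Finset.card_univ, smul_eq_mul]
        rw [← Finset.add_sum_erase univ _ (mem_univ (0 : F)),
          ← Finset.add_sum_erase univ _ (mem_univ (0 : F)), g3,
          Finset.sum_eq_zero (fun d hd => g2 d (Finset.ne_of_mem_erase hd)), add_zero,
          Finset.sum_congr rfl (fun c hc => Finset.sum_congr rfl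
            (fun d _ => g1 c d (Finset.ne_of_mem_erase hc))), Finset.sum_const, Finset.sum_const, hcz,
          Finset.card_univ, smul_eq_mul, smul_eq_mul]
        ring
      obtain ⟨f1, sf, hBf⟩ := hB
      have nf1 : f1 ≠ 0 := by rcases sf with rfl | rfl <;> simp
      have hB1 := hBf 1 one_ne_zero
      rw [hN _ (mul_ne_zero nf1 one_ne_zero), hS,
        Finset.sum_congr rfl (fun z hz => hN z (Finset.ne_of_mem_erase hz)), Finset.sum_const, hcz,
        smul_eq_mul] at hB1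
      have hm := hr hw
      rw [hDv, hEq]
      exact ar_fin q h j0 _ hq9 hB1 hm

end Cfsg.Agent.G2M
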