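import Mathlib

set_option autoImplicit false

/-!
# Representations of the group of type G2: interface (helper19)
Roots: 6 = b (long), 7 = a (short), 8 = a+b, 9 = 2a+b, 10 = 3a+b, 11 = 3a+2b, neg r = 11 - r.
-/

namespace Cfsg.Agent.G2M

/-- coordinates of the roots -/
def ca : ℕ → ℤ := fun r => [-3, -3, -2, -1, -1, 0, 0, 1, 1, 2, 3, 3].getD r 0
def cb : ℕ → ℤ := fun r => [-2, -1, -1, -1, 0, -1, 1, 0, 1, 1, 1, 2].getD r 0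
/-- reflection in a -/
def ra : ℕ → ℕ := fun r => [0, 5, 3, 2, 7, 1, 10, 4, 9, 8, 6, 11].getD r 0
/-- reflection in b -/
def rb : ℕ → ℕ := fun r => [1, 0, 2, 4, 3, 6, 5, 8, 7, 9, 11, 10].getD r 0

/-- group data of type G2 -/
structure G2G (F G : Type*) [Field F] [Group G] where
  x : ℕ → F → G
  h : Fˣ → Fˣ → G
  na : G
  nb : G
  add : ∀ r, r < 12 → ∀ s t, x r (s + t) = x r s * x r t
  tor : ∀ s t : Fˣ, ∀ r, r < 12 → ∀ u : F, h s t * x r u * (h s t)⁻¹ = x r (((s ^ (ca r) * t ^ (cb r) : Fˣ) : F) * u)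
  hna : ∀ r, r < 12 → ∃ e : F, (e = 1 ∨ e = -1) ∧ ∀ u : F, na * x r u * na⁻¹ = x (ra r) (e * u)
  hnb : ∀ r, r < 12 → ∃ e : F, (e = 1 ∨ e = -1) ∧ ∀ u : F, nb * x r u * nb⁻¹ = x (rb r) (e * u)
  c76 : ∀ t u : F, (x 7 t)⁻¹ * x 6 u * x 7 t = x 6 u * x 8 (t * u) * x 9 (t ^ 2 * u) * x 10 (-(t ^ 3 * u)) * x 11 (t ^ 3 * u ^ 2)
  c78 : ∀ t u : F, (x 7 t)⁻¹ * x 8 u * x 7 t = x 8 u * x 9 (2 * t * u) * x 10 (-(3 * t ^ 2 * u)) * x 11 (3 * t * u ^ 2)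
  c79 : ∀ t u : F, (x 7 t)⁻¹ * x 9 u * x 7 t = x 9 u * x 10 (-(3 * t * u))
  c610 : ∀ t u : F, (x 6 t)⁻¹ * x 10 u * x 6 t = x 10 u * x 11 (t * u)
  c89 : ∀ t u : F, (x 8 t)⁻¹ * x 9 u * x 8 t = x 9 u * x 11 (3 * t * u)
  comm : ∀ r s, (r, s) ∈ [(6, 8), (6, 9), (6, 11), (7, 10), (7, 11), (8, 10), (8, 11), (9, 10), (9, 11), (10, 11), (1, 6), (0, 1), (0, 7),
    (5, 9), (2, 6)] → ∀ t u : F, x r t * x s u = x s u * x r t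
  c511 : ∀ t u : F, ∃ e : F, (e = 1 ∨ e = -1) ∧ (x 5 t)⁻¹ * x 11 u * x 5 t = x 11 u * x 10 (e * t * u)
  c60 : ∀ t u : F, (x 6 t)⁻¹ * x 0 u * x 6 t = x 0 u * x 1 (t * u)
  r10 : ∀ t : F, t ≠ 0 → ∃ n : G, x 1 t = x 10 t⁻¹ * n * x 10 t⁻¹ ∧ ∃ s1 t1 : Fˣ, n = h s1 t1 * (na * nb * na⁻¹)
  h_mul : ∀ s t s' t' : Fˣ, h (s * s') (t * t') = h s t * h s' t'
  na_h : ∀ s t : Fˣ, na * h s t * na⁻¹ = h s⁻¹ (s ^ 3 * t)
  nb_h : ∀ s t : Fˣ, nb * h s t * nb⁻¹ = h (s * t) t⁻¹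
  gen : ∀ H : Subgroup G, (∀ t, x 6 t ∈ H) → (∀ t, x 7 t ∈ H) → na ∈ H → nb ∈ H → H = ⊤

open Module

variable {F G : Type*} [Field F] [Group G] {V : Type*} [AddCommGroup V] [Module ℂ V]

/-- joint eigenspace: every `(r, c) ∈ l` acts by `ψ (c t)` -/
def J (X : G2G F G) (ψ : AddChar F ℂ) (ρ : Representation ℂ G V) (l : List (ℕ × F)) : Submodule ℂ V where
  carrier := {v | ∀ p ∈ l, ∀ t : F, ρ (X.x p.1 t) v = ψ (p.2 * t) • v}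
  add_mem' := by intro a b ha hb p hp t; rw [map_add, ha p hp t, hb p hp t, smul_add]
  zero_mem' := by intro p hp t; rw [map_zero, smul_zero]
  smul_mem' := by intro c a ha p hp t; rw [map_smul, ha p hp t, smul_comm]

/-- its dimension -/
noncomputable def dj (X : G2G F G) (ψ : AddChar F ℂ) (ρ : Representation ℂ G V) (l : List (ℕ × F)) : ℕ := finrank ℂ (J X ψ ρ l)

end Cfsg.Agent.G2M
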