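import Cfsg.Agent.ChevTw.Base
import Cfsg.Agent.ChevGrp.Inst
import Cfsg.Agent.G2M.Def
import Cfsg.Prelude.Def_ChevG2

/-!
# Commutator relations of `G₂(F)` (for the instance of `G2G`)
-/
set_option autoImplicit false

namespace Cfsg.Agent.G2M.InstC

open Cfsg.Lie Cfsg.Agent.Chev

theorem H : Chev.Good chevG2 := Chev.good_of_mem (by simp [Chev.data])

variable {F : Type*} [Field F]

/-- the root elements, with the sign of the highest root changed -/
noncomputable def xx (F : Type*) [Field F] (r : ℕ) (t : F) : ↥(chevG2.group F) := xG H.toGood2 r (if r = 11 then -t else t)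

theorem xx_ne {r : ℕ} (hr : r ≠ 11) (t : F) : xx F r t = xG H.toGood2 r t := by rw [xx, if_neg hr]

theorem xx_11 (t : F) : xx F 11 t = xG H.toGood2 11 (-t) := by rw [xx, if_pos rfl]

theorem xG11 (t : F) : xG H.toGood2 (D := chevG2) 11 t = xx F 11 (-t) := by rw [xx_11, _root_.neg_neg]

theorem comm_raw {r s : ℕ} (hr : r < chevG2.nroots) (hs : s < chevG2.nroots) (h1 : s ≠ r) (h2 : s ≠ chevG2.neg r)
    {l : List (ℕ × ℤ × ℕ × ℕ)} (h : chevG2.commTerms r s = l) (t u : F) :
    (xG H.toGood2 r t)⁻¹ * xG H.toGood2 s u * xG H.toGood2 r t =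
      xG H.toGood2 s u * (l.map fun c => xG H.toGood2 (D := chevG2) (F := F) c.1 ((c.2.1 : F) * (-t) ^ c.2.2.1 * u ^ c.2.2.2)).prod := by
  rw [mul_assoc, inv_mul_eq_iff_eq_mul, ← mul_assoc]
  apply ChevTw.eq_of_coe
  have := H.comm (F := F) hr hs h1 h2 t u
  rw [ChevalleyDatum.commWord, h] at this
  have hl : ∀ l : List (ℕ × ℤ × ℕ × ℕ), (((l.map fun c => xG H.toGood2 (D := chevG2) (F := F) c.1 ((c.2.1 : F) * (-t) ^ c.2.2.1 * u ^ c.2.2.2)).prod : ↥(chevG2.group F)) : GL chevG2.Idx F).val =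
      chevG2.wordMat F (l.map fun c => (c.1, (c.2.1 : F) * (-t) ^ c.2.2.1 * u ^ c.2.2.2)) := by
    intro l
    induction l with
    | nil => simp [ChevalleyDatum.wordMat]
    | cons a l ih =>
      simp only [List.map_cons, List.prod_cons, Subgroup.coe_mul, Units.val_mul, xG_coe, ih, ChevalleyDatum.wordMat]
  simp only [Subgroup.coe_mul, Units.val_mul, xG_coe, hl]
  exact this

theorem t76 : chevG2.commTerms 7 6 = [(8, -1, 1, 1), (9, 1, 2, 1), (10, 1, 3, 1), (11, 1, 3, 2)] := by decide +kernel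
theorem t78 : chevG2.commTerms 7 8 = [(9, -2, 1, 1), (10, -3, 2, 1), (11, 3, 1, 2)] := by decide +kernel
theorem t79 : chevG2.commTerms 7 9 = [(10, 3, 1, 1)] := by decide +kernel
theorem t610 : chevG2.commTerms 6 10 = [(11, 1, 1, 1)] := by decide +kernel
theorem t89 : chevG2.commTerms 8 9 = [(11, 3, 1, 1)] := by decide +kernel
theorem t511 : chevG2.commTerms 5 11 = [(10, 1, 1, 1)] := by decide +kernel
theorem t60 : chevG2.commTerms 6 0 = [(1, -1, 1, 1)] := by decide +kernel

theorem c76 (t u : F) : (xx F 7 t)⁻¹ * xx F 6 u * xx F 7 t =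
    xx F 6 u * xx F 8 (t * u) * xx F 9 (t ^ 2 * u) * xx F 10 (-(t ^ 3 * u)) * xx F 11 (t ^ 3 * u ^ 2) := by
  rw [xx_ne (by decide), xx_ne (by decide), xx_ne (by decide), xx_ne (by decide), xx_ne (by decide), xx_11,
    comm_raw (by decide) (by decide) (by decide) (by decide) t76]
  simp only [List.map_cons, List.map_nil, List.prod_cons, List.prod_nil, mul_one, mul_assoc]
  congr 2
  · push_cast; congr 1; ring
  · congr 1
    · push_cast; congr 1; ring
    · congr 1
      · push_cast; congr 1; ring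
      · push_cast; congr 1; ring

theorem c78 (t u : F) : (xx F 7 t)⁻¹ * xx F 8 u * xx F 7 t =
    xx F 8 u * xx F 9 (2 * t * u) * xx F 10 (-(3 * t ^ 2 * u)) * xx F 11 (3 * t * u ^ 2) := by
  rw [xx_ne (by decide), xx_ne (by decide), xx_ne (by decide), xx_ne (by decide), xx_11,
    comm_raw (by decide) (by decide) (by decide) (by decide) t78]
  simp only [List.map_cons, List.map_nil, List.prod_cons, List.prod_nil, mul_one, mul_assoc]
  congr 2
  · push_cast; congr 1; ring
  · congr 1
    · push_cast; congr 1; ring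
    · push_cast; congr 1; ring

theorem c79 (t u : F) : (xx F 7 t)⁻¹ * xx F 9 u * xx F 7 t = xx F 9 u * xx F 10 (-(3 * t * u)) := by
  rw [xx_ne (by decide), xx_ne (by decide), xx_ne (by decide),
    comm_raw (by decide) (by decide) (by decide) (by decide) t79]
  simp only [List.map_cons, List.map_nil, List.prod_cons, List.prod_nil, mul_one]
  congr 2
  push_cast; ring

theorem c610 (t u : F) : (xx F 6 t)⁻¹ * xx F 10 u * xx F 6 t = xx F 10 u * xx F 11 (t * u) := by
  rw [xx_ne (by decide), xx_ne (by decide), xx_11,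
    comm_raw (by decide) (by decide) (by decide) (by decide) t610]
  simp only [List.map_cons, List.map_nil, List.prod_cons, List.prod_nil, mul_one]
  congr 2
  push_cast; ring

theorem c89 (t u : F) : (xx F 8 t)⁻¹ * xx F 9 u * xx F 8 t = xx F 9 u * xx F 11 (3 * t * u) := by
  rw [xx_ne (by decide), xx_ne (by decide), xx_11,
    comm_raw (by decide) (by decide) (by decide) (by decide) t89]
  simp only [List.map_cons, List.map_nil, List.prod_cons, List.prod_nil, mul_one]
  congr 2
  push_cast; ring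

theorem c511 (t u : F) : ∃ e : F, (e = 1 ∨ e = -1) ∧ (xx F 5 t)⁻¹ * xx F 11 u * xx F 5 t = xx F 11 u * xx F 10 (e * t * u) := by
  refine ⟨1, Or.inl rfl, ?_⟩
  rw [xx_ne (r := 5) (by decide), xx_ne (r := 10) (by decide), xx_11,
    comm_raw (by decide) (by decide) (by decide) (by decide) t511]
  simp only [List.map_cons, List.map_nil, List.prod_cons, List.prod_nil, mul_one]
  congr 2
  push_cast; ring

theorem c60 (t u : F) : (xx F 6 t)⁻¹ * xx F 0 u * xx F 6 t = xx F 0 u * xx F 1 (t * u) := by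
  rw [xx_ne (by decide), xx_ne (by decide), xx_ne (by decide),
    comm_raw (by decide) (by decide) (by decide) (by decide) t60]
  simp only [List.map_cons, List.map_nil, List.prod_cons, List.prod_nil, mul_one]
  congr 2
  push_cast; ring

theorem commE {r s : ℕ} (hr : r < chevG2.nroots) (hs : s < chevG2.nroots) (h1 : s ≠ r) (h2 : s ≠ chevG2.neg r)
    (h : chevG2.commTerms r s = []) (t u : F) : xx F r t * xx F s u = xx F s u * xx F r t :=
  ChevTw.xG_comm H hr hs h1 h2 h _ _

theorem comm : ∀ r s, (r, s) ∈ [(6, 8), (6, 9), (6, 11), (7, 10), (7, 11), (8, 10), (8, 11), (9, 10), (9, 11), (10, 11), (1, 6), (0, 1), (0, 7),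
    (5, 9), (2, 6)] → ∀ t u : F, xx F r t * xx F s u = xx F s u * xx F r t := by
  intro r s h t u
  have key : ∀ p ∈ [(6, 8), (6, 9), (6, 11), (7, 10), (7, 11), (8, 10), (8, 11), (9, 10), (9, 11), (10, 11), (1, 6), (0, 1), (0, 7),
    (5, 9), (2, 6)], p.1 < chevG2.nroots ∧ p.2 < chevG2.nroots ∧ p.2 ≠ p.1 ∧ p.2 ≠ chevG2.neg p.1 ∧ chevG2.commTerms p.1 p.2 = [] := by
    decide +kernel
  obtain ⟨h1, h2, h3, h4, h5⟩ := key (r, s) h
  exact commE h1 h2 h3 h4 h5 t u

theorem add : ∀ r, r < 12 → ∀ s t : F, xx F r (s + t) = xx F r s * xx F r t := by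
  intro r hr s t
  have h : r < chevG2.nroots := hr
  rw [xx, xx, xx, ← xG_add H.toGood2 h]
  congr 1
  split_ifs
  · ring
  · rfl

theorem ne_one : ∀ r, r < 12 → ∀ t : F, t ≠ 0 → xx F r t ≠ 1 := by
  intro r hr t ht h
  have h' : r < chevG2.nroots := hr
  refine ChevGrp.Inst.xU_ne_one H h' (t := if r = 11 then -t else t) ?_ (congrArg Subtype.val h)
  split_ifs
  · exact neg_ne_zero.2 ht
  · exact ht

end Cfsg.Agent.G2M.InstC
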