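import Cfsg.Agent.G2M.Def
import Cfsg.Agent.Tw3.AmbInst
import Cfsg.Agent.G2M.InstC

set_option autoImplicit false
set_option maxRecDepth 100000

namespace Cfsg.Agent.G2M.Inst

open Cfsg.Lie Cfsg.Agent.Chev Cfsg.Agent.ChevTw Cfsg.Agent.ChevGrp

theorem HH : Good chevG2 := good_of_mem (by simp [data])

theorem n12 : chevG2.nroots = 12 := by decide +kernel
theorem rk2 : chevG2.rank = 2 := by decide +kernel
theorem s0 : chevG2.simple 0 = 7 := by decide +kernel
theorem s1 : chevG2.simple 1 = 6 := by decide +kernel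
theorem ng7 : chevG2.neg 7 = 4 := by decide +kernel
theorem ng6 : chevG2.neg 6 = 5 := by decide +kernel
theorem ng10 : chevG2.neg 10 = 1 := by decide +kernel

theorem tra : ∀ r < 12, chevG2.reflectRoot 0 r = ra r := by decide +kernel
theorem trb : ∀ r < 12, chevG2.reflectRoot 1 r = rb r := by decide +kernel
theorem eta0 : ∀ r < 12, eta chevG2 0 r = 1 ∨ eta chevG2 0 r = -1 := by decide +kernel
theorem eta1 : ∀ r < 12, eta chevG2 1 r = 1 ∨ eta chevG2 1 r = -1 := by decide +kernel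
theorem pr76 : ∀ r < 12, 2 * pr chevG2 7 r + 3 * pr chevG2 6 r = ca r ∧ pr chevG2 7 r + 2 * pr chevG2 6 r = cb r ∧
    pr chevG2 10 r = ca r - cb r := by decide +kernel
theorem eta56 : eta chevG2 0 6 = eta chevG2 0 5 := by decide +kernel
theorem cmm : ∀ p ∈ [(6, 8), (6, 9), (6, 11), (7, 10), (7, 11), (8, 10), (8, 11), (9, 10), (9, 11), (10, 11), (1, 6), (0, 1), (0, 7),
    (5, 9), (2, 6)], p.1 < 12 ∧ p.2 < 12 ∧ p.2 ≠ p.1 ∧ p.2 ≠ chevG2.neg p.1 ∧ chevG2.commTerms p.1 p.2 = [] := by decide +kernel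
theorem c89t : chevG2.commTerms 8 9 = [(11, 3, 1, 1)] := by decide +kernel
theorem c60t : chevG2.commTerms 6 0 = [(1, -1, 1, 1)] := by decide +kernel
theorem c511t : chevG2.commTerms 5 11 = [(10, 1, 1, 1)] := by decide +kernel
theorem ranges : ∀ r < 12, ra r < 12 ∧ rb r < 12 := by decide +kernel
theorem fixa : ∀ r < 12, ca (ra r) = -(ca r) + 3 * cb r ∧ cb (ra r) = cb r := by decide +kernel
theorem fixb : ∀ r < 12, ca (rb r) = ca r ∧ cb (rb r) = ca r - cb r := by decide +kernel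

theorem surja : ∀ r < 12, ∃ r' < 12, ra r' = r := by decide +kernel
theorem surjb : ∀ r < 12, ∃ r' < 12, rb r' = r := by decide +kernel

variable {F : Type*} [Field F]

/-- root elements -/
noncomputable def X (r : ℕ) (t : F) : ↥(chevG2.group F) := xG HH.toGood2 r t

theorem lt {r : ℕ} (h : r < 12) : r < chevG2.nroots := by rw [n12]; exact h

theorem X_add {r : ℕ} (hr : r < 12) (t u : F) : X r (t + u) = X r t * X r u := xG_add HH.toGood2 (lt hr) t u

/-- torus elements -/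
noncomputable def T (s t : Fˣ) : ↥(chevG2.group F) :=
  hG HH.toGood2 7 ((t * s ^ 2 : Fˣ) : F) * hG HH.toGood2 6 ((t ^ 2 * s ^ 3 : Fˣ) : F)

theorem T_mem (s t : Fˣ) : (T s t : ↥(chevG2.group F)) ∈ (chevG2.diagonalSubgroup F).subgroupOf (chevG2.group F) :=
  Subgroup.mul_mem _ (diag_mem HH.toGood2 (lt (by norm_num)) (Units.ne_zero _))
    (diag_mem HH.toGood2 (lt (by norm_num)) (Units.ne_zero _))

theorem T_conj (s t : Fˣ) {r : ℕ} (hr : r < 12) (u : F) :
    T s t * X r u * (T s t)⁻¹ = X r (((s ^ (ca r) * t ^ (cb r) : Fˣ) : F) * u) := by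
  have h1 := Cfsg.Agent.Tw3.hG_conj HH (r := 6) (lt (by norm_num)) (Units.ne_zero (t ^ 2 * s ^ 3)) (lt hr) u
  have h2 := Cfsg.Agent.Tw3.hG_conj HH (r := 7) (lt (by norm_num)) (Units.ne_zero (t * s ^ 2)) (lt hr)
    (((t ^ 2 * s ^ 3 : Fˣ) : F) ^ pr chevG2 6 r * u)
  unfold T X
  rw [mul_inv_rev]
  calc _ = hG HH.toGood2 7 ((t * s ^ 2 : Fˣ) : F) * (hG HH.toGood2 6 ((t ^ 2 * s ^ 3 : Fˣ) : F) * xG HH.toGood2 r u *
        (hG HH.toGood2 6 ((t ^ 2 * s ^ 3 : Fˣ) : F))⁻¹) * (hG HH.toGood2 7 ((t * s ^ 2 : Fˣ) : F))⁻¹ := by group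
    _ = _ := by
      rw [h1, h2]
      congr 1
      rw [← mul_assoc]
      congr 1
      obtain ⟨e1, e2, -⟩ := pr76 r hr
      rw [← Units.val_zpow_eq_zpow_val, ← Units.val_zpow_eq_zpow_val, ← Units.val_mul]
      congr 1
      rw [← e1, ← e2]
      generalize pr chevG2 7 r = a
      generalize pr chevG2 6 r = b
      rw [mul_zpow, mul_zpow, ← zpow_natCast, ← zpow_natCast, ← zpow_natCast, ← zpow_mul, ← zpow_mul, ← zpow_mul, zpow_add, zpow_add]
      push_cast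
      ac_rfl

/-- equality of diagonal elements -/
theorem diag_ext {k l : ↥(chevG2.group F)} (hk : k ∈ (chevG2.diagonalSubgroup F).subgroupOf (chevG2.group F))
    (hl : l ∈ (chevG2.diagonalSubgroup F).subgroupOf (chevG2.group F))
    (h : ∀ r < 12, ∀ u : F, k * X r u * k⁻¹ = l * X r u * l⁻¹) : k = l := by
  have h1 : l⁻¹ * k = 1 := by
    apply Cfsg.Agent.Tw3.diag_faith HH (Subgroup.mul_mem _ (Subgroup.inv_mem _ hl) hk)
    intro r hr u
    rw [n12] at hr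
    have h2 := h r hr u
    unfold X at h2
    calc l⁻¹ * k * xG HH.toGood2 r u * (l⁻¹ * k)⁻¹ = l⁻¹ * (k * xG HH.toGood2 r u * k⁻¹) * l := by group
      _ = xG HH.toGood2 r u := by rw [h2]; group
  exact (inv_mul_eq_one.1 h1).symm

noncomputable def A : ↥(chevG2.group F) := nG HH.toGood2 7 1
noncomputable def B : ↥(chevG2.group F) := nG HH.toGood2 6 1

theorem A_conj {r : ℕ} (hr : r < 12) (u : F) : (A : ↥(chevG2.group F)) * X r u * A⁻¹ = X (ra r) (((eta chevG2 0 r : ℤ) : F) * u) := by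
  have h := nG_conj (F := F) HH.toGood2 (i := 0) (by rw [rk2]; norm_num) (lt hr) u
  rw [s0, tra r hr] at h
  exact h

theorem B_conj {r : ℕ} (hr : r < 12) (u : F) : (B : ↥(chevG2.group F)) * X r u * B⁻¹ = X (rb r) (((eta chevG2 1 r : ℤ) : F) * u) := by
  have h := nG_conj (F := F) HH.toGood2 (i := 1) (by rw [rk2]; norm_num) (lt hr) u
  rw [s1, trb r hr] at h
  exact h

theorem pmc {z : ℤ} (h : z = 1 ∨ z = -1) : ((z : ℤ) : F) = 1 ∨ ((z : ℤ) : F) = -1 := by
  rcases h with rfl | rfl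
  · left; simp
  · right; simp

theorem pmsq {e : F} (h : e = 1 ∨ e = -1) : e * e = 1 := by
  rcases h with rfl | rfl <;> simp

theorem A_diag {k : ↥(chevG2.group F)} (hk : k ∈ (chevG2.diagonalSubgroup F).subgroupOf (chevG2.group F)) :
    A * k * A⁻¹ ∈ (chevG2.diagonalSubgroup F).subgroupOf (chevG2.group F) := by
  have h := Cfsg.Agent.ChevGrp.Inst.nn_norm_H (F := F) HH (i := 0) (by rw [rk2]; norm_num) hk
  rw [Subgroup.mem_subgroupOf]
  have e : Cfsg.Agent.ChevGrp.Inst.nn HH F 0 = ((A : ↥(chevG2.group F)) : GL chevG2.Idx F) := by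
    unfold Cfsg.Agent.ChevGrp.Inst.nn A
    rw [s0, Cfsg.Agent.ChevGrp.Inst.nU_eq]
    rfl
  rw [e] at h
  exact h

theorem B_diag {k : ↥(chevG2.group F)} (hk : k ∈ (chevG2.diagonalSubgroup F).subgroupOf (chevG2.group F)) :
    B * k * B⁻¹ ∈ (chevG2.diagonalSubgroup F).subgroupOf (chevG2.group F) := by
  have h := Cfsg.Agent.ChevGrp.Inst.nn_norm_H (F := F) HH (i := 1) (by rw [rk2]; norm_num) hk
  rw [Subgroup.mem_subgroupOf]
  have e : Cfsg.Agent.ChevGrp.Inst.nn HH F 1 = ((B : ↥(chevG2.group F)) : GL chevG2.Idx F) := by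
    unfold Cfsg.Agent.ChevGrp.Inst.nn B
    rw [s1, Cfsg.Agent.ChevGrp.Inst.nU_eq]
    rfl
  rw [e] at h
  exact h

theorem cj (r s : ℕ) (hr : r < 12) (hs : s < 12) (h1 : s ≠ r) (h2 : s ≠ chevG2.neg r) (t u : F) :
    (X r t)⁻¹ * X s u * X r t = X s u * wG HH.toGood2 (chevG2.commWord F r s t u) := by
  have h3 : X s u * X r t = X r t * X s u * wG HH.toGood2 (chevG2.commWord F r s t u) := by
    unfold X
    apply eq_of_coe
    simp only [Subgroup.coe_mul, Units.val_mul, xG_coe, wG_coe]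
    exact HH.comm (r := r) (s := s) (lt hr) (lt hs) h1 h2 t u
  rw [mul_assoc, h3, mul_assoc, inv_mul_cancel_left]

theorem h_mul' (s t s' t' : Fˣ) : (T (s * s') (t * t') : ↥(chevG2.group F)) = T s t * T s' t' := by
  apply diag_ext (T_mem _ _) (Subgroup.mul_mem _ (T_mem _ _) (T_mem _ _))
  intro r hr u
  rw [T_conj _ _ hr]
  calc _ = X r (((s ^ (ca r) * t ^ (cb r) : Fˣ) : F) * (((s' ^ (ca r) * t' ^ (cb r) : Fˣ) : F) * u)) := by
        congr 1
        rw [← mul_assoc, ← Units.val_mul]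
        congr 2
        rw [mul_zpow, mul_zpow]
        ac_rfl
    _ = T s t * (T s' t' * X r u * (T s' t')⁻¹) * (T s t)⁻¹ := by rw [T_conj _ _ hr, T_conj _ _ hr]
    _ = _ := by group

theorem na_h' (s t : Fˣ) : (A * T s t * A⁻¹ : ↥(chevG2.group F)) = T s⁻¹ (s ^ 3 * t) := by
  apply diag_ext (A_diag (T_mem _ _)) (T_mem _ _)
  intro r hr u
  rw [T_conj _ _ hr]
  obtain ⟨r', hr', hrr⟩ := surja r hr
  subst hrr
  have hp := pmc (F := F) (eta0 r' hr')
  have h1 : X (ra r') u = A * X r' (((eta chevG2 0 r' : ℤ) : F) * u) * A⁻¹ := by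
    rw [A_conj hr', ← mul_assoc, pmsq hp, one_mul]
  rw [h1]
  calc A * T s t * A⁻¹ * (A * X r' (((eta chevG2 0 r' : ℤ) : F) * u) * A⁻¹) * (A * T s t * A⁻¹)⁻¹
      = A * (T s t * X r' (((eta chevG2 0 r' : ℤ) : F) * u) * (T s t)⁻¹) * A⁻¹ := by group
    _ = X (ra r') (((s⁻¹ ^ (ca (ra r')) * (s ^ 3 * t) ^ (cb (ra r')) : Fˣ) : F) * u) := by
      rw [T_conj _ _ hr', A_conj hr']
      congr 1
      have e : ∀ (x e : F), e * e = 1 → e * (x * (e * u)) = x * u := by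
        intro x e he
        calc e * (x * (e * u)) = (e * e) * (x * u) := by ring
          _ = _ := by rw [he, one_mul]
      rw [e _ _ (pmsq hp)]
      congr 2
      obtain ⟨f1, f2⟩ := fixa r' hr'
      rw [f1, f2]
      generalize ca r' = a
      generalize cb r' = b
      rw [mul_zpow, inv_zpow', ← zpow_natCast, ← zpow_mul, ← mul_assoc, ← zpow_add]
      congr 2
      push_cast
      ring

theorem nb_h' (s t : Fˣ) : (B * T s t * B⁻¹ : ↥(chevG2.group F)) = T (s * t) t⁻¹ := by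
  apply diag_ext (B_diag (T_mem _ _)) (T_mem _ _)
  intro r hr u
  rw [T_conj _ _ hr]
  obtain ⟨r', hr', hrr⟩ := surjb r hr
  subst hrr
  have hp := pmc (F := F) (eta1 r' hr')
  have h1 : X (rb r') u = B * X r' (((eta chevG2 1 r' : ℤ) : F) * u) * B⁻¹ := by
    rw [B_conj hr', ← mul_assoc, pmsq hp, one_mul]
  rw [h1]
  calc B * T s t * B⁻¹ * (B * X r' (((eta chevG2 1 r' : ℤ) : F) * u) * B⁻¹) * (B * T s t * B⁻¹)⁻¹
      = B * (T s t * X r' (((eta chevG2 1 r' : ℤ) : F) * u) * (T s t)⁻¹) * B⁻¹ := by group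
    _ = X (rb r') ((((s * t) ^ (ca (rb r')) * t⁻¹ ^ (cb (rb r')) : Fˣ) : F) * u) := by
      rw [T_conj _ _ hr', B_conj hr']
      congr 1
      have e : ∀ (x e : F), e * e = 1 → e * (x * (e * u)) = x * u := by
        intro x e he
        calc e * (x * (e * u)) = (e * e) * (x * u) := by ring
          _ = _ := by rw [he, one_mul]
      rw [e _ _ (pmsq hp)]
      congr 2
      obtain ⟨f1, f2⟩ := fixb r' hr'
      rw [f1, f2]
      generalize ca r' = a
      generalize cb r' = b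
      rw [mul_zpow, inv_zpow', mul_assoc, ← zpow_add]
      congr 2
      ring

theorem X_inv {r : ℕ} (hr : r < 12) (t : F) : (X r t : ↥(chevG2.group F))⁻¹ = X r (-t) := xG_inv HH.toGood2 (lt hr) t

theorem r10' (t : F) (ht : t ≠ 0) : ∃ n : ↥(chevG2.group F), X 1 t = X 10 t⁻¹ * n * X 10 t⁻¹ ∧
    ∃ s1 t1 : Fˣ, n = T s1 t1 * (A * B * A⁻¹) := by
  have hc : (-t⁻¹ : F) ≠ 0 := neg_ne_zero.2 (inv_ne_zero ht)
  refine ⟨nG HH.toGood2 10 (-t⁻¹), ?_, ?_⟩
  · unfold nG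
    rw [ng10]
    have e1 : -(-t⁻¹)⁻¹ = t := by rw [inv_neg, _root_.neg_neg, inv_inv]
    rw [e1]
    have e2 : (X 10 t⁻¹ : ↥(chevG2.group F)) * xG HH.toGood2 10 (-t⁻¹) = 1 := by
      have : (xG HH.toGood2 10 (-t⁻¹) : ↥(chevG2.group F)) = (X 10 t⁻¹)⁻¹ := (X_inv (by norm_num) _).symm
      rw [this, mul_inv_cancel]
    have e3 : xG HH.toGood2 10 (-t⁻¹) * (X 10 t⁻¹ : ↥(chevG2.group F)) = 1 := by
      have : (xG HH.toGood2 10 (-t⁻¹) : ↥(chevG2.group F)) = (X 10 t⁻¹)⁻¹ := (X_inv (by norm_num) _).symm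
      rw [this, inv_mul_cancel]
    calc X 1 t = 1 * X 1 t * 1 := by rw [one_mul, mul_one]
      _ = (X 10 t⁻¹ * xG HH.toGood2 10 (-t⁻¹)) * X 1 t * (xG HH.toGood2 10 (-t⁻¹) * X 10 t⁻¹) := by rw [e2, e3]
      _ = _ := by unfold X; group
  · -- the element `n (A B A⁻¹)⁻¹` is diagonal
    obtain ⟨ε, hε⟩ : ∃ ε : F, ε = ((eta chevG2 0 6 : ℤ) : F) := ⟨_, rfl⟩
    have hε1 : ε = 1 ∨ ε = -1 := by rw [hε]; exact pmc (eta0 6 (by norm_num))
    have hεi : ε⁻¹ = ε := by rcases hε1 with h | h <;> rw [h] <;> simp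
    have hε0 : ε ≠ 0 := by rcases hε1 with h | h <;> rw [h] <;> simp
    have hAB : (A * B * A⁻¹ : ↥(chevG2.group F)) = nG HH.toGood2 10 ε := by
      have h6 : A * X 6 (1 : F) * A⁻¹ = X 10 ε := by
        rw [A_conj (by norm_num), hε, mul_one]; rfl
      have h5 : A * X 5 (-1 : F) * A⁻¹ = X 1 (-ε) := by
        rw [A_conj (by norm_num), ← eta56, ← hε, mul_neg, mul_one]; rfl
      unfold B nG
      rw [ng6, ng10, hεi, inv_one]
      calc A * (xG HH.toGood2 6 1 * xG HH.toGood2 5 (-1) * xG HH.toGood2 6 1) * A⁻¹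
          = (A * X 6 (1 : F) * A⁻¹) * (A * X 5 (-1 : F) * A⁻¹) * (A * X 6 (1 : F) * A⁻¹) := by unfold X; group
        _ = _ := by rw [h6, h5]; rfl
    have hd : ∀ c : F, c ≠ 0 → nG HH.toGood2 10 c = hG HH.toGood2 10 c * nG HH.toGood2 10 1 := by
      intro c _
      unfold hG
      rw [mul_assoc, ← nG_inv HH.toGood2 (lt (by norm_num)) (1 : F), inv_mul_cancel, mul_one]
    have h1 : nG HH.toGood2 10 (-t⁻¹) * (A * B * A⁻¹)⁻¹ = hG HH.toGood2 10 (-t⁻¹) * (hG HH.toGood2 10 ε)⁻¹ := by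
      rw [hAB, hd _ hc, hd _ hε0]; group
    have hTT : ∀ c : Fˣ, (T c c⁻¹ : ↥(chevG2.group F)) = hG HH.toGood2 10 (c : F) := by
      intro c
      apply diag_ext (T_mem _ _) (diag_mem HH.toGood2 (lt (by norm_num)) (Units.ne_zero c))
      intro r hr u
      rw [T_conj _ _ hr]
      unfold X
      rw [Cfsg.Agent.Tw3.hG_conj HH (lt (by norm_num)) (Units.ne_zero c) (lt hr)]
      congr 2
      rw [← Units.val_zpow_eq_zpow_val, (pr76 r hr).2.2, inv_zpow', ← zpow_add, sub_eq_add_neg]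
    refine ⟨Units.mk0 _ hc * (Units.mk0 _ hε0)⁻¹, (Units.mk0 _ hc)⁻¹ * Units.mk0 _ hε0, ?_⟩
    rw [← mul_inv_eq_iff_eq_mul, h1, h_mul']
    have h2 := hTT (Units.mk0 _ hc)
    have h3 := hTT (Units.mk0 _ hε0)
    rw [Units.val_mk0] at h2 h3
    rw [h2, ← h3]
    congr 1
    rw [inv_eq_iff_mul_eq_one, ← h_mul', mul_inv_cancel, inv_mul_cancel]
    -- T 1 1 = 1
    have h4 : (T 1 1 : ↥(chevG2.group F)) * T 1 1 = T 1 1 := by rw [← h_mul', mul_one]
    exact mul_eq_left.1 h4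

theorem gen' (K : Subgroup ↥(chevG2.group F)) (h6 : ∀ t : F, X 6 t ∈ K) (h7 : ∀ t : F, X 7 t ∈ K) (hA : A ∈ K) (hB : B ∈ K) :
    K = ⊤ := by
  have h4 : ∀ t : F, X 4 t ∈ K := by
    intro t
    have h := A_conj (F := F) (r := 7) (by norm_num) (((eta chevG2 0 7 : ℤ) : F) * t)
    rw [← mul_assoc, pmsq (pmc (eta0 7 (by norm_num))), one_mul] at h
    have e : (X 4 t : ↥(chevG2.group F)) = X (ra 7) t := rfl
    rw [e, ← h]
    exact K.mul_mem (K.mul_mem hA (h7 _)) (K.inv_mem hA)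
  have h5 : ∀ t : F, X 5 t ∈ K := by
    intro t
    have h := B_conj (F := F) (r := 6) (by norm_num) (((eta chevG2 1 6 : ℤ) : F) * t)
    rw [← mul_assoc, pmsq (pmc (eta1 6 (by norm_num))), one_mul] at h
    have e : (X 5 t : ↥(chevG2.group F)) = X (rb 6) t := rfl
    rw [e, ← h]
    exact K.mul_mem (K.mul_mem hB (h6 _)) (K.inv_mem hB)
  apply top_of_simple HH
  intro i hi t
  rw [rk2] at hi
  interval_cases i
  · rw [s0, ng7]; exact ⟨h7 t, h4 t⟩
  · rw [s1, ng6]; exact ⟨h6 t, h5 t⟩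

theorem xx_eq {r : ℕ} (h : r ≠ 11) (u : F) : InstC.xx F r u = X r u := by
  unfold InstC.xx X
  rw [if_neg h]

theorem xx_11' (u : F) : InstC.xx F 11 u = X 11 (-u) := by
  unfold InstC.xx X
  rw [if_pos rfl]

theorem ra_ne : ∀ r < 12, r ≠ 11 → ra r ≠ 11 := by decide +kernel
theorem rb_ne : ∀ r < 12, r ≠ 11 → r ≠ 10 → rb r ≠ 11 := by decide +kernel

theorem tor' (s t : Fˣ) (r : ℕ) (hr : r < 12) (u : F) :
    T s t * InstC.xx F r u * (T s t)⁻¹ = InstC.xx F r (((s ^ (ca r) * t ^ (cb r) : Fˣ) : F) * u) := by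
  by_cases h : r = 11
  · subst h
    rw [xx_11', xx_11', T_conj _ _ (by norm_num), mul_neg]
  · rw [xx_eq h, xx_eq h, T_conj _ _ hr]

theorem hna' (r : ℕ) (hr : r < 12) : ∃ e : F, (e = 1 ∨ e = -1) ∧ ∀ u : F, A * InstC.xx F r u * A⁻¹ = InstC.xx F (ra r) (e * u) := by
  refine ⟨_, pmc (eta0 r hr), fun u => ?_⟩
  by_cases h : r = 11
  · subst h
    have e : ra 11 = 11 := rfl
    rw [e, xx_11', xx_11', A_conj (by norm_num), mul_neg, e]
  · rw [xx_eq h, xx_eq (ra_ne r hr h), A_conj hr]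

theorem hnb' (r : ℕ) (hr : r < 12) : ∃ e : F, (e = 1 ∨ e = -1) ∧ ∀ u : F, B * InstC.xx F r u * B⁻¹ = InstC.xx F (rb r) (e * u) := by
  have hp := pmc (F := F) (eta1 r hr)
  by_cases h : r = 11
  · subst h
    refine ⟨-((eta chevG2 1 11 : ℤ) : F), ?_, fun u => ?_⟩
    · rcases hp with h1 | h1
      · right; rw [h1]
      · left; rw [h1, _root_.neg_neg]
    · have e : rb 11 = 10 := rfl
      rw [e, xx_11', xx_eq (by norm_num), B_conj (by norm_num), mul_neg, neg_mul, e]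
  · by_cases h' : r = 10
    · subst h'
      refine ⟨-((eta chevG2 1 10 : ℤ) : F), ?_, fun u => ?_⟩
      · rcases hp with h1 | h1
        · right; rw [h1]
        · left; rw [h1, _root_.neg_neg]
      · have e : rb 10 = 11 := rfl
        rw [e, xx_11', xx_eq (by norm_num), B_conj (by norm_num), neg_mul, _root_.neg_neg, e]
    · refine ⟨_, hp, fun u => ?_⟩
      rw [xx_eq h, xx_eq (rb_ne r hr h h'), B_conj hr]

/-- the group of type `G₂` -/
noncomputable def inst (F : Type*) [Field F] : G2G F ↥(chevG2.group F) where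
  x := InstC.xx F
  h := T
  na := A
  nb := B
  add := InstC.add
  tor := tor'
  hna := hna'
  hnb := hnb'
  c76 := InstC.c76
  c78 := InstC.c78
  c79 := InstC.c79
  c610 := InstC.c610
  c89 := InstC.c89
  c60 := InstC.c60
  comm := InstC.comm
  c511 := InstC.c511
  r10 := by
    intro t ht
    obtain ⟨n, h1, h2⟩ := r10' t ht
    refine ⟨n, ?_, h2⟩
    rw [xx_eq (by norm_num), xx_eq (by norm_num)]
    exact h1
  h_mul := fun s t s' t' => h_mul' s t s' t'
  na_h := na_h'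
  nb_h := nb_h'
  gen := by
    intro K h6 h7 hA hB
    refine gen' K (fun t => ?_) (fun t => ?_) hA hB
    · have := h6 t
      rw [xx_eq (by norm_num)] at this; exact this
    · have := h7 t
      rw [xx_eq (by norm_num)] at this; exact this

theorem inst_x {F : Type*} [Field F] (r : ℕ) (t : F) : (inst F).x r t = InstC.xx F r t := rfl

theorem inst_ne_one {F : Type*} [Field F] (r : ℕ) (hr : r < 12) (t : F) (ht : t ≠ 0) : (inst F).x r t ≠ 1 :=
  InstC.ne_one r hr t ht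

theorem exists_inst (F : Type*) [Field F] : ∃ X : G2G F ↥(chevG2.group F), ∀ r, r < 12 → ∀ t : F, t ≠ 0 → X.x r t ≠ 1 :=
  ⟨inst F, inst_ne_one⟩

end Cfsg.Agent.G2M.Inst
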