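import Cfsg.Agent.G2M.A
import Cfsg.Agent.G2M.Ar
import Cfsg.Agent.G2M.CLe
import Cfsg.Agent.G2M.CMain
import Cfsg.Agent.G2M.B1h27
import Cfsg.Agent.G2M.B2
import Cfsg.Agent.G2M.Inst
import Cfsg.Agent.S1055
import Cfsg.Agent.S1059
import Cfsg.Agent.LSU.Irr
import Cfsg.Agent.Char.Degree
set_option autoImplicit false
namespace Cfsg.Agent.G2M
open Module Cfsg.Lie

variable {F : Type*} [Field F] [Fintype F]

theorem exists_psi (F : Type*) [Field F] [Fintype F] : ∃ ψ : AddChar F ℂ, ψ ≠ 0 := by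
  classical
  have : Nontrivial (AddChar F ℂ) := by
    have h1 : Fintype.card (AddChar F ℂ) = Fintype.card F := AddChar.card_eq
    rw [← Fintype.one_lt_card_iff_nontrivial, h1]
    exact Fintype.one_lt_card
  exact exists_ne 0

/-- elements of the group act nontrivially -/
theorem act_ne (hq : 2 < Fintype.card F) {k : ℕ} (ρ : Representation ℂ (chevG2.group F) (Fin k → ℂ)) (hirr : ρ.IsIrreducible) (hk : 2 ≤ k)
    {g : chevG2.group F} (hg : g ≠ 1) : ∃ v, ρ g v ≠ v := by
  classical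
  have hF : ∃ a : F, a ≠ 0 ∧ a ≠ 1 := by
    by_contra hcon
    push Not at hcon
    have h1 : (Finset.univ : Finset F) ⊆ {0, 1} := by
      intro a _
      by_cases h0 : a = 0
      · simp [h0]
      · simp [hcon a h0]
    have h2 := Finset.card_le_card h1
    have h3 : ({0, 1} : Finset F).card ≤ 2 := Finset.card_le_two
    rw [Finset.card_univ] at h2
    omega
  have hs := (Cfsg.Agent.S1055.result hF).1
  by_contra hcon
  push Not at hcon
  obtain ⟨g', v, hgv⟩ := Cfsg.Agent.LSU.exists_ne_of_irr ρ hirr hk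
  have hker : g ∈ MonoidHom.ker ρ := by
    rw [MonoidHom.mem_ker]
    exact LinearMap.ext hcon
  rcases Subgroup.Normal.eq_bot_or_eq_top (H := MonoidHom.ker ρ) inferInstance with h1 | h1
  · rw [h1, Subgroup.mem_bot] at hker
    exact hg hker
  · have h2 : g' ∈ MonoidHom.ker ρ := by rw [h1]; trivial
    have h4 : ρ g' = 1 := h2
    exact hgv (by rw [h4]; rfl)

theorem main (X : G2G F (chevG2.group F)) (hX : ∀ r, r < 12 → ∀ t : F, t ≠ 0 → X.x r t ≠ 1) (k : ℕ)
    (ρ : Representation ℂ (chevG2.group F) (Fin k → ℂ)) (hirr : ρ.IsIrreducible) (hk : 2 ≤ k) :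
    (Fintype.card F % 3 = 1 → 4 < Fintype.card F → Fintype.card F ^ 3 + 1 ≤ k) ∧
    (Fintype.card F % 3 = 2 → 2 < Fintype.card F → Fintype.card F ^ 3 - 1 ≤ k) ∧
    (Fintype.card F % 3 = 0 → 3 < Fintype.card F → Fintype.card F ^ 4 + Fintype.card F ^ 2 + 1 ≤ k) := by
  classical
  obtain ⟨ψ, hψ⟩ := exists_psi F
  have hpp : IsPrimePow (Fintype.card F) := FiniteField.isPrimePow_card F
  have h3 : Fintype.card F % 3 ≠ 0 → (3 : F) ≠ 0 := by
    intro h0 h1
    apply h0
    have h2 : ((3 : ℕ) : F) = 0 := by exact_mod_cast h1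
    obtain ⟨p, hp⟩ := CharP.exists F
    have hdvd : p ∣ 3 := (CharP.cast_eq_zero_iff F p 3).1 h2
    have hp0 : p.Prime := (CharP.char_is_prime_or_zero F p).resolve_right (by
      rintro rfl
      exact CharP.char_ne_zero_of_finite F 0 rfl)
    have hp3 : p = 3 := (Nat.prime_dvd_prime_iff_eq hp0 Nat.prime_three).1 hdvd
    subst hp3
    obtain ⟨n, hn, hn2⟩ := FiniteField.card F 3
    rw [hn2]
    exact Nat.mod_eq_zero_of_dvd (dvd_pow_self 3 n.ne_zero)
  have hfin : ∀ r, r < 12 → 2 < Fintype.card F → ∃ t v, ρ (X.x r t) v ≠ v := by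
    intro r hr hq
    obtain ⟨v, hv⟩ := act_ne hq ρ hirr hk (hX r hr 1 one_ne_zero)
    exact ⟨1, v, hv⟩
  have hdim : finrank ℂ (Fin k → ℂ) = k := Module.finrank_fin_fun _
  refine ⟨fun hm hq => ?_, fun hm hq => ?_, fun hm hq => ?_⟩
  · obtain ⟨ha, hb⟩ := a_main X ρ hψ (h3 (by omega)) (by omega) (by omega) (hfin 11 (by norm_num) (by omega))
    by_contra hcon
    rw [not_le] at hcon
    rw [hdim] at ha hb
    obtain ⟨b1, b2, b3, b4⟩ := hb hcon
    -- a cube root of unity
    obtain ⟨w, hw⟩ : ∃ w : Fˣ, orderOf w = 3 := by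
      have : Fact (Nat.Prime 3) := ⟨Nat.prime_three⟩
      refine exists_prime_orderOf_dvd_card 3 ?_
      rw [Fintype.card_units]
      omega
    have hw3 : (w : F) ^ 3 = 1 := by
      rw [← Units.val_pow_eq_pow_val, ← hw, pow_orderOf_eq_one, Units.val_one]
    have hw1 : (w : F) ≠ 1 := by
      intro h
      have : w = 1 := Units.ext h
      rw [this, orderOf_one] at hw
      omega
    have hsum : dj X ψ ρ [(6, 0), (10, 0), (11, 0)] ≤ 1 := c_le X ρ hψ (by rw [hdim]; exact hcon) b1 b2 b3 b4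
    rcases Nat.le_one_iff_eq_zero_or_eq_one.1 hsum with h0 | h0
    · exact B1h27.b_one X ρ hψ w hw3 hw1 b3 b2 b4 h0
    · exact b_two X ρ hψ w hw3 hw1 hq hirr (by rw [hdim]; exact hcon) b3 b2 b4 h0
  · obtain ⟨ha, -⟩ := a_main X ρ hψ (h3 (by omega)) (by omega) (by omega) (hfin 11 (by norm_num) (by omega))
    rw [hdim] at ha
    exact ha
  · have hc : CharP F 3 := by
      obtain ⟨p, hp⟩ := CharP.exists F
      have hp0 : p.Prime := (CharP.char_is_prime_or_zero F p).resolve_right (by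
        rintro rfl
        exact CharP.char_ne_zero_of_finite F 0 rfl)
      have : Fact p.Prime := ⟨hp0⟩
      obtain ⟨n, hn, hn2⟩ := FiniteField.card F p
      have h5 : 3 ∣ p ^ (n : ℕ) := by rw [← hn2]; exact Nat.dvd_of_mod_eq_zero hm
      have h6 := (Nat.prime_dvd_prime_iff_eq Nat.prime_three hp0).1 (Nat.prime_three.dvd_of_dvd_pow h5)
      rw [h6]; exact hp
    have h1 := c_main X ρ hψ hq (hfin 9 (by norm_num) (by omega))
    rw [hdim] at h1
    by_contra hcon
    rw [not_le] at hcon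
    have h9 : 9 ≤ Fintype.card F := by
      by_contra h9
      have : Fintype.card F = 6 := by omega
      rw [this] at hpp
      have h7 : ¬ IsPrimePow 6 := by decide
      exact h7 hpp
    have hf : Finite ↥(chevG2.group F) := inferInstance
    have hirr2 : ρ.IsIrreducible := hirr
    have hdvd := Cfsg.Agent.Char.finrank_dvd_card ρ
    rw [hdim, Cfsg.Agent.S1059.result (F := F) rfl] at hdvd
    exact ar hpp h9 hdvd h1 hcon

end Cfsg.Agent.G2M
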