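import Cfsg.Agent.G2M.Def

set_option autoImplicit false
set_option linter.unusedSectionVars false

/-!
S2338, translate argument for B1.
-/

namespace Cfsg.Agent.G2M.Tr

open Module Finset Cfsg.Agent.G2M

section grp
variable {F G : Type*} [Field F] [Group G] (X : G2G F G)

theorem x_zero {r : ℕ} (hr : r < 12) : X.x r 0 = 1 := by
  have h := X.add r hr 0 0
  rw [add_zero] at h
  exact mul_eq_left.mp h.symm

theorem x_neg {r : ℕ} (hr : r < 12) (t : F) : X.x r (-t) = (X.x r t)⁻¹ := by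
  have h := X.add r hr (-t) t
  rw [neg_add_cancel, x_zero X hr] at h
  exact eq_inv_of_mul_eq_one_left h.symm

/-- general step: conjugation by `n` -/
theorem eq_conj {n : G} {r r' : ℕ} {e : F} (he : e = 1 ∨ e = -1) (h : ∀ u, n * X.x r u * n⁻¹ = X.x r' (e * u)) (t : F) :
    X.x r' t = n * X.x r (e * t) * n⁻¹ := by
  rw [h]; congr 1; rcases he with rfl | rfl <;> ring

theorem comm_step {n : G} {r r' s s' : ℕ} {e f : F} (he : e = 1 ∨ e = -1) (hf : f = 1 ∨ f = -1)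
    (hE : ∀ u, n * X.x r u * n⁻¹ = X.x r' (e * u)) (hF : ∀ u, n * X.x s u * n⁻¹ = X.x s' (f * u))
    (h : ∀ t u, X.x r t * X.x s u = X.x s u * X.x r t) :
    ∀ t u, X.x r' t * X.x s' u = X.x s' u * X.x r' t := by
  intro t u
  rw [eq_conj X he hE t, eq_conj X hf hF u]
  have := h (e * t) (f * u)
  calc _ = n * (X.x r (e * t) * X.x s (f * u)) * n⁻¹ := by group
    _ = n * (X.x s (f * u) * X.x r (e * t)) * n⁻¹ := by rw [this]
    _ = _ := by group

def Rel (r s m : ℕ) : Prop := ∀ t u, ∃ e : F, (e = 1 ∨ e = -1) ∧ (X.x r t)⁻¹ * X.x s u * X.x r t = X.x s u * X.x m (e * t * u)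

theorem rel_step {n : G} {r r' s s' m m' : ℕ} {a b c : F} (ha : a = 1 ∨ a = -1) (hb : b = 1 ∨ b = -1) (hc : c = 1 ∨ c = -1)
    (hA : ∀ u, n * X.x r u * n⁻¹ = X.x r' (a * u)) (hB : ∀ u, n * X.x s u * n⁻¹ = X.x s' (b * u))
    (hC : ∀ u, n * X.x m u * n⁻¹ = X.x m' (c * u)) (h : Rel X r s m) : Rel X r' s' m' := by
  intro t u
  obtain ⟨e, he, hE⟩ := h (a * t) (b * u)
  refine ⟨c * e * a * b, ?_, ?_⟩
  · rcases ha with rfl | rfl <;> rcases hb with rfl | rfl <;> rcases hc with rfl | rfl <;> rcases he with rfl | rfl <;> simp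
  · have h3 : X.x m' (c * e * a * b * t * u) = n * X.x m (e * (a * t) * (b * u)) * n⁻¹ := by rw [hC]; congr 1; ring
    rw [eq_conj X ha hA t, eq_conj X hb hB u, h3]
    calc _ = n * ((X.x r (a * t))⁻¹ * X.x s (b * u) * X.x r (a * t)) * n⁻¹ := by group
      _ = _ := by rw [hE]; group

theorem rel_a {r s m : ℕ} (hr : r < 12) (hs : s < 12) (hm : m < 12) (h : Rel X r s m) : Rel X (ra r) (ra s) (ra m) := by
  obtain ⟨a, ha, hA⟩ := X.hna r hr
  obtain ⟨b, hb, hB⟩ := X.hna s hs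
  obtain ⟨c, hc, hC⟩ := X.hna m hm
  exact rel_step X ha hb hc hA hB hC h

theorem rel_b {r s m : ℕ} (hr : r < 12) (hs : s < 12) (hm : m < 12) (h : Rel X r s m) : Rel X (rb r) (rb s) (rb m) := by
  obtain ⟨a, ha, hA⟩ := X.hnb r hr
  obtain ⟨b, hb, hB⟩ := X.hnb s hs
  obtain ⟨c, hc, hC⟩ := X.hnb m hm
  exact rel_step X ha hb hc hA hB hC h

theorem rel60 : Rel X 6 0 1 := by
  have h0 : Rel X 6 10 11 := fun t u => ⟨1, Or.inl rfl, by rw [one_mul]; exact X.c610 t u⟩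
  have h1 : Rel X 10 6 11 := rel_a X (by norm_num) (by norm_num) (by norm_num) h0
  have h2 : Rel X 11 5 10 := rel_b X (by norm_num) (by norm_num) (by norm_num) h1
  have h3 : Rel X 11 1 6 := rel_a X (by norm_num) (by norm_num) (by norm_num) h2
  have h4 : Rel X 10 0 5 := rel_b X (by norm_num) (by norm_num) (by norm_num) h3
  exact rel_a X (by norm_num) (by norm_num) (by norm_num) h4

theorem comm01 : ∀ t u, X.x 0 t * X.x 1 u = X.x 1 u * X.x 0 t := by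
  have h0 : ∀ t u, X.x 1 t * X.x 6 u = X.x 6 u * X.x 1 t := X.comm 1 6 (by simp)
  have h1 : ∀ t u, X.x 0 t * X.x 5 u = X.x 5 u * X.x 0 t := by
    obtain ⟨a, ha, hA⟩ := X.hnb 1 (by norm_num)
    obtain ⟨b, hb, hB⟩ := X.hnb 6 (by norm_num)
    exact comm_step X ha hb hA hB h0
  obtain ⟨a, ha, hA⟩ := X.hna 0 (by norm_num)
  obtain ⟨b, hb, hB⟩ := X.hna 5 (by norm_num)
  exact comm_step X ha hb hA hB h1

theorem exists_r {s : F} (hs : s ≠ 0) (t : F) : ∃ r, X.x 0 s * X.x 1 t = (X.x 6 r)⁻¹ * X.x 0 s * X.x 6 r := by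
  have h16 : ∀ t u, X.x 1 t * X.x 6 u = X.x 6 u * X.x 1 t := X.comm 1 6 (by simp)
  obtain ⟨e, he, hE⟩ := rel60 X (t / s) s
  rcases he with rfl | rfl
  · refine ⟨t / s, ?_⟩
    rw [hE]; congr 2; field_simp
  · refine ⟨-(t / s), ?_⟩
    rw [x_neg X (by norm_num), inv_inv]
    have h1 : X.x 0 s = X.x 6 (t / s) * (X.x 0 s * X.x 1 (-t)) * (X.x 6 (t / s))⁻¹ := by
      have : (-1 : F) * (t / s) * s = -t := by field_simp
      rw [this] at hE
      rw [← hE]; group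
    have h2 : X.x 1 (-t) * (X.x 6 (t / s))⁻¹ = (X.x 6 (t / s))⁻¹ * X.x 1 (-t) := by
      rw [← x_neg X (by norm_num), h16]
    have h3 : X.x 0 s = X.x 6 (t / s) * X.x 0 s * (X.x 6 (t / s))⁻¹ * X.x 1 (-t) := by
      calc X.x 0 s = X.x 6 (t / s) * (X.x 0 s * X.x 1 (-t)) * (X.x 6 (t / s))⁻¹ := h1
        _ = X.x 6 (t / s) * X.x 0 s * (X.x 1 (-t) * (X.x 6 (t / s))⁻¹) := by group
        _ = _ := by rw [h2]; group
    calc X.x 0 s * X.x 1 t = X.x 6 (t / s) * X.x 0 s * (X.x 6 (t / s))⁻¹ * X.x 1 (-t) * X.x 1 t := by rw [← h3]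
      _ = _ := by rw [x_neg X (by norm_num : 1 < 12)]; group

end grp

section rep
variable {F G : Type*} [Field F] [Fintype F] [DecidableEq F] [Group G] {V : Type*} [AddCommGroup V] [Module ℂ V]
  [FiniteDimensional ℂ V] (X : G2G F G) {ψ : AddChar F ℂ} (ρ : Representation ℂ G V)

/-- the sum over `X_10 X_11` -/
noncomputable def ee (v : V) : V := ∑ p : F × F, ρ (X.x 10 p.1 * X.x 11 p.2) v

theorem ee_add (v w : V) : ee X ρ (v + w) = ee X ρ v + ee X ρ w := by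
  simp [ee, Finset.sum_add_distrib]

theorem ee_zero : ee X ρ (0 : V) = 0 := by simp [ee]

theorem ee_sum {ι : Type*} (s : Finset ι) (f : ι → V) : ee X ρ (∑ i ∈ s, f i) = ∑ i ∈ s, ee X ρ (f i) := by
  simp only [ee, map_sum]
  rw [Finset.sum_comm]

theorem mem_tau {v : V} : v ∈ J X ψ ρ [(10, 0), (11, 0)] ↔ (∀ t, ρ (X.x 10 t) v = v) ∧ (∀ t, ρ (X.x 11 t) v = v) := by
  constructor
  · intro h
    refine ⟨fun t => ?_, fun t => ?_⟩
    · have := h (10, 0) (by simp) t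
      simpa using this
    · have := h (11, 0) (by simp) t
      simpa using this
  · rintro ⟨h1, h2⟩ p hp t
    simp only [List.mem_cons, List.not_mem_nil, or_false] at hp
    rcases hp with rfl | rfl
    · simpa using h1 t
    · simpa using h2 t

theorem ee_10 (t : F) (v : V) : ee X ρ (ρ (X.x 10 t) v) = ee X ρ v := by
  unfold ee
  refine Fintype.sum_equiv (Equiv.addRight (t, (0 : F))) _ _ ?_
  rintro ⟨a, b⟩
  rw [← Module.End.mul_apply, ← map_mul]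
  congr 2
  change X.x 10 a * X.x 11 b * X.x 10 t = X.x 10 (a + t) * X.x 11 (b + 0)
  rw [X.add 10 (by norm_num), add_zero, mul_assoc, mul_assoc, X.comm 10 11 (by simp)]

theorem ee_6 (t : F) (v : V) : ee X ρ (ρ (X.x 6 t) v) = ρ (X.x 6 t) (ee X ρ v) := by
  unfold ee
  rw [map_sum]
  refine Fintype.sum_bijective (fun p : F × F => (p.1, t * p.1 + p.2)) ?_ _ _ ?_
  · rw [Function.bijective_iff_has_inverse]
    refine ⟨fun p => (p.1, p.2 - t * p.1), fun p => ?_, fun p => ?_⟩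
    · ext <;> simp
    · ext <;> simp
  rintro ⟨a, b⟩
  rw [← Module.End.mul_apply, ← map_mul, ← Module.End.mul_apply, ← map_mul]
  congr 2
  change X.x 10 a * X.x 11 b * X.x 6 t = X.x 6 t * (X.x 10 a * X.x 11 (t * a + b))
  have h1 := X.c610 t a
  have h2 : X.x 11 b * X.x 6 t = X.x 6 t * X.x 11 b := (X.comm 6 11 (by simp) t b).symm
  rw [X.add 11 (by norm_num), mul_assoc, h2]
  calc X.x 10 a * (X.x 6 t * X.x 11 b) = X.x 6 t * ((X.x 6 t)⁻¹ * X.x 10 a * X.x 6 t) * X.x 11 b := by group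
    _ = _ := by rw [h1]; group

theorem ee_nb (v : V) : ee X ρ (ρ X.nb v) = ρ X.nb (ee X ρ v) := by
  obtain ⟨a, ha, hA⟩ := X.hnb 10 (by norm_num)
  obtain ⟨b, hb, hB⟩ := X.hnb 11 (by norm_num)
  have hA' := eq_conj X ha hA
  have hB' := eq_conj X hb hB
  have e10 : rb 10 = 11 := rfl
  have e11 : rb 11 = 10 := rfl
  rw [e10] at hA'
  rw [e11] at hB'
  have haa : a * a = 1 := by rcases ha with rfl | rfl <;> ring
  have hbb : b * b = 1 := by rcases hb with rfl | rfl <;> ring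
  unfold ee
  rw [map_sum]
  refine Fintype.sum_bijective (fun p : F × F => (a * p.2, b * p.1)) ?_ _ _ ?_
  · rw [Function.bijective_iff_has_inverse]
    refine ⟨fun p => (b * p.2, a * p.1), fun p => ?_, fun p => ?_⟩
    · ext
      · simp [← mul_assoc, hbb]
      · simp [← mul_assoc, haa]
    · ext
      · simp [← mul_assoc, haa]
      · simp [← mul_assoc, hbb]
  rintro ⟨u, w⟩
  rw [← Module.End.mul_apply, ← map_mul, ← Module.End.mul_apply, ← map_mul]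
  congr 2
  change X.x 10 u * X.x 11 w * X.nb = X.nb * (X.x 10 (a * w) * X.x 11 (b * u))
  rw [X.comm 10 11 (by simp), hA' w, hB' u]
  group

theorem ee_n (n : G) (hn : ∃ s1 t1 : Fˣ, n = X.h s1 t1 * (X.na * X.nb * X.na⁻¹)) (v : V)
    (hv : ∑ u : F, ρ (X.x 6 u) v = 0) : ee X ρ (ρ n v) = 0 := by
  obtain ⟨s1, t1, rfl⟩ := hn
  obtain ⟨a, ha, hA⟩ := X.hna 11 (by norm_num)
  obtain ⟨b, hb, hB⟩ := X.hnb 10 (by norm_num)
  obtain ⟨c, hc, hC⟩ := X.hna 10 (by norm_num)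
  have hA' := eq_conj X ha hA
  have hB' := eq_conj X hb hB
  have e11 : ra 11 = 11 := rfl
  have e10 : rb 10 = 11 := rfl
  have e10a : ra 10 = 6 := rfl
  rw [e11] at hA'
  rw [e10] at hB'
  rw [e10a] at hC
  set k : Fˣ := s1 ^ (ca 11) * t1 ^ (cb 11) with hk
  have hh : ∀ u : F, X.x 11 u = X.h s1 t1 * X.x 11 ((k⁻¹ : Fˣ) * u) * (X.h s1 t1)⁻¹ := by
    intro u
    rw [X.tor s1 t1 11 (by norm_num), ← hk]
    congr 1
    rw [← mul_assoc, Units.mul_inv, one_mul]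
  set n : G := X.h s1 t1 * (X.na * X.nb * X.na⁻¹) with hn
  have hc0 : c * (b * (a * (k⁻¹ : Fˣ))) ≠ 0 := by
    have ha0 : a ≠ 0 := by rcases ha with rfl | rfl <;> simp
    have hb0 : b ≠ 0 := by rcases hb with rfl | rfl <;> simp
    have hc0 : c ≠ 0 := by rcases hc with rfl | rfl <;> simp
    exact mul_ne_zero hc0 (mul_ne_zero hb0 (mul_ne_zero ha0 (Units.ne_zero _)))
  have hconj : ∀ u : F, X.x 11 u * n = n * X.x 6 (c * (b * (a * (k⁻¹ : Fˣ))) * u) := by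
    intro u
    have h1 : X.x 6 (c * (b * (a * (k⁻¹ : Fˣ))) * u) = X.na * X.x 10 (b * (a * ((k⁻¹ : Fˣ) * u))) * X.na⁻¹ := by
      rw [hC]; simp only [mul_assoc]
    rw [h1, hn, hh u, hA' ((k⁻¹ : Fˣ) * u), hB' (a * ((k⁻¹ : Fˣ) * u))]
    group
  unfold ee
  rw [Fintype.sum_prod_type]
  refine Finset.sum_eq_zero fun u _ => ?_
  have h2 : ∀ w : F, ρ (X.x 10 u * X.x 11 w) (ρ n v) = ρ (X.x 10 u * n) (ρ (X.x 6 (c * (b * (a * (k⁻¹ : Fˣ))) * w)) v) := by
    intro w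
    rw [← Module.End.mul_apply, ← map_mul, ← Module.End.mul_apply, ← map_mul]
    congr 2
    rw [mul_assoc, hconj, ← mul_assoc]
  simp only [h2]
  rw [← map_sum]
  have h3 : ∑ w : F, ρ (X.x 6 (c * (b * (a * (k⁻¹ : Fˣ))) * w)) v = ∑ w : F, ρ (X.x 6 w) v :=
    Fintype.sum_equiv (Equiv.mulLeft₀ _ hc0) _ _ (fun w => rfl)
  rw [h3, hv, map_zero]

theorem tau_6 {v : V} (hv : v ∈ J X ψ ρ [(10, 0), (11, 0)]) (t : F) : ρ (X.x 6 t) v ∈ J X ψ ρ [(10, 0), (11, 0)] := by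
  rw [mem_tau] at hv ⊢
  obtain ⟨h10, h11⟩ := hv
  refine ⟨fun u => ?_, fun u => ?_⟩
  · have h1 : X.x 10 u * X.x 6 t = X.x 6 t * (X.x 10 u * X.x 11 (t * u)) := by
      rw [← X.c610 t u]; group
    rw [← Module.End.mul_apply, ← map_mul, h1, map_mul, Module.End.mul_apply, map_mul, Module.End.mul_apply, h11, h10]
  · rw [← Module.End.mul_apply, ← map_mul, ← X.comm 6 11 (by simp), map_mul, Module.End.mul_apply, h11]

theorem tau_nb {v : V} (hv : v ∈ J X ψ ρ [(10, 0), (11, 0)]) : ρ (X.nb⁻¹) v ∈ J X ψ ρ [(10, 0), (11, 0)] := by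
  rw [mem_tau] at hv ⊢
  obtain ⟨h10, h11⟩ := hv
  obtain ⟨a, ha, hA⟩ := X.hnb 10 (by norm_num)
  obtain ⟨b, hb, hB⟩ := X.hnb 11 (by norm_num)
  have e10 : rb 10 = 11 := rfl
  have e11 : rb 11 = 10 := rfl
  rw [e10] at hA
  rw [e11] at hB
  refine ⟨fun u => ?_, fun u => ?_⟩
  · have h1 : X.x 10 u * X.nb⁻¹ = X.nb⁻¹ * X.x 11 (a * u) := by rw [← hA]; group
    rw [← Module.End.mul_apply, ← map_mul, h1, map_mul, Module.End.mul_apply, h11]
  · have h1 : X.x 11 u * X.nb⁻¹ = X.nb⁻¹ * X.x 10 (b * u) := by rw [← hB]; group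
    rw [← Module.End.mul_apply, ← map_mul, h1, map_mul, Module.End.mul_apply, h10]

theorem sum6 (h0 : dj X ψ ρ [(6, 0), (10, 0), (11, 0)] = 0) {v : V} (hv : v ∈ J X ψ ρ [(10, 0), (11, 0)]) :
    ∑ u : F, ρ (X.x 6 u) v = 0 := by
  have h1 : J X ψ ρ [(6, 0), (10, 0), (11, 0)] = ⊥ := Submodule.finrank_eq_zero.mp h0
  have h2 : ∑ u : F, ρ (X.x 6 u) v ∈ J X ψ ρ [(10, 0), (11, 0)] := Submodule.sum_mem _ fun u _ => tau_6 X ρ hv u
  have h3 : ∑ u : F, ρ (X.x 6 u) v ∈ J X ψ ρ [(6, 0), (10, 0), (11, 0)] := by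
    intro p hp t
    rw [List.mem_cons] at hp
    rcases hp with rfl | hp
    · simp only [zero_mul, AddChar.map_zero_eq_one, one_smul, map_sum]
      refine Fintype.sum_equiv (Equiv.addLeft t) _ _ fun u => ?_
      rw [← Module.End.mul_apply, ← map_mul, ← X.add 6 (by norm_num)]
      rfl
    · exact h2 p hp t
  rw [h1] at h3
  exact (Submodule.mem_bot ℂ).mp h3

theorem ee_1 (h0 : dj X ψ ρ [(6, 0), (10, 0), (11, 0)] = 0) {v : V} (hv : v ∈ J X ψ ρ [(10, 0), (11, 0)]) {t : F} (ht : t ≠ 0) :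
    ee X ρ (ρ (X.x 1 t) v) = 0 := by
  obtain ⟨n, h1, hn⟩ := X.r10 t ht
  rw [h1, map_mul, map_mul, Module.End.mul_apply, Module.End.mul_apply, ee_10, ((mem_tau X ρ).mp hv).1]
  exact ee_n X ρ n hn v (sum6 X ρ h0 hv)

theorem ee_0 (h0 : dj X ψ ρ [(6, 0), (10, 0), (11, 0)] = 0) {v : V} (hv : v ∈ J X ψ ρ [(10, 0), (11, 0)]) {s : F} (hs : s ≠ 0) :
    ee X ρ (ρ (X.x 0 s) v) = 0 := by
  obtain ⟨a, ha, hA⟩ := X.hnb 1 (by norm_num)
  have hA' := eq_conj X ha hA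
  have e1 : rb 1 = 0 := rfl
  rw [e1] at hA'
  have ha0 : a ≠ 0 := by rcases ha with rfl | rfl <;> simp
  rw [hA' s, map_mul, map_mul, Module.End.mul_apply, Module.End.mul_apply, ee_nb,
    ee_1 X ρ h0 (tau_nb X ρ hv) (mul_ne_zero ha0 hs), map_zero]

theorem ee_g (h0 : dj X ψ ρ [(6, 0), (10, 0), (11, 0)] = 0) {v : V} (hv : v ∈ J X ψ ρ [(10, 0), (11, 0)]) {s t : F}
    (hst : ¬ (s = 0 ∧ t = 0)) : ee X ρ (ρ (X.x 0 s * X.x 1 t) v) = 0 := by
  by_cases hs : s = 0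
  · subst hs
    rw [x_zero X (by norm_num), one_mul]
    exact ee_1 X ρ h0 hv fun h => hst ⟨rfl, h⟩
  · obtain ⟨r, hr⟩ := exists_r X hs t
    rw [hr, map_mul, map_mul, Module.End.mul_apply, Module.End.mul_apply, ← x_neg X (by norm_num), ee_6,
      ee_0 X ρ h0 (tau_6 X ρ hv r) hs, map_zero]

theorem ee_tau {v : V} (hv : v ∈ J X ψ ρ [(10, 0), (11, 0)]) : ee X ρ v = Fintype.card (F × F) • v := by
  unfold ee
  rw [← Finset.card_univ, ← Finset.sum_const]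
  refine Finset.sum_congr rfl fun p _ => ?_
  rw [map_mul, Module.End.mul_apply, ((mem_tau X ρ).mp hv).2, ((mem_tau X ρ).mp hv).1]

theorem transl (W : Submodule ℂ V) (hW : ∀ r, r = 0 ∨ r = 1 → ∀ t, ∀ v ∈ W, ρ (X.x r t) v ∈ W)
    (hτ : J X ψ ρ [(10, 0), (11, 0)] ≤ W) (h0 : dj X ψ ρ [(6, 0), (10, 0), (11, 0)] = 0)
    (hq1 : dj X ψ ρ [(10, 0), (11, 0)] = Fintype.card F - 1) :
    Fintype.card F ^ 2 * (Fintype.card F - 1) ≤ finrank ℂ W := by
  let L : (F × F → J X ψ ρ [(10, 0), (11, 0)]) →ₗ[ℂ] W :=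
    { toFun := fun f => ⟨∑ p : F × F, ρ (X.x 0 p.1 * X.x 1 p.2) (f p : V), Submodule.sum_mem _ fun p _ => by
        rw [map_mul, Module.End.mul_apply]
        exact hW 0 (Or.inl rfl) _ _ (hW 1 (Or.inr rfl) _ _ (hτ (f p).2))⟩
      map_add' := by
        intro f g
        apply Subtype.ext
        simp [Finset.sum_add_distrib]
      map_smul' := by
        intro c f
        apply Subtype.ext
        simp [Finset.smul_sum] }
  have hL : Function.Injective L := by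
    rw [injective_iff_map_eq_zero]
    intro f hf
    have h1 : ∑ p : F × F, ρ (X.x 0 p.1 * X.x 1 p.2) (f p : V) = 0 := congrArg Subtype.val hf
    funext j
    apply Subtype.ext
    change (f j : V) = 0
    have h2 : ∑ p : F × F, ee X ρ (ρ ((X.x 0 j.1 * X.x 1 j.2)⁻¹ * (X.x 0 p.1 * X.x 1 p.2)) (f p : V)) = 0 := by
      have h3 : ∀ p : F × F, ρ ((X.x 0 j.1 * X.x 1 j.2)⁻¹ * (X.x 0 p.1 * X.x 1 p.2)) (f p : V)
          = ρ ((X.x 0 j.1 * X.x 1 j.2)⁻¹) (ρ (X.x 0 p.1 * X.x 1 p.2) (f p : V)) := by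
        intro p
        rw [map_mul ρ (X.x 0 j.1 * X.x 1 j.2)⁻¹, Module.End.mul_apply]
      simp only [h3]
      rw [← ee_sum, ← map_sum, h1, map_zero, ee_zero]
    rw [Finset.sum_eq_single j] at h2
    · rw [inv_mul_cancel, map_one, Module.End.one_apply, ee_tau X ρ (f j).2] at h2
      rw [← Nat.cast_smul_eq_nsmul ℂ, smul_eq_zero] at h2
      rcases h2 with h | h
      · exact absurd h (Nat.cast_ne_zero.mpr Fintype.card_ne_zero)
      · exact h
    · intro p _ hpj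
      have h4 : (X.x 0 j.1 * X.x 1 j.2)⁻¹ * (X.x 0 p.1 * X.x 1 p.2) = X.x 0 (p.1 - j.1) * X.x 1 (p.2 - j.2) := by
        have h5 : X.x 0 p.1 = X.x 0 j.1 * X.x 0 (p.1 - j.1) := by rw [← X.add 0 (by norm_num)]; congr 1; ring
        have h6 : X.x 1 p.2 = X.x 1 j.2 * X.x 1 (p.2 - j.2) := by rw [← X.add 1 (by norm_num)]; congr 1; ring
        rw [h5, h6]
        have h7 := comm01 X (p.1 - j.1) (j.2)
        calc (X.x 0 j.1 * X.x 1 j.2)⁻¹ * (X.x 0 j.1 * X.x 0 (p.1 - j.1) * (X.x 1 j.2 * X.x 1 (p.2 - j.2)))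
            = (X.x 1 j.2)⁻¹ * (X.x 0 (p.1 - j.1) * X.x 1 j.2) * X.x 1 (p.2 - j.2) := by group
          _ = _ := by rw [h7]; group
      rw [h4]
      refine ee_g X ρ h0 (f p).2 ?_
      rintro ⟨ha, hb⟩
      exact hpj (Prod.ext (sub_eq_zero.mp ha) (sub_eq_zero.mp hb))
    · intro h; exact absurd (Finset.mem_univ _) h
  have h8 := LinearMap.finrank_le_finrank_of_injective hL
  rw [Module.finrank_pi_fintype] at h8
  simp only [Finset.sum_const, Finset.card_univ, Fintype.card_prod, smul_eq_mul] at h8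
  have h9 : finrank ℂ (J X ψ ρ [(10, 0), (11, 0)]) = Fintype.card F - 1 := hq1
  rw [h9] at h8
  calc Fintype.card F ^ 2 * (Fintype.card F - 1) = Fintype.card F * Fintype.card F * (Fintype.card F - 1) := by ring
    _ ≤ _ := h8

end rep

end Cfsg.Agent.G2M.Tr
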